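import Cfsg.Agent.Lib.ClassicalLinear.Generation

/-!
The group theoretic core of the commutator argument for a Siegel parabolic: if a Levi element is a commutator
`b * h * b⁻¹ * h⁻¹` with `h` acting without fixed points on both radicals, then lower times Levi times upper is a
commutator.  Also: homomorphisms on `GL` see a matrix only through its determinant.
-/

set_option autoImplicit false
set_option linter.unusedSectionVars false

namespace CfsgLib.OreOrth

section Abstract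

variable {G : Type*} [Group G]

/-- `g` is a commutator of two elements of `N`. -/
def IsCommIn (N : Subgroup G) (g : G) : Prop :=
  ∃ x ∈ N, ∃ y ∈ N, g = x * y * x⁻¹ * y⁻¹

theorem IsCommIn.conj {N : Subgroup G} [N.Normal] {g : G} (hg : IsCommIn N g) (c : G) :
    IsCommIn N (c * g * c⁻¹) := by
  obtain ⟨x, hx, y, hy, rfl⟩ := hg
  exact ⟨c * x * c⁻¹, Subgroup.Normal.conj_mem inferInstance x hx c,
    c * y * c⁻¹, Subgroup.Normal.conj_mem inferInstance y hy c, by group⟩

theorem IsCommIn.of_conj {N : Subgroup G} [N.Normal] {g : G} (c : G)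
    (hg : IsCommIn N (c * g * c⁻¹)) : IsCommIn N g := by
  have := hg.conj c⁻¹
  rwa [show c⁻¹ * (c * g * c⁻¹) * c⁻¹⁻¹ = g by group] at this

/-- A commutator in `N` is the product of the elements of the subtype. -/
theorem IsCommIn.exists_subtype {N : Subgroup G} (g : N) (hg : IsCommIn N (g : G)) :
    ∃ a b : N, g = a * b * a⁻¹ * b⁻¹ := by
  obtain ⟨x, hx, y, hy, h⟩ := hg
  exact ⟨⟨x, hx⟩, ⟨y, hy⟩, Subtype.ext h⟩

/-- An element acting without fixed points on a finite subgroup: every element of it is a commutator. -/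
theorem exists_eq_comm {U : Subgroup G} [Finite U] {k : G} (hk : ∀ u ∈ U, k * u * k⁻¹ ∈ U)
    (hfree : ∀ u ∈ U, k * u * k⁻¹ = u → u = 1) {u : G} (hu : u ∈ U) :
    ∃ p ∈ U, p * k * p⁻¹ * k⁻¹ = u := by
  let φ : U → U := fun p => ⟨p.1 * (k * p.1⁻¹ * k⁻¹), U.mul_mem p.2 (hk _ (U.inv_mem p.2))⟩
  have hinj : Function.Injective φ := by
    intro p q h
    have h' : p.1 * (k * p.1⁻¹ * k⁻¹) = q.1 * (k * q.1⁻¹ * k⁻¹) := congrArg Subtype.val h
    have hmem : q.1⁻¹ * p.1 ∈ U := U.mul_mem (U.inv_mem q.2) p.2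
    have : k * (q.1⁻¹ * p.1) * k⁻¹ = q.1⁻¹ * p.1 := by
      calc k * (q.1⁻¹ * p.1) * k⁻¹
          = (k * q.1⁻¹ * k⁻¹) * (k * p.1 * k⁻¹) := by group
        _ = q.1⁻¹ * (q.1 * (k * q.1⁻¹ * k⁻¹)) * (k * p.1 * k⁻¹) := by group
        _ = q.1⁻¹ * p.1 := by rw [← h']; group
    exact Subtype.ext (inv_mul_eq_one.mp (hfree _ hmem this)).symm
  obtain ⟨p, hp⟩ := (Finite.injective_iff_surjective.mp hinj) ⟨u, hu⟩
  refine ⟨p.1, p.2, ?_⟩
  have : p.1 * (k * p.1⁻¹ * k⁻¹) = u := congrArg Subtype.val hp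
  rw [← this]; group

/-- Every element of a finite subgroup with a fixed point free element normalising it is in the commutator
subgroup. -/
theorem le_commutator_of_free {U : Subgroup G} [Finite U] {k : G} (hk : ∀ u ∈ U, k * u * k⁻¹ ∈ U)
    (hfree : ∀ u ∈ U, k * u * k⁻¹ = u → u = 1) : U ≤ commutator G := by
  intro u hu
  obtain ⟨p, -, rfl⟩ := exists_eq_comm hk hfree hu
  exact Subgroup.commutator_mem_commutator (Subgroup.mem_top p) (Subgroup.mem_top k)

/-- The core: lower times a commutator in the Levi factor times upper. -/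
theorem isCommIn_gauss (N : Subgroup G) {U L M : Subgroup G} [Finite U] [Finite L]
    (hUN : U ≤ N) (hLN : L ≤ N) (hMU : ∀ m ∈ M, ∀ u ∈ U, m * u * m⁻¹ ∈ U)
    (hML : ∀ m ∈ M, ∀ l ∈ L, m * l * m⁻¹ ∈ L) {b h : G} (hbM : b ∈ M) (hhM : h ∈ M)
    (hbN : b ∈ N) (hhN : h ∈ N) (hfU : ∀ u ∈ U, h * u * h⁻¹ = u → u = 1)
    (hfL : ∀ l ∈ L, h * l * h⁻¹ = l → l = 1) {l u : G} (hl : l ∈ L) (hu : u ∈ U) :
    IsCommIn N (l * (b * h * b⁻¹ * h⁻¹) * u) := by
  set D := b * h * b⁻¹ * h⁻¹ with hD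
  have hDM : D ∈ M := M.mul_mem (M.mul_mem (M.mul_mem hbM hhM) (M.inv_mem hbM)) (M.inv_mem hhM)
  set k := b * h * b⁻¹ with hk
  have hkM : k ∈ M := M.mul_mem (M.mul_mem hbM hhM) (M.inv_mem hbM)
  have hfk : ∀ x ∈ U, k * x * k⁻¹ = x → x = 1 := by
    intro x hx hxk
    have h1 : b⁻¹ * x * b⁻¹⁻¹ ∈ U := hMU _ (M.inv_mem hbM) x hx
    have h2 := hfU _ h1 (by
      conv_rhs => rw [← hxk]
      rw [hk]; group)
    calc x = b * (b⁻¹ * x * b⁻¹⁻¹) * b⁻¹ := by group
      _ = 1 := by rw [h2]; group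
  obtain ⟨p, hp, hpu⟩ := exists_eq_comm (hMU k hkM) hfk hu
  have hl' : (D⁻¹ * l * D)⁻¹ ∈ L :=
    L.inv_mem (by simpa using hML D⁻¹ (M.inv_mem hDM) l hl)
  obtain ⟨s, hs, hsl⟩ := exists_eq_comm (hML h hhM) hfL hl'
  have hsl' : D⁻¹ * l * D = h * s * h⁻¹ * s⁻¹ := by
    rw [← inv_inv (D⁻¹ * l * D), ← hsl]; group
  have hc : u⁻¹ * s ∈ N := N.mul_mem (N.inv_mem (hUN hu)) (hLN hs)
  have hx : s⁻¹ * p * b ∈ N := N.mul_mem (N.mul_mem (N.inv_mem (hLN hs)) (hUN hp)) hbN
  refine ⟨(u⁻¹ * s) * (s⁻¹ * p * b) * (u⁻¹ * s)⁻¹, N.mul_mem (N.mul_mem hc hx) (N.inv_mem hc),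
    (u⁻¹ * s) * h * (u⁻¹ * s)⁻¹, N.mul_mem (N.mul_mem hc hhN) (N.inv_mem hc), ?_⟩
  calc l * D * u = u⁻¹ * (u * D * (D⁻¹ * l * D)) * u := by group
    _ = u⁻¹ * ((p * k * p⁻¹ * k⁻¹) * D * (h * s * h⁻¹ * s⁻¹)) * u := by rw [hpu, hsl']
    _ = _ := by rw [hD, hk]; group

end Abstract

section Linear

open Matrix

variable {F : Type*} [Field F] {ι : Type*} [Fintype ι] [DecidableEq ι] {G : Type*} [Group G]

/-- A homomorphism of `GL` into an abelian group only sees the determinant. -/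
theorem hom_eq_of_det {H : Type*} [CommGroup H] (h3 : 3 ≤ Fintype.card ι) (f : GL ι F →* H)
    {A B : GL ι F} (hdet : (A : Matrix ι ι F).det = (B : Matrix ι ι F).det) : f A = f B := by
  have hker := CfsgLib.ClassicalLinear.commutator_gl_eq_ker_det (ι := ι) (F := F) (fun h => by omega)
  have hd : Matrix.GeneralLinearGroup.det A = Matrix.GeneralLinearGroup.det B := Units.ext hdet
  have hmem : A * B⁻¹ ∈ (Matrix.GeneralLinearGroup.det : GL ι F →* Fˣ).ker := by
    rw [MonoidHom.mem_ker, map_mul, map_inv, hd, mul_inv_cancel]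
  rw [← hker] at hmem
  have := Abelianization.commutator_subset_ker f hmem
  rw [MonoidHom.mem_ker, map_mul, map_inv, mul_inv_eq_one] at this
  exact this

/-- The diagonal matrix with `t` at `i` and one elsewhere. -/
def dOne (i : ι) (t : Fˣ) : GL ι F where
  val := diagonal (Function.update 1 i (t : F))
  inv := diagonal (Function.update 1 i ((t⁻¹ : Fˣ) : F))
  val_inv := by
    rw [diagonal_mul_diagonal, ← diagonal_one]
    congr 1; funext j; by_cases h : j = i <;> simp [h]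
  inv_val := by
    rw [diagonal_mul_diagonal, ← diagonal_one]
    congr 1; funext j; by_cases h : j = i <;> simp [h]

theorem det_dOne (i : ι) (t : Fˣ) : ((dOne i t : GL ι F) : Matrix ι ι F).det = t := by
  show (diagonal (Function.update 1 i (t : F))).det = _
  rw [det_diagonal, Finset.prod_eq_single i (fun j _ hj => by simp [hj]) (by simp)]
  simp

theorem dOne_mul (i : ι) (s t : Fˣ) : dOne i (s * t) = (dOne i s * dOne i t : GL ι F) := by
  refine Units.ext ?_
  show diagonal _ = diagonal _ * diagonal _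
  rw [diagonal_mul_diagonal]
  congr 1; funext j; by_cases h : j = i <;> simp [h]

/-- Levi elements with square determinant lie in the commutator subgroup, as soon as some element inverts
the one parameter torus. -/
theorem map_mem_commutator_of_isSquare (h3 : 3 ≤ Fintype.card ι) (m : GL ι F →* G) (i : ι)
    (hinv : ∀ t : Fˣ, ∃ σ : G, σ * m (dOne i t) * σ⁻¹ = (m (dOne i t))⁻¹) (A : GL ι F)
    (hA : IsSquare (A : Matrix ι ι F).det) : m A ∈ commutator G := by
  obtain ⟨s, hs⟩ := hA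
  have hs0 : s ≠ 0 := fun h => (Matrix.GeneralLinearGroup.det A).ne_zero (by simp [hs, h])
  let f : GL ι F →* Abelianization G := Abelianization.of.comp m
  have hf : f A = f (dOne i (Units.mk0 s hs0) * dOne i (Units.mk0 s hs0)) :=
    hom_eq_of_det h3 f (by rw [Units.val_mul, det_mul, det_dOne, hs, Units.val_mk0])
  obtain ⟨σ, hσ⟩ := hinv (Units.mk0 s hs0)
  have h1 : f (dOne i (Units.mk0 s hs0)) = (f (dOne i (Units.mk0 s hs0)))⁻¹ := by
    have := congrArg Abelianization.of hσ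
    rw [map_mul, map_mul, map_inv, map_inv, mul_comm (Abelianization.of σ), mul_assoc,
      mul_inv_cancel, mul_one] at this
    exact this
  rw [map_mul] at hf
  nth_rw 1 [h1] at hf
  rw [inv_mul_cancel] at hf
  exact (QuotientGroup.eq_one_iff (m A)).mp hf

end Linear

end CfsgLib.OreOrth
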