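import Mathlib

/-!
Commutators in orthogonal groups: the notion of a good Levi element.

`Good A` says that `A` is a commutator `b * h * b⁻¹ * h⁻¹` of matrices with square determinants, with `h` acting without
fixed points on both radicals of the Siegel parabolic (alternating matrices) and, in odd characteristic, on
column vectors.
-/

set_option autoImplicit false

namespace CfsgLib.OreOrth

open Matrix

variable {F : Type*} [Field F] {ι : Type*} [Fintype ι] [DecidableEq ι]

/-- `h` fixes no non-zero alternating matrix under `X ↦ h X hᵀ`. -/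
def Fpf (h : Matrix ι ι F) : Prop :=
  ∀ X : Matrix ι ι F, (∀ i, X i i = 0) → Xᵀ = -X → h * X * hᵀ = X → X = 0

/-- `h` fixes no non-zero column vector. -/
def NoOne (h : Matrix ι ι F) : Prop :=
  ∀ v : ι → F, h *ᵥ v = v → v = 0

/-- A Levi element which is a commutator with a second entry without fixed points on the radicals. -/
def Good (A : Matrix ι ι F) : Prop :=
  ∃ b h : GL ι F,
    A = ((b * h * b⁻¹ * h⁻¹ : GL ι F) : Matrix ι ι F) ∧
      IsSquare (b : Matrix ι ι F).det ∧ IsSquare (h : Matrix ι ι F).det ∧
      Fpf (h : Matrix ι ι F) ∧ Fpf (h : Matrix ι ι F)ᵀ ∧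
      ((2 : F) ≠ 0 → NoOne (h : Matrix ι ι F) ∧ NoOne (h : Matrix ι ι F)ᵀ)

/-- `Good` is invariant under similarity. -/
theorem Good.conj {A : Matrix ι ι F} (hA : Good A) (g : GL ι F) :
    Good ((g : Matrix ι ι F) * A * ((g⁻¹ : GL ι F) : Matrix ι ι F)) := by
  obtain ⟨b, h, rfl, hb, hh, h1, h2, h3⟩ := hA
  set G : Matrix ι ι F := (g : Matrix ι ι F)
  set G' : Matrix ι ι F := ((g⁻¹ : GL ι F) : Matrix ι ι F)
  have hGG : G * G' = 1 := g.mul_inv
  have hGG' : G' * G = 1 := g.inv_mul
  have key : ∀ (H P P' : Matrix ι ι F), P * P' = 1 → P' * P = 1 → Fpf H → Fpf (P * H * P') := by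
    intro H P P' hP hP' hH X hd hs hX
    set Y := P' * X * P'ᵀ with hY
    have hXY : X = P * Y * Pᵀ := by
      rw [hY, ← mul_assoc, ← mul_assoc, hP, one_mul, mul_assoc, ← transpose_mul, hP, transpose_one, mul_one]
    have hYs : Yᵀ = -Y := by
      rw [hY, transpose_mul, transpose_mul, transpose_transpose, hs]
      simp [mul_assoc]
    have hYd : ∀ i, Y i i = 0 := by
      intro i
      have hq : ∀ v : ι → F, v ⬝ᵥ (X *ᵥ v) = 0 := by
        intro v
        simp only [dotProduct, mulVec, Finset.mul_sum]
        rw [← Finset.sum_product', ]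
        apply Finset.sum_involution (fun p _ => (p.2, p.1))
        · intro p _
          have h := congrFun (congrFun hs p.1) p.2
          simp only [transpose_apply, Matrix.neg_apply] at h
          rw [h]; ring
        · intro p _ hne e
          apply hne
          have : p.1 = p.2 := (congrArg Prod.fst e).symm
          rw [this, hd, zero_mul, mul_zero]
        · intro p _
          exact Finset.mem_univ _
        · intro p _
          rfl
      have := hq (P' i)
      rw [dotProduct_mulVec] at this
      rw [hY, Matrix.mul_apply]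
      simpa [dotProduct, Matrix.vecMul, Matrix.mul_apply, Matrix.transpose_apply] using this
    have hfix : H * Y * Hᵀ = Y := by
      have h := congrArg (fun Z => P' * Z * P'ᵀ) hX
      simp only [transpose_mul, ← mul_assoc, hP', one_mul] at h
      rw [hY]
      rw [mul_assoc _ Pᵀ, ← transpose_mul, hP', transpose_one, mul_one] at h
      simpa only [mul_assoc] using h
    rw [hXY, hH Y hYd hYs hfix, mul_zero, zero_mul]
  have keyN : ∀ (H P P' : Matrix ι ι F), P * P' = 1 → P' * P = 1 → NoOne H → NoOne (P * H * P') := by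
    intro H P P' hP hP' hH v hv
    have h := hH (P' *ᵥ v) (by
      have := congrArg (fun w => P' *ᵥ w) hv
      simpa [mulVec_mulVec, ← mul_assoc, hP'] using this)
    have := congrArg (fun w => P *ᵥ w) h
    simpa [mulVec_mulVec, hP] using this
  have hdet : ∀ x : GL ι F, ((g * x * g⁻¹ : GL ι F) : Matrix ι ι F).det = (x : Matrix ι ι F).det := by
    intro x
    rw [Units.val_mul, Units.val_mul]
    exact Matrix.det_units_conj g (x : Matrix ι ι F)
  refine ⟨g * b * g⁻¹, g * h * g⁻¹, ?_, by rw [hdet]; exact hb, by rw [hdet]; exact hh, key _ _ _ hGG hGG' h1, ?_,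
    fun ht => ⟨keyN _ _ _ hGG hGG' (h3 ht).1, ?_⟩⟩
  · show ((g * (b * h * b⁻¹ * h⁻¹) * g⁻¹ : GL ι F) : Matrix ι ι F) = _
    congr 1
    group
  · show Fpf (G * (h : Matrix ι ι F) * G')ᵀ
    rw [transpose_mul, transpose_mul, ← mul_assoc]
    exact key _ _ _ (by rw [← transpose_mul, hGG, transpose_one]) (by rw [← transpose_mul, hGG', transpose_one]) h2
  · show NoOne (G * (h : Matrix ι ι F) * G')ᵀ
    rw [transpose_mul, transpose_mul, ← mul_assoc]
    exact keyN _ _ _ (by rw [← transpose_mul, hGG, transpose_one]) (by rw [← transpose_mul, hGG', transpose_one])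
      (h3 ht).2

end CfsgLib.OreOrth
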