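import Cfsg.Agent.Lib.OreOrth.Comm

/-!
Companion endomorphisms in coordinates.
-/

set_option autoImplicit false

namespace CfsgLib.OreOrth

open Polynomial Module

variable {F : Type*} [Field F]

/-- The companion endomorphism of `X ^ d + ∑ c i X ^ i`. -/
def comp {d : ℕ} (c : Fin d → F) : End F (Fin d → F) :=
  Matrix.toLin' (Matrix.of fun i j : Fin d =>
    if (j : ℕ) + 1 < d then (if (i : ℕ) = (j : ℕ) + 1 then 1 else 0) else -c i)

theorem comp_single {d : ℕ} (c : Fin d → F) (j : Fin d) (hj : (j : ℕ) + 1 < d) :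
    comp c (Pi.single j 1) = Pi.single ⟨(j : ℕ) + 1, hj⟩ 1 := by
  funext i
  simp [comp, hj, Pi.single_apply, Fin.ext_iff]

theorem comp_single_last {d : ℕ} (c : Fin d → F) (j : Fin d) (hj : (j : ℕ) + 1 = d) :
    comp c (Pi.single j 1) = -c := by
  funext i
  simp [comp, hj, Pi.single_apply]

/-- The monic polynomial of a coefficient vector. -/
noncomputable def cpoly {d : ℕ} (c : Fin d → F) : F[X] :=
  X ^ d + ∑ i : Fin d, C (c i) * X ^ (i : ℕ)

/-- A linear equivalence carrying a cyclic basis to the companion form. -/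
theorem conj_eq_comp {V : Type*} [AddCommGroup V] [Module F V] {d : ℕ} (b : Basis (Fin d) F V) (T : End F V)
    (c : Fin d → F) (h : ∀ j : Fin d, ∀ hj : (j : ℕ) + 1 < d, T (b j) = b ⟨(j : ℕ) + 1, hj⟩)
    (hlast : ∀ j : Fin d, (j : ℕ) + 1 = d → T (b j) = -∑ i, c i • b i) :
    b.equivFun.conj T = comp c := by
  apply LinearMap.pi_ext'
  intro j
  apply LinearMap.ext_ring
  simp only [LinearMap.comp_apply, LinearEquiv.conj_apply_apply, LinearMap.single_apply]
  have e : b.equivFun.symm (Pi.single j 1) = b j := by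
    rw [LinearEquiv.symm_apply_eq]
    funext i
    simp [Finsupp.single_apply, Pi.single_apply, eq_comm]
  rw [e]
  rcases Nat.lt_or_ge ((j : ℕ) + 1) d with hj | hj
  · rw [h j hj, comp_single c j hj]
    funext i
    simp [Finsupp.single_apply, Pi.single_apply, eq_comm]
  · have hj' : (j : ℕ) + 1 = d := by omega
    rw [hlast j hj', comp_single_last c j hj', ← Basis.equivFun_symm_apply, ← map_neg,
      LinearEquiv.apply_symm_apply]

end CfsgLib.OreOrth
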