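import Cfsg.Agent.Lib.OreOrth.Basic
import Cfsg.Agent.Lib.OreOrth.Companion

/-!
From `Comm` to `Good`, and certificates for small commutator blocks over prime fields.
-/

set_option autoImplicit false

namespace CfsgLib.OreOrth

open Polynomial Matrix

variable {F : Type*} [Field F] {ι : Type*} [Fintype ι] [DecidableEq ι]

/-- The reflected polynomial at the inverse of a unit. -/
theorem aeval_inv_reflect_mul_pow {A : Type*} [Ring A] [Algebra F A] (u : Aˣ) (n : ℕ) (P : F[X])
    (hP : P.natDegree ≤ n) :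
    aeval ((u⁻¹ : Aˣ) : A) (P.reflect n) * (u : A) ^ n = aeval (u : A) P := by
  refine Polynomial.induction_with_natDegree_le
    (fun Q => aeval ((u⁻¹ : Aˣ) : A) (Q.reflect n) * (u : A) ^ n = aeval (u : A) Q) n ?_ ?_ ?_ P hP
  · simp
  · intro k r _ hk
    rw [reflect_C_mul_X_pow, map_mul, map_mul, aeval_C, aeval_C, map_pow, map_pow, aeval_X, aeval_X,
      revAt_le hk, mul_assoc]
    congr 1
    obtain ⟨m, rfl⟩ := Nat.exists_eq_add_of_le hk
    rw [Nat.add_sub_cancel_left, add_comm k m, pow_add, ← mul_assoc, ← Units.val_pow_eq_pow_val,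
      ← Units.val_pow_eq_pow_val, ← Units.val_pow_eq_pow_val, ← Units.val_mul, ← Units.val_mul]
    congr 1
    rw [inv_pow, inv_mul_cancel, one_mul]
  · intro f g _ _ hf hg
    rw [reflect_add, map_add, map_add, add_mul, hf, hg]

theorem reverse_pow_eq (P : F[X]) (N : ℕ) : (P ^ N).reverse = P.reverse ^ N := by
  induction N with
  | zero => simp [Polynomial.reverse]
  | succ k ih => rw [pow_succ, pow_succ, reverse_mul_of_domain, ih]

theorem aeval_inv_reverse {A : Type*} [Ring A] [Algebra F A] (u : Aˣ) (P : F[X]) (h : aeval (u : A) P = 0) :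
    aeval ((u⁻¹ : Aˣ) : A) P.reverse = 0 := by
  have e := aeval_inv_reflect_mul_pow u P.natDegree P le_rfl
  rw [h] at e
  rw [← Units.mul_left_eq_zero (u ^ P.natDegree), Units.val_pow_eq_pow_val]
  exact e

theorem aeval_transpose (M : Matrix ι ι F) (P : F[X]) : aeval Mᵀ P = (aeval M P)ᵀ := by
  induction P using Polynomial.induction_on' with
  | add p q hp hq => rw [map_add, map_add, hp, hq, transpose_add]
  | monomial k r =>
    rw [aeval_monomial, aeval_monomial, Algebra.algebraMap_eq_smul_one, smul_mul_assoc, smul_mul_assoc,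
      one_mul, one_mul, transpose_smul, transpose_pow]

theorem matrix_intertwine_eq_zero {f g Z : Matrix ι ι F} {P Q : F[X]} (hPQ : IsCoprime P Q)
    (hP : aeval f P = 0) (hQ : aeval g Q = 0) (h : f * Z = Z * g) : Z = 0 := by
  have e : ∀ (M : Matrix ι ι F) (R : F[X]), aeval (toLinAlgEquiv' M) R = toLinAlgEquiv' (aeval M R) :=
    fun M R => Polynomial.aeval_algHom_apply
      ((Matrix.toLinAlgEquiv' : Matrix ι ι F ≃ₐ[F] Module.End F (ι → F)) :
        Matrix ι ι F →ₐ[F] Module.End F (ι → F)) M R
  refine (toLinAlgEquiv' (R := F) (n := ι)).injective ?_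
  rw [map_zero]
  refine intertwine_eq_zero (f := toLinAlgEquiv' f) (g := toLinAlgEquiv' g) hPQ ?_ ?_ ?_
  · rw [e, hP, map_zero]
  · rw [e, hQ, map_zero]
  · rw [← Module.End.mul_eq_comp, ← Module.End.mul_eq_comp, ← map_mul, ← map_mul, h]

/-- A matrix killed by a polynomial prime to its reverse fixes no non-zero matrix by congruence. -/
theorem fpf_of_aeval (H : (Matrix ι ι F)ˣ) (P : F[X]) (hP : aeval (H : Matrix ι ι F) P = 0)
    (hco : IsCoprime P P.reverse) : Fpf (H : Matrix ι ι F) ∧ Fpf (H : Matrix ι ι F)ᵀ := by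
  set M : Matrix ι ι F := (H : Matrix ι ι F)
  set M' : Matrix ι ι F := ((H⁻¹ : (Matrix ι ι F)ˣ) : Matrix ι ι F)
  have hMM : M * M' = 1 := H.mul_inv
  have hM'M : M' * M = 1 := H.inv_mul
  have hrev : aeval M'ᵀ P.reverse = 0 := by
    rw [aeval_transpose, aeval_inv_reverse H P hP, transpose_zero]
  refine ⟨fun X _ _ hX => ?_, fun X _ _ hX => ?_⟩
  · refine matrix_intertwine_eq_zero hco hP hrev ?_
    calc M * X = M * X * (Mᵀ * M'ᵀ) := by rw [← transpose_mul, hM'M, transpose_one, mul_one]
      _ = X * M'ᵀ := by rw [← mul_assoc, hX]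
  · refine matrix_intertwine_eq_zero hco.symm hrev hP ?_
    rw [transpose_transpose] at hX
    calc M'ᵀ * X = M'ᵀ * (Mᵀ * X * M) := by rw [hX]
      _ = X * M := by rw [← mul_assoc, ← mul_assoc, ← transpose_mul, hMM, transpose_one, one_mul]

theorem noOne_of_aeval (M : Matrix ι ι F) (P : F[X]) (hP : aeval M P = 0) (h1 : P.eval 1 ≠ 0) : NoOne M := by
  intro v hv
  have key : ∀ Q : F[X], (aeval M Q) *ᵥ v = Q.eval 1 • v := by
    intro Q
    induction Q using Polynomial.induction_on' with
    | add p q hp hq => rw [map_add, add_mulVec, hp, hq, eval_add, add_smul]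
    | monomial k r =>
      have hk : (M ^ k) *ᵥ v = v := by
        induction k with
        | zero => rw [pow_zero, one_mulVec]
        | succ k ih => rw [pow_succ, ← mulVec_mulVec, hv, ih]
      rw [aeval_monomial, Algebra.algebraMap_eq_smul_one, smul_mul_assoc, one_mul, smul_mulVec, hk,
        eval_monomial, one_pow, mul_one]
  have := key P
  rw [hP, zero_mulVec] at this
  exact (smul_eq_zero.1 this.symm).resolve_left h1

/-- A commutator block with an admissible polynomial gives a good Levi element. -/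
theorem good_of_comm {Φ : F[X]} {A : Matrix ι ι F} (hA : Comm Φ (Matrix.toLin' A)) (hco : IsCoprime Φ Φ.reverse)
    (h1 : Φ.eval 1 ≠ 0) : Good A := by
  obtain ⟨b, h, e, hb, hh, N, hN⟩ := hA
  let ψ : Module.End F (ι → F) ≃ₐ[F] Matrix ι ι F := LinearMap.toMatrixAlgEquiv'
  let c : (Module.End F (ι → F))ˣ →* (Matrix ι ι F)ˣ :=
    Units.map (ψ : Module.End F (ι → F) →* Matrix ι ι F)
  have hP : aeval ((c h : (Matrix ι ι F)ˣ) : Matrix ι ι F) (Φ ^ N) = 0 := by
    show aeval (ψ (h : Module.End F (ι → F))) (Φ ^ N) = 0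
    rw [aeval_algEquiv, AlgHom.comp_apply, hN]
    exact map_zero ψ
  have hco' : IsCoprime (Φ ^ N) (Φ ^ N).reverse := by
    rw [reverse_pow_eq]; exact hco.pow
  have h1' : (Φ ^ N).eval 1 ≠ 0 := by
    rw [eval_pow]; exact pow_ne_zero _ h1
  obtain ⟨f1, f2⟩ := fpf_of_aeval (c h) _ hP hco'
  refine ⟨c b, c h, ?_, ?_, ?_, f1, f2, fun _ => ⟨noOne_of_aeval _ _ hP h1', noOne_of_aeval _ _ ?_ h1'⟩⟩
  · rw [← map_inv, ← map_inv, ← map_mul, ← map_mul, ← map_mul]
    show A = ψ ((b * h * b⁻¹ * h⁻¹ : (Module.End F (ι → F))ˣ) : Module.End F (ι → F))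
    rw [← e]
    exact (LinearMap.toMatrix'_toLin' A).symm
  · show IsSquare (LinearMap.toMatrix' (b : Module.End F (ι → F))).det
    rw [LinearMap.det_toMatrix']; exact hb
  · show IsSquare (LinearMap.toMatrix' (h : Module.End F (ι → F))).det
    rw [LinearMap.det_toMatrix']; exact hh
  · rw [aeval_transpose, hP, transpose_zero]

/-- The companion matrix of `X ^ d + ∑ c i X ^ i`. -/
def compM {R : Type*} [CommRing R] {d : ℕ} (c : Fin d → R) : Matrix (Fin d) (Fin d) R :=
  Matrix.of fun i j : Fin d =>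
    if (j : ℕ) + 1 < d then (if (i : ℕ) = (j : ℕ) + 1 then 1 else 0) else -c i

theorem toLin'_compM {d : ℕ} (c : Fin d → F) : Matrix.toLin' (compM c) = comp c := rfl

theorem compM_map {R S : Type*} [CommRing R] [CommRing S] (φ : R →+* S) {d : ℕ} (c : Fin d → R) :
    (compM c).map φ = compM fun i => φ (c i) := by
  ext i j
  simp only [compM, map_apply, of_apply]
  split_ifs <;> simp

theorem det_compM {R : Type*} [CommRing R] {d : ℕ} (c : Fin (d + 1) → R) :
    (compM c).det = (-1) ^ (d + 1) * c 0 := by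
  rw [det_succ_row_zero, Finset.sum_eq_single (Fin.last d)]
  · have h1 : compM c 0 (Fin.last d) = -c 0 := by simp [compM]
    have h2 : (compM c).submatrix Fin.succ (Fin.last d).succAbove = 1 := by
      ext i j
      have hj : ((Fin.castSucc j : Fin (d + 1)) : ℕ) + 1 < d + 1 := by simp
      simp [compM, Fin.succAbove_last, Matrix.one_apply, hj, Fin.ext_iff]
    rw [h1, h2, det_one, Fin.val_last, pow_succ]
    ring
  · intro j _ hj
    have hj' : (j : ℕ) < d := Fin.val_lt_last hj
    simp [compM, hj']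
  · simp

/-- A companion endomorphism is killed by its polynomial. -/
theorem aeval_comp_cpoly {d : ℕ} (c : Fin d → F) : aeval (comp c) (cpoly c) = 0 := by
  refine (Pi.basisFun F (Fin d)).ext fun j => ?_
  rw [Pi.basisFun_apply, LinearMap.zero_apply]
  have hd : 0 < d := Fin.pos j
  set e : Fin d → F := Pi.single ⟨0, hd⟩ 1
  have hk : ∀ k : ℕ, ∀ hk : k < d, (comp c ^ k) e = Pi.single ⟨k, hk⟩ 1 := by
    intro k
    induction k with
    | zero => intro hk; rfl
    | succ k ih => intro hk; rw [pow_succ', Module.End.mul_apply, ih (by omega), comp_single c _ (by simpa using hk)]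
  have htop : (comp c ^ d) e = -c := by
    have : comp c ^ d = comp c * comp c ^ (d - 1) := by rw [← pow_succ', Nat.sub_add_cancel hd]
    rw [this, Module.End.mul_apply, hk (d - 1) (by omega), comp_single_last c _ (by simp; omega)]
  have he : aeval (comp c) (cpoly c) e = 0 := by
    rw [cpoly, map_add, LinearMap.add_apply, map_pow, aeval_X, htop, map_sum, LinearMap.sum_apply]
    have : ∀ i : Fin d, (aeval (comp c) (C (c i) * X ^ (i : ℕ))) e = Pi.single i (c i) := by
      intro i
      rw [map_mul, aeval_C, map_pow, aeval_X, Module.End.mul_apply, hk i i.2, Module.algebraMap_end_apply,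
        ← Pi.single_smul, smul_eq_mul, mul_one]
    rw [Finset.sum_congr rfl fun i _ => this i]
    funext i
    rw [Pi.add_apply, Pi.neg_apply, Pi.zero_apply, Finset.sum_apply, Finset.sum_eq_single i]
    · simp
    · intro b _ hb; simp [Pi.single_apply, Ne.symm hb]
    · simp
  rw [← hk j j.2, ← Module.End.mul_apply,
    show aeval (comp c) (cpoly c) * comp c ^ (j : ℕ) = comp c ^ (j : ℕ) * aeval (comp c) (cpoly c) by
      rw [show comp c ^ (j : ℕ) = aeval (comp c) ((X : F[X]) ^ (j : ℕ)) by simp, ← map_mul, ← map_mul, mul_comm],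
    Module.End.mul_apply, he, map_zero]

/-- The list polynomial, constant coefficient first. -/
noncomputable def polyL {R : Type*} [CommRing R] : List R → R[X]
  | [] => 0
  | a :: l => C a + X * polyL l

/-- Sum of coefficient lists. -/
def addL {R : Type*} [CommRing R] : List R → List R → List R
  | [], b => b
  | a, [] => a
  | x :: a, y :: b => (x + y) :: addL a b

/-- Product of coefficient lists. -/
def mulL {R : Type*} [CommRing R] : List R → List R → List R
  | [], _ => []
  | x :: a, b => addL (b.map (x * ·)) (0 :: mulL a b)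

theorem polyL_addL {R : Type*} [CommRing R] : ∀ a b : List R, polyL (addL a b) = polyL a + polyL b
  | [], b => by simp [addL, polyL]
  | x :: a, [] => by simp [addL, polyL]
  | x :: a, y :: b => by
    rw [addL, polyL, polyL, polyL, polyL_addL a b, map_add]
    ring

theorem polyL_mulL {R : Type*} [CommRing R] : ∀ a b : List R, polyL (mulL a b) = polyL a * polyL b
  | [], b => by simp [mulL, polyL]
  | x :: a, b => by
    have h : ∀ l : List R, polyL (l.map (x * ·)) = C x * polyL l := by
      intro l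
      induction l with
      | nil => simp [polyL]
      | cons y l ih => rw [List.map_cons, polyL, polyL, ih, C_mul]; ring
    rw [mulL, polyL_addL, h, polyL, polyL, polyL_mulL a b, map_zero]
    ring

theorem polyL_map {R S : Type*} [CommRing R] [CommRing S] (φ : R →+* S) :
    ∀ l : List R, (polyL l).map φ = polyL (l.map φ)
  | [] => by simp [polyL]
  | a :: l => by simp [polyL, polyL_map φ l]

theorem cpoly_eq_polyL {d : ℕ} (c : Fin d → F) : cpoly c = polyL (List.ofFn c ++ [1]) := by
  induction d with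
  | zero => simp [cpoly, polyL]
  | succ d ih =>
    rw [List.ofFn_succ, List.cons_append, polyL, ← ih, cpoly, cpoly, Fin.sum_univ_succ, mul_add, Finset.mul_sum,
      pow_succ']
    simp only [Fin.val_zero, pow_zero, mul_one, Fin.val_succ]
    rw [Finset.sum_congr rfl fun (i : Fin d) _ =>
      show C (c i.succ) * X ^ ((i : ℕ) + 1) = X * (C (c i.succ) * X ^ (i : ℕ)) by ring]
    ring

/-- Boolean test of a commutator certificate: `L * U` conjugates the companion matrix of `c` to `T` times itself. -/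
def CertOK {p : ℕ} {d : ℕ} (T L U : Matrix (Fin (d + 1)) (Fin (d + 1)) (ZMod p)) (c : Fin (d + 1) → ZMod p) : Prop :=
  (∀ q : Fin (d + 1) × Fin (d + 1), q.1 < q.2 → L q.1 q.2 = 0) ∧ (∀ i, L i i = 1) ∧
    (∀ q : Fin (d + 1) × Fin (d + 1), q.2 < q.1 → U q.1 q.2 = 0) ∧ ∏ i, U i i = 1 ∧
    (-1) ^ (d + 1) * c 0 = 1 ∧ T * compM c * (L * U) = L * U * compM c

instance {p : ℕ} {d : ℕ} (T L U : Matrix (Fin (d + 1)) (Fin (d + 1)) (ZMod p)) (c : Fin (d + 1) → ZMod p) :
    Decidable (CertOK T L U c) := by
  unfold CertOK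
  haveI : DecidableEq (Matrix (Fin (d + 1)) (Fin (d + 1)) (ZMod p)) := Matrix.decidableEq
  infer_instance

theorem eq_commutator_of_mul {M : Type*} [Monoid M] (t : M) (u b : Mˣ) (e : t * u * b = b * u) :
    t = ((b * u * b⁻¹ * u⁻¹ : Mˣ) : M) := by
  calc t = t * u * b * ((b⁻¹ : Mˣ) : M) * ((u⁻¹ : Mˣ) : M) := by
        rw [mul_assoc (t * (u : M)), Units.mul_inv, mul_one, mul_assoc, Units.mul_inv, mul_one]
    _ = ((b * u * b⁻¹ * u⁻¹ : Mˣ) : M) := by
        rw [e]; simp only [Units.val_mul]

/-- A certificate over the prime field gives a commutator over every field of that characteristic. -/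
theorem comm_of_cert {p : ℕ} {d : ℕ} (φ : ZMod p →+* F) (T L U : Matrix (Fin (d + 1)) (Fin (d + 1)) (ZMod p))
    (c : Fin (d + 1) → ZMod p) (h : CertOK T L U c) :
    Comm (cpoly fun i => φ (c i)) (Matrix.toLin' (T.map φ)) := by
  obtain ⟨hL, hL1, hU, hU1, hc, hT⟩ := h
  have hdB : ((L * U).map φ).det = 1 := by
    show (φ.mapMatrix (L * U)).det = 1
    rw [← RingHom.map_det, det_mul, det_of_isLowerTriangular L (fun i j hij => hL (i, j) hij),
      det_of_isUpperTriangular (fun i j hij => hU (i, j) hij), hU1, Finset.prod_congr rfl fun i _ => hL1 i,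
      Finset.prod_const_one, one_mul, map_one]
  have hdH : (compM fun i => φ (c i)).det = 1 := by
    rw [det_compM]
    simpa using congrArg φ hc
  have hbd : LinearMap.det (Matrix.toLin' ((L * U).map φ)) = 1 := by
    rw [LinearMap.det_toLin', hdB]
  have hhd : LinearMap.det (comp fun i => φ (c i)) = 1 := by
    rw [← toLin'_compM, LinearMap.det_toLin', hdH]
  obtain ⟨b, hb⟩ : IsUnit (M := Module.End F (Fin (d + 1) → F)) (Matrix.toLin' ((L * U).map φ)) :=
    LinearMap.isUnit_iff_isUnit_det _ |>.2 (by rw [hbd]; exact isUnit_one)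
  obtain ⟨u, hu⟩ : IsUnit (comp fun i => φ (c i)) :=
    LinearMap.isUnit_iff_isUnit_det _ |>.2 (by rw [hhd]; exact isUnit_one)
  refine ⟨b, u, ?_, by rw [hb, hbd]; exact IsSquare.one, by rw [hu, hhd]; exact IsSquare.one, 1,
    by rw [hu, pow_one]; exact aeval_comp_cpoly _⟩
  have e : Matrix.toLin' (T.map φ) * (u : Module.End F _) * (b : Module.End F _) =
      (b : Module.End F _) * (u : Module.End F _) := by
    rw [hu, hb, ← toLin'_compM, ← compM_map, Module.End.mul_eq_comp, Module.End.mul_eq_comp,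
      Module.End.mul_eq_comp, ← Matrix.toLin'_mul, ← Matrix.toLin'_mul, ← Matrix.toLin'_mul, ← Matrix.map_mul,
      ← Matrix.map_mul, ← Matrix.map_mul, hT]
  exact eq_commutator_of_mul (M := Module.End F _) _ u b e

/-- A certificate together with a factorisation of the characteristic polynomial as coefficient lists. -/
theorem comm_of_cert_dvd {p : ℕ} {d : ℕ} (φ : ZMod p →+* F) (T L U : Matrix (Fin (d + 1)) (Fin (d + 1)) (ZMod p))
    (c : Fin (d + 1) → ZMod p) (f : List (ZMod p)) {P : F[X]} (h : CertOK T L U c)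
    (hf : List.ofFn c ++ [1] = f) (hP : (polyL f).map φ ∣ P) : Comm P (Matrix.toLin' (T.map φ)) := by
  refine (comm_of_cert φ T L U c h).of_dvd ?_
  rw [cpoly_eq_polyL]
  rwa [← hf, polyL_map, List.map_append, List.map_cons, List.map_nil, map_one, List.map_ofFn] at hP

/-- Block diagonal matrix in `Fin` coordinates. -/
def blockM {R : Type*} [Zero R] {a b : ℕ} (A : Matrix (Fin a) (Fin a) R) (B : Matrix (Fin b) (Fin b) R) :
    Matrix (Fin (a + b)) (Fin (a + b)) R :=
  (Matrix.fromBlocks A 0 0 B).reindex finSumFinEquiv finSumFinEquiv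

theorem blockM_map {R S : Type*} [CommRing R] [CommRing S] (φ : R →+* S) {a b : ℕ} (A : Matrix (Fin a) (Fin a) R)
    (B : Matrix (Fin b) (Fin b) R) : (blockM A B).map φ = blockM (A.map φ) (B.map φ) := by
  rw [blockM, blockM, reindex_apply, reindex_apply, ← submatrix_map, fromBlocks_map, Matrix.map_zero _ (map_zero φ),
    Matrix.map_zero _ (map_zero φ)]

/-- From block diagonal matrices to product endomorphisms. -/
theorem comm_prodMap_of_blockM {P : F[X]} {a b : ℕ} (A : Matrix (Fin a) (Fin a) F) (B : Matrix (Fin b) (Fin b) F)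
    (h : Comm P (Matrix.toLin' (blockM A B))) : Comm P ((Matrix.toLin' A).prodMap (Matrix.toLin' B)) := by
  let e : (Fin (a + b) → F) ≃ₗ[F] (Fin a → F) × (Fin b → F) :=
    (LinearEquiv.funCongrLeft F F finSumFinEquiv).trans (LinearEquiv.sumArrowLequivProdArrow (Fin a) (Fin b) F F)
  have hs : ∀ (x : Fin a → F) (y : Fin b → F) (k : Fin a ⊕ Fin b),
      e.symm (x, y) (finSumFinEquiv k) = Sum.elim x y k := by
    intro x y k
    have h1 : e (e.symm (x, y)) = (x, y) := e.apply_symm_apply _
    rcases k with k | k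
    · exact congrFun (congrArg Prod.fst h1) k
    · exact congrFun (congrArg Prod.snd h1) k
  have he : (Matrix.toLin' A).prodMap (Matrix.toLin' B) = e.conj (Matrix.toLin' (blockM A B)) := by
    refine LinearMap.ext fun x => ?_
    obtain ⟨x, y⟩ := x
    rw [LinearEquiv.conj_apply_apply, LinearMap.prodMap_apply, Matrix.toLin'_apply, Matrix.toLin'_apply,
      Matrix.toLin'_apply]
    have key : ∀ k, (blockM A B *ᵥ e.symm (x, y)) (finSumFinEquiv k) =
        (Matrix.fromBlocks A 0 0 B *ᵥ Sum.elim x y) k := by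
      intro k
      rw [blockM, reindex_apply, submatrix_mulVec_equiv]
      simp only [Function.comp_apply, Equiv.symm_symm, Equiv.symm_apply_apply]
      rw [show e.symm (x, y) ∘ finSumFinEquiv = Sum.elim x y from _root_.funext (hs x y)]
    refine Prod.ext (_root_.funext fun i => ?_) (_root_.funext fun i => ?_)
    · show (A *ᵥ x) i = (blockM A B *ᵥ e.symm (x, y)) (finSumFinEquiv (Sum.inl i))
      rw [key, fromBlocks_mulVec]
      simp
    · show (B *ᵥ y) i = (blockM A B *ᵥ e.symm (x, y)) (finSumFinEquiv (Sum.inr i))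
      rw [key, fromBlocks_mulVec]
      simp
  rw [he]
  exact h.map e

/-- The ring map from the prime field into a field of that cardinality. -/
theorem exists_zmod_hom [Fintype F] (p : ℕ) [Fact p.Prime] (hF : Fintype.card F = p) :
    ∃ φ : ZMod p →+* F, Function.Bijective φ := by
  have : CharP F p := charP_of_card_eq_prime hF
  exact ⟨ZMod.castHom dvd_rfl F, ZMod.castHom_bijective F hF⟩

/-- Coefficient vectors lift to the prime field. -/
theorem exists_lift {p : ℕ} {φ : ZMod p →+* F} (hφ : Function.Bijective φ) {k : ℕ} (g : Fin k → F) :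
    ∃ g' : Fin k → ZMod p, g = fun i => φ (g' i) :=
  ⟨fun i => (hφ.2 (g i)).choose, funext fun i => ((hφ.2 (g i)).choose_spec).symm⟩

/-- A certificate for `T` up to similarity: `T * G = G * T'` with `G` invertible and a certificate for `T'`. -/
def CertConj {p : ℕ} {d : ℕ} (T T' G G' L U : Matrix (Fin (d + 1)) (Fin (d + 1)) (ZMod p))
    (c : Fin (d + 1) → ZMod p) (f : List (ZMod p)) : Prop :=
  G * G' = 1 ∧ T * G = G * T' ∧ CertOK T' L U c ∧ List.ofFn c ++ [1] = f

instance {p : ℕ} {d : ℕ} (T T' G G' L U : Matrix (Fin (d + 1)) (Fin (d + 1)) (ZMod p))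
    (c : Fin (d + 1) → ZMod p) (f : List (ZMod p)) : Decidable (CertConj T T' G G' L U c f) := by
  unfold CertConj
  haveI : DecidableEq (Matrix (Fin (d + 1)) (Fin (d + 1)) (ZMod p)) := Matrix.decidableEq
  infer_instance

/-- A matrix with a certificate up to similarity is a commutator for every polynomial divisible by the tabled one. -/
theorem comm_of_certConj {p : ℕ} {d : ℕ} (φ : ZMod p →+* F)
    (T T' G G' L U : Matrix (Fin (d + 1)) (Fin (d + 1)) (ZMod p))
    (c : Fin (d + 1) → ZMod p) (f : List (ZMod p)) {P : F[X]} (h : CertConj T T' G G' L U c f)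
    (hP : (polyL f).map φ ∣ P) : Comm P (Matrix.toLin' (T.map φ)) := by
  obtain ⟨hG, hT, hc, hf⟩ := h
  have hG' : G' * G = 1 := mul_eq_one_comm.1 hG
  have h1 : (G.map φ) * (G'.map φ) = 1 := by rw [← Matrix.map_mul, hG, Matrix.map_one φ (map_zero φ) (map_one φ)]
  have h2 : (G'.map φ) * (G.map φ) = 1 := by rw [← Matrix.map_mul, hG', Matrix.map_one φ (map_zero φ) (map_one φ)]
  let e : (Fin (d + 1) → F) ≃ₗ[F] (Fin (d + 1) → F) := Matrix.toLin'OfInv h2 h1
  have hT' : T = G * T' * G' := by rw [← hT, mul_assoc, hG, mul_one]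
  have he : Matrix.toLin' (T.map φ) = e.conj (Matrix.toLin' (T'.map φ)) := by
    refine LinearMap.ext fun x => ?_
    rw [hT', Matrix.map_mul, Matrix.map_mul, LinearEquiv.conj_apply_apply]
    simp [e, Matrix.toLin'OfInv, Matrix.mulVec_mulVec, mul_assoc]
  rw [he]
  exact (comm_of_cert_dvd φ T' L U c f hc hf hP).map e

/-- A tabled companion block. -/
theorem comm_comp_of_certConj {p : ℕ} {d : ℕ} (φ : ZMod p →+* F) (g : Fin (d + 1) → ZMod p)
    (T' G G' L U : Matrix (Fin (d + 1)) (Fin (d + 1)) (ZMod p)) (c : Fin (d + 1) → ZMod p) (f : List (ZMod p))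
    {P : F[X]} (h : CertConj (compM g) T' G G' L U c f) (hP : (polyL f).map φ ∣ P) :
    Comm P (comp fun i => φ (g i)) := by
  rw [← toLin'_compM, ← compM_map]
  exact comm_of_certConj φ _ T' G G' L U c f h hP

/-- A tabled sum of two matrices. -/
theorem comm_prod_of_certConj {p : ℕ} {a b d : ℕ} (φ : ZMod p →+* F) (hab : d + 1 = a + b)
    (A : Matrix (Fin a) (Fin a) (ZMod p)) (B : Matrix (Fin b) (Fin b) (ZMod p))
    (T' G G' L U : Matrix (Fin (d + 1)) (Fin (d + 1)) (ZMod p)) (c : Fin (d + 1) → ZMod p) (f : List (ZMod p))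
    {P : F[X]} (h : CertConj ((blockM A B).submatrix (Fin.cast hab) (Fin.cast hab)) T' G G' L U c f)
    (hP : (polyL f).map φ ∣ P) : Comm P ((Matrix.toLin' (A.map φ)).prodMap (Matrix.toLin' (B.map φ))) := by
  refine comm_prodMap_of_blockM _ _ ?_
  rw [← blockM_map]
  have h' := (comm_of_certConj φ _ T' G G' L U c f h hP).map
    (LinearEquiv.funCongrLeft F F (finCongr hab).symm)
  have e : (LinearEquiv.funCongrLeft F F (finCongr hab).symm).conj
      (Matrix.toLin' (((blockM A B).submatrix (Fin.cast hab) (Fin.cast hab)).map φ)) =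
        Matrix.toLin' ((blockM A B).map φ) := by
    refine LinearMap.ext fun x => _root_.funext fun i => ?_
    rw [LinearEquiv.conj_apply_apply, Matrix.toLin'_apply, Matrix.toLin'_apply, ← submatrix_map]
    change ((Matrix.submatrix ((blockM A B).map φ) (finCongr hab) (finCongr hab)) *ᵥ
      (x ∘ finCongr hab)) ((finCongr hab).symm i) = _
    rw [submatrix_mulVec_equiv]
    simp [Function.comp_def]
  rwa [e] at h'

end CfsgLib.OreOrth
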