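import Cfsg.Agent.Lib.OreOrth.Basic

/-!
Endomorphisms which are commutators `b h b⁻¹ h⁻¹` with square determinants and `h` annihilated by a power of a
given polynomial: similarity, direct sums and coupling of coprime blocks.
-/

set_option autoImplicit false
set_option linter.unusedSectionVars false

namespace CfsgLib.OreOrth

open Polynomial Module

variable {F : Type*} [Field F] {V W : Type*} [AddCommGroup V] [Module F V] [AddCommGroup W] [Module F W]

/-- `T` is a commutator `b h b⁻¹ h⁻¹` with square determinants and `h` killed by a power of `P`. -/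
def Comm (P : F[X]) (T : End F V) : Prop :=
  ∃ b h : (End F V)ˣ, T = ((b * h * b⁻¹ * h⁻¹ : (End F V)ˣ) : End F V) ∧
    IsSquare (LinearMap.det (b : End F V)) ∧ IsSquare (LinearMap.det (h : End F V)) ∧
      ∃ N : ℕ, aeval (h : End F V) (P ^ N) = 0

/-- Enlarging the polynomial. -/
theorem Comm.of_dvd {P Q : F[X]} {T : End F V} (hd : P ∣ Q) (hT : Comm P T) : Comm Q T := by
  obtain ⟨b, h, e, hb, hh, N, hN⟩ := hT
  refine ⟨b, h, e, hb, hh, N, ?_⟩
  obtain ⟨R, rfl⟩ := hd
  rw [mul_pow, map_mul, hN, zero_mul]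

/-- Transport along a linear equivalence. -/
theorem Comm.map {P : F[X]} {T : End F V} (hT : Comm P T) (e : V ≃ₗ[F] W) : Comm P (e.conj T) := by
  obtain ⟨b, h, rfl, hb, hh, N, hN⟩ := hT
  let ψ : End F V ≃ₐ[F] End F W := e.conjAlgEquiv F
  have hc : ∀ x : End F V, ψ x = e.conj x := fun x => rfl
  let c : (End F V)ˣ →* (End F W)ˣ := Units.map (ψ : End F V →* End F W)
  refine ⟨c b, c h, ?_, ?_, ?_, N, ?_⟩
  · rw [← map_inv, ← map_inv, ← map_mul, ← map_mul, ← map_mul]
    rfl
  · show IsSquare (LinearMap.det (e.conj (b : End F V)))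
    rw [LinearEquiv.conj_apply, LinearMap.comp_assoc, LinearMap.det_conj]
    exact hb
  · show IsSquare (LinearMap.det (e.conj (h : End F V)))
    rw [LinearEquiv.conj_apply, LinearMap.comp_assoc, LinearMap.det_conj]
    exact hh
  · show aeval (ψ (h : End F V)) (P ^ N) = 0
    rw [aeval_algEquiv, AlgHom.comp_apply, hN]
    exact map_zero ψ

theorem comm_conj_iff {P : F[X]} {T : End F V} (e : V ≃ₗ[F] W) : Comm P (e.conj T) ↔ Comm P T :=
  ⟨fun h => by simpa [LinearEquiv.conj_apply, LinearMap.comp_assoc, LinearMap.ext_iff] using h.map e.symm,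
    fun h => h.map e⟩

theorem aeval_prodMap (P : F[X]) (f : End F V) (g : End F W) :
    aeval (f.prodMap g) P = (aeval f P).prodMap (aeval g P) := by
  induction P using Polynomial.induction_on' with
  | add p q hp hq => rw [map_add, map_add, map_add, hp, hq, LinearMap.prodMap_add]
  | monomial k r =>
    have hk : f.prodMap g ^ k = (f ^ k).prodMap (g ^ k) := by
      induction k with
      | zero => exact LinearMap.ext fun _ => rfl
      | succ k ih => rw [pow_succ, ih, pow_succ, pow_succ]; exact LinearMap.ext fun _ => rfl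
    rw [aeval_monomial, aeval_monomial, aeval_monomial, hk]
    apply LinearMap.ext
    intro x
    simp [Algebra.algebraMap_eq_smul_one]

/-- The unit acting on both factors. -/
def pairUnit : (End F V)ˣ × (End F W)ˣ →* (End F (V × W))ˣ :=
  (Units.map (LinearMap.prodMapRingHom F V W : (End F V × End F W) →* End F (V × W))).comp
    (MulEquiv.prodUnits.symm.toMonoidHom)

@[simp] theorem coe_pairUnit (a : (End F V)ˣ) (b : (End F W)ˣ) :
    ((pairUnit (a, b) : (End F (V × W))ˣ) : End F (V × W)) = (a : End F V).prodMap (b : End F W) := rfl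

/-- Direct sums. -/
theorem Comm.prodMap [FiniteDimensional F V] [FiniteDimensional F W] {P : F[X]} {T : End F V} {S : End F W}
    (hT : Comm P T) (hS : Comm P S) : Comm P (T.prodMap S) := by
  obtain ⟨b, h, rfl, hb, hh, N, hN⟩ := hT
  obtain ⟨b', h', rfl, hb', hh', N', hN'⟩ := hS
  refine ⟨pairUnit (b, b'), pairUnit (h, h'), ?_, ?_, ?_, max N N', ?_⟩
  · rw [← map_inv, ← map_inv, ← map_mul, ← map_mul, ← map_mul]
    rfl
  · rw [coe_pairUnit, LinearMap.det_prodMap]; exact hb.mul hb'
  · rw [coe_pairUnit, LinearMap.det_prodMap]; exact hh.mul hh'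
  · rw [coe_pairUnit, aeval_prodMap]
    have e1 : aeval (h : End F V) (P ^ max N N') = 0 := by
      rw [← Nat.add_sub_cancel' (le_max_left N N'), pow_add, map_mul, hN, zero_mul]
    have e2 : aeval (h' : End F W) (P ^ max N N') = 0 := by
      rw [← Nat.add_sub_cancel' (le_max_right N N'), pow_add, map_mul, hN', zero_mul]
    rw [e1, e2]
    exact LinearMap.prodMap_zero

@[simp] theorem unit_apply_inv (u : (End F V)ˣ) (x : V) : (u : End F V) ((↑u⁻¹ : End F V) x) = x := by
  rw [← Module.End.mul_apply, Units.mul_inv]; rfl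

@[simp] theorem inv_apply_unit (u : (End F V)ˣ) (x : V) : (↑u⁻¹ : End F V) ((u : End F V) x) = x := by
  rw [← Module.End.mul_apply, Units.inv_mul]; rfl

theorem aeval_intertwine {f : End F V} {g : End F W} {Z : W →ₗ[F] V} (h : f ∘ₗ Z = Z ∘ₗ g) (P : F[X]) :
    aeval f P ∘ₗ Z = Z ∘ₗ aeval g P := by
  induction P using Polynomial.induction_on' with
  | add p q hp hq => simp only [map_add, LinearMap.add_comp, LinearMap.comp_add, hp, hq]
  | monomial k r =>
    have hk : (f ^ k) ∘ₗ Z = Z ∘ₗ (g ^ k) := by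
      induction k with
      | zero => rfl
      | succ k ih =>
        rw [pow_succ, pow_succ, Module.End.mul_eq_comp, Module.End.mul_eq_comp, LinearMap.comp_assoc, h,
          ← LinearMap.comp_assoc, ih, LinearMap.comp_assoc]
    rw [aeval_monomial, aeval_monomial, Algebra.algebraMap_eq_smul_one, Algebra.algebraMap_eq_smul_one,
      smul_mul_assoc, one_mul, smul_mul_assoc, one_mul, LinearMap.smul_comp, LinearMap.comp_smul, hk]

/-- Coprime annihilators admit no intertwiner. -/
theorem intertwine_eq_zero {f : End F V} {g : End F W} {P Q : F[X]} (hPQ : IsCoprime P Q)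
    (hP : aeval f P = 0) (hQ : aeval g Q = 0) {Z : W →ₗ[F] V} (h : f ∘ₗ Z = Z ∘ₗ g) : Z = 0 := by
  obtain ⟨u, v, huv⟩ := hPQ
  have h1 : aeval f (u * P + v * Q) ∘ₗ Z = Z := by rw [huv, map_one]; rfl
  rw [map_add, map_mul, hP, mul_zero, zero_add, aeval_intertwine h, map_mul, hQ, mul_zero,
    LinearMap.comp_zero] at h1
  exact h1.symm

/-- The product upper unipotent, block diagonal, lower unipotent. -/
def udl (X : W →ₗ[F] V) (Y : V →ₗ[F] W) (T : End F V) (S : End F W) : End F (V × W) :=
  (LinearMap.prod (LinearMap.fst F V W + X ∘ₗ LinearMap.snd F V W) (LinearMap.snd F V W)) *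
    T.prodMap S *
      (LinearMap.prod (LinearMap.fst F V W) (Y ∘ₗ LinearMap.fst F V W + LinearMap.snd F V W))

theorem udl_apply (X : W →ₗ[F] V) (Y : V →ₗ[F] W) (T : End F V) (S : End F W) (x : V) (y : W) :
    udl X Y T S (x, y) = (T x + X (S (Y x + y)), S (Y x + y)) := by
  simp [udl]

/-- The upper unipotent unit. -/
def upUnit (X : W →ₗ[F] V) : (End F (V × W))ˣ where
  val := LinearMap.prod (LinearMap.fst F V W + X ∘ₗ LinearMap.snd F V W) (LinearMap.snd F V W)
  inv := LinearMap.prod (LinearMap.fst F V W - X ∘ₗ LinearMap.snd F V W) (LinearMap.snd F V W)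
  val_inv := LinearMap.ext fun x => Prod.ext (by simp) (by simp)
  inv_val := LinearMap.ext fun x => Prod.ext (by simp) (by simp)

/-- The lower unipotent unit. -/
def lowUnit (Y : V →ₗ[F] W) : (End F (V × W))ˣ where
  val := LinearMap.prod (LinearMap.fst F V W) (Y ∘ₗ LinearMap.fst F V W + LinearMap.snd F V W)
  inv := LinearMap.prod (LinearMap.fst F V W) (LinearMap.snd F V W - Y ∘ₗ LinearMap.fst F V W)
  val_inv := LinearMap.ext fun x => Prod.ext (by simp) (by simp)
  inv_val := LinearMap.ext fun x => Prod.ext (by simp) (by simp)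

theorem det_upUnit [FiniteDimensional F V] [FiniteDimensional F W] (X : W →ₗ[F] V) :
    LinearMap.det ((upUnit X : (End F (V × W))ˣ) : End F (V × W)) = 1 := by
  classical
  let b := Module.finBasis F V
  let c := Module.finBasis F W
  have h : LinearMap.toMatrix (b.prod c) (b.prod c) ((upUnit X : (End F (V × W))ˣ) : End F (V × W)) =
      Matrix.fromBlocks 1 (LinearMap.toMatrix c b X) 0 1 := by
    ext (i | i) (j | j) <;>
      simp [upUnit, LinearMap.toMatrix_apply, Matrix.one_apply, Finsupp.single_apply, eq_comm]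
  rw [← LinearMap.det_toMatrix (b.prod c), h, Matrix.det_fromBlocks_zero₂₁, Matrix.det_one, Matrix.det_one,
    mul_one]

theorem det_lowUnit [FiniteDimensional F V] [FiniteDimensional F W] (Y : V →ₗ[F] W) :
    LinearMap.det ((lowUnit Y : (End F (V × W))ˣ) : End F (V × W)) = 1 := by
  classical
  let b := Module.finBasis F V
  let c := Module.finBasis F W
  have h : LinearMap.toMatrix (b.prod c) (b.prod c) ((lowUnit Y : (End F (V × W))ˣ) : End F (V × W)) =
      Matrix.fromBlocks 1 0 (LinearMap.toMatrix b c Y) 1 := by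
    ext (i | i) (j | j) <;>
      simp [lowUnit, LinearMap.toMatrix_apply, Matrix.one_apply, Finsupp.single_apply, eq_comm]
  rw [← LinearMap.det_toMatrix (b.prod c), h, Matrix.det_fromBlocks_zero₁₂, Matrix.det_one, Matrix.det_one,
    mul_one]

/-- Coupling two blocks with coprime annihilators. -/
theorem Comm.udl [FiniteDimensional F V] [FiniteDimensional F W] {P Q : F[X]} (hPQ : IsCoprime P Q)
    {T : End F V} {S : End F W} (hT : Comm P T) (hS : Comm Q S) (X : W →ₗ[F] V) (Y : V →ₗ[F] W) :
    Comm (P * Q) (CfsgLib.OreOrth.udl X Y T S) := by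
  obtain ⟨b, h, rfl, hb, hh, N, hN⟩ := hT
  obtain ⟨b', h', rfl, hb', hh', N', hN'⟩ := hS
  have hco : IsCoprime (P ^ N) (Q ^ N') := hPQ.pow
  set f : (End F V)ˣ := b * h * b⁻¹ with hf
  set g : (End F W)ˣ := b' * h' * b'⁻¹ with hg
  have hfP : aeval (f : End F V) (P ^ N) = 0 := by
    have e := aeval_intertwine (f := (f : End F V)) (g := (h : End F V)) (Z := (b : End F V)) (by
      show (f : End F V) * (b : End F V) = (b : End F V) * (h : End F V)
      rw [← Units.val_mul, ← Units.val_mul, hf]; group) (P ^ N)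
    rw [hN, LinearMap.comp_zero] at e
    calc aeval (f : End F V) (P ^ N) = aeval (f : End F V) (P ^ N) * (b : End F V) * ↑b⁻¹ := by
          rw [mul_assoc, Units.mul_inv, mul_one]
      _ = 0 := by rw [Module.End.mul_eq_comp (aeval _ _) (b : End F V), e, zero_mul]
  have hgQ : aeval (g : End F W) (Q ^ N') = 0 := by
    have e := aeval_intertwine (f := (g : End F W)) (g := (h' : End F W)) (Z := (b' : End F W)) (by
      show (g : End F W) * (b' : End F W) = (b' : End F W) * (h' : End F W)
      rw [← Units.val_mul, ← Units.val_mul, hg]; group) (Q ^ N')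
    rw [hN', LinearMap.comp_zero] at e
    calc aeval (g : End F W) (Q ^ N') = aeval (g : End F W) (Q ^ N') * (b' : End F W) * ↑b'⁻¹ := by
          rw [mul_assoc, Units.mul_inv, mul_one]
      _ = 0 := by rw [Module.End.mul_eq_comp (aeval _ _) (b' : End F W), e, zero_mul]
  -- the two Sylvester equations
  obtain ⟨Z, hZ⟩ : ∃ Z : W →ₗ[F] V,
      Z - (f : End F V) ∘ₗ Z ∘ₗ ((g⁻¹ : (End F W)ˣ) : End F W) = X := by
    let φ : (W →ₗ[F] V) →ₗ[F] (W →ₗ[F] V) :=
      { toFun := fun Z => Z - (f : End F V) ∘ₗ Z ∘ₗ ((g⁻¹ : (End F W)ˣ) : End F W)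
        map_add' := fun A B => by simp [LinearMap.add_comp, LinearMap.comp_add]; abel
        map_smul' := fun c A => by simp [LinearMap.smul_comp, LinearMap.comp_smul, smul_sub] }
    refine (LinearMap.injective_iff_surjective (f := φ)).1 ?_ X
    rw [← LinearMap.ker_eq_bot, LinearMap.ker_eq_bot']
    intro A hA
    refine intertwine_eq_zero hco hfP hgQ ?_
    have hA' : A = (f : End F V) ∘ₗ A ∘ₗ ((g⁻¹ : (End F W)ˣ) : End F W) := sub_eq_zero.1 hA
    calc (f : End F V) ∘ₗ A = (f : End F V) ∘ₗ A ∘ₗ (((g⁻¹ * g : (End F W)ˣ)) : End F W) := by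
          rw [inv_mul_cancel]; rfl
      _ = A ∘ₗ (g : End F W) := by
          conv_rhs => rw [hA']
          rfl
  obtain ⟨U, hU⟩ : ∃ U : V →ₗ[F] W,
      (h' : End F W) ∘ₗ U ∘ₗ ((h⁻¹ : (End F V)ˣ) : End F V) - U = Y := by
    let φ : (V →ₗ[F] W) →ₗ[F] (V →ₗ[F] W) :=
      { toFun := fun U => (h' : End F W) ∘ₗ U ∘ₗ ((h⁻¹ : (End F V)ˣ) : End F V) - U
        map_add' := fun A B => by simp [LinearMap.add_comp, LinearMap.comp_add]; abel
        map_smul' := fun c A => by simp [LinearMap.smul_comp, LinearMap.comp_smul, smul_sub] }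
    refine (LinearMap.injective_iff_surjective (f := φ)).1 ?_ Y
    rw [← LinearMap.ker_eq_bot, LinearMap.ker_eq_bot']
    intro A hA
    refine intertwine_eq_zero hco.symm hN' hN ?_
    have hA' : (h' : End F W) ∘ₗ A ∘ₗ ((h⁻¹ : (End F V)ˣ) : End F V) = A := sub_eq_zero.1 hA
    calc (h' : End F W) ∘ₗ A = (h' : End F W) ∘ₗ A ∘ₗ (((h⁻¹ * h : (End F V)ˣ)) : End F V) := by
          rw [inv_mul_cancel]; rfl
      _ = A ∘ₗ (h : End F V) := by
          conv_rhs => rw [← hA']
          rfl
  set B := pairUnit (b, b') with hB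
  set H := pairUnit (h, h') with hH
  set H' := pairUnit (f, g) with hH'
  set p : (End F (V × W))ˣ := upUnit Z with hp
  set s : (End F (V × W))ˣ := lowUnit U with hs
  have hBH : H' = B * H * B⁻¹ := by
    rw [hB, hH, hH', ← map_inv, ← map_mul, ← map_mul]; rfl
  have hu : (upUnit X : (End F (V × W))ˣ) = p * H' * p⁻¹ * H'⁻¹ := by
    refine Units.ext (LinearMap.ext fun x => ?_)
    rw [hH', ← map_inv]
    refine Prod.ext ?_ ?_
    · simp [hp, upUnit, ← hZ]
      abel
    · simp [hp, upUnit]
  have hl : (lowUnit Y : (End F (V × W))ˣ) = H * s * H⁻¹ * s⁻¹ := by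
    refine Units.ext (LinearMap.ext fun x => ?_)
    rw [hH, ← map_inv]
    refine Prod.ext ?_ ?_
    · simp [hs, lowUnit]
    · simp [hs, lowUnit, ← hU]
      abel
  refine ⟨s * (s⁻¹ * p * B) * s⁻¹, s * H * s⁻¹, ?_, ?_, ?_, max N N', ?_⟩
  · have e : upUnit X * pairUnit (b * h * b⁻¹ * h⁻¹, b' * h' * b'⁻¹ * h'⁻¹) * lowUnit Y =
        s * (s⁻¹ * p * B) * s⁻¹ * (s * H * s⁻¹) * (s * (s⁻¹ * p * B) * s⁻¹)⁻¹ * (s * H * s⁻¹)⁻¹ := by
      have : pairUnit (b * h * b⁻¹ * h⁻¹, b' * h' * b'⁻¹ * h'⁻¹) = B * H * B⁻¹ * H⁻¹ := by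
        rw [hB, hH, ← map_inv, ← map_inv, ← map_mul, ← map_mul, ← map_mul]; rfl
      rw [this, hu, hl, hBH]
      group
    rw [← e]
    rfl
  · have e : s * (s⁻¹ * p * B) * s⁻¹ = p * B * s⁻¹ := by group
    have hsi : LinearMap.det ((s⁻¹ : (End F (V × W))ˣ) : End F (V × W)) = 1 := by
      have := congrArg LinearMap.det s.inv_mul
      rwa [map_mul, hs, det_lowUnit, mul_one, map_one] at this
    rw [e, Units.val_mul, Units.val_mul, map_mul, map_mul, hp, det_upUnit, one_mul, hB, coe_pairUnit,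
      LinearMap.det_prodMap, hsi, mul_one]
    exact hb.mul hb'
  · have hsi : LinearMap.det ((s⁻¹ : (End F (V × W))ˣ) : End F (V × W)) = 1 := by
      have := congrArg LinearMap.det s.inv_mul
      rwa [map_mul, hs, det_lowUnit, mul_one, map_one] at this
    rw [Units.val_mul, Units.val_mul, map_mul, map_mul, hs, det_lowUnit, one_mul, hsi, mul_one, hH,
      coe_pairUnit, LinearMap.det_prodMap]
    exact hh.mul hh'
  · have e0 : aeval ((H : (End F (V × W))ˣ) : End F (V × W)) ((P * Q) ^ max N N') = 0 := by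
      rw [hH, coe_pairUnit, aeval_prodMap]
      have e1 : aeval (h : End F V) ((P * Q) ^ max N N') = 0 := by
        rw [mul_pow, ← Nat.add_sub_cancel' (le_max_left N N'), pow_add P, map_mul, map_mul, hN, zero_mul,
          zero_mul]
      have e2 : aeval (h' : End F W) ((P * Q) ^ max N N') = 0 := by
        rw [mul_comm P, mul_pow, ← Nat.add_sub_cancel' (le_max_right N N'), pow_add Q, map_mul, map_mul, hN',
          zero_mul, zero_mul]
      rw [e1, e2]
      exact LinearMap.prodMap_zero
    have e := aeval_intertwine (f := ((s * H * s⁻¹ : (End F (V × W))ˣ) : End F (V × W)))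
      (g := ((H : (End F (V × W))ˣ) : End F (V × W))) (Z := ((s : (End F (V × W))ˣ) : End F (V × W))) (by
        show ((s * H * s⁻¹ : (End F (V × W))ˣ) : End F (V × W)) * (s : End F (V × W)) =
          (s : End F (V × W)) * (H : End F (V × W))
        rw [← Units.val_mul, ← Units.val_mul]; group) ((P * Q) ^ max N N')
    rw [e0, LinearMap.comp_zero] at e
    set A := aeval ((s * H * s⁻¹ : (End F (V × W))ˣ) : End F (V × W)) ((P * Q) ^ max N N')
    calc A = A * (s : End F (V × W)) * ↑s⁻¹ := by rw [mul_assoc, Units.mul_inv, mul_one]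
      _ = 0 := by rw [Module.End.mul_eq_comp A (s : End F (V × W)), e, zero_mul]

end CfsgLib.OreOrth
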