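import Cfsg.Agent.Lib.OreOrth.GoodFour

/-!
Five elements, even degree: the pair of blocks `2 + (nilpotent)` and `!![0, 1; 1, 2]`, and the coupling
`upper * diagonal * lower` of two commutators with these second entries.
-/

set_option autoImplicit false
set_option linter.unusedSectionVars false

namespace CfsgLib.OreOrth.Five

open Matrix CfsgLib.PSLCover

variable {F : Type*} [Field F]

/-! ### The field -/

section Field

variable [Fintype F]

theorem five_eq_zero (hF : Fintype.card F = 5) : (5 : F) = 0 := by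
  have := Nat.cast_card_eq_zero F
  rw [hF] at this
  exact_mod_cast this

theorem natCast_zmod (hF : Fintype.card F = 5) :
    ∃ f : ZMod 5 →+* F, Function.Bijective f := by
  have : Fact (Nat.Prime 5) := ⟨by norm_num⟩
  have : CharP F 5 := (CharP.charP_iff_prime_eq_zero (by norm_num)).2 (by
    have := five_eq_zero hF
    exact_mod_cast this)
  refine ⟨ZMod.castHom (dvd_refl 5) F, ?_⟩
  exact (Fintype.bijective_iff_injective_and_card _).2
    ⟨(ZMod.castHom (dvd_refl 5) F).injective, by rw [hF, ZMod.card]⟩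

theorem two_ne_zero' (hF : Fintype.card F = 5) : (2 : F) ≠ 0 := fun h => by
  have h1 : (1 : F) = 0 := by linear_combination five_eq_zero hF - 2 * h
  exact one_ne_zero h1

theorem isSquare_mul_of_not (hF : Fintype.card F = 5) {a b : F} (ha : ¬IsSquare a) (hb : ¬IsSquare b) :
    IsSquare (a * b) := by
  obtain ⟨f, hf⟩ := natCast_zmod hF
  obtain ⟨a', rfl⟩ := hf.2 a
  obtain ⟨b', rfl⟩ := hf.2 b
  have ha' : ¬IsSquare a' := fun h => ha (h.map f)
  have hb' : ¬IsSquare b' := fun h => hb (h.map f)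
  have key : ∀ x y : ZMod 5, ¬IsSquare x → ¬IsSquare y → IsSquare (x * y) := by decide
  have : IsSquare (a' * b') := key a' b' ha' hb'
  simpa using this.map f

theorem not_isSquare_three (hF : Fintype.card F = 5) : ¬IsSquare (3 : F) := by
  obtain ⟨f, hf⟩ := natCast_zmod hF
  rintro ⟨x, hx⟩
  obtain ⟨y, rfl⟩ := hf.2 x
  have h : f 3 = f (y * y) := by rw [map_mul, map_ofNat]; exact hx
  have key : ∀ z : ZMod 5, (3 : ZMod 5) ≠ z * z := by decide
  exact key y (hf.1 h)

end Field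

/-! ### The blocks -/

/-- Two plus the standard nilpotent. -/
def jmat (F : Type*) [Field F] (m : ℕ) : Matrix (Fin m) (Fin m) F :=
  Matrix.of fun i j => if i = j then 2 else if i.val + 1 = j.val then 1 else 0

/-- The irreducible block. -/
def qmat (F : Type*) [Field F] : Matrix (Fin 2) (Fin 2) F := !![0, 1; 1, 2]

theorem jmat_diag (m : ℕ) (i : Fin m) : jmat F m i i = 2 := by simp [jmat]

theorem jmat_upper {m : ℕ} {i j : Fin m} (h : j < i) : jmat F m i j = 0 := by
  have := Fin.lt_def.1 h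
  rw [jmat, Matrix.of_apply, if_neg h.ne', if_neg (by omega)]

theorem jmat_off {m : ℕ} (i k : Fin m) (hne : i ≠ k) (hk : jmat F m i k ≠ 0) : i.val < k.val :=
  lt_of_le_of_ne (le_of_not_gt fun h => hk (jmat_upper h)) (fun e => hne (Fin.ext e))

theorem jmat_link {m : ℕ} (i j : Fin m) (hij : i < j) (_ : jmat F m i i = jmat F m j j) :
    ∃ k : Fin m, k.val + 1 = j.val ∧ jmat F m k k = jmat F m j j ∧ jmat F m k j ≠ 0 := by
  have := Fin.lt_def.1 hij
  refine ⟨⟨j.val - 1, by omega⟩, by simp only; omega, by rw [jmat_diag, jmat_diag], ?_⟩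
  rw [jmat, Matrix.of_apply, if_neg (fun e => by
    have := congrArg Fin.val e; simp only at this; omega), if_pos (by simp only; omega)]
  exact one_ne_zero

theorem splitCyc_jmat (m : ℕ) : SplitCyc (jmat F m) (fun _ => (2 : F)) := by
  have := splitCyc_of_upperTri (jmat F m) (fun i j h => jmat_upper h) jmat_link
  rwa [show (fun i => jmat F m i i) = fun _ => (2 : F) from funext (jmat_diag m)] at this

theorem det_jmat (m : ℕ) : (jmat F m).det = 2 ^ m := by
  rw [det_eq_prod_of_splitCyc (splitCyc_jmat m), Finset.prod_const, Finset.card_univ, Fintype.card_fin]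

theorem jmat_nilpotent (m : ℕ) : (jmat F m - (2 : F) • 1) ^ m = 0 := by
  have h := Matrix.aeval_self_charpoly (jmat F m)
  rw [(splitCyc_jmat m).2, Finset.prod_const, Finset.card_univ, Fintype.card_fin, map_pow, map_sub,
    Polynomial.aeval_X, Polynomial.aeval_C, Algebra.algebraMap_eq_smul_one] at h
  exact h

theorem jmat_transpose_nilpotent (m : ℕ) : ((jmat F m)ᵀ - (2 : F) • 1) ^ m = 0 := by
  have h := congrArg Matrix.transpose (jmat_nilpotent (F := F) m)
  rw [transpose_pow, transpose_sub, transpose_smul, transpose_one, transpose_zero] at h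
  exact h

theorem qmat_transpose : (qmat F)ᵀ = qmat F := by
  ext i j
  fin_cases i <;> fin_cases j <;> simp [qmat]

theorem det_qmat : (qmat F).det = -1 := by simp [qmat, det_fin_two]

/-- The Sylvester equation for a scalar plus nilpotent has only the trivial solution. -/
theorem sylvester_zero {ι κ : Type*} [Fintype ι] [DecidableEq ι] [Fintype κ] [DecidableEq κ]
    {T : Matrix ι ι F} {k : ℕ} (hT : (T - (2 : F) • 1) ^ k = 0) (X : Matrix ι κ F) (G : Matrix κ κ F)
    (hX : T * X * G = X) (hG : (1 - (2 : F) • G).det ≠ 0) : X = 0 := by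
  have hD : (1 - (2 : F) • G) * (1 - (2 : F) • G)⁻¹ = 1 :=
    mul_nonsing_inv _ (isUnit_iff_ne_zero.2 hG)
  set E := G * (1 - (2 : F) • G)⁻¹
  have h1 : X * (1 - (2 : F) • G) = (T - (2 : F) • 1) * X * G := by
    rw [Matrix.mul_sub, Matrix.mul_one, Matrix.mul_smul, Matrix.sub_mul, Matrix.smul_mul, Matrix.one_mul,
      Matrix.sub_mul, Matrix.smul_mul, hX]
  have h2 : X = (T - (2 : F) • 1) * X * E := by
    calc X = X * ((1 - (2 : F) • G) * (1 - (2 : F) • G)⁻¹) := by rw [hD, Matrix.mul_one]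
      _ = (T - (2 : F) • 1) * X * E := by rw [← Matrix.mul_assoc, h1, Matrix.mul_assoc]
  have h3 : ∀ j, X = (T - (2 : F) • 1) ^ j * X * E ^ j := by
    intro j
    induction j with
    | zero => rw [pow_zero, pow_zero, Matrix.one_mul, Matrix.mul_one]
    | succ j ih =>
      conv_lhs => rw [ih, h2]
      rw [pow_succ, pow_succ']
      simp only [Matrix.mul_assoc]
  rw [h3 k, hT, Matrix.zero_mul, Matrix.zero_mul]

/-- `fromBlocks T 0 0 qmat` has no fixed points for triangular `T = 2 + nilpotent`. -/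
theorem fpf_blocks [Fintype F] (hF : Fintype.card F = 5) {m : ℕ} {T : Matrix (Fin m) (Fin m) F}
    (f : Fin m → ℕ) (hT : ∀ i k, i ≠ k → T i k ≠ 0 → f i < f k) (hd : ∀ i, T i i = 2)
    (hn : (T - (2 : F) • 1) ^ m = 0) : Fpf (fromBlocks T 0 0 (qmat F)) := by
  intro X hXd hXs hX
  have h5 := five_eq_zero hF
  rw [← fromBlocks_toBlocks X, fromBlocks_multiply, fromBlocks_transpose, fromBlocks_multiply] at hX
  simp only [Matrix.zero_mul, Matrix.mul_zero, add_zero, zero_add, transpose_zero] at hX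
  rw [fromBlocks_inj] at hX
  obtain ⟨h11, h12, h21, h22⟩ := hX
  have hs : ∀ a b, X b a = -X a b := fun a b => congrFun (congrFun hXs a) b
  have e11 : X.toBlocks₁₁ = 0 := by
    refine fpf_of_triangular T f hT (fun i j _ h => ?_) _ (fun i => hXd _) ?_ h11
    · rw [hd, hd] at h
      have : (1 : F) = 0 := by linear_combination 2 * h - h5
      exact one_ne_zero this
    · ext i j
      exact hs _ _
  have e12 : X.toBlocks₁₂ = 0 := by
    refine sylvester_zero hn _ (qmat F)ᵀ h12 ?_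
    intro h
    simp [qmat, det_fin_two] at h
    have : (2 : F) = 0 := by linear_combination -h - h5
    exact two_ne_zero' hF this
  have e22 : X.toBlocks₂₂ = 0 := by
    have h00 : X.toBlocks₂₂ 0 0 = 0 := hXd (Sum.inr 0)
    have h11' : X.toBlocks₂₂ 1 1 = 0 := hXd (Sum.inr 1)
    have h10 : X.toBlocks₂₂ 1 0 = -X.toBlocks₂₂ 0 1 := hs (Sum.inr 0) (Sum.inr 1)
    generalize X.toBlocks₂₂ = Z at h22 h00 h11' h10 ⊢
    have key := congrFun (congrFun h22 0) 1
    rw [Matrix.mul_apply, Fin.sum_univ_two, Matrix.mul_apply, Matrix.mul_apply, Fin.sum_univ_two,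
      Fin.sum_univ_two] at key
    simp [qmat, h00, h11', h10] at key
    have h0 : Z 0 1 = 0 := by
      have : (2 : F) * Z 0 1 = 0 := by linear_combination -key
      exact (mul_eq_zero.1 this).resolve_left (two_ne_zero' hF)
    ext i j
    fin_cases i <;> fin_cases j
    · exact h00
    · exact h0
    · exact h10.trans (neg_eq_zero.2 h0)
    · exact h11'
  ext (i | i) (j | j)
  · exact congrFun (congrFun e11 i) j
  · exact congrFun (congrFun e12 i) j
  · rw [hs (Sum.inl j) (Sum.inr i)]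
    exact neg_eq_zero.2 (congrFun (congrFun e12 j) i)
  · exact congrFun (congrFun e22 i) j

/-- No fixed vector for the pair of blocks. -/
theorem noOne_blocks [Fintype F] (hF : Fintype.card F = 5) {m : ℕ} {T : Matrix (Fin m) (Fin m) F}
    (f : Fin m → ℕ) (hT : ∀ i k, i ≠ k → T i k ≠ 0 → f i < f k) (hd : ∀ i, T i i = 2) :
    NoOne (fromBlocks T 0 0 (qmat F)) := by
  intro v hv
  have h5 := five_eq_zero hF
  rw [fromBlocks_mulVec] at hv
  have h1 : T *ᵥ (v ∘ Sum.inl) = v ∘ Sum.inl := by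
    funext i
    simpa using congrFun hv (Sum.inl i)
  have h2 : qmat F *ᵥ (v ∘ Sum.inr) = v ∘ Sum.inr := by
    funext i
    simpa using congrFun hv (Sum.inr i)
  have e1 := noOne_of_triangular T f hT (fun i h => by
    rw [hd] at h
    have : (1 : F) = 0 := by linear_combination h
    exact one_ne_zero this) _ h1
  have h20 := congrFun h2 0
  have h21 := congrFun h2 1
  simp [qmat, Matrix.mulVec, dotProduct, Fin.sum_univ_two] at h20 h21
  have hb : (2 : F) * v (Sum.inr 0) = 0 := by linear_combination h21 - h20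
  have hb0 := (mul_eq_zero.1 hb).resolve_left (two_ne_zero' hF)
  funext x
  rcases x with i | i
  · exact congrFun e1 i
  · fin_cases i
    · exact hb0
    · simp [hb0] at h20 ⊢
      linear_combination h20

/-! ### Units on a sum -/

/-- A block diagonal unit. -/
def blk {ι κ : Type*} [Fintype ι] [DecidableEq ι] [Fintype κ] [DecidableEq κ] (a : GL ι F) (b : GL κ F) :
    GL (ι ⊕ κ) F where
  val := fromBlocks (a : Matrix ι ι F) 0 0 (b : Matrix κ κ F)
  inv := fromBlocks ((a⁻¹ : GL ι F) : Matrix ι ι F) 0 0 ((b⁻¹ : GL κ F) : Matrix κ κ F)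
  val_inv := by simp [fromBlocks_multiply]
  inv_val := by simp [fromBlocks_multiply]

theorem blk_mul {ι κ : Type*} [Fintype ι] [DecidableEq ι] [Fintype κ] [DecidableEq κ] (a a' : GL ι F)
    (b b' : GL κ F) : blk a b * blk a' b' = (blk (a * a') (b * b') : GL (ι ⊕ κ) F) :=
  Units.ext (by simp [blk, fromBlocks_multiply])

theorem blk_inv {ι κ : Type*} [Fintype ι] [DecidableEq ι] [Fintype κ] [DecidableEq κ] (a : GL ι F)
    (b : GL κ F) : (blk a b)⁻¹ = (blk a⁻¹ b⁻¹ : GL (ι ⊕ κ) F) :=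
  Units.ext rfl

/-- An upper unipotent unit. -/
def upG {ι κ : Type*} [Fintype ι] [DecidableEq ι] [Fintype κ] [DecidableEq κ] (X : Matrix ι κ F) :
    GL (ι ⊕ κ) F where
  val := fromBlocks 1 X 0 1
  inv := fromBlocks 1 (-X) 0 1
  val_inv := by simp [fromBlocks_multiply]
  inv_val := by simp [fromBlocks_multiply]

/-- A lower unipotent unit. -/
def lowG {ι κ : Type*} [Fintype ι] [DecidableEq ι] [Fintype κ] [DecidableEq κ] (Y : Matrix κ ι F) :
    GL (ι ⊕ κ) F where
  val := fromBlocks 1 0 Y 1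
  inv := fromBlocks 1 0 (-Y) 1
  val_inv := by simp [fromBlocks_multiply]
  inv_val := by simp [fromBlocks_multiply]

variable [Fintype F]

/-- `2 + nilpotent` as a unit. -/
def jGL (hF : Fintype.card F = 5) (m : ℕ) : GL (Fin m) F :=
  GeneralLinearGroup.mkOfDetNeZero (jmat F m) (by rw [det_jmat]; exact pow_ne_zero _ (two_ne_zero' hF))

/-- The irreducible block as a unit. -/
def qGL (F : Type*) [Field F] : GL (Fin 2) F :=
  GeneralLinearGroup.mkOfDetNeZero (qmat F) (by rw [det_qmat]; exact neg_ne_zero.2 one_ne_zero)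

theorem det_jGL_isSquare (hF : Fintype.card F = 5) {m : ℕ} (hm : Even m) :
    IsSquare (jGL hF m : Matrix (Fin m) (Fin m) F).det := by
  show IsSquare (jmat F m).det
  rw [det_jmat]
  exact hm.isSquare_pow 2

theorem det_qGL_isSquare (hF : Fintype.card F = 5) : IsSquare (qGL F : Matrix (Fin 2) (Fin 2) F).det :=
  ⟨2, by show (qmat F).det = _; rw [det_qmat]; linear_combination -five_eq_zero hF⟩

/-- An element commuting with the irreducible block whose determinant is not a square. -/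
def cGL (hF : Fintype.card F = 5) : GL (Fin 2) F :=
  GeneralLinearGroup.mkOfDetNeZero !![-1, 1; 1, 1] (by
    intro h
    simp [det_fin_two] at h
    have : (2 : F) = 0 := by linear_combination -h
    exact two_ne_zero' hF this)

theorem cGL_comm (hF : Fintype.card F = 5) : cGL hF * qGL F = qGL F * cGL hF := by
  refine Units.ext ?_
  show !![-1, 1; 1, 1] * qmat F = qmat F * !![-1, 1; 1, 1]
  ext i j
  fin_cases i <;> fin_cases j <;> simp [qmat, Matrix.mul_apply, Fin.sum_univ_two] <;> ring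

theorem cGL_det (hF : Fintype.card F = 5) :
    ¬IsSquare (cGL hF : Matrix (Fin 2) (Fin 2) F).det := by
  have : (cGL hF : Matrix (Fin 2) (Fin 2) F).det = 3 := by
    show Matrix.det !![-1, 1; 1, 1] = (3 : F)
    simp [det_fin_two]
    linear_combination -five_eq_zero hF
  rw [this]
  exact not_isSquare_three hF

/-- The second entry. -/
def hGL (hF : Fintype.card F = 5) (m : ℕ) : GL (Fin m ⊕ Fin 2) F :=
  blk (jGL hF m) (qGL F)

theorem hGL_props (hF : Fintype.card F = 5) {m : ℕ} (hm : Even m) :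
    IsSquare (hGL hF m : Matrix (Fin m ⊕ Fin 2) (Fin m ⊕ Fin 2) F).det ∧
      Fpf (hGL hF m : Matrix (Fin m ⊕ Fin 2) (Fin m ⊕ Fin 2) F) ∧
      Fpf (hGL hF m : Matrix (Fin m ⊕ Fin 2) (Fin m ⊕ Fin 2) F)ᵀ ∧
      ((2 : F) ≠ 0 → NoOne (hGL hF m : Matrix (Fin m ⊕ Fin 2) (Fin m ⊕ Fin 2) F) ∧
        NoOne (hGL hF m : Matrix (Fin m ⊕ Fin 2) (Fin m ⊕ Fin 2) F)ᵀ) := by
  have hT : ∀ i k : Fin m, i ≠ k → (jmat F m)ᵀ i k ≠ 0 → m - i.val < m - k.val := fun i k hne hk => by
    have := jmat_off k i (Ne.symm hne) hk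
    omega
  have hcoe : (hGL hF m : Matrix (Fin m ⊕ Fin 2) (Fin m ⊕ Fin 2) F) =
      fromBlocks (jmat F m) 0 0 (qmat F) := rfl
  have hcoeT : (hGL hF m : Matrix (Fin m ⊕ Fin 2) (Fin m ⊕ Fin 2) F)ᵀ =
      fromBlocks (jmat F m)ᵀ 0 0 (qmat F) := by
    rw [hcoe, fromBlocks_transpose, transpose_zero, transpose_zero, qmat_transpose]
  rw [hcoe] at *
  refine ⟨?_, fpf_blocks hF _ jmat_off (jmat_diag m) (jmat_nilpotent m), ?_,
    fun _ => ⟨noOne_blocks hF _ jmat_off (jmat_diag m), ?_⟩⟩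
  · rw [det_fromBlocks_zero₂₁]
    exact (det_jGL_isSquare hF hm).mul (det_qGL_isSquare hF)
  · rw [hcoeT]
    exact fpf_blocks hF _ hT (jmat_diag m) (jmat_transpose_nilpotent m)
  · rw [hcoeT]
    exact noOne_blocks hF _ hT (jmat_diag m)

/-- Coupling of two commutators. -/
theorem good_couple (hF : Fintype.card F = 5) {m : ℕ} (hm : Even m) (r b1 : GL (Fin m) F)
    (g : GL (Fin 2) F) (X : Matrix (Fin m) (Fin 2) F) (Y : Matrix (Fin 2) (Fin m) F) :
    Good ((upG X : GL (Fin m ⊕ Fin 2) F) *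
      blk (r * (b1 * jGL hF m * b1⁻¹ * (jGL hF m)⁻¹) * r⁻¹) (g * qGL F * g⁻¹ * (qGL F)⁻¹) *
      lowG Y : Matrix (Fin m ⊕ Fin 2) (Fin m ⊕ Fin 2) F) := by
  set J := jGL hF m with hJdef
  set Q := qGL F with hQdef
  set f : GL (Fin m) F := b1 * J * b1⁻¹ with hfdef
  set u : GL (Fin 2) F := g * Q * g⁻¹ with hudef
  -- choose the determinant class
  obtain ⟨c, hc, hsq⟩ : ∃ c : GL (Fin 2) F, c * Q = Q * c ∧
      IsSquare ((b1 : Matrix (Fin m) (Fin m) F).det * (g : Matrix (Fin 2) (Fin 2) F).det *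
        (c : Matrix (Fin 2) (Fin 2) F).det) := by
    by_cases h : IsSquare ((b1 : Matrix (Fin m) (Fin m) F).det * (g : Matrix (Fin 2) (Fin 2) F).det)
    · exact ⟨1, by rw [one_mul, mul_one], by simpa using h⟩
    · exact ⟨cGL hF, cGL_comm hF, isSquare_mul_of_not hF h (cGL_det hF)⟩
  have hfn : ((f : Matrix (Fin m) (Fin m) F) - (2 : F) • 1) ^ m = 0 := by
    have e : (f : Matrix (Fin m) (Fin m) F) - (2 : F) • 1 =
        (b1 : Matrix (Fin m) (Fin m) F) * (jmat F m - (2 : F) • 1) *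
          ((b1⁻¹ : GL (Fin m) F) : Matrix (Fin m) (Fin m) F) := by
      rw [Matrix.mul_sub, Matrix.sub_mul, Matrix.mul_smul, Matrix.smul_mul, Matrix.mul_one, Units.mul_inv,
        hfdef, Units.val_mul, Units.val_mul]
      rfl
    rw [e, Units.conj_pow b1 _ m, jmat_nilpotent, Matrix.mul_zero, Matrix.zero_mul]
  have hud : ∀ G : GL (Fin 2) F, ((G : Matrix (Fin 2) (Fin 2) F) - (2 : F) • 1).det ≠ 0 →
      (1 - (2 : F) • ((G⁻¹ : GL (Fin 2) F) : Matrix (Fin 2) (Fin 2) F)).det ≠ 0 := by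
    intro G hG
    have e : 1 - (2 : F) • ((G⁻¹ : GL (Fin 2) F) : Matrix (Fin 2) (Fin 2) F) =
        ((G : Matrix (Fin 2) (Fin 2) F) - (2 : F) • 1) * ((G⁻¹ : GL (Fin 2) F) : Matrix (Fin 2) (Fin 2) F) := by
      rw [Matrix.sub_mul, Matrix.smul_mul, Matrix.one_mul, Units.mul_inv]
    rw [e, det_mul]
    exact mul_ne_zero hG ((Matrix.isUnit_iff_isUnit_det _).1 (G⁻¹).isUnit).ne_zero
  have hQd : (qmat F - (2 : F) • 1).det ≠ 0 := by simp [qmat, det_fin_two]
  have hu2 : ((u : Matrix (Fin 2) (Fin 2) F) - (2 : F) • 1).det ≠ 0 := by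
    have e : (u : Matrix (Fin 2) (Fin 2) F) - (2 : F) • 1 =
        (g : Matrix (Fin 2) (Fin 2) F) * (qmat F - (2 : F) • 1) *
          ((g⁻¹ : GL (Fin 2) F) : Matrix (Fin 2) (Fin 2) F) := by
      rw [Matrix.mul_sub, Matrix.sub_mul, Matrix.mul_smul, Matrix.smul_mul, Matrix.mul_one, Units.mul_inv,
        hudef, Units.val_mul, Units.val_mul]
      rfl
    rw [e, Matrix.det_units_conj]
    exact hQd
  -- the two Sylvester equations
  set X' : Matrix (Fin m) (Fin 2) F := ((r⁻¹ : GL (Fin m) F) : Matrix (Fin m) (Fin m) F) * X with hX'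
  set Y' : Matrix (Fin 2) (Fin m) F := Y * (r : Matrix (Fin m) (Fin m) F) with hY'
  obtain ⟨Z, hZ⟩ : ∃ Z : Matrix (Fin m) (Fin 2) F,
      Z - (f : Matrix (Fin m) (Fin m) F) * Z * ((u⁻¹ : GL (Fin 2) F) : Matrix (Fin 2) (Fin 2) F) = X' := by
    let φ : Matrix (Fin m) (Fin 2) F →ₗ[F] Matrix (Fin m) (Fin 2) F :=
      { toFun := fun Z => Z - (f : Matrix (Fin m) (Fin m) F) * Z * ((u⁻¹ : GL (Fin 2) F) : Matrix (Fin 2) (Fin 2) F)
        map_add' := fun A B => by simp [Matrix.mul_add, Matrix.add_mul]; abel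
        map_smul' := fun a A => by simp [Matrix.mul_smul, Matrix.smul_mul, smul_sub] }
    refine (LinearMap.injective_iff_surjective (f := φ)).1 ?_ X'
    rw [← LinearMap.ker_eq_bot, LinearMap.ker_eq_bot']
    intro A hA
    exact sylvester_zero hfn A _ (sub_eq_zero.1 hA).symm (hud u hu2)
  obtain ⟨S, hS⟩ : ∃ S : Matrix (Fin 2) (Fin m) F,
      (Q : Matrix (Fin 2) (Fin 2) F) * S * ((J⁻¹ : GL (Fin m) F) : Matrix (Fin m) (Fin m) F) - S = Y' := by
    let φ : Matrix (Fin 2) (Fin m) F →ₗ[F] Matrix (Fin 2) (Fin m) F :=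
      { toFun := fun S => (Q : Matrix (Fin 2) (Fin 2) F) * S * ((J⁻¹ : GL (Fin m) F) : Matrix (Fin m) (Fin m) F) - S
        map_add' := fun A B => by simp [Matrix.mul_add, Matrix.add_mul]; abel
        map_smul' := fun a A => by simp [Matrix.mul_smul, Matrix.smul_mul, smul_sub] }
    refine (LinearMap.injective_iff_surjective (f := φ)).1 ?_ Y'
    rw [← LinearMap.ker_eq_bot, LinearMap.ker_eq_bot']
    intro A hA
    have h1 : A * (jmat F m) = qmat F * A := by
      have h2 := sub_eq_zero.1 hA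
      conv_lhs => rw [← h2]
      rw [Matrix.mul_assoc _ ((J⁻¹ : GL (Fin m) F) : Matrix (Fin m) (Fin m) F),
        show ((J⁻¹ : GL (Fin m) F) : Matrix (Fin m) (Fin m) F) * jmat F m = 1 from J.inv_mul, Matrix.mul_one]
      rfl
    have hQi : qmat F * ((Q⁻¹ : GL (Fin 2) F) : Matrix (Fin 2) (Fin 2) F) = 1 := Q.mul_inv
    have h3 : (jmat F m)ᵀ * Aᵀ * (((Q⁻¹ : GL (Fin 2) F) : Matrix (Fin 2) (Fin 2) F)) = Aᵀ := by
      rw [← transpose_mul, h1, transpose_mul, qmat_transpose, Matrix.mul_assoc, hQi, Matrix.mul_one]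
    have h4 := sylvester_zero (jmat_transpose_nilpotent m) Aᵀ _ h3 (hud Q hQd)
    rw [← transpose_transpose A, h4, transpose_zero]
  set B := blk b1 (g * c) with hB
  set H := hGL hF m with hH
  have hH' : B * H * B⁻¹ = blk f u := by
    rw [hB, hH, hGL, blk_inv, blk_mul, blk_mul, ← hJdef, ← hQdef, hfdef, hudef]
    congr 1
    calc g * c * Q * (g * c)⁻¹ = g * (c * Q * c⁻¹) * g⁻¹ := by group
      _ = g * Q * g⁻¹ := by rw [hc, mul_assoc Q c, mul_inv_cancel, mul_one]
  have hUp : upG X' = (upG Z * (blk f u) * (upG Z)⁻¹ * (blk f u)⁻¹ : GL (Fin m ⊕ Fin 2) F) := by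
    refine Units.ext ?_
    rw [blk_inv]
    simp [upG, blk, fromBlocks_multiply, ← hZ, sub_eq_add_neg, Matrix.add_mul,
      Matrix.mul_assoc]
    abel
  have hLow : lowG Y' = (H * lowG S * H⁻¹ * (lowG S)⁻¹ : GL (Fin m ⊕ Fin 2) F) := by
    refine Units.ext ?_
    rw [hH, hGL, blk_inv]
    simp [lowG, blk, fromBlocks_multiply, ← hS, ← hJdef, ← hQdef, sub_eq_add_neg, Matrix.mul_assoc]
  set p := upG Z with hp
  set s := lowG (F := F) S with hs
  have hcore : upG X' * blk (b1 * J * b1⁻¹ * J⁻¹) (u * Q⁻¹) * lowG Y' =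
      s * ((s⁻¹ * p * B) * H * (s⁻¹ * p * B)⁻¹ * H⁻¹) * s⁻¹ := by
    have e : blk (b1 * J * b1⁻¹ * J⁻¹) (u * Q⁻¹) = B * H * B⁻¹ * H⁻¹ := by
      rw [hH', hH, hGL, blk_inv, blk_mul, ← hJdef, ← hQdef, hfdef]
    rw [e, hUp, ← hH', hLow]
    group
  have hdetU : ∀ (X : Matrix (Fin m) (Fin 2) F),
      ((upG X : GL (Fin m ⊕ Fin 2) F) : Matrix (Fin m ⊕ Fin 2) (Fin m ⊕ Fin 2) F).det = 1 := fun X => by
    show (fromBlocks 1 X 0 1).det = 1
    rw [det_fromBlocks_zero₂₁, det_one, det_one, mul_one]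
  have hdetL : (((s⁻¹ : GL (Fin m ⊕ Fin 2) F)) : Matrix (Fin m ⊕ Fin 2) (Fin m ⊕ Fin 2) F).det = 1 := by
    show (fromBlocks 1 0 (-S) 1).det = 1
    rw [det_fromBlocks_zero₁₂, det_one, det_one, mul_one]
  have hgood : Good ((s⁻¹ * p * B * H * (s⁻¹ * p * B)⁻¹ * H⁻¹ : GL (Fin m ⊕ Fin 2) F) :
      Matrix (Fin m ⊕ Fin 2) (Fin m ⊕ Fin 2) F) := by
    refine ⟨s⁻¹ * p * B, H, rfl, ?_, hGL_props hF hm⟩
    rw [Units.val_mul, Units.val_mul, det_mul, det_mul, hdetL, hp, hdetU, one_mul, one_mul]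
    show IsSquare (fromBlocks (b1 : Matrix (Fin m) (Fin m) F) 0 0
      ((g * c : GL (Fin 2) F) : Matrix (Fin 2) (Fin 2) F)).det
    rw [det_fromBlocks_zero₂₁, Units.val_mul, det_mul, ← mul_assoc]
    exact hsq
  have h := hgood.conj (blk r 1 * s)
  rw [← Units.val_mul, ← Units.val_mul] at h
  have heq : (upG X * blk (r * (b1 * J * b1⁻¹ * J⁻¹) * r⁻¹) (u * Q⁻¹) * lowG Y : GL (Fin m ⊕ Fin 2) F) =
      blk r 1 * s * ((s⁻¹ * p * B) * H * (s⁻¹ * p * B)⁻¹ * H⁻¹) * (blk r 1 * s)⁻¹ := by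
    calc upG X * blk (r * (b1 * J * b1⁻¹ * J⁻¹) * r⁻¹) (u * Q⁻¹) * lowG Y
        = blk r 1 * (upG X' * blk (b1 * J * b1⁻¹ * J⁻¹) (u * Q⁻¹) * lowG Y') * (blk r 1)⁻¹ := by
          refine Units.ext ?_
          rw [blk_inv]
          simp [upG, lowG, blk, fromBlocks_multiply, hX', hY', Matrix.mul_assoc, Matrix.add_mul,
            Matrix.mul_add]
      _ = _ := by rw [hcore]; group
  rw [← heq] at h
  simpa only [Units.val_mul, hudef] using h

end CfsgLib.OreOrth.Five
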