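import Cfsg.Agent.Lib.OreOrth.FiveBlocks

/-!
Five elements, even degree: the two inner blocks, and matrices with a pivot-free two-column form.
-/

set_option autoImplicit false
set_option linter.unusedSectionVars false

namespace CfsgLib.OreOrth.Five

open Matrix CfsgLib.PSLCover

variable {F : Type*} [Field F]

/-- `Good` is invariant under relabelling. -/
theorem Good.reindex {ι κ : Type*} [Fintype ι] [DecidableEq ι] [Fintype κ] [DecidableEq κ]
    {A : Matrix ι ι F} (hA : CfsgLib.OreOrth.Good A) (e : ι ≃ κ) :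
    CfsgLib.OreOrth.Good (Matrix.reindex e e A) := by
  obtain ⟨b, h, rfl, hb, hh, h1, h2, h3⟩ := hA
  let ψ : GL ι F →* GL κ F := Units.map (Matrix.reindexAlgEquiv F F e).toMonoidHom
  have hcoe : ∀ x : GL ι F, ((ψ x : GL κ F) : Matrix κ κ F) = Matrix.reindex e e (x : Matrix ι ι F) :=
    fun x => rfl
  have key : ∀ H : Matrix ι ι F, Fpf H → Fpf (Matrix.reindex e e H) := by
    intro H hH X hd hs hX
    have hs' : (X.submatrix e e)ᵀ = -(X.submatrix e e) := by
      rw [transpose_submatrix, hs]; rfl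
    have := hH (X.submatrix e e) (fun i => hd (e i)) hs' (by
      have h' := congrArg (fun Z => Z.submatrix e e) hX
      simp only [reindex_apply, transpose_submatrix] at h'
      rw [← submatrix_mul_equiv _ _ _ e _, ← submatrix_mul_equiv _ _ _ e _] at h'
      simpa [submatrix_submatrix] using h')
    ext i j
    simpa using congrFun (congrFun this (e.symm i)) (e.symm j)
  have keyN : ∀ H : Matrix ι ι F, NoOne H → NoOne (Matrix.reindex e e H) := by
    intro H hH v hv
    have := hH (v ∘ e) (by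
      rw [reindex_apply, submatrix_mulVec_equiv, Equiv.symm_symm] at hv
      funext i
      have h' := congrFun hv (e i)
      simpa using h')
    funext i
    simpa using congrFun this (e.symm i)
  refine ⟨ψ b, ψ h, ?_, ?_, ?_, key _ h1, ?_, fun ht => ⟨keyN _ (h3 ht).1, ?_⟩⟩
  · rw [← map_inv, ← map_inv, ← map_mul, ← map_mul, ← map_mul, hcoe]
  · rw [hcoe, Matrix.det_reindex_self]; exact hb
  · rw [hcoe, Matrix.det_reindex_self]; exact hh
  · show Fpf (Matrix.reindex e e (h : Matrix ι ι F))ᵀ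
    rw [transpose_reindex]
    exact key _ h2
  · show NoOne (Matrix.reindex e e (h : Matrix ι ι F))ᵀ
    rw [transpose_reindex]
    exact keyN _ (h3 ht).2

/-- The inverse of an upper triangular cyclic matrix with linked diagonal is split cyclic. -/
theorem splitCyc_inv {n : ℕ} (h : GL (Fin n) F) (β : Fin n → F)
    (hdiag : ∀ i, (h : Matrix (Fin n) (Fin n) F) i i = β i)
    (hup : ∀ i j, j < i → (h : Matrix (Fin n) (Fin n) F) i j = 0)
    (hlink : ∀ i j : Fin n, i < j →
      (h : Matrix (Fin n) (Fin n) F) i i = (h : Matrix (Fin n) (Fin n) F) j j →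
      ∃ k : Fin n, k.val + 1 = j.val ∧
        (h : Matrix (Fin n) (Fin n) F) k k = (h : Matrix (Fin n) (Fin n) F) j j ∧
          (h : Matrix (Fin n) (Fin n) F) k j ≠ 0) :
    SplitCyc ((h⁻¹ : GL (Fin n) F) : Matrix (Fin n) (Fin n) F) (fun i => (β i)⁻¹) := by
  set M := (h : Matrix (Fin n) (Fin n) F) with hM
  have hMi : ((h⁻¹ : GL (Fin n) F) : Matrix (Fin n) (Fin n) F) * M = 1 := h.inv_mul
  have hMh : M * ((h⁻¹ : GL (Fin n) F) : Matrix (Fin n) (Fin n) F) = 1 := h.mul_inv
  have hbt : M.BlockTriangular id := fun i j hij => hup i j hij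
  let _ : Invertible M := h.invertible
  have hbi : ((h⁻¹ : GL (Fin n) F) : Matrix (Fin n) (Fin n) F).BlockTriangular id := by
    rw [Matrix.coe_units_inv, ← hM]
    exact Matrix.blockTriangular_inv_of_blockTriangular hbt
  have hdi : ∀ i, ((h⁻¹ : GL (Fin n) F) : Matrix (Fin n) (Fin n) F) i i = (β i)⁻¹ := by
    intro i
    have h1 := congrFun (congrFun hMi i) i
    rw [Matrix.mul_apply, Finset.sum_eq_single i (fun k _ hk => ?_) (by simp), Matrix.one_apply_eq,
      hdiag] at h1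
    · exact eq_inv_of_mul_eq_one_left h1
    · rcases lt_or_gt_of_ne hk with e | e
      · rw [hbi e, zero_mul]
      · rw [hup k i e, mul_zero]
  refine splitCyc_of_eigLine _ _ ?_ ?_
  · rw [Matrix.charpoly_of_isUpperTriangular _ hbi]
    exact Finset.prod_congr rfl fun i _ => by rw [hdi]
  · intro c x y hx hy hx0
    have hc0 : c ≠ 0 := by
      rintro rfl
      apply hx0
      have := congrArg (M *ᵥ ·) hx
      simp only [mulVec_mulVec, hMh, one_mulVec, zero_smul, mulVec_zero] at this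
      exact this
    have key : ∀ z : Fin n → F,
        ((h⁻¹ : GL (Fin n) F) : Matrix (Fin n) (Fin n) F) *ᵥ z = c • z → M *ᵥ z = c⁻¹ • z := by
      intro z hz
      have := congrArg (fun w => c⁻¹ • (M *ᵥ w)) hz
      simp only [mulVec_mulVec, hMh, one_mulVec, mulVec_smul, smul_smul, inv_mul_cancel₀ hc0,
        one_smul] at this
      exact this.symm
    exact eigLine_of_upperTri M hup hlink c⁻¹ x y (key x hx) (key y hy) hx0

variable [Fintype F]

/-- A unit two-by-two matrix given by its entries. -/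
def mk2 (a b c d : F) (h : a * d - b * c ≠ 0) : GL (Fin 2) F :=
  GeneralLinearGroup.mkOfDetNeZero !![a, b; c, d] (by rw [det_fin_two_of]; exact h)

theorem mk2_coe (a b c d : F) (h : a * d - b * c ≠ 0) :
    (mk2 a b c d h : Matrix (Fin 2) (Fin 2) F) = !![a, b; c, d] := rfl

/-- Degree two: every non-scalar matrix of determinant one is a commutator with `2 + nilpotent`, up to
similarity. -/
theorem exists_block_comm_two (hF : Fintype.card F = 5) (A : GL (Fin 2) F)
    (hdet : (A : Matrix (Fin 2) (Fin 2) F).det = 1)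
    (hA : ∀ c : F, (A : Matrix (Fin 2) (Fin 2) F) ≠ c • 1) :
    ∃ r b1 : GL (Fin 2) F, A = r * (b1 * jGL hF 2 * b1⁻¹ * (jGL hF 2)⁻¹) * r⁻¹ := by
  set M := (A : Matrix (Fin 2) (Fin 2) F) with hM
  have h2 := two_ne_zero' hF
  rw [det_fin_two] at hdet
  set τ := M 0 0 + M 1 1 with hτ
  -- a cyclic vector
  obtain ⟨x, y, hxy⟩ : ∃ x y : F, x * (M 1 0 * x + M 1 1 * y) - (M 0 0 * x + M 0 1 * y) * y ≠ 0 := by
    by_contra hcon
    push Not at hcon
    have e1 := hcon 1 0
    have e2 := hcon 0 1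
    have e3 := hcon 1 1
    refine hA (M 0 0) ?_
    have f1 : M 1 0 = 0 := by linear_combination e1
    have f2 : M 0 1 = 0 := by linear_combination -e2
    have f3 : M 1 1 = M 0 0 := by linear_combination e3 - f1 + f2
    ext i j
    fin_cases i <;> fin_cases j <;> simp [f1, f2, f3]
  let P := mk2 x (M 0 0 * x + M 0 1 * y) y (M 1 0 * x + M 1 1 * y) hxy
  let C := mk2 0 (-1) 1 τ (show (0 : F) * τ - -1 * 1 ≠ 0 by simp)
  have hP : A * P = P * C := by
    refine Units.ext ?_
    rw [Units.val_mul, Units.val_mul, mk2_coe, mk2_coe, ← hM]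
    ext i j
    fin_cases i <;> fin_cases j <;> simp [Matrix.mul_apply, Fin.sum_univ_two, hτ]
    · linear_combination (norm := ring) (-x) * hdet
    · linear_combination (norm := ring) (-y) * hdet
  -- the companion matrix
  suffices H : ∃ g g' K : GL (Fin 2) F, C * g * jGL hF 2 = K * g ∧ K * g' = g' * jGL hF 2 by
    obtain ⟨g, g', K, h1, h2'⟩ := H
    refine ⟨P * g, g⁻¹ * g', ?_⟩
    have hC : C = K * g * (jGL hF 2)⁻¹ * g⁻¹ := by rw [← h1]; group
    have hK : K = g' * jGL hF 2 * g'⁻¹ := by rw [← h2']; group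
    calc A = A * P * P⁻¹ := by group
      _ = P * C * P⁻¹ := by rw [hP]
      _ = _ := by rw [hC, hK]; group
  have hJ : (jGL hF 2 : Matrix (Fin 2) (Fin 2) F) = !![2, 1; 0, 2] := by
    show jmat F 2 = _
    ext i j
    fin_cases i <;> fin_cases j <;> simp [jmat]
  by_cases ht : τ = 2
  · refine ⟨mk2 (-2) 1 2 0 (by simpa using h2), mk2 (-4) 1 4 0 ?_, mk2 (-2) (-4) 4 6 ?_, ?_, ?_⟩
    · intro h
      exact mul_ne_zero h2 h2 (by linear_combination -h)
    · intro h
      exact mul_ne_zero h2 h2 (by linear_combination h)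
    · refine Units.ext ?_
      simp only [Units.val_mul, mk2_coe, hJ]
      ext i j
      fin_cases i <;> fin_cases j <;> simp [C, mk2_coe, Matrix.mul_apply, Fin.sum_univ_two, ht] <;>
        ring
    · refine Units.ext ?_
      simp only [Units.val_mul, mk2_coe, hJ]
      ext i j
      fin_cases i <;> fin_cases j <;> simp [Matrix.mul_apply, Fin.sum_univ_two] <;> ring
  · refine ⟨mk2 (2 * (2 - τ)) 0 0 1 ?_, mk2 (-2) 1 2 0 (by simpa using h2), mk2 0 (-2) 2 4 ?_, ?_, ?_⟩
    · simp [h2, sub_eq_zero, Ne.symm ht]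
    · intro h
      exact mul_ne_zero h2 h2 (by linear_combination h)
    · refine Units.ext ?_
      simp only [Units.val_mul, mk2_coe, hJ]
      ext i j
      fin_cases i <;> fin_cases j <;> simp [C, mk2_coe, Matrix.mul_apply, Fin.sum_univ_two] <;> ring
    · refine Units.ext ?_
      simp only [Units.val_mul, mk2_coe, hJ]
      ext i j
      fin_cases i <;> fin_cases j <;> simp [Matrix.mul_apply, Fin.sum_univ_two] <;> ring

/-- Every admissible inner block is a commutator with `2 + nilpotent`, up to similarity. -/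
theorem exists_block_comm (hF : Fintype.card F = 5) {m : ℕ} (hm : 2 ≤ m) (A : GL (Fin m) F)
    (hdet : (A : Matrix (Fin m) (Fin m) F).det = 1)
    (hA : A = 1 ∨ ∀ c : F, (A : Matrix (Fin m) (Fin m) F) ≠ c • 1) :
    ∃ r b1 : GL (Fin m) F, A = r * (b1 * jGL hF m * b1⁻¹ * (jGL hF m)⁻¹) * r⁻¹ := by
  rcases hA with rfl | hA
  · exact ⟨1, 1, by group⟩
  rcases hm.eq_or_lt with rfl | hm3
  · exact exists_block_comm_two hF A hdet hA
  have h2 := two_ne_zero' hF
  have hγ : SplitCyc (((jGL hF m)⁻¹ : GL (Fin m) F) : Matrix (Fin m) (Fin m) F)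
      (fun _ => (2 : F)⁻¹) :=
    splitCyc_inv (jGL hF m) _ (jmat_diag m) (fun i j h => jmat_upper h) jmat_link
  obtain ⟨L, U, hLU, hL, hU⟩ := exists_splitCyc_mul hm3 (by omega) A hA (fun _ => (2 : F))
    (fun _ => (2 : F)⁻¹) (fun _ => h2) (fun _ => inv_ne_zero h2) (by
      rw [hdet, ← Finset.prod_mul_distrib, Finset.prod_eq_one]
      exact fun i _ => mul_inv_cancel₀ h2)
  obtain ⟨p, rfl⟩ := exists_conj_splitCyc hL (Y := jGL hF m) (splitCyc_jmat m)
  obtain ⟨q, rfl⟩ := exists_conj_splitCyc hU hγ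
  exact ⟨q, q⁻¹ * p, by rw [hLU]; group⟩

/-- Matrices of the shape `fromBlocks K L M 0` with `L` left invertible. -/
theorem good_of_form (hF : Fintype.card F = 5) {m : ℕ} (hm : 2 ≤ m) (hev : Even m)
    (K : Matrix (Fin m) (Fin m) F) (L : Matrix (Fin m) (Fin 2) F) (M : Matrix (Fin 2) (Fin m) F)
    (T : Matrix (Fin 2) (Fin m) F) (hT : T * L = 1) (hdet : (fromBlocks K L M 0).det = 1) :
    CfsgLib.OreOrth.Good (fromBlocks K L M 0) := by
  classical
  let gu : Fˣ → GL (Fin 2) F := fun σ => mk2 1 0 0 (σ : F) (by simp)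
  let CC : Fˣ → GL (Fin 2) F := fun σ => gu σ * qGL F * (gu σ)⁻¹ * (qGL F)⁻¹
  let A1 : Fˣ → Matrix (Fin m) (Fin m) F := fun σ =>
    (1 - L * T) * K - L * (((CC σ)⁻¹ : GL (Fin 2) F) : Matrix (Fin 2) (Fin 2) F) * M
  have hdC : ∀ σ, (CC σ : Matrix (Fin 2) (Fin 2) F).det = 1 := by
    intro σ
    have h : GeneralLinearGroup.det (CC σ) = 1 := by
      simp only [CC, map_mul, map_inv]
      rw [mul_right_comm (GeneralLinearGroup.det (gu σ)), mul_inv_cancel, one_mul, mul_inv_cancel]
    exact congrArg Units.val h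
  -- the block form for each choice
  have hform : ∀ σ : Fˣ, ∃ (X : Matrix (Fin m) (Fin 2) F) (Y : Matrix (Fin 2) (Fin m) F)
      (P : GL (Fin m ⊕ Fin 2) F),
      fromBlocks K L M 0 = (P : Matrix (Fin m ⊕ Fin 2) (Fin m ⊕ Fin 2) F) *
        ((upG X : GL (Fin m ⊕ Fin 2) F) * fromBlocks (A1 σ) 0 0 (CC σ : Matrix (Fin 2) (Fin 2) F) *
          lowG Y : Matrix (Fin m ⊕ Fin 2) (Fin m ⊕ Fin 2) F) *
        ((P⁻¹ : GL (Fin m ⊕ Fin 2) F) : Matrix (Fin m ⊕ Fin 2) (Fin m ⊕ Fin 2) F) := by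
    intro σ
    set C := (CC σ : Matrix (Fin 2) (Fin 2) F) with hC
    set Ci := (((CC σ)⁻¹ : GL (Fin 2) F) : Matrix (Fin 2) (Fin 2) F) with hCi
    have h1 : C * Ci = 1 := (CC σ).mul_inv
    have h2 : Ci * C = 1 := (CC σ).inv_mul
    set Z := -(C * T) with hZ
    have hZL : Z * L = -C := by rw [hZ, Matrix.neg_mul, Matrix.mul_assoc, hT, Matrix.mul_one]
    refine ⟨L * Ci, Ci * (M - Z * K - Z * L * Z), lowG Z, ?_⟩
    set Y := Ci * (M - Z * K - Z * L * Z) with hY
    have hCY : C * Y = M - Z * K - Z * L * Z := by rw [hY, ← Matrix.mul_assoc, h1, Matrix.one_mul]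
    have hmid : ((upG (L * Ci) : GL (Fin m ⊕ Fin 2) F) * fromBlocks (A1 σ) 0 0 C * lowG Y :
        Matrix (Fin m ⊕ Fin 2) (Fin m ⊕ Fin 2) F) = fromBlocks (K + L * Z) L (C * Y) C := by
      show fromBlocks 1 (L * Ci) 0 1 * fromBlocks (A1 σ) 0 0 C * fromBlocks 1 0 Y 1 = _
      simp only [fromBlocks_multiply, Matrix.one_mul, Matrix.zero_mul, Matrix.mul_zero, Matrix.mul_one,
        add_zero, zero_add, Matrix.mul_assoc L Ci C, h2]
      rw [fromBlocks_inj]
      refine ⟨?_, rfl, rfl, rfl⟩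
      rw [hY, hZL]
      simp only [A1, ← hCi, hZ, Matrix.sub_mul, Matrix.mul_neg, Matrix.neg_mul,
        Matrix.mul_assoc, Matrix.one_mul, sub_neg_eq_add]
      simp only [Matrix.mul_add, Matrix.mul_neg, ← Matrix.mul_assoc Ci C, h2, Matrix.one_mul]
      abel
    rw [hmid]
    show fromBlocks K L M 0 = fromBlocks 1 0 Z 1 * fromBlocks (K + L * Z) L (C * Y) C * fromBlocks 1 0 (-Z) 1
    simp only [fromBlocks_multiply, Matrix.one_mul, Matrix.zero_mul, Matrix.mul_zero, Matrix.mul_one,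
      add_zero, zero_add, hZL, neg_add_cancel]
    rw [fromBlocks_inj]
    refine ⟨?_, rfl, ?_, rfl⟩
    · simp only [Matrix.mul_neg]; abel
    · rw [hCY, Matrix.mul_add, ← Matrix.mul_assoc Z L Z]; abel
  have hA1det : ∀ σ, (A1 σ).det = 1 := by
    intro σ
    obtain ⟨X, Y, P, hP⟩ := hform σ
    have h := congrArg Matrix.det hP
    rw [hdet, Matrix.det_units_conj, det_mul, det_mul] at h
    have hu : ((upG X : GL (Fin m ⊕ Fin 2) F) : Matrix (Fin m ⊕ Fin 2) (Fin m ⊕ Fin 2) F).det = 1 := by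
      show (fromBlocks 1 X 0 1).det = 1
      rw [det_fromBlocks_zero₂₁, det_one, det_one, mul_one]
    have hl : ((lowG Y : GL (Fin m ⊕ Fin 2) F) : Matrix (Fin m ⊕ Fin 2) (Fin m ⊕ Fin 2) F).det = 1 := by
      show (fromBlocks 1 0 Y 1).det = 1
      rw [det_fromBlocks_zero₁₂, det_one, det_one, mul_one]
    rw [hu, hl, det_fromBlocks_zero₂₁, hdC, one_mul, mul_one, mul_one] at h
    exact h.symm
  -- some choice is admissible
  obtain ⟨σ, hσ⟩ : ∃ σ : Fˣ, A1 σ = 1 ∨ ∀ c : F, A1 σ ≠ c • 1 := by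
    by_contra hcon
    push Not at hcon
    choose c hc using fun σ => (hcon σ).2
    have hne : ∀ σ, c σ ∈ ({0, 1}ᶜ : Finset F) := by
      intro σ
      simp only [Finset.mem_compl, Finset.mem_insert, Finset.mem_singleton, not_or]
      refine ⟨fun h => ?_, fun h => (hcon σ).1 (by rw [hc σ, h, one_smul])⟩
      have := hA1det σ
      have : Nonempty (Fin m) := ⟨⟨0, by omega⟩⟩
      have := hA1det σ
      rw [hc σ, h, zero_smul, det_zero] at this
      exact zero_ne_one this
    obtain ⟨σ, τ, hne', he⟩ := Fintype.exists_ne_map_eq_of_card_lt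
      (fun σ : Fˣ => (⟨c σ, hne σ⟩ : ({0, 1}ᶜ : Finset F))) (by
        rw [Fintype.card_units, hF, Fintype.card_coe, Finset.card_compl, hF,
          Finset.card_pair zero_ne_one]
        norm_num)
    have he' : c σ = c τ := congrArg Subtype.val he
    have hinv : fromBlocks K L M 0 * (fromBlocks K L M 0)⁻¹ = 1 :=
      mul_nonsing_inv _ (by rw [hdet]; exact isUnit_one)
    rw [← fromBlocks_toBlocks ((fromBlocks K L M 0)⁻¹), fromBlocks_multiply, ← fromBlocks_one,
      fromBlocks_inj] at hinv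
    have hM := hinv.2.2.2
    rw [Matrix.zero_mul, add_zero] at hM
    have h1 : L * (((CC σ)⁻¹ : GL (Fin 2) F) : Matrix (Fin 2) (Fin 2) F) * M =
        L * (((CC τ)⁻¹ : GL (Fin 2) F) : Matrix (Fin 2) (Fin 2) F) * M := by
      have := (hc σ).trans (by rw [he', ← hc τ] : c σ • (1 : Matrix (Fin m) (Fin m) F) = A1 τ)
      simp only [A1] at this
      exact sub_right_injective this
    have h2 := congrArg (fun Z => T * Z * (fromBlocks K L M 0)⁻¹.toBlocks₁₂) h1
    simp only [Matrix.mul_assoc, hM, Matrix.mul_one] at h2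
    rw [← Matrix.mul_assoc, ← Matrix.mul_assoc, hT, Matrix.one_mul, Matrix.one_mul] at h2
    have h3 : CC σ = CC τ := inv_injective (Units.ext h2)
    have h4 : gu σ * qGL F * (gu σ)⁻¹ = gu τ * qGL F * (gu τ)⁻¹ := mul_right_cancel h3
    have key : ∀ ρ : Fˣ, (((gu ρ * qGL F * (gu ρ)⁻¹ : GL (Fin 2) F)) : Matrix (Fin 2) (Fin 2) F) 1 0 = ρ := by
      intro ρ
      have hi : (((gu ρ)⁻¹ : GL (Fin 2) F) : Matrix (Fin 2) (Fin 2) F) = !![1, 0; 0, (ρ : F)⁻¹] := by
        rw [Matrix.coe_units_inv]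
        refine Matrix.inv_eq_right_inv ?_
        ext i j
        fin_cases i <;> fin_cases j <;> simp [gu, mk2_coe, Matrix.mul_apply, Fin.sum_univ_two]
      rw [Units.val_mul, Units.val_mul, hi]
      simp [gu, mk2_coe, qGL, qmat, Matrix.mul_apply, Fin.sum_univ_two]
    exact hne' (Units.ext (by rw [← key σ, ← key τ, h4]))
  -- assemble
  obtain ⟨X, Y, P, hP⟩ := hform σ
  let A1u : GL (Fin m) F := GeneralLinearGroup.mkOfDetNeZero (A1 σ) (by rw [hA1det]; exact one_ne_zero)
  obtain ⟨r, b1, hr⟩ := exists_block_comm hF hm A1u (hA1det σ)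
    (hσ.imp (fun h => Units.ext h) id)
  have hg := (good_couple hF hev r b1 (gu σ) X Y).conj P
  rw [← hr] at hg
  rw [hP]
  exact hg

end CfsgLib.OreOrth.Five
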