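import Cfsg.Agent.Lib.OreOrth.FiveForm
import Cfsg.Agent.Lib.PSLCover.Ratio

/-!
Five elements, even degree: every matrix of determinant one which is the identity or not scalar is good.

If no `A - s` has rank one there is a plane with four independent vectors `e₁, e₂, A e₁, A e₂`. Otherwise
`A` is similar to a commutator of a companion matrix with a diagonal matrix, or to a transvection.
-/

set_option autoImplicit false
set_option linter.unusedSectionVars false

namespace CfsgLib.OreOrth.Five

open Matrix CfsgLib.PSLCover Module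

variable {F : Type*} [Field F]

section Linear

variable {V : Type*} [AddCommGroup V] [Module F V]

/-- An independent family extends to a basis-sized independent family. -/
theorem exists_extend [FiniteDimensional F V] {k : ℕ} (v : Fin k → V) (hv : LinearIndependent F v) {n : ℕ}
    (hn : finrank F V = n) :
    ∃ w : Fin n → V, LinearIndependent F w ∧ ∀ (i : Fin k) (h : i.val < n), w ⟨i, h⟩ = v i := by
  have hkn : k ≤ n := by
    have := hv.fintype_card_le_finrank
    rwa [Fintype.card_fin, hn] at this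
  obtain ⟨d, rfl⟩ := Nat.exists_eq_add_of_le hkn
  induction d generalizing k with
  | zero => exact ⟨v, hv, fun i h => rfl⟩
  | succ d ih =>
    obtain ⟨x, hx⟩ : ∃ x, x ∉ Submodule.span F (Set.range v) := by
      by_contra hcon
      push Not at hcon
      have h := finrank_span_eq_card hv
      rw [Submodule.eq_top_iff'.2 hcon, finrank_top, hn, Fintype.card_fin] at h
      omega
    obtain ⟨w, hw, hwv⟩ := ih (Fin.snoc v x) (hv.finSnoc hx) (by omega) (by omega)
    refine ⟨w ∘ Fin.cast (by omega), hw.comp _ (Fin.cast_injective _), fun i h => ?_⟩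
    have := hwv i.castSucc (by simp only [Fin.val_castSucc]; omega)
    rw [Fin.snoc_castSucc] at this
    exact this

/-- Four independent vectors `e₁, e₂, T e₁, T e₂`. -/
theorem exists_plane [FiniteDimensional F V] (hn : 4 ≤ finrank F V) (T : End F V)
    (hns : ∀ c : F, T ≠ c • 1)
    (hno : ∀ (s : F) (u : V), ∃ x, T x - s • x ∉ Submodule.span F {u}) :
    ∃ a b : V, LinearIndependent F ![a, b, T a, T b] := by
  by_contra hcon
  push Not at hcon
  have bad : ∀ e : V, T e ∉ Submodule.span F {e} →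
      ∃ s : F, ∀ x, T x - s • x ∈ Submodule.span F (Set.range ![e, T e]) := by
    intro e he
    set P := Submodule.span F (Set.range ![e, T e]) with hP
    have hP2 : finrank F P ≤ 2 := by
      have := finrank_range_le_card (R := F) (![e, T e])
      simpa [hP, Set.finrank] using this
    have heP : e ∈ P := Submodule.subset_span ⟨0, rfl⟩
    have hTeP : T e ∈ P := Submodule.subset_span ⟨1, rfl⟩
    have he0 : e ≠ 0 := fun h => he (by simp [h])
    have hli : LinearIndependent F ![e, T e] :=
      (LinearIndependent.pair_iff' he0).2 fun a h =>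
        he (Submodule.mem_span_singleton.2 ⟨a, h⟩)
    have step : ∀ x, x ∉ P → ∃ c : F, T x - c • x ∈ P := by
      intro x hx
      by_contra hc
      push Not at hc
      have h3 : LinearIndependent F (Fin.snoc ![e, T e] x) := hli.finSnoc hx
      have h4 : LinearIndependent F (Fin.snoc (Fin.snoc ![e, T e] x) (T x)) := by
        refine h3.finSnoc fun hm => ?_
        rw [Fin.range_snoc, Submodule.mem_span_insert] at hm
        obtain ⟨c, z, hz, e'⟩ := hm
        exact hc c (by rw [e', add_sub_cancel_left]; exact hz)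
      refine hcon e x ?_
      have h5 := h4.comp ![0, 2, 1, 3] (by decide)
      convert h5 using 1
      funext i
      fin_cases i <;> rfl
    obtain ⟨x₀, hx₀⟩ : ∃ x, x ∉ P := by
      by_contra h
      push Not at h
      rw [Submodule.eq_top_iff'.2 h, finrank_top] at hP2
      omega
    obtain ⟨x₁, hx₁⟩ : ∃ x, x ∉ P ⊔ Submodule.span F {x₀} := by
      by_contra h
      push Not at h
      have := Submodule.finrank_add_le_finrank_add_finrank P (Submodule.span F {x₀})
      rw [Submodule.eq_top_iff'.2 h, finrank_top] at this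
      have := finrank_span_singleton (K := F) (fun h0 : x₀ = 0 => hx₀ (h0 ▸ P.zero_mem))
      omega
    -- `P` is invariant
    have hinv : T (T e) ∈ P := by
      obtain ⟨c, hc⟩ := step x₀ hx₀
      obtain ⟨c', hc'⟩ := step (x₀ + T e) (fun h => hx₀ ((P.add_mem_iff_left hTeP).1 h))
      obtain ⟨d, hd⟩ := step x₁ (fun h => hx₁ (Submodule.mem_sup_left h))
      obtain ⟨d', hd'⟩ := step (x₁ + T e)
        (fun h => hx₁ (Submodule.mem_sup_left ((P.add_mem_iff_left hTeP).1 h)))
      have h1 : T (T e) + (c - c') • x₀ ∈ P := by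
        have e' : T (T e) + (c - c') • x₀ =
            T (x₀ + T e) - c' • (x₀ + T e) - (T x₀ - c • x₀) + c' • T e := by
          rw [map_add]; module
        rw [e']
        exact P.add_mem (P.sub_mem hc' hc) (P.smul_mem _ hTeP)
      have h2 : T (T e) + (d - d') • x₁ ∈ P := by
        have e' : T (T e) + (d - d') • x₁ =
            T (x₁ + T e) - d' • (x₁ + T e) - (T x₁ - d • x₁) + d' • T e := by
          rw [map_add]; module
        rw [e']
        exact P.add_mem (P.sub_mem hd' hd) (P.smul_mem _ hTeP)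
      by_cases h0 : d - d' = 0
      · rwa [h0, zero_smul, add_zero] at h2
      refine absurd ?_ hx₁
      have h3 : (d - d') • x₁ ∈ P ⊔ Submodule.span F {x₀} := by
        have e' : (d - d') • x₁ = (T (T e) + (d - d') • x₁ - (T (T e) + (c - c') • x₀)) + (c - c') • x₀ := by
          abel
        rw [e']
        exact Submodule.add_mem _ (Submodule.mem_sup_left (P.sub_mem h2 h1))
          (Submodule.mem_sup_right (Submodule.smul_mem _ _ (Submodule.mem_span_singleton_self x₀)))
      rwa [Submodule.smul_mem_iff _ h0] at h3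
    have hTP : ∀ p ∈ P, T p ∈ P := by
      intro p hp
      have hle : P ≤ P.comap T := Submodule.span_le.2 (by
        rintro _ ⟨i, rfl⟩
        fin_cases i
        · exact hTeP
        · exact hinv)
      exact hle hp
    obtain ⟨s, hs⟩ := step x₀ hx₀
    have hout : ∀ x, x ∉ P ⊔ Submodule.span F {x₀} → T x - s • x ∈ P := by
      intro x hx
      obtain ⟨c, hc⟩ := step x (fun h => hx (Submodule.mem_sup_left h))
      obtain ⟨c', hc'⟩ := step (x + x₀) (fun h => hx (by
        have : x = (x + x₀) - x₀ := by abel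
        rw [this]
        exact Submodule.sub_mem _ (Submodule.mem_sup_left h)
          (Submodule.mem_sup_right (Submodule.mem_span_singleton_self x₀))))
      have h1 : (c - c') • x + (s - c') • x₀ ∈ P := by
        have e' : (c - c') • x + (s - c') • x₀ =
            T (x + x₀) - c' • (x + x₀) - (T x - c • x) - (T x₀ - s • x₀) := by
          rw [map_add]; module
        rw [e']
        exact P.sub_mem (P.sub_mem hc' hc) hs
      have hcc : c = c' := by
        by_contra h
        refine hx ?_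
        rw [← Submodule.smul_mem_iff _ (sub_ne_zero.2 h)]
        have e' : (c - c') • x = ((c - c') • x + (s - c') • x₀) - (s - c') • x₀ := by abel
        rw [e']
        exact Submodule.sub_mem _ (Submodule.mem_sup_left h1)
          (Submodule.mem_sup_right (Submodule.smul_mem _ _ (Submodule.mem_span_singleton_self x₀)))
      rw [hcc, sub_self, zero_smul, zero_add] at h1
      have hsc : s = c' := by
        by_contra h
        exact hx₀ ((Submodule.smul_mem_iff _ (sub_ne_zero.2 h)).1 h1)
      rwa [hsc, ← hcc]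
    refine ⟨s, fun x => ?_⟩
    by_cases hx : x ∈ P ⊔ Submodule.span F {x₀}
    · obtain ⟨p, hp, q, hq, rfl⟩ := Submodule.mem_sup.1 hx
      obtain ⟨a, rfl⟩ := Submodule.mem_span_singleton.1 hq
      have e' : T (p + a • x₀) - s • (p + a • x₀) = (T p - s • p) + a • (T x₀ - s • x₀) := by
        rw [map_add, map_smul]; module
      rw [e']
      exact P.add_mem (P.sub_mem (hTP p hp) (P.smul_mem _ hp)) (P.smul_mem _ hs)
    · exact hout x hx
  obtain ⟨e, he⟩ : ∃ e, T e ∉ Submodule.span F {e} := by
    by_contra hall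
    push Not at hall
    obtain ⟨c, hc⟩ := LinearMap.exists_eq_smul_id_of_forall_notLinearIndependent
      (f := T) (fun v h => by
        obtain ⟨a, ha⟩ := Submodule.mem_span_singleton.1 (hall v)
        have hv0 : v ≠ 0 := fun h0 => by
          have := h.ne_zero 0
          simp [h0] at this
        exact (LinearIndependent.pair_iff' hv0).1 h a ha)
    exact hns c hc
  obtain ⟨s, hs⟩ := bad e he
  set P := Submodule.span F (Set.range ![e, T e]) with hP
  set f : End F V := T - s • 1 with hf
  have hfa : ∀ x, f x = T x - s • x := fun x => rfl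
  obtain ⟨k, hk, hkP⟩ : ∃ k, f k = 0 ∧ k ∉ P := by
    by_contra hcon'
    push Not at hcon'
    have hker : LinearMap.ker f ≤ P := fun x hx => hcon' x hx
    have hr : LinearMap.range f ≤ P := by
      rintro _ ⟨x, rfl⟩
      exact hs x
    have h1 := Submodule.finrank_mono hr
    have h2 := Submodule.finrank_mono hker
    have h3 := LinearMap.finrank_range_add_finrank_ker f
    have hP2 : finrank F P ≤ 2 := by
      have := finrank_range_le_card (R := F) (![e, T e])
      simpa [hP, Set.finrank] using this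
    have h4 : LinearMap.ker f = P := Submodule.eq_of_le_of_finrank_le hker (by omega)
    refine he (Submodule.mem_span_singleton.2 ⟨s, ?_⟩)
    have : e ∈ LinearMap.ker f := by rw [h4]; exact Submodule.subset_span ⟨0, rfl⟩
    exact (sub_eq_zero.1 this).symm
  have hTk : T k = s • k := sub_eq_zero.1 hk
  have he' : T (e + k) ∉ Submodule.span F {e + k} := by
    intro h
    obtain ⟨a, ha⟩ := Submodule.mem_span_singleton.1 h
    rw [map_add, hTk] at ha
    have h1 : (a - s) • k ∈ P := by
      have e' : (a - s) • k = T e - a • e := by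
        linear_combination (norm := module) ha
      rw [e']
      exact P.sub_mem (Submodule.subset_span ⟨1, rfl⟩) (P.smul_mem _ (Submodule.subset_span ⟨0, rfl⟩))
    have has : a = s := by
      by_contra h
      exact hkP ((Submodule.smul_mem_iff _ (sub_ne_zero.2 h)).1 h1)
    refine he (Submodule.mem_span_singleton.2 ⟨s, ?_⟩)
    rw [has] at ha
    linear_combination (norm := module) ha
  obtain ⟨s', hs'⟩ := bad (e + k) he'
  have hmem' : ∀ y ∈ Submodule.span F (Set.range ![e + k, T (e + k)]),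
      ∃ α β : F, y = α • (e + k) + β • (T e + s • k) := by
    intro y hy
    obtain ⟨c, hc⟩ := (Submodule.mem_span_range_iff_exists_fun F).1 hy
    refine ⟨c 0, c 1, ?_⟩
    rw [← hc, Fin.sum_univ_two]
    simp [map_add, hTk]
  rcases eq_or_ne s' s with rfl | hne
  · obtain ⟨x, hx⟩ := hno s' (f e)
    refine hx ?_
    obtain ⟨α, β, hy⟩ := hmem' _ (hs' x)
    have h1 : (α + β * s') • k ∈ P := by
      have e' : (α + β * s') • k = (T x - s' • x) - α • e - β • T e := by
        rw [hy]; module
      rw [e']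
      exact P.sub_mem (P.sub_mem (hs x) (P.smul_mem _ (Submodule.subset_span ⟨0, rfl⟩)))
        (P.smul_mem _ (Submodule.subset_span ⟨1, rfl⟩))
    have h2 : α + β * s' = 0 := by
      by_contra h
      exact hkP ((Submodule.smul_mem_iff _ h).1 h1)
    refine Submodule.mem_span_singleton.2 ⟨β, ?_⟩
    rw [hy, hfa, show α = -(β * s') by linear_combination h2]
    module
  · have hall : ∀ x : V, x ∈ Submodule.span F (Set.range ![e, T e, k]) := by
      intro x
      obtain ⟨α, β, hy⟩ := hmem' _ (hs' x)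
      obtain ⟨c, hc⟩ := (Submodule.mem_span_range_iff_exists_fun F).1 (hs x)
      rw [Fin.sum_univ_two] at hc
      simp only [Matrix.cons_val_zero, Matrix.cons_val_one] at hc
      have e' : (s' - s) • x = (c 0 - α) • e + (c 1 - β) • T e + (-(α + β * s)) • k := by
        linear_combination (norm := module) -hc - hy
      rw [← Submodule.smul_mem_iff _ (sub_ne_zero.2 hne), e']
      refine Submodule.add_mem _ (Submodule.add_mem _ (Submodule.smul_mem _ _ ?_) (Submodule.smul_mem _ _ ?_))
        (Submodule.smul_mem _ _ ?_)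
      · exact Submodule.subset_span ⟨0, rfl⟩
      · exact Submodule.subset_span ⟨1, rfl⟩
      · exact Submodule.subset_span ⟨2, rfl⟩
    have h3 := finrank_range_le_card (R := F) (![e, T e, k])
    rw [Set.finrank, Submodule.eq_top_iff'.2 hall, finrank_top, Fintype.card_fin] at h3
    omega

/-- Normal form when `T - s` has rank one. -/
theorem exists_rank_one_frame [FiniteDimensional F V] {n : ℕ} (hn : finrank F V = n + 2) (T : End F V)
    (s : F) (u : V) (hr : ∀ x, T x - s • x ∈ Submodule.span F {u}) (hne : T ≠ s • 1) :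
    ∃ (w : Fin (n + 2) → V) (a c : F), LinearIndependent F w ∧ (∀ j, j ≠ 0 → T (w j) = s • w j) ∧
      T (w 0) = a • w 0 + c • w 1 ∧ ((a ≠ s ∧ c = 0) ∨ (a = s ∧ c = 1)) := by
  set f : End F V := T - s • 1 with hf
  have hfa : ∀ x, f x = T x - s • x := fun x => rfl
  obtain ⟨x, hx⟩ : ∃ x, f x ≠ 0 := by
    by_contra h
    push Not at h
    exact hne (sub_eq_zero.1 (LinearMap.ext h))
  have hrle : LinearMap.range f ≤ Submodule.span F {u} := by
    rintro _ ⟨y, rfl⟩
    exact hr y
  have hrk : finrank F (LinearMap.range f) = 1 := by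
    refine le_antisymm ((Submodule.finrank_mono hrle).trans ?_) (Nat.one_le_iff_ne_zero.2 fun h => hx ?_)
    · exact (finrank_span_le_card _).trans (by simp)
    · exact LinearMap.congr_fun (LinearMap.range_eq_bot.1 (Submodule.finrank_eq_zero.1 h)) x
  have hker : finrank F (LinearMap.ker f) = n + 1 := by
    have := LinearMap.finrank_range_add_finrank_ker f
    omega
  have cons : ∀ (w0 : V) (w' : Fin (n + 1) → LinearMap.ker f), w0 ∉ LinearMap.ker f →
      LinearIndependent F w' → LinearIndependent F (Fin.cons w0 (fun i => (w' i : V)) : Fin (n + 2) → V) := by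
    intro w0 w' hw0 hw'
    refine linearIndependent_finCons.2 ⟨hw'.map' (LinearMap.ker f).subtype (Submodule.ker_subtype _), fun h => hw0 ?_⟩
    exact (Submodule.span_le.2 (by rintro _ ⟨i, rfl⟩; exact (w' i).2) : _ ≤ LinearMap.ker f) h
  set d := f x with hd
  by_cases hfd : f d = 0
  · obtain ⟨w', hw', hw'0⟩ := exists_extend (![(⟨d, hfd⟩ : LinearMap.ker f)])
      (linearIndependent_unique_iff.2 (by simp [Subtype.ext_iff, hx])) hker
    refine ⟨Fin.cons x (fun i => (w' i : V)), s, 1, cons x w' hx hw', fun j hj => ?_, ?_, Or.inr ⟨rfl, rfl⟩⟩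
    · obtain ⟨i, rfl⟩ := Fin.exists_succ_eq.2 hj
      rw [Fin.cons_succ]
      exact sub_eq_zero.1 (w' i).2
    · have h0 : (w' 0 : V) = d := by
        have := congrArg Subtype.val (hw'0 0 (Nat.succ_pos n))
        simpa using this
      rw [Fin.cons_zero, show (1 : Fin (n + 2)) = Fin.succ 0 from rfl, Fin.cons_succ, h0, one_smul, hd, hfa]
      abel
  · obtain ⟨w', hw', -⟩ := exists_extend (Fin.elim0 : Fin 0 → LinearMap.ker f)
      linearIndependent_empty_type hker
    obtain ⟨β, hβ⟩ := Submodule.mem_span_singleton.1 (hr x)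
    obtain ⟨γ, hγ⟩ := Submodule.mem_span_singleton.1 (hr d)
    have hβ0 : β ≠ 0 := fun h => hx (by rw [hd, hfa, ← hβ, h, zero_smul])
    have hγ0 : γ ≠ 0 := fun h => hfd (by rw [hfa, ← hγ, h, zero_smul])
    have hα : T d = (s + γ / β) • d := by
      have h1 : (γ / β) • d = T d - s • d := by
        rw [hd, hfa, ← hβ, smul_smul, div_mul_cancel₀ _ hβ0, hγ, hβ]
        rw [← hfa x, ← hd]
      rw [add_smul, h1]
      abel
    refine ⟨Fin.cons d (fun i => (w' i : V)), s + γ / β, 0, cons d w' hfd hw', fun j hj => ?_, ?_,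
      Or.inl ⟨fun h => div_ne_zero hγ0 hβ0 (by linear_combination h), rfl⟩⟩
    · obtain ⟨i, rfl⟩ := Fin.exists_succ_eq.2 hj
      rw [Fin.cons_succ]
      exact sub_eq_zero.1 (w' i).2
    · rw [Fin.cons_zero, zero_smul, add_zero, hα]

end Linear

/-- The columns of an independent family as a unit. -/
theorem exists_frame {n : ℕ} (w : Fin n → Fin n → F) (hw : LinearIndependent F w) :
    ∃ P : GL (Fin n) F, ∀ j, (P : Matrix (Fin n) (Fin n) F) *ᵥ Pi.single j 1 = w j := by
  have hu : IsUnit (Matrix.of fun i j => w j i) := Matrix.linearIndependent_cols_iff_isUnit.1 hw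
  obtain ⟨P, hP⟩ := hu
  exact ⟨P, fun j => by rw [hP, mulVec_single_one]; rfl⟩

/-- Two rank-one perturbations of the same scalar with determinant one are similar. -/
theorem rank_one_similar {n : ℕ} (s : F) (A B : Matrix (Fin (n + 2)) (Fin (n + 2)) F)
    (hA : ∃ u, ∀ x, A *ᵥ x - s • x ∈ Submodule.span F {u})
    (hB : ∃ u, ∀ x, B *ᵥ x - s • x ∈ Submodule.span F {u})
    (hAn : A ≠ s • 1) (hBn : B ≠ s • 1) (hAd : A.det = 1) (hBd : B.det = 1) :
    ∃ P : GL (Fin (n + 2)) F, A = (P : Matrix _ _ F) * B * ((P⁻¹ : GL (Fin (n + 2)) F) : Matrix _ _ F) := by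
  have nf : ∀ (M : Matrix (Fin (n + 2)) (Fin (n + 2)) F), (∃ u, ∀ x, M *ᵥ x - s • x ∈ Submodule.span F {u}) →
      M ≠ s • 1 → M.det = 1 → ∃ (P : GL (Fin (n + 2)) F) (a c : F),
        M * (P : Matrix (Fin (n + 2)) (Fin (n + 2)) F) = (P : Matrix (Fin (n + 2)) (Fin (n + 2)) F) *
          Matrix.of (fun i j => if j = 0 then (if i = 0 then a else if i = 1 then c else 0)
            else if i = j then s else 0) ∧
        a * s ^ (n + 1) = 1 ∧ ((a ≠ s ∧ c = 0) ∨ (a = s ∧ c = 1)) := by
    rintro M ⟨u, hu⟩ hMn hMd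
    obtain ⟨w, a, c, hw, hj, h0, hac⟩ := exists_rank_one_frame (n := n) (finrank_fin_fun F)
      (Matrix.toLin' M) s u (fun x => by simpa using hu x) (fun h => hMn (by
        have := congrArg LinearMap.toMatrix' h
        simpa using this))
    obtain ⟨P, hP⟩ := exists_frame w hw
    set N : Matrix (Fin (n + 2)) (Fin (n + 2)) F := Matrix.of (fun i j => if j = 0 then
      (if i = 0 then a else if i = 1 then c else 0) else if i = j then s else 0) with hN
    have hMP : M * (P : Matrix (Fin (n + 2)) (Fin (n + 2)) F) = (P : Matrix _ _ F) * N := by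
      refine Matrix.ext_iff_mulVec.2 fun v => ?_
      rw [pi_eq_sum_univ' v]
      simp only [mulVec_sum, mulVec_smul, ← mulVec_mulVec, hP]
      refine Finset.sum_congr rfl fun j _ => ?_
      congr 1
      by_cases hj0 : j = 0
      · subst hj0
        have e : N *ᵥ Pi.single (0 : Fin (n + 2)) 1 = a • Pi.single 0 1 + c • Pi.single 1 1 := by
          funext i
          rw [mulVec_single_one]
          by_cases h1 : i = 0
          · subst h1; simp [hN]
          · by_cases h2 : i = 1
            · subst h2; simp [hN]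
            · simp [hN, h1, h2]
        rw [e, mulVec_add, mulVec_smul, mulVec_smul, hP, hP]
        simpa using h0
      · have e : N *ᵥ Pi.single j 1 = s • Pi.single j 1 := by
          funext i
          rw [mulVec_single_one]
          by_cases h1 : i = j
          · subst h1; simp [hN, hj0]
          · simp [hN, hj0, h1]
        rw [e, mulVec_smul, hP]
        simpa using hj j hj0
    have hd : N.det = a * s ^ (n + 1) := by
      rw [det_of_isLowerTriangular N (fun i j (hij : i < j) => by
        have hj0 : j ≠ 0 := fun h => by rw [h] at hij; exact absurd hij (Fin.not_lt_zero i)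
        simp [hN, hj0, hij.ne]), Fin.prod_univ_succ]
      simp [hN]
    refine ⟨P, a, c, hMP, ?_, hac⟩
    have h := congrArg Matrix.det hMP
    rw [det_mul, det_mul, hMd, one_mul, hd] at h
    have hP0 : (P : Matrix (Fin (n + 2)) (Fin (n + 2)) F).det ≠ 0 :=
      ((Matrix.isUnit_iff_isUnit_det _).1 P.isUnit).ne_zero
    exact mul_left_cancel₀ hP0 (by rw [← h, mul_one])
  obtain ⟨P, a, c, hP, ha, hac⟩ := nf A hA hAn hAd
  obtain ⟨Q, a', c', hQ, ha', hac'⟩ := nf B hB hBn hBd
  have hs0 : s ≠ 0 := fun h => by simp [h] at ha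
  obtain rfl : a = a' := mul_right_cancel₀ (pow_ne_zero (n + 1) hs0) (ha.trans ha'.symm)
  obtain rfl : c = c' := by
    rcases hac with ⟨h1, rfl⟩ | ⟨h1, rfl⟩ <;> rcases hac' with ⟨h2, rfl⟩ | ⟨h2, rfl⟩
    · rfl
    · exact absurd h2 h1
    · exact absurd h1 h2
    · rfl
  refine ⟨P * Q⁻¹, ?_⟩
  rw [_root_.mul_inv_rev, inv_inv, Units.val_mul, Units.val_mul]
  have h1 : ((Q⁻¹ : GL (Fin (n + 2)) F) : Matrix _ _ F) * B * (Q : Matrix _ _ F) =
      ((Q⁻¹ : GL (Fin (n + 2)) F) : Matrix _ _ F) * (Q : Matrix _ _ F) *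
        Matrix.of (fun i j => if j = 0 then (if i = 0 then a else if i = 1 then c else 0)
          else if i = j then s else 0) := by
    rw [Matrix.mul_assoc, hQ, Matrix.mul_assoc]
  calc A = A * (P : Matrix _ _ F) * ((P⁻¹ : GL (Fin (n + 2)) F) : Matrix _ _ F) := by
        rw [Matrix.mul_assoc, Units.mul_inv, Matrix.mul_one]
    _ = (P : Matrix _ _ F) * (((Q⁻¹ : GL (Fin (n + 2)) F) : Matrix _ _ F) * B * (Q : Matrix _ _ F)) *
        ((P⁻¹ : GL (Fin (n + 2)) F) : Matrix _ _ F) := by rw [h1, Units.inv_mul, Matrix.one_mul, hP]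
    _ = _ := by simp only [Matrix.mul_assoc]

variable [Fintype F]

theorem det_smul_sub_blocks (hF : Fintype.card F = 5) (m : ℕ) {c : F} (hc : c ≠ 2) :
    (c • 1 - (hGL hF m : Matrix (Fin m ⊕ Fin 2) (Fin m ⊕ Fin 2) F)).det ≠ 0 := by
  have e : c • 1 - (hGL hF m : Matrix (Fin m ⊕ Fin 2) (Fin m ⊕ Fin 2) F) =
      fromBlocks (c • 1 - jmat F m) 0 0 (c • 1 - qmat F) := by
    show c • 1 - fromBlocks (jmat F m) 0 0 (qmat F) = _
    rw [← fromBlocks_one, fromBlocks_smul, smul_zero, smul_zero, sub_eq_add_neg, fromBlocks_neg,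
      fromBlocks_add]
    simp [sub_eq_add_neg]
  rw [e, det_fromBlocks_zero₂₁, det_of_isUpperTriangular (fun i j (hij : j < i) => by
    simp [jmat_upper hij, Matrix.one_apply_ne hij.ne'])]
  refine mul_ne_zero (Finset.prod_ne_zero_iff.2 fun i _ => ?_) ?_
  · simpa [jmat_diag] using sub_ne_zero.2 hc
  · intro h
    simp [qmat, det_fin_two] at h
    obtain ⟨f, hf⟩ := natCast_zmod hF
    obtain ⟨z, rfl⟩ := hf.2 c
    have key : ∀ z : ZMod 5, z * (z - 2) - 1 ≠ 0 := by decide
    exact key z (hf.1 (by simp only [map_sub, map_mul, map_ofNat, map_one, map_zero]; linear_combination h))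

/-- The model second entry has a cyclic vector. -/
theorem hasCyclic_hGL (hF : Fintype.card F = 5) {m : ℕ} (hm : 0 < m) :
    HasCyclic (hGL hF m : Matrix (Fin m ⊕ Fin 2) (Fin m ⊕ Fin 2) F) := by
  set h := (hGL hF m : Matrix (Fin m ⊕ Fin 2) (Fin m ⊕ Fin 2) F) with hh
  have hcoe : h = fromBlocks (jmat F m) 0 0 (qmat F) := rfl
  set last : Fin m := ⟨m - 1, by omega⟩ with hlast
  set v : Fin m ⊕ Fin 2 → F := Sum.elim (Pi.single last 1) ![1, 0] with hv
  refine ⟨v, ?_⟩
  set W := Submodule.span F (Set.range fun i : ℕ => (h ^ i) *ᵥ v) with hW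
  have hinv : ∀ w ∈ W, h *ᵥ w ∈ W := by
    intro w hw
    have hle : W ≤ W.comap (Matrix.toLin' h) := Submodule.span_le.2 (by
      rintro _ ⟨i, rfl⟩
      refine Submodule.subset_span ⟨i + 1, ?_⟩
      simp [pow_succ', mulVec_mulVec])
    simpa using hle hw
  set N1 := jmat F m - (2 : F) • 1 with hN1
  set N2 := qmat F - (2 : F) • 1 with hN2
  have hblock : ∀ (x : Fin m → F) (y : Fin 2 → F),
      h *ᵥ Sum.elim x y - (2 : F) • Sum.elim x y = Sum.elim (N1 *ᵥ x) (N2 *ᵥ y) := by
    intro x y
    rw [hcoe, fromBlocks_mulVec]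
    funext i
    rcases i with i | i <;> simp [hN1, hN2, sub_mulVec, smul_mulVec]
    fin_cases i <;> simp [vecHead, vecTail]
  have hstep : ∀ (k : ℕ) (x : Fin m → F) (y : Fin 2 → F), Sum.elim x y ∈ W →
      Sum.elim ((N1 ^ k) *ᵥ x) ((N2 ^ k) *ᵥ y) ∈ W := by
    intro k
    induction k with
    | zero => intro x y hxy; simpa using hxy
    | succ k ih =>
      intro x y hxy
      have h1 := W.sub_mem (hinv _ hxy) (W.smul_mem (2 : F) hxy)
      rw [hblock] at h1
      have := ih _ _ h1
      rwa [mulVec_mulVec, mulVec_mulVec, ← pow_succ, ← pow_succ] at this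
  have hvW : v ∈ W := Submodule.subset_span ⟨0, by simp⟩
  set q := (N2 ^ m) *ᵥ ![1, 0] with hq
  have hqW : Sum.elim (0 : Fin m → F) q ∈ W := by
    have := hstep m _ _ hvW
    rwa [hN1, jmat_nilpotent, zero_mulVec] at this
  have hq0 : q ≠ 0 := by
    intro h0
    have hu : IsUnit (N2 ^ m) := by
      refine IsUnit.pow m ((Matrix.isUnit_iff_isUnit_det _).2 ?_)
      simp [hN2, qmat, det_fin_two]
    have := Matrix.mulVec_injective_iff_isUnit.2 hu (h0.trans (mulVec_zero _).symm)
    simpa using congrFun this 0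
  have hqQ : Sum.elim (0 : Fin m → F) (qmat F *ᵥ q) ∈ W := by
    have := hinv _ hqW
    rwa [hcoe, fromBlocks_mulVec, Sum.elim_comp_inl, Sum.elim_comp_inr, mulVec_zero, zero_mulVec,
      zero_mulVec, zero_add, zero_add] at this
  have hD : q 0 * (q 0 + 2 * q 1) - q 1 * q 1 ≠ 0 := by
    intro hD
    by_cases h0 : q 0 = 0
    · rw [h0] at hD
      have h1 : q 1 * q 1 = 0 := by linear_combination -hD
      exact hq0 (funext fun i => by fin_cases i; exacts [h0, mul_self_eq_zero.1 h1])
    · obtain ⟨f, hf⟩ := natCast_zmod hF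
      obtain ⟨z, hz⟩ := hf.2 (q 1 / q 0)
      have key : ∀ z : ZMod 5, 1 + 2 * z - z * z ≠ 0 := by decide
      refine key z (hf.1 ?_)
      simp only [map_sub, map_add, map_mul, map_ofNat, map_one, map_zero, hz]
      field_simp
      linear_combination hD
  have hright : ∀ y : Fin 2 → F, Sum.elim (0 : Fin m → F) y ∈ W := by
    intro y
    set D := q 0 * (q 0 + 2 * q 1) - q 1 * q 1
    have e : Sum.elim (0 : Fin m → F) y =
        ((y 0 * (q 0 + 2 * q 1) - y 1 * q 1) / D) • Sum.elim (0 : Fin m → F) q +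
          ((y 1 * q 0 - y 0 * q 1) / D) • Sum.elim (0 : Fin m → F) (qmat F *ᵥ q) := by
      funext i
      rcases i with i | i
      · simp
      · fin_cases i <;> simp [qmat, dotProduct, Fin.sum_univ_two] <;> field_simp <;> ring
    rw [e]
    exact W.add_mem (W.smul_mem _ hqW) (W.smul_mem _ hqQ)
  have hsingle : ∀ k : ℕ, ∀ (hk : k < m),
      Sum.elim (Pi.single (⟨m - 1 - k, by omega⟩ : Fin m) 1) (0 : Fin 2 → F) ∈ W := by
    intro k
    induction k with
    | zero =>
      intro hk
      have := W.sub_mem hvW (hright ![1, 0])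
      convert this using 1
      funext i
      rcases i with i | i <;> simp [hv, hlast]
    | succ k ih =>
      intro hk
      have := hstep 1 _ _ (ih (by omega))
      rw [pow_one, pow_one, mulVec_zero] at this
      convert this using 2
      funext i
      rw [mulVec_single_one]
      simp only [hN1, Matrix.sub_apply, Matrix.col_apply, Matrix.smul_apply, Matrix.one_apply, jmat,
        Matrix.of_apply, Pi.single_apply, Fin.ext_iff, smul_eq_mul]
      split_ifs <;> first | omega | ring
  rw [eq_top_iff]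
  intro w _
  have e : w = (∑ i : Fin m, w (Sum.inl i) • Sum.elim (Pi.single i 1) (0 : Fin 2 → F)) +
      Sum.elim (0 : Fin m → F) (fun j => w (Sum.inr j)) := by
    funext i
    rcases i with i | i
    · simp [Finset.sum_apply, Pi.single_apply]
    · simp [Finset.sum_apply]
  rw [e]
  refine W.add_mem (W.sum_mem fun i _ => W.smul_mem _ ?_) (hright _)
  have := hsingle (m - 1 - i.val) (by omega)
  rwa [show (⟨m - 1 - (m - 1 - i.val), by omega⟩ : Fin m) = i from Fin.ext (show m - 1 - (m - 1 - i.val) = i.val by omega)] at this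

/-- A scalar plus rank one is good. -/
theorem good_rank_one (hF : Fintype.card F = 5) {m : ℕ} (hm : 2 ≤ m) (hev : Even m)
    (A : Matrix (Fin (m + 2)) (Fin (m + 2)) F) (hdet : A.det = 1) (s : F)
    (hA : ∃ u, ∀ x, A *ᵥ x - s • x ∈ Submodule.span F {u}) (hns : A ≠ s • 1) :
    CfsgLib.OreOrth.Good A := by
  classical
  set e : Fin m ⊕ Fin 2 ≃ Fin (m + 2) := finSumFinEquiv with he
  by_cases hs1 : s = 1
  · -- a transvection
    subst hs1
    let X : Matrix (Fin m) (Fin 2) F := Matrix.of fun i j => if i.val = 0 ∧ j.val = 0 then 1 else 0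
    have hXv : ∀ (z : Fin 2 → F) (i : Fin m), (X *ᵥ z) i = if i.val = 0 then z 0 else 0 := fun z i => by
      by_cases hi : i.val = 0 <;> simp [X, mulVec, dotProduct, hi]
    have hX : CfsgLib.OreOrth.Good (fromBlocks 1 X 0 1) := by
      have h := good_couple hF hev 1 1 1 X 0
      have e1 : blk (1 * (1 * jGL hF m * (1 : GL (Fin m) F)⁻¹ * (jGL hF m)⁻¹) * (1 : GL (Fin m) F)⁻¹)
          (1 * qGL F * (1 : GL (Fin 2) F)⁻¹ * (qGL F)⁻¹) = (1 : GL (Fin m ⊕ Fin 2) F) := by
        refine Units.ext ?_
        simp [blk]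
      rw [e1] at h
      have e2 : (lowG (0 : Matrix (Fin 2) (Fin m) F) : GL (Fin m ⊕ Fin 2) F) = 1 :=
        Units.ext (by simp [lowG])
      rw [e2] at h
      simpa [upG] using h
    have hX' := Good.reindex hX e
    have hT1 : ∃ u, ∀ x, Matrix.reindex e e (fromBlocks 1 X 0 1) *ᵥ x - (1 : F) • x ∈
        Submodule.span F {u} := by
      refine ⟨Pi.single (e (Sum.inl ⟨0, by omega⟩)) 1, fun x => Submodule.mem_span_singleton.2
        ⟨x (e (Sum.inr 0)), ?_⟩⟩
      funext i
      obtain ⟨i, rfl⟩ := e.surjective i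
      rw [reindex_apply, submatrix_mulVec_equiv, Equiv.symm_symm]
      simp only [Pi.sub_apply, Function.comp_apply, Equiv.symm_apply_apply, fromBlocks_mulVec,
        Pi.smul_apply, smul_eq_mul, one_mul, Pi.single_apply, EmbeddingLike.apply_eq_iff_eq]
      rcases i with i | i
      · by_cases hi : i.val = 0
        · simp [hXv, hi, Fin.ext_iff]
        · simp [hXv, hi, Fin.ext_iff]
      · simp
    have hTn : Matrix.reindex e e (fromBlocks 1 X 0 1) ≠ (1 : F) • 1 := by
      intro h
      have h' := congrFun (congrFun h (e (Sum.inl ⟨0, by omega⟩))) (e (Sum.inr 0))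
      simp [X] at h'
    have hTd : (Matrix.reindex e e (fromBlocks 1 X 0 1)).det = 1 := by
      rw [Matrix.det_reindex_self, det_fromBlocks_zero₂₁, det_one, det_one, mul_one]
    obtain ⟨P, hP⟩ := rank_one_similar (1 : F) A _ hA hT1 hns hTn hdet hTd
    rw [hP]
    exact hX'.conj P
  · -- a commutator of a companion matrix with a diagonal matrix
    have hs0 : s ≠ 0 := by
      rintro rfl
      obtain ⟨u, hu⟩ := hA
      have hunit : IsUnit A := (Matrix.isUnit_iff_isUnit_det A).2 (by rw [hdet]; exact isUnit_one)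
      have hall : ∀ y, y ∈ Submodule.span F ({u} : Set (Fin (m + 2) → F)) := by
        intro y
        obtain ⟨x, rfl⟩ := (Matrix.mulVec_surjective_iff_isUnit.2 hunit) y
        simpa using hu x
      have h1 := finrank_range_le_card (R := F) (fun _ : Fin 1 => u)
      rw [Set.finrank, Set.range_const, Submodule.eq_top_iff'.2 hall, finrank_top, finrank_fin_fun,
        Fintype.card_fin] at h1
      omega
    let ψ : GL (Fin m ⊕ Fin 2) F →* GL (Fin (m + 2)) F :=
      Units.map (Matrix.reindexAlgEquiv F F e).toMonoidHom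
    set h' : GL (Fin (m + 2)) F := ψ (hGL hF m) with hh'
    have hh'c : (h' : Matrix (Fin (m + 2)) (Fin (m + 2)) F) =
        Matrix.reindex e e (hGL hF m : Matrix (Fin m ⊕ Fin 2) (Fin m ⊕ Fin 2) F) := rfl
    obtain ⟨v, hv⟩ := (hasCyclic_hGL hF (by omega : 0 < m)).reindex e
    rw [← hh'c] at hv
    let P : GL (Fin (m + 2)) F := GeneralLinearGroup.mkOfDetNeZero
      (kry (h' : Matrix (Fin (m + 2)) (Fin (m + 2)) F) v) (det_kry_ne_zero hv)
    set K : GL (Fin (m + 2)) F := P⁻¹ * h' * P with hK
    have hKcol : ∀ i j : Fin (m + 2), i.val + 1 = j.val →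
        (K : Matrix (Fin (m + 2)) (Fin (m + 2)) F) *ᵥ Pi.single i 1 = Pi.single j 1 := by
      intro i j hij
      have e1 : (h' : Matrix (Fin (m + 2)) (Fin (m + 2)) F) *ᵥ
          ((P : Matrix (Fin (m + 2)) (Fin (m + 2)) F) *ᵥ Pi.single i 1) =
          (P : Matrix (Fin (m + 2)) (Fin (m + 2)) F) *ᵥ Pi.single j 1 := by
        have hc : ∀ l : Fin (m + 2), (P : Matrix (Fin (m + 2)) (Fin (m + 2)) F) *ᵥ Pi.single l 1 =
            ((h' : Matrix (Fin (m + 2)) (Fin (m + 2)) F) ^ (l : ℕ)) *ᵥ v := fun l => by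
          rw [mulVec_single_one]; rfl
        rw [hc, hc, mulVec_mulVec, ← pow_succ', hij]
      rw [hK, Units.val_mul, Units.val_mul, ← mulVec_mulVec, ← mulVec_mulVec, e1, mulVec_mulVec,
        Units.inv_mul, one_mulVec]
    have hdd : (Matrix.diagonal fun i : Fin (m + 2) => s ^ i.val).det ≠ 0 := by
      rw [det_diagonal]
      exact Finset.prod_ne_zero_iff.2 fun i _ => pow_ne_zero _ hs0
    let D : GL (Fin (m + 2)) F := GeneralLinearGroup.mkOfDetNeZero _ hdd
    set A' : GL (Fin (m + 2)) F := D * K * D⁻¹ * K⁻¹ with hA'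
    have hcol : ∀ j : Fin (m + 2), j ≠ 0 →
        (A' : Matrix (Fin (m + 2)) (Fin (m + 2)) F) *ᵥ Pi.single j 1 = s • Pi.single j 1 := by
      intro j hj
      have hj' : j.val ≠ 0 := fun h => hj (Fin.ext h)
      set i : Fin (m + 2) := ⟨j.val - 1, by omega⟩ with hi
      have hij : i.val + 1 = j.val := by simp only [hi]; omega
      have hDi : ∀ (l : Fin (m + 2)) (a : F), (D : Matrix (Fin (m + 2)) (Fin (m + 2)) F) *ᵥ Pi.single l a =
          Pi.single l (s ^ l.val * a) := fun l a => by
        show Matrix.diagonal _ *ᵥ _ = _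
        rw [diagonal_mulVec_single]
      have hDinv : ∀ l : Fin (m + 2), ((D⁻¹ : GL (Fin (m + 2)) F) : Matrix (Fin (m + 2)) (Fin (m + 2)) F) *ᵥ
          Pi.single l 1 = (s ^ l.val)⁻¹ • Pi.single l 1 := fun l => by
        have h1 : (D : Matrix (Fin (m + 2)) (Fin (m + 2)) F) *ᵥ ((s ^ l.val)⁻¹ • Pi.single l 1) =
            Pi.single l 1 := by
          rw [mulVec_smul, hDi, mul_one, ← Pi.single_smul', smul_eq_mul, inv_mul_cancel₀ (pow_ne_zero _ hs0)]
        conv_lhs => rw [← h1]
        rw [mulVec_mulVec, Units.inv_mul, one_mulVec]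
      have hKi : ((K⁻¹ : GL (Fin (m + 2)) F) : Matrix (Fin (m + 2)) (Fin (m + 2)) F) *ᵥ Pi.single j 1 =
          Pi.single i 1 := by
        rw [← hKcol i j hij, mulVec_mulVec, Units.inv_mul, one_mulVec]
      rw [hA', Units.val_mul, Units.val_mul, Units.val_mul, ← mulVec_mulVec, ← mulVec_mulVec, ← mulVec_mulVec,
        hKi, hDinv, mulVec_smul, hKcol i j hij, mulVec_smul, hDi, mul_one, ← Pi.single_smul', ← Pi.single_smul',
        smul_eq_mul, smul_eq_mul, mul_one, ← hij, pow_succ, ← mul_assoc, inv_mul_cancel₀ (pow_ne_zero _ hs0),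
        one_mul]
    have hA'u : ∃ u, ∀ x, (A' : Matrix (Fin (m + 2)) (Fin (m + 2)) F) *ᵥ x - s • x ∈ Submodule.span F {u} := by
      refine ⟨(A' : Matrix (Fin (m + 2)) (Fin (m + 2)) F) *ᵥ Pi.single 0 1 - s • Pi.single 0 1,
        fun x => Submodule.mem_span_singleton.2 ⟨x 0, ?_⟩⟩
      conv_rhs => rw [pi_eq_sum_univ' x]
      rw [mulVec_sum, Finset.smul_sum, ← Finset.sum_sub_distrib,
        Finset.sum_eq_single (0 : Fin (m + 2)) (fun j _ hj => by
          rw [mulVec_smul, hcol j hj, smul_comm, sub_self]) (by simp)]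
      rw [mulVec_smul, smul_sub, smul_comm]
    have hA'd : (A' : Matrix (Fin (m + 2)) (Fin (m + 2)) F).det = 1 := by
      have h : GeneralLinearGroup.det A' = 1 := by
        simp only [hA', map_mul, map_inv]
        rw [mul_right_comm (GeneralLinearGroup.det D), mul_inv_cancel, one_mul, mul_inv_cancel]
      exact congrArg Units.val h
    have hA'n : (A' : Matrix (Fin (m + 2)) (Fin (m + 2)) F) ≠ s • 1 := by
      intro hs
      have h1 : (D : Matrix (Fin (m + 2)) (Fin (m + 2)) F) * (K : Matrix _ _ F) *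
          ((D⁻¹ : GL (Fin (m + 2)) F) : Matrix _ _ F) = s • (K : Matrix (Fin (m + 2)) (Fin (m + 2)) F) := by
        have h2 : A' * K = D * K * D⁻¹ := by rw [hA']; group
        rw [← Units.val_mul, ← Units.val_mul, ← h2, Units.val_mul, hs, Matrix.smul_mul, Matrix.one_mul]
      have hchar : ∀ c : F, (c • 1 - (K : Matrix (Fin (m + 2)) (Fin (m + 2)) F)).det =
          (c • 1 - (hGL hF m : Matrix (Fin m ⊕ Fin 2) (Fin m ⊕ Fin 2) F)).det := by
        intro c
        have e1 : c • 1 - (K : Matrix (Fin (m + 2)) (Fin (m + 2)) F) =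
            ((P⁻¹ : GL (Fin (m + 2)) F) : Matrix _ _ F) * (c • 1 - (h' : Matrix _ _ F)) * (P : Matrix _ _ F) := by
          rw [Matrix.mul_sub, Matrix.sub_mul, Matrix.mul_smul, Matrix.smul_mul, Matrix.mul_one, Units.inv_mul,
            hK, Units.val_mul, Units.val_mul]
        rw [e1, Matrix.det_units_conj', hh'c]
        have e2 : c • (1 : Matrix (Fin (m + 2)) (Fin (m + 2)) F) -
            Matrix.reindex e e (hGL hF m : Matrix (Fin m ⊕ Fin 2) (Fin m ⊕ Fin 2) F) =
            Matrix.reindex e e (c • 1 - (hGL hF m : Matrix (Fin m ⊕ Fin 2) (Fin m ⊕ Fin 2) F)) := by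
          simp [submatrix_sub, submatrix_smul]
        rw [e2, Matrix.det_reindex_self]
      have h2 : ((s * 2) • 1 - s • (K : Matrix (Fin (m + 2)) (Fin (m + 2)) F)).det = 0 := by
        rw [← smul_smul, ← smul_sub, det_smul, hchar]
        have : ((2 : F) • 1 - (hGL hF m : Matrix (Fin m ⊕ Fin 2) (Fin m ⊕ Fin 2) F)).det = 0 := by
          show ((2 : F) • 1 - fromBlocks (jmat F m) 0 0 (qmat F)).det = 0
          rw [← fromBlocks_one, fromBlocks_smul, smul_zero, smul_zero, sub_eq_add_neg, fromBlocks_neg,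
            fromBlocks_add]
          simp only [neg_zero, add_zero]
          rw [det_fromBlocks_zero₂₁, ← sub_eq_add_neg,
            det_eq_zero_of_row_eq_zero (⟨m - 1, by omega⟩ : Fin m) (fun j => ?_), zero_mul]
          simp only [Matrix.sub_apply, Matrix.smul_apply, Matrix.one_apply, jmat, Matrix.of_apply,
            Fin.ext_iff, smul_eq_mul]
          split_ifs <;> first | omega | ring
        rw [this, mul_zero]
      have h3 : ((s * 2) • 1 - s • (K : Matrix (Fin (m + 2)) (Fin (m + 2)) F)) =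
          (D : Matrix _ _ F) * ((s * 2) • 1 - (K : Matrix _ _ F)) *
            ((D⁻¹ : GL (Fin (m + 2)) F) : Matrix _ _ F) := by
        rw [Matrix.mul_sub, Matrix.sub_mul, Matrix.mul_smul, Matrix.smul_mul, Matrix.mul_one, Units.mul_inv, h1]
      rw [h3, Matrix.det_units_conj, hchar] at h2
      refine det_smul_sub_blocks hF m (fun h => hs1 ?_) h2
      exact mul_right_cancel₀ (two_ne_zero' hF) (h.trans (one_mul _).symm)
    -- `A'` is good
    let φ : GL (Fin (m + 2)) F →* GL (Fin m ⊕ Fin 2) F :=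
      Units.map (Matrix.reindexAlgEquiv F F e.symm).toMonoidHom
    set b0 := φ (P * D * P⁻¹) with hb0
    obtain ⟨c, hc, hsq⟩ : ∃ c : GL (Fin m ⊕ Fin 2) F, c * hGL hF m = hGL hF m * c ∧
        IsSquare ((b0 * c : GL (Fin m ⊕ Fin 2) F) : Matrix (Fin m ⊕ Fin 2) (Fin m ⊕ Fin 2) F).det := by
      by_cases h : IsSquare (b0 : Matrix (Fin m ⊕ Fin 2) (Fin m ⊕ Fin 2) F).det
      · exact ⟨1, by rw [one_mul, mul_one], by simpa using h⟩
      · refine ⟨blk 1 (cGL hF), ?_, ?_⟩
        · rw [hGL, blk_mul, blk_mul, one_mul, mul_one, cGL_comm hF]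
        · rw [Units.val_mul, det_mul]
          refine isSquare_mul_of_not hF h ?_
          show ¬IsSquare (fromBlocks ((1 : GL (Fin m) F) : Matrix (Fin m) (Fin m) F) 0 0
            (cGL hF : Matrix (Fin 2) (Fin 2) F)).det
          rw [det_fromBlocks_zero₂₁, Units.val_one, det_one, one_mul]
          exact cGL_det hF
    have hg : CfsgLib.OreOrth.Good ((b0 * c * hGL hF m * (b0 * c)⁻¹ * (hGL hF m)⁻¹ : GL (Fin m ⊕ Fin 2) F) :
        Matrix (Fin m ⊕ Fin 2) (Fin m ⊕ Fin 2) F) :=
      ⟨b0 * c, hGL hF m, rfl, hsq, hGL_props hF hev⟩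
    have e3 : b0 * c * hGL hF m * (b0 * c)⁻¹ * (hGL hF m)⁻¹ = b0 * hGL hF m * b0⁻¹ * (hGL hF m)⁻¹ := by
      calc b0 * c * hGL hF m * (b0 * c)⁻¹ * (hGL hF m)⁻¹
          = b0 * (c * hGL hF m * c⁻¹) * b0⁻¹ * (hGL hF m)⁻¹ := by group
        _ = _ := by rw [hc, mul_assoc (hGL hF m) c, mul_inv_cancel, mul_one]
    rw [e3] at hg
    have hg' : CfsgLib.OreOrth.Good ((ψ (b0 * hGL hF m * b0⁻¹ * (hGL hF m)⁻¹) : GL (Fin (m + 2)) F) :
        Matrix (Fin (m + 2)) (Fin (m + 2)) F) := Good.reindex hg e
    have hψφ : ψ b0 = P * D * P⁻¹ := by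
      refine Units.ext ?_
      ext i j
      simp [hb0, ψ, φ]
    rw [map_mul, map_mul, map_mul, map_inv, map_inv, hψφ, ← hh'] at hg'
    have hg'' := hg'.conj P⁻¹
    rw [← Units.val_mul, ← Units.val_mul] at hg''
    have e4 : P⁻¹ * (P * D * P⁻¹ * h' * (P * D * P⁻¹)⁻¹ * h'⁻¹) * P⁻¹⁻¹ = A' := by
      rw [hA', hK]; group
    rw [e4] at hg''
    obtain ⟨R, hR⟩ := rank_one_similar s A (A' : Matrix (Fin (m + 2)) (Fin (m + 2)) F) hA hA'u hns hA'n hdet hA'd
    rw [hR]
    exact hg''.conj R

end CfsgLib.OreOrth.Five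

namespace CfsgLib.OreOrth

open Matrix Module

variable {F : Type*} [Field F]

/-- Five elements, even degree. -/
theorem good_of_five [Fintype F] (hF : Fintype.card F = 5) {n : ℕ} (hn : 4 ≤ n) (hev : Even n)
    (A : Matrix (Fin n) (Fin n) F) (hdet : A.det = 1) (hA : A = 1 ∨ ∀ c : F, A ≠ c • 1) : Good A := by
  obtain ⟨m, rfl⟩ : ∃ m, n = m + 2 := ⟨n - 2, by omega⟩
  have hm2 : 2 ≤ m := by omega
  have hevm : Even m := (Nat.even_add.1 hev).2 even_two
  rcases hA with rfl | hA
  · have h := Five.good_couple hF hevm 1 1 1 (0 : Matrix (Fin m) (Fin 2) F) 0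
    have e1 : ((Five.upG 0 : GL (Fin m ⊕ Fin 2) F) : Matrix (Fin m ⊕ Fin 2) (Fin m ⊕ Fin 2) F) = 1 := by
      simp [Five.upG]
    have e2 : ((Five.lowG 0 : GL (Fin m ⊕ Fin 2) F) : Matrix (Fin m ⊕ Fin 2) (Fin m ⊕ Fin 2) F) = 1 := by
      simp [Five.lowG]
    have h' : Good (1 : Matrix (Fin m ⊕ Fin 2) (Fin m ⊕ Fin 2) F) := by
      rw [e1, e2] at h
      simpa [Five.blk] using h
    simpa using Five.Good.reindex h' finSumFinEquiv
  by_cases hr : ∃ (s : F) (u : Fin (m + 2) → F), ∀ x, A *ᵥ x - s • x ∈ Submodule.span F {u}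
  · obtain ⟨s, hs⟩ := hr
    exact Five.good_rank_one hF hm2 hevm A hdet s hs (hA s)
  push Not at hr
  obtain ⟨a, b, hab⟩ := Five.exists_plane (by rw [finrank_fin_fun]; omega) (Matrix.toLin' A)
    (fun c h => hA c (by
      have := congrArg LinearMap.toMatrix' h
      simpa using this))
    (fun s u => by simpa using hr s u)
  obtain ⟨w, hw, hwv⟩ := Five.exists_extend _ hab (finrank_fin_fun F (n := m + 2))
  obtain ⟨P, hP⟩ := Five.exists_frame w hw
  set A0 := ((P⁻¹ : GL (Fin (m + 2)) F) : Matrix (Fin (m + 2)) (Fin (m + 2)) F) * A *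
    (P : Matrix (Fin (m + 2)) (Fin (m + 2)) F) with hA0
  have hcol : ∀ (j i : Fin (m + 2)), j.val < 2 → i.val = j.val + 2 →
      A0 *ᵥ Pi.single j 1 = Pi.single i 1 := by
    intro j i hj hi
    have e1 : A *ᵥ w j = w i := by
      have h1 := hwv ⟨j.val, by omega⟩ j.isLt
      have h2 := hwv ⟨i.val, by omega⟩ i.isLt
      simp only [Fin.eta] at h1 h2
      rw [h1, h2]
      have : j.val = 0 ∨ j.val = 1 := by omega
      rcases this with e | e <;> simp [e, hi]
    rw [hA0, ← mulVec_mulVec, ← mulVec_mulVec, hP, e1, ← hP i, mulVec_mulVec, Units.inv_mul, one_mulVec]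
  let g : Fin m ⊕ Fin 2 ≃ Fin (m + 2) :=
    (Equiv.sumComm _ _).trans (finSumFinEquiv.trans (finCongr (Nat.add_comm 2 m)))
  have hgl : ∀ i : Fin m, (g (Sum.inl i)).val = 2 + i.val := fun i => by simp [g]; omega
  have hgr : ∀ j : Fin 2, (g (Sum.inr j)).val = j.val := fun j => by simp [g]
  set B := Matrix.reindex g.symm g.symm A0 with hB
  have hBd : B.det = 1 := by
    rw [hB, Matrix.det_reindex_self, hA0, Matrix.det_units_conj', hdet]
  have hBe : ∀ (x : Fin m ⊕ Fin 2) (j : Fin 2),
      B x (Sum.inr j) = if (g x).val = j.val + 2 then 1 else 0 := by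
    intro x j
    have h := congrFun (hcol (g (Sum.inr j)) ⟨j.val + 2, by omega⟩ (by rw [hgr]; omega) (by rw [hgr])) (g x)
    rw [mulVec_single_one, Matrix.col_apply, Pi.single_apply] at h
    rw [hB, Matrix.reindex_apply, Matrix.submatrix_apply, Equiv.symm_symm, h]
    simp [Fin.ext_iff]
  have h22 : B.toBlocks₂₂ = 0 := by
    ext i j
    show B (Sum.inr i) (Sum.inr j) = 0
    rw [hBe, hgr, if_neg (by omega)]
  let L : Matrix (Fin m) (Fin 2) F := Matrix.of fun i j => if i.val = j.val then 1 else 0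
  have h12 : B.toBlocks₁₂ = L := by
    ext i j
    show B (Sum.inl i) (Sum.inr j) = L i j
    rw [hBe, hgl]
    by_cases h : i.val = j.val
    · rw [if_pos (by omega)]; simp [L, h]
    · rw [if_neg (by omega)]; simp [L, h]
  have hT : Lᵀ * L = 1 := by
    ext i j
    rw [Matrix.mul_apply, Finset.sum_eq_single (⟨i.val, by omega⟩ : Fin m) (fun k _ hk => ?_) (by simp)]
    · simp [L, Matrix.one_apply, Fin.ext_iff]
    · simp only [L, transpose_apply, Matrix.of_apply]
      rw [if_neg fun h : k.val = i.val => hk (Fin.ext h), zero_mul]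
  have hBform : B = fromBlocks B.toBlocks₁₁ L B.toBlocks₂₁ 0 := by
    conv_lhs => rw [← fromBlocks_toBlocks B, h22, h12]
  have hgood : Good B := by
    rw [hBform]
    exact Five.good_of_form hF hm2 hevm _ L _ Lᵀ hT (by rw [← hBform]; exact hBd)
  have h0 : Good A0 := by
    have := Five.Good.reindex hgood g
    simpa [hB, Matrix.submatrix_submatrix] using this
  have := h0.conj P
  have e : (P : Matrix (Fin (m + 2)) (Fin (m + 2)) F) * A0 * ((P⁻¹ : GL (Fin (m + 2)) F) : Matrix _ _ F) = A := by
    rw [hA0, ← mul_assoc, ← mul_assoc, Units.mul_inv, one_mul, mul_assoc, Units.mul_inv, mul_one]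
  rwa [e] at this

end CfsgLib.OreOrth
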