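import Cfsg.Agent.Lib.OreOrth.Basic
import Cfsg.Agent.Lib.PSLCover.CoreCover

/-!
Good Levi elements over fields with at least four elements: every matrix of determinant one which is
the identity or not scalar is similar to a commutator `b * h * b⁻¹ * h⁻¹`, with `det b = 1`, the determinant
of `h` a square and `h` triangular with two roots and without fixed points on the radicals.
-/

set_option autoImplicit false
set_option linter.unusedSectionVars false

namespace CfsgLib.OreOrth

open Matrix CfsgLib.PSLCover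

variable {F : Type*} [Field F]

section Tri

variable {ι : Type*} [Fintype ι] [DecidableEq ι]

/-- A triangular matrix with no pair of diagonal entries of product one is `Fpf`. -/
theorem fpf_of_triangular (T : Matrix ι ι F) (f : ι → ℕ)
    (hT : ∀ i k, i ≠ k → T i k ≠ 0 → f i < f k) (hp : ∀ i j, i ≠ j → T i i * T j j ≠ 1) : Fpf T := by
  intro X hd _ hX
  obtain ⟨N, hN⟩ : ∃ N, ∀ i, f i ≤ N := ⟨Finset.univ.sup f, fun i => Finset.le_sup (Finset.mem_univ i)⟩
  have key : ∀ m : ℕ, ∀ i j, 2 * N - (f i + f j) = m → X i j = 0 := by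
    intro m
    induction m using Nat.strong_induction_on with
    | _ m ih =>
      intro i j hm
      rcases eq_or_ne i j with rfl | hij
      · exact hd i
      have h := congrFun (congrFun hX i) j
      simp only [Matrix.mul_apply, Matrix.transpose_apply, Finset.sum_mul] at h
      have hz : ∀ l k, (l ≠ j ∨ k ≠ i) → T i k * X k l * T j l = 0 := by
        intro l k hne
        by_cases hk : T i k = 0
        · rw [hk, zero_mul, zero_mul]
        by_cases hl : T j l = 0
        · rw [hl, mul_zero]
        have h1 : f i ≤ f k := by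
          rcases eq_or_ne i k with e | e
          · rw [e]
          · exact (hT i k e hk).le
        have h2 : f j ≤ f l := by
          rcases eq_or_ne j l with e | e
          · rw [e]
          · exact (hT j l e hl).le
        have h3 : f i + f j < f k + f l := by
          rcases hne with e | e
          · have := hT j l (Ne.symm e) hl
            omega
          · have := hT i k (Ne.symm e) hk
            omega
        have := hN k
        have := hN l
        rw [ih (2 * N - (f k + f l)) (by omega) k l rfl, mul_zero, zero_mul]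
      rw [Finset.sum_eq_single j (fun l _ hl => Finset.sum_eq_zero fun k _ => hz l k (Or.inl hl))
        (by simp), Finset.sum_eq_single i (fun k _ hk => hz j k (Or.inr hk)) (by simp)] at h
      have : (T i i * T j j - 1) * X i j = 0 := by linear_combination h
      exact (mul_eq_zero.1 this).resolve_left (sub_ne_zero.2 (hp i j hij))
  ext i j
  exact key _ i j rfl

/-- A triangular matrix without diagonal entry one is `NoOne`. -/
theorem noOne_of_triangular (T : Matrix ι ι F) (f : ι → ℕ)
    (hT : ∀ i k, i ≠ k → T i k ≠ 0 → f i < f k) (hp : ∀ i, T i i ≠ 1) : NoOne T := by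
  intro v hv
  obtain ⟨N, hN⟩ : ∃ N, ∀ i, f i ≤ N := ⟨Finset.univ.sup f, fun i => Finset.le_sup (Finset.mem_univ i)⟩
  have key : ∀ m : ℕ, ∀ i, N - f i = m → v i = 0 := by
    intro m
    induction m using Nat.strong_induction_on with
    | _ m ih =>
      intro i hm
      have h := congrFun hv i
      simp only [Matrix.mulVec, dotProduct] at h
      rw [Finset.sum_eq_single i (fun k _ hk => ?_) (by simp)] at h
      · have : (T i i - 1) * v i = 0 := by linear_combination h
        exact (mul_eq_zero.1 this).resolve_left (sub_ne_zero.2 (hp i))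
      · by_cases hk0 : T i k = 0
        · rw [hk0, zero_mul]
        · have := hT i k (Ne.symm hk) hk0
          have := hN k
          rw [ih (N - f k) (by omega) k rfl, mul_zero]
  exact funext fun i => key _ i rfl

end Tri

/-- Suitable roots. -/
theorem exists_roots [Fintype F] (h4 : 4 ≤ Fintype.card F) {n : ℕ} (hn : 3 ≤ n)
    (h5 : Fintype.card F ≠ 5 ∨ Odd n) :
    ∃ μ ν : F, μ ≠ 0 ∧ ν ≠ 0 ∧ μ ≠ ν ∧ μ * μ ≠ 1 ∧ μ * ν ≠ 1 ∧ IsSquare (μ ^ (n - 1) * ν) ∧
      ((2 : F) ≠ 0 → μ ≠ 1 ∧ ν ≠ 1) := by
  classical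
  have avoid : ∀ s : Finset F, s.card < Fintype.card F → ∃ x, x ∉ s := fun s hs => by
    by_contra hcon
    push Not at hcon
    rw [Finset.eq_univ_of_forall hcon, Finset.card_univ] at hs
    exact hs.false
  by_cases h2 : (2 : F) = 0
  · have hch : ringChar F = 2 := by
      have hd : ringChar F ∣ 2 := ringChar.dvd (by exact_mod_cast h2)
      rcases (Nat.dvd_prime Nat.prime_two).1 hd with h | h
      · exact absurd h (CharP.ringChar_ne_one)
      · exact h
    obtain ⟨μ, hμ⟩ := avoid {0, 1} (lt_of_le_of_lt Finset.card_le_two (by omega))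
    simp only [Finset.mem_insert, Finset.mem_singleton, not_or] at hμ
    refine ⟨μ, 1, hμ.1, one_ne_zero, hμ.2, fun h => ?_, by rw [mul_one]; exact hμ.2,
      FiniteField.isSquare_of_char_two hch _, fun h => absurd h2 h⟩
    have : (μ - 1) * (μ - 1) = 0 := by linear_combination h + (1 - μ) * h2
    rcases mul_eq_zero.1 this with e | e <;> exact hμ.2 (sub_eq_zero.1 e)
  have hch : ringChar F ≠ 2 := fun h => h2 (by
    have := ringChar.Nat.cast_ringChar (R := F)
    rw [h] at this
    exact_mod_cast this)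
  obtain ⟨r, hr⟩ := FiniteField.exists_nonsquare hch
  have hsq0 : IsSquare (0 : F) := ⟨0, by simp⟩
  have hr0 : r ≠ 0 := fun h => hr (h ▸ hsq0)
  have hmul : ∀ a : F, a ≠ 0 → ¬IsSquare (r * (a * a)) := fun a ha ⟨b, hb⟩ =>
    hr ⟨b / a, by field_simp; linear_combination hb⟩
  obtain ⟨μ, hμs, hμ1⟩ : ∃ μ : F, ¬IsSquare μ ∧ μ * μ ≠ 1 := by
    by_cases h : r * r = 1
    · obtain ⟨a, ha⟩ := avoid {0, 1, -1} (lt_of_le_of_lt Finset.card_le_three (by omega))
      simp only [Finset.mem_insert, Finset.mem_singleton, not_or] at ha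
      refine ⟨r * (a * a), hmul a ha.1, fun h' => ?_⟩
      have : (a * a - 1) * (a * a + 1) = 0 := by linear_combination h' - a ^ 4 * h
      rcases mul_eq_zero.1 this with e | e
      · rcases mul_eq_zero.1 (show (a - 1) * (a + 1) = 0 by linear_combination e) with e | e
        · exact ha.2.1 (sub_eq_zero.1 e)
        · exact ha.2.2 (eq_neg_of_add_eq_zero_left e)
      · rcases mul_self_eq_one_iff.1 h with rfl | rfl
        · exact hr ⟨1, by simp⟩
        · exact hr ⟨a, (eq_neg_of_add_eq_zero_left e).symm⟩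
    · exact ⟨r, hr, h⟩
  have hμ0 : μ ≠ 0 := fun h => hμs (h ▸ hsq0)
  have hμne : μ ≠ 1 := fun h => hμs (h ▸ ⟨1, by simp⟩)
  by_cases hodd : Odd n
  · obtain ⟨a, ha⟩ := avoid {0, 1, -1} (lt_of_le_of_lt Finset.card_le_three (by omega))
    simp only [Finset.mem_insert, Finset.mem_singleton, not_or] at ha
    have hν1 : a * a ≠ 1 := fun h => by
      rcases mul_self_eq_one_iff.1 h with e | e
      · exact ha.2.1 e
      · exact ha.2.2 e
    refine ⟨μ, a * a, hμ0, mul_ne_zero ha.1 ha.1, fun h => hμs ⟨a, h⟩, hμ1,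
      fun h => hμs ⟨a⁻¹, ?_⟩, ?_, fun _ => ⟨hμne, hν1⟩⟩
    · have ha1 : a ≠ 0 := ha.1
      field_simp
      linear_combination h
    · obtain ⟨m, rfl⟩ := hodd
      exact ⟨μ ^ m * a, by rw [show 2 * m + 1 - 1 = m + m by omega, pow_add]; ring⟩
  obtain ⟨m, rfl⟩ := Nat.not_odd_iff_even.1 hodd
  have hq5 : Fintype.card F ≠ 5 := h5.resolve_right hodd
  have hqodd : Fintype.card F % 2 = 1 := FiniteField.odd_card_of_char_ne_two hch
  obtain ⟨a, ha⟩ := avoid {0, 1, -1, μ⁻¹, -μ⁻¹}
    (lt_of_le_of_lt Finset.card_le_five (by omega))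
  simp only [Finset.mem_insert, Finset.mem_singleton, not_or] at ha
  obtain ⟨ha0, ha1, ha2, ha3, ha4⟩ := ha
  have hν : ¬IsSquare (μ * (a * a)) := fun ⟨b, hb⟩ =>
    hμs ⟨b / a, by field_simp; linear_combination hb⟩
  refine ⟨μ, μ * (a * a), hμ0, fun h => hν (h ▸ hsq0), fun h => ?_, hμ1, fun h => ?_, ?_,
    fun _ => ⟨hμne, fun h => hν (h ▸ ⟨1, by simp⟩)⟩⟩
  · have : μ * ((a - 1) * (a + 1)) = 0 := by linear_combination -h
    rcases mul_eq_zero.1 this with e | e
    · exact hμ0 e
    rcases mul_eq_zero.1 e with e | e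
    · exact ha1 (sub_eq_zero.1 e)
    · exact ha2 (eq_neg_of_add_eq_zero_left e)
  · have : (μ * a - 1) * (μ * a + 1) = 0 := by linear_combination h
    rcases mul_eq_zero.1 this with e | e
    · exact ha3 (eq_inv_of_mul_eq_one_right (sub_eq_zero.1 e))
    · refine ha4 ?_
      have e' : μ * -a = 1 := by linear_combination -e
      rw [← eq_inv_of_mul_eq_one_right e', neg_neg]
  · refine ⟨μ ^ m * a, ?_⟩
    rw [show μ ^ (m + m - 1) * (μ * (a * a)) = μ ^ (m + m - 1 + 1) * (a * a) by ring,
      show m + m - 1 + 1 = m + m by omega, pow_add]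
    ring

/-- The model of a cyclic matrix with roots `μ` (repeated) and `ν`. -/
def modelTwo (n : ℕ) (μ ν : F) : Matrix (Fin n) (Fin n) F :=
  Matrix.of fun i j =>
    if i = j then (if i.val + 1 = n then ν else μ) else
      if i.val + 1 = j.val ∧ j.val + 1 < n then 1 else 0

/-- The commutator form of a good Levi element, up to similarity. -/
theorem exists_commutator_form [Fintype F] (h4 : 4 ≤ Fintype.card F) {n : ℕ} (hn : 3 ≤ n)
    (h5 : Fintype.card F ≠ 5 ∨ Odd n) (A : Matrix (Fin n) (Fin n) F) (hdet : A.det = 1)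
    (hA : A = 1 ∨ ∀ c : F, A ≠ c • 1) :
    ∃ r b h : GL (Fin n) F,
      A = (r : Matrix (Fin n) (Fin n) F) * ((b * h * b⁻¹ * h⁻¹ : GL (Fin n) F) : Matrix (Fin n) (Fin n) F) *
        ((r⁻¹ : GL (Fin n) F) : Matrix (Fin n) (Fin n) F) ∧
      (b : Matrix (Fin n) (Fin n) F).det = 1 ∧ IsSquare (h : Matrix (Fin n) (Fin n) F).det ∧
      Fpf (h : Matrix (Fin n) (Fin n) F) ∧ Fpf (h : Matrix (Fin n) (Fin n) F)ᵀ ∧
      ((2 : F) ≠ 0 →
        NoOne (h : Matrix (Fin n) (Fin n) F) ∧ NoOne (h : Matrix (Fin n) (Fin n) F)ᵀ) := by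
  obtain ⟨μ, ν, hμ0, hν0, hμν, hμμ, hμν1, hsq, hone⟩ := exists_roots h4 hn h5
  set M := modelTwo n μ ν with hM
  set β : Fin n → F := fun i => if i.val + 1 = n then ν else μ with hβdef
  have hdiag : ∀ i, M i i = β i := fun i => by simp [hM, modelTwo, hβdef]
  have hup : ∀ i j, j < i → M i j = 0 := by
    intro i j h
    rw [hM, modelTwo, Matrix.of_apply, if_neg h.ne', if_neg (fun e => by
      have := Fin.lt_def.1 h; omega)]
  have hoff : ∀ i k, i ≠ k → M i k ≠ 0 → i.val < k.val := by
    intro i k hne hk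
    exact lt_of_le_of_ne (le_of_not_gt fun h => hk (hup i k h)) (fun e => hne (Fin.ext e))
  have hβ0 : ∀ i, β i ≠ 0 := fun i => by
    simp only [hβdef]
    split
    exacts [hν0, hμ0]
  have hlast : ∀ i j : Fin n, i.val + 1 = n → j.val + 1 = n → i = j := fun i j hi hj =>
    Fin.ext (by omega)
  have hlink : ∀ i j : Fin n, i < j → M i i = M j j →
      ∃ k : Fin n, k.val + 1 = j.val ∧ M k k = M j j ∧ M k j ≠ 0 := by
    intro i j hij he
    have hij' := Fin.lt_def.1 hij
    rw [hdiag, hdiag] at he
    simp only [hβdef] at he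
    rw [if_neg (by omega)] at he
    by_cases hj : j.val + 1 = n
    · rw [if_pos hj] at he
      exact absurd he hμν
    refine ⟨⟨j.val - 1, by omega⟩, by simp only; omega, ?_, ?_⟩
    · rw [hdiag, hdiag]
      simp only [hβdef]
      rw [if_neg (by omega), if_neg hj]
    · rw [hM, modelTwo, Matrix.of_apply, if_neg (fun e => by
        have := congrArg Fin.val e; simp only at this; omega), if_pos ⟨by simp only; omega, by omega⟩]
      exact one_ne_zero
  have hS : SplitCyc M β := by
    have := splitCyc_of_upperTri M hup hlink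
    rwa [show (fun i => M i i) = β from funext hdiag] at this
  have hMdet : M.det = μ ^ (n - 1) * ν := by
    rw [det_eq_prod_of_splitCyc hS]
    obtain ⟨m, rfl⟩ : ∃ m, n = m + 1 := ⟨n - 1, by omega⟩
    rw [Fin.prod_univ_castSucc]
    simp [hβdef, Fin.is_lt, ne_of_lt]
  let h : GL (Fin n) F := GeneralLinearGroup.mkOfDetNeZero M
    (by rw [hMdet]; exact mul_ne_zero (pow_ne_zero _ hμ0) hν0)
  have hcoe : (h : Matrix (Fin n) (Fin n) F) = M := rfl
  have hpair : ∀ i j : Fin n, i ≠ j → M i i * M j j ≠ 1 := by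
    intro i j hij
    rw [hdiag, hdiag]
    simp only [hβdef]
    split_ifs with h1 h2 h3
    · exact absurd (hlast i j h1 h2) hij
    · rw [mul_comm]; exact hμν1
    · exact hμν1
    · exact hμμ
  have hne1 : (2 : F) ≠ 0 → ∀ i : Fin n, M i i ≠ 1 := fun h2 i => by
    rw [hdiag]
    simp only [hβdef]
    split
    exacts [(hone h2).2, (hone h2).1]
  have hoffT : ∀ i k : Fin n, i ≠ k → Mᵀ i k ≠ 0 → n - i.val < n - k.val := fun i k hne hk => by
    have := hoff k i (Ne.symm hne) hk
    omega
  have hfin : IsSquare (h : Matrix (Fin n) (Fin n) F).det ∧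
      Fpf (h : Matrix (Fin n) (Fin n) F) ∧ Fpf (h : Matrix (Fin n) (Fin n) F)ᵀ ∧
      ((2 : F) ≠ 0 →
        NoOne (h : Matrix (Fin n) (Fin n) F) ∧ NoOne (h : Matrix (Fin n) (Fin n) F)ᵀ) :=
    ⟨by rw [hcoe, hMdet]; exact hsq, fpf_of_triangular M (fun i => i.val) hoff hpair,
      fpf_of_triangular Mᵀ (fun i => n - i.val) hoffT hpair,
      fun h2 => ⟨noOne_of_triangular M (fun i => i.val) hoff (hne1 h2),
        noOne_of_triangular Mᵀ (fun i => n - i.val) hoffT (hne1 h2)⟩⟩
  rcases hA with rfl | hA
  · exact ⟨1, 1, h, by simp, by simp, hfin⟩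
  -- the inverse of the model
  let γ : Fin n → F := fun i => (β i)⁻¹
  have hγ : SplitCyc ((h⁻¹ : GL (Fin n) F) : Matrix (Fin n) (Fin n) F) γ := by
    have hMi : ((h⁻¹ : GL (Fin n) F) : Matrix (Fin n) (Fin n) F) * M = 1 := h.inv_mul
    have hbt : M.BlockTriangular id := fun i j hij => hup i j hij
    let _ : Invertible M := hcoe ▸ h.invertible
    have hbi : ((h⁻¹ : GL (Fin n) F) : Matrix (Fin n) (Fin n) F).BlockTriangular id := by
      rw [Matrix.coe_units_inv, hcoe]
      exact Matrix.blockTriangular_inv_of_blockTriangular hbt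
    have hdi : ∀ i, ((h⁻¹ : GL (Fin n) F) : Matrix (Fin n) (Fin n) F) i i = γ i := by
      intro i
      have h1 := congrFun (congrFun hMi i) i
      rw [Matrix.mul_apply, Finset.sum_eq_single i (fun k _ hk => ?_) (by simp), Matrix.one_apply_eq,
        hdiag] at h1
      · exact eq_inv_of_mul_eq_one_left h1
      · rcases lt_or_gt_of_ne hk with e | e
        · rw [hbi e, zero_mul]
        · rw [hup k i e, mul_zero]
    refine splitCyc_of_eigLine _ γ ?_ ?_
    · rw [Matrix.charpoly_of_isUpperTriangular _ hbi]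
      exact Finset.prod_congr rfl fun i _ => by rw [hdi]
    · intro c x y hx hy hx0
      have hMh : M * ((h⁻¹ : GL (Fin n) F) : Matrix (Fin n) (Fin n) F) = 1 := h.mul_inv
      have hc0 : c ≠ 0 := by
        rintro rfl
        apply hx0
        have := congrArg (M *ᵥ ·) hx
        simp only [mulVec_mulVec, hMh, one_mulVec, zero_smul, mulVec_zero] at this
        exact this
      have key : ∀ z : Fin n → F,
          ((h⁻¹ : GL (Fin n) F) : Matrix (Fin n) (Fin n) F) *ᵥ z = c • z → M *ᵥ z = c⁻¹ • z := by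
        intro z hz
        have := congrArg (fun w => c⁻¹ • (M *ᵥ w)) hz
        simp only [mulVec_mulVec, hMh, one_mulVec, mulVec_smul, smul_smul, inv_mul_cancel₀ hc0,
          one_smul] at this
        exact this.symm
      have he : EigLine M := eigLine_of_upperTri M hup hlink
      exact he c⁻¹ x y (key x hx) (key y hy) hx0
  let B : GL (Fin n) F := GeneralLinearGroup.mkOfDetNeZero A (by rw [hdet]; exact one_ne_zero)
  obtain ⟨L, U, hLU, hL, hU⟩ := exists_splitCyc_mul hn h4 B hA β γ hβ0
    (fun i => inv_ne_zero (hβ0 i)) (by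
      show A.det = _
      rw [hdet, ← Finset.prod_mul_distrib, Finset.prod_eq_one]
      exact fun i _ => mul_inv_cancel₀ (hβ0 i))
  obtain ⟨p, rfl⟩ := exists_conj_splitCyc hL (Y := h) hS
  obtain ⟨r, rfl⟩ := exists_conj_splitCyc hU hγ
  -- a centraliser element of the model of prescribed determinant
  set δ : Fˣ := GeneralLinearGroup.det r * (GeneralLinearGroup.det p)⁻¹ with hδ
  let d : Fin n → F := fun i => if i.val + 1 = n then (δ : F) else 1
  have hd : (Matrix.diagonal d).det = (δ : F) := by
    rw [det_diagonal, Finset.prod_eq_single (⟨n - 1, by omega⟩ : Fin n)]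
    · simp only [d]; rw [if_pos (by omega)]
    · intro i _ hi
      simp only [d]
      rw [if_neg fun e => hi (Fin.ext (by simp only; omega))]
    · simp
  let c : GL (Fin n) F := GeneralLinearGroup.mkOfDetNeZero (Matrix.diagonal d) (hd ▸ δ.ne_zero)
  have hc : c * h = h * c := by
    refine Units.ext ?_
    show Matrix.diagonal d * M = M * Matrix.diagonal d
    ext i j
    rw [Matrix.diagonal_mul, Matrix.mul_diagonal]
    rcases eq_or_ne i j with rfl | hij
    · ring
    · by_cases hMij : M i j = 0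
      · rw [hMij]; ring
      · have h1 := hoff i j hij hMij
        have h2 : i.val + 1 = j.val ∧ j.val + 1 < n := by
          by_contra h2
          apply hMij
          rw [hM, modelTwo, Matrix.of_apply, if_neg hij, if_neg h2]
        simp only [d]
        rw [if_neg (by omega), if_neg (by omega)]
        ring
  refine ⟨r, r⁻¹ * p * c, h, ?_, ?_, hfin⟩
  · rw [← Units.val_mul, ← Units.val_mul]
    show (B : Matrix (Fin n) (Fin n) F) = _
    congr 1
    rw [hLU]
    have h1 : c * h * c⁻¹ = h := by rw [hc, mul_assoc, mul_inv_cancel, mul_one]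
    calc p * h * p⁻¹ * (r * h⁻¹ * r⁻¹)
        = r * (r⁻¹ * p * (c * h * c⁻¹) * (r⁻¹ * p)⁻¹ * h⁻¹) * r⁻¹ := by rw [h1]; group
      _ = _ := by group
  · have hdc : GeneralLinearGroup.det c = δ := Units.ext hd
    have : GeneralLinearGroup.det (r⁻¹ * p * c) = 1 := by
      rw [map_mul, map_mul, map_inv, hdc, hδ]
      rw [mul_assoc (GeneralLinearGroup.det r)⁻¹, mul_left_comm (GeneralLinearGroup.det p),
        mul_inv_cancel, mul_one, inv_mul_cancel]
    exact congrArg Units.val this

/-- Every matrix of determinant one which is the identity or not scalar is good, over a field with at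
least four elements, with the exception of even degree over five elements. -/
theorem good_of_four [Fintype F] (h4 : 4 ≤ Fintype.card F) {n : ℕ} (hn : 3 ≤ n)
    (h5 : Fintype.card F ≠ 5 ∨ Odd n) (A : Matrix (Fin n) (Fin n) F) (hdet : A.det = 1)
    (hA : A = 1 ∨ ∀ c : F, A ≠ c • 1) : Good A := by
  obtain ⟨r, b, h, hAe, hb, hh⟩ := exists_commutator_form h4 hn h5 A hdet hA
  rw [hAe]
  exact Good.conj ⟨b, h, rfl, by rw [hb]; exact IsSquare.one, hh⟩ r

end CfsgLib.OreOrth
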