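import Cfsg.Agent.Lib.OreOrth.UTrick
import Cfsg.Agent.Lib.PSLCover.Decompose

/-!
An endomorphism of `F ^ n` is a companion endomorphism plus an endomorphism killed by the same polynomial.
-/

set_option autoImplicit false
set_option linter.unusedSectionVars false

namespace CfsgLib.OreOrth

open Polynomial Module

variable {F : Type*} [Field F]

theorem linearCombination_comp {V : Type*} [AddCommGroup V] [Module F V] (T : End F V) (v : V) {k : ℕ}
    (c : Fin k → F) (hv : aeval T (cpoly c) v = 0) :
    T ∘ₗ Fintype.linearCombination F (fun i : Fin k => (T ^ (i : ℕ)) v) =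
      Fintype.linearCombination F (fun i : Fin k => (T ^ (i : ℕ)) v) ∘ₗ comp c := by
  apply LinearMap.pi_ext'
  intro j
  apply LinearMap.ext_ring
  simp only [LinearMap.comp_apply, LinearMap.single_apply, Fintype.linearCombination_apply_single, one_smul]
  rw [← Module.End.mul_apply, ← pow_succ']
  rcases Nat.lt_or_ge ((j : ℕ) + 1) k with hj | hj
  · rw [comp_single c j hj, Fintype.linearCombination_apply_single, one_smul]
  · have hj' : (j : ℕ) + 1 = k := by omega
    rw [comp_single_last c j hj', map_neg, hj', Fintype.linearCombination_apply]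
    rw [cpoly, map_add, map_sum, map_pow, aeval_X, LinearMap.add_apply, LinearMap.sum_apply] at hv
    simp only [map_mul, aeval_C, map_pow, aeval_X, Module.End.mul_apply, Module.algebraMap_end_apply] at hv
    exact eq_neg_of_add_eq_zero_left hv

/-- Peeling off a cyclic piece of maximal size. -/
theorem exists_peel {n : ℕ} (hn : 0 < n) (T : End F (Fin n → F)) :
    ∃ (k : ℕ) (c : Fin k → F) (n' : ℕ) (T' : End F (Fin n' → F))
      (e : (Fin n → F) ≃ₗ[F] (Fin k → F) × (Fin n' → F)),
      0 < k ∧ k + n' = n ∧ e.conj T = (comp c).prodMap T' ∧ aeval T' (cpoly c) = 0 ∧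
        (LinearMap.det T ≠ 0 → ∀ hk : 0 < k, c ⟨0, hk⟩ ≠ 0) := by
  have : Nonempty (Fin n) := ⟨⟨0, hn⟩⟩
  obtain ⟨v, W, hli, hW, hc, hCrank⟩ := PSLCover.exists_invariant_compl T
  set μ := minpoly F T with hμ
  set k := μ.natDegree with hkdef
  have hμm : μ.Monic := minpoly.monic (Algebra.IsIntegral.isIntegral T)
  have hk : 0 < k := minpoly.natDegree_pos (Algebra.IsIntegral.isIntegral T)
  let c : Fin k → F := fun i => μ.coeff (i : ℕ)
  have hcp : cpoly c = μ := by
    rw [cpoly]
    conv_rhs => rw [hμm.as_sum]
    rw [← hkdef, ← Fin.sum_univ_eq_sum_range (fun i => C (μ.coeff i) * X ^ i) k]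
  set L := Fintype.linearCombination F (fun i : Fin k => (T ^ (i : ℕ)) v) with hL
  have hint : T ∘ₗ L = L ∘ₗ comp c :=
    linearCombination_comp T v c (by rw [hcp, hμ, minpoly.aeval]; rfl)
  have hLC : LinearMap.range L = PSLCover.orbitSpan T v := by
    refine Submodule.eq_of_le_of_finrank_eq ?_ ?_
    · rw [Fintype.range_linearCombination]
      refine Submodule.span_le.2 ?_
      rintro _ ⟨i, rfl⟩
      exact PSLCover.pow_mem_orbitSpan T v i
    · rw [Fintype.range_linearCombination, finrank_span_eq_card hli, Fintype.card_fin, hCrank]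
  let eW : W ≃ₗ[F] (Fin (finrank F W) → F) := (finBasis F W).equivFun
  let G : (Fin k → F) × (Fin (finrank F W) → F) →ₗ[F] (Fin n → F) :=
    L.coprod (W.subtype ∘ₗ eW.symm.toLinearMap)
  have hdim : k + finrank F W = n := by
    have h := Submodule.finrank_add_eq_of_isCompl hc
    rwa [hCrank, finrank_fin_fun] at h
  have hGs : Function.Surjective G := by
    rw [← LinearMap.range_eq_top, LinearMap.range_coprod, hLC, LinearMap.range_comp, LinearEquiv.range,
      Submodule.map_top, Submodule.range_subtype]
    exact hc.sup_eq_top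
  have hGi : Function.Injective G := by
    refine (LinearMap.injective_iff_surjective_of_finrank_eq_finrank ?_).2 hGs
    rw [finrank_prod, finrank_fin_fun, finrank_fin_fun, finrank_fin_fun, hdim]
  let E := LinearEquiv.ofBijective G ⟨hGi, hGs⟩
  let T' : End F (Fin (finrank F W) → F) := eW.conj (T.restrict hW)
  have he : E.symm.conj T = (comp c).prodMap T' := by
    apply LinearMap.ext
    intro x
    rw [LinearEquiv.conj_apply_apply, LinearEquiv.symm_symm, LinearEquiv.symm_apply_eq]
    show T (G x) = G (comp c x.1, T' x.2)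
    simp only [G, LinearMap.coprod_apply, LinearMap.comp_apply, map_add, LinearEquiv.coe_coe]
    rw [← LinearMap.comp_apply T L, hint, LinearMap.comp_apply]
    congr 1
    simp [T', LinearEquiv.conj_apply_apply]
  refine ⟨k, c, finrank F W, T', E.symm, hk, hdim, he, ?_, ?_⟩
  · have h : aeval ((comp c).prodMap T') (cpoly c) = 0 := by
      have h1 : aeval (E.symm.conj T) μ = (E.symm.conjAlgEquiv F) (aeval T μ) :=
        aeval_algHom_apply (E.symm.conjAlgEquiv F).toAlgHom T μ
      rw [← he, hcp, h1, hμ, minpoly.aeval, map_zero]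
    rw [aeval_prodMap] at h
    apply LinearMap.ext
    intro y
    have h2 := LinearMap.congr_fun h (0, y)
    exact congrArg Prod.snd h2
  · intro hd _ h0
    apply hd
    rw [← LinearMap.det_conj T E.symm,
      show E.symm.toLinearMap ∘ₗ T ∘ₗ E.symm.symm.toLinearMap = E.symm.conj T from rfl, he,
      LinearMap.det_prodMap, det_comp c hk, h0, mul_zero, zero_mul]

end CfsgLib.OreOrth
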