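import Cfsg.Agent.Lib.OreOrth.Three.Cover
import Cfsg.Agent.Lib.OreOrth.Three.Transvection
import Cfsg.Agent.Lib.OreOrth.Peel

/-!
Over the field with three elements every matrix of determinant one and size at least three is good, apart from
minus the identity of size four.
-/

set_option autoImplicit false
set_option linter.unusedSectionVars false
set_option maxRecDepth 100000

namespace CfsgLib.OreOrth.Three

open Polynomial Module

variable {F : Type*} [Field F] {φ : Z →+* F}

theorem det_tL_cons (g : List Z) (L : List (List Z)) (hg : g ≠ []) :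
    LinearMap.det (tL φ (g :: L)) = φ (sgn g) * LinearMap.det (tL φ L) := by
  obtain ⟨e, he⟩ := simi_cons φ g L
  rw [← LinearMap.det_conj (tL φ (g :: L)) e,
    show e.toLinearMap ∘ₗ tL φ (g :: L) ∘ₗ e.symm.toLinearMap = e.conj (tL φ (g :: L)) from rfl, he,
    LinearMap.det_prodMap, det_comp (vecF φ g) (List.length_pos_iff.2 hg), sgn, map_mul, map_pow, map_neg,
    map_one, List.getD_eq_getElem _ _ (List.length_pos_iff.2 hg)]
  rfl

theorem det_tL : ∀ L : List (List Z), (∀ g ∈ L, g ≠ []) → LinearMap.det (tL φ L) = φ (L.map sgn).prod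
  | [], _ => by
    have : Subsingleton (Fin (dimL ([] : List (List Z))) → F) := by
      show Subsingleton (Fin 0 → F)
      infer_instance
    rw [show tL φ [] = 1 from Subsingleton.elim _ _]
    simp
  | g :: L, h => by
    rw [det_tL_cons g L (h g List.mem_cons_self), det_tL L fun x hx => h x (List.mem_cons_of_mem _ hx),
      List.map_cons, List.prod_cons, map_mul]

theorem simi_det {V W : Type*} [AddCommGroup V] [Module F V] [AddCommGroup W] [Module F W] {T : End F V}
    {S : End F W} (h : Simi T S) : LinearMap.det S = LinearMap.det T := by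
  obtain ⟨e, rfl⟩ := h
  exact LinearMap.det_conj T e

theorem simi_aeval {V W : Type*} [AddCommGroup V] [Module F V] [AddCommGroup W] [Module F W] {T : End F V}
    {S : End F W} (h : Simi T S) {P : F[X]} (hT : aeval T P = 0) : aeval S P = 0 := by
  obtain ⟨e, rfl⟩ := h
  have h1 : aeval (e.conj T) P = (e.conjAlgEquiv F) (aeval T P) :=
    aeval_algHom_apply (e.conjAlgEquiv F).toAlgHom T P
  rw [h1, hT, map_zero]

theorem kill_blocks (P : F[X]) : ∀ L : List (List Z), aeval (tL φ L) P = 0 →
    ∀ h ∈ L, aeval (comp (vecF φ h)) P = 0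
  | [], _, h, hh => by simp at hh
  | g :: L, hk, h, hh => by
    have h2 := simi_aeval (simi_cons φ g L) hk
    rw [aeval_prodMap] at h2
    have hfst : aeval (comp (vecF φ g)) P = 0 := LinearMap.ext fun x => by
      simpa using congrArg Prod.fst (LinearMap.congr_fun h2 (x, 0))
    have hsnd : aeval (tL φ L) P = 0 := LinearMap.ext fun y => by
      simpa using congrArg Prod.snd (LinearMap.congr_fun h2 (0, y))
    rcases List.mem_cons.1 hh with rfl | hh
    · exact hfst
    · exact kill_blocks P L hsnd h hh

/-- A cyclic block killed by the polynomial of a block of the same size is that block. -/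
theorem eq_of_kill {k : ℕ} (c c' : Fin k → F) (hk : 0 < k) (h : aeval (comp c') (cpoly c) = 0) : c' = c := by
  have e := LinearMap.congr_fun h (Pi.single ⟨0, hk⟩ 1)
  have h1 : (comp c' ^ k) (Pi.single ⟨0, hk⟩ 1) = -c' := by
    have e' : comp c' ^ k = comp c' ^ ((k - 1) + 1) := by congr 1; omega
    rw [e', pow_succ', Module.End.mul_apply, comp_single_pow c' hk (k - 1) (by omega)]
    exact comp_single_last c' ⟨k - 1, by omega⟩ (by simp; omega)
  rw [cpoly, map_add, map_pow, aeval_X, map_sum, LinearMap.add_apply, LinearMap.sum_apply, h1] at e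
  simp only [map_mul, aeval_C, map_pow, aeval_X, Module.End.mul_apply, Module.algebraMap_end_apply,
    LinearMap.zero_apply] at e
  funext i
  have e2 := congrFun e i
  rw [Pi.add_apply, Pi.neg_apply, Pi.zero_apply, Finset.sum_apply, Finset.sum_eq_single i] at e2
  · rw [comp_single_pow c' hk i i.isLt] at e2
    simp at e2
    linear_combination -e2
  · intro b _ hb
    rw [comp_single_pow c' hk b b.isLt]
    simp [Pi.single_apply, hb.symm]
  · simp

/-- Decomposition into invariant blocks. -/
theorem exists_list (hφ : Function.Bijective φ) : ∀ (n : ℕ) (T : End F (Fin n → F)), LinearMap.det T ≠ 0 →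
    ∃ L : List (List Z), (∀ g ∈ L, g ≠ [] ∧ sgn g ≠ 0) ∧ Coh L ∧ Simi T (tL φ L) := by
  intro n
  induction n using Nat.strong_induction_on with
  | _ n ih =>
    intro T hT
    rcases Nat.eq_zero_or_pos n with rfl | hn
    · exact ⟨[], fun g hg => by simp at hg, fun g hg => by simp at hg,
        ⟨LinearEquiv.refl F _, Subsingleton.elim (α := End F (Fin 0 → F)) _ _⟩⟩
    obtain ⟨k, c, n', T', e, hk, hkn, he, hkill, hc0⟩ := exists_peel hn T
    have hS : Simi T ((comp c).prodMap T') := ⟨e, he⟩
    have hd := simi_det hS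
    rw [LinearMap.det_prodMap] at hd
    have hT' : LinearMap.det T' ≠ 0 := fun h => hT (by rw [← hd, h, mul_zero])
    obtain ⟨L, hL, hcoh, hsim⟩ := ih n' (by omega) T' hT'
    obtain ⟨c', rfl⟩ := exists_lift hφ c
    set g := List.ofFn c' with hg
    have hgl : g.length = k := List.length_ofFn
    have hcg : Simi (comp (vecF φ g)) (comp fun i => φ (c' i)) :=
      comp_simi_of_eq (fun i => φ (c' i)) hgl fun i => by
        show φ (g.get i) = _
        rw [List.get_ofFn]
    have hgne : g ≠ [] := fun h => by simp [h] at hgl; omega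
    refine ⟨g :: L, ?_, ?_, ?_⟩
    · intro x hx
      rcases List.mem_cons.1 hx with rfl | hx
      · refine ⟨hgne, fun h0 => hc0 hT hk ?_⟩
        rw [sgn, mul_eq_zero] at h0
        have h1 := h0.resolve_left (by
          rcases neg_one_pow_cases g.length with e' | e' <;> rw [e'] <;> decide)
        rw [List.getD_eq_getElem _ _ (by omega)] at h1
        simp only [hg, List.getElem_ofFn] at h1
        show φ (c' ⟨0, hk⟩) = 0
        rw [h1, map_zero]
      · exact hL x hx
    · have heq : ∀ h ∈ L, h.length = g.length → h = g := by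
        intro h hh hlen
        have h1 := kill_blocks (cpoly fun i => φ (c' i)) L (simi_aeval hsim hkill) h hh
        let d : Fin k → F := fun i => φ (h.getD i 0)
        have hd' : Simi (comp (vecF φ h)) (comp d) := comp_simi_of_eq d (hlen.trans hgl) fun i => by
          show φ _ = φ _
          simp [List.getD_eq_getElem?_getD]
        have h2 := eq_of_kill _ d hk (simi_aeval hd' h1)
        refine List.ext_getElem hlen fun i hi hi' => hφ.1 ?_
        have := congrFun h2 ⟨i, by omega⟩
        simp only [d, List.getD_eq_getElem _ _ hi] at this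
        rw [this]
        simp [hg]
      intro x hx y hy hxy
      rcases List.mem_cons.1 hx with rfl | hx <;> rcases List.mem_cons.1 hy with rfl | hy
      · rfl
      · exact (heq y hy hxy.symm).symm
      · exact heq x hx hxy
      · exact hcoh x hx y hy hxy
    · exact hS.trans ((hcg.symm.prodMap hsim).trans (simi_cons φ g L).symm)

/-- Goodness along a similarity. -/
theorem good_of_simi {n m : ℕ} {A : Matrix (Fin n) (Fin n) F} {M : Matrix (Fin m) (Fin m) F}
    (h : Simi (Matrix.toLin' M) (Matrix.toLin' A)) (hM : Good M) : Good A := by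
  obtain ⟨e, he⟩ := h
  obtain rfl : m = n := by
    have h := e.finrank_eq
    rwa [finrank_fin_fun, finrank_fin_fun] at h
  let G : GL (Fin m) F :=
    { val := LinearMap.toMatrix' e.toLinearMap
      inv := LinearMap.toMatrix' e.symm.toLinearMap
      val_inv := by rw [← LinearMap.toMatrix'_comp, LinearEquiv.comp_coe, LinearEquiv.symm_trans_self]; simp
      inv_val := by rw [← LinearMap.toMatrix'_comp, LinearEquiv.comp_coe, LinearEquiv.self_trans_symm]; simp }
  have hA : A = (G : Matrix (Fin m) (Fin m) F) * M * ((G⁻¹ : GL (Fin m) F) : Matrix (Fin m) (Fin m) F) := by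
    conv_lhs => rw [← LinearMap.toMatrix'_toLin' A, ← he, LinearEquiv.conj_apply]
    rw [LinearMap.toMatrix'_comp, LinearMap.toMatrix'_comp, LinearMap.toMatrix'_toLin']
    rfl
  rw [hA]
  exact hM.conj G

theorem good_of_involution {n : ℕ} (G M N : Matrix (Fin n) (Fin n) Z) (k1 : G * G = 1) (k2 : G * M * G = N)
    (hM : Good (M.map φ)) : Good (N.map φ) := by
  have hm : G.map φ * G.map φ = 1 := by
    rw [← Matrix.map_mul, k1, Matrix.map_one φ (map_zero φ) (map_one φ)]
  have h := hM.conj ⟨_, _, hm, hm⟩
  simp only [Units.inv_mk] at h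
  rw [← k2, Matrix.map_mul, Matrix.map_mul]
  exact h

theorem transvection_three_eq : (∀ i j : Fin 3, ((!![(2 : Z), 0, 0; 1, 1, 0; 0, 0, 1]) * (!![(2 : Z), 0, 0; 1, 1, 0; 0, 0, 1])) i j = if i = j then 1 else 0) ∧
    ∀ i j : Fin 3, ((!![(2 : Z), 0, 0; 1, 1, 0; 0, 0, 1]) * (!![(1 : Z), 1, 0; 0, 1, 0; 0, 0, 1]) * (!![(2 : Z), 0, 0; 1, 1, 0; 0, 0, 1])) i j = ent [J2, one] i j := by decide +kernel

theorem transvection_four_eq : (∀ i j : Fin 4, ((!![(2 : Z), 0, 0, 0; 1, 1, 0, 0; 0, 0, 1, 0; 0, 0, 0, 1]) * (!![(2 : Z), 0, 0, 0; 1, 1, 0, 0; 0, 0, 1, 0; 0, 0, 0, 1])) i j = if i = j then 1 else 0) ∧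
    ∀ i j : Fin 4, ((!![(2 : Z), 0, 0, 0; 1, 1, 0, 0; 0, 0, 1, 0; 0, 0, 0, 1]) * (1 + Matrix.single 0 1 1 : Matrix (Fin 4) (Fin 4) Z) * (!![(2 : Z), 0, 0, 0; 1, 1, 0, 0; 0, 0, 1, 0; 0, 0, 0, 1])) i j = ent [J2, one, one] i j := by decide +kernel

/-- The main theorem: goodness over the field with three elements. -/
theorem good_list (hφ : Function.Bijective φ) {n : ℕ} (hn : 3 ≤ n) (A : Matrix (Fin n) (Fin n) F)
    (hdet : A.det = 1) (hx : n = 4 → A ≠ -1) (ht3 : Good ((bdM [J2, one]).map φ))
    (ht4 : Good ((bdM [J2, one, one]).map φ)) : Good A := by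
  obtain ⟨L, hL, hcoh, hsim⟩ := exists_list hφ n (Matrix.toLin' A)
    (by rw [LinearMap.det_toLin', hdet]; exact one_ne_zero)
  have hd := simi_det hsim
  rw [det_tL L fun g hg => (hL g hg).1, LinearMap.det_toLin', hdet, ← map_one φ] at hd
  have hdim : dimL L = n := by
    obtain ⟨e, -⟩ := hsim
    have h := e.finrank_eq
    rwa [finrank_fin_fun, finrank_fin_fun, eq_comm] at h
  have h4 : ¬ L.Perm (List.replicate 4 neg) := by
    intro hp
    have hs : Simi (Matrix.toLin' A) (tL φ (List.replicate 4 neg)) := hsim.trans (simi_perm φ hp)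
    have hm : bdM (List.replicate 4 neg) = -1 := by decide +kernel
    rw [tL, hm, Matrix.map_neg φ (map_neg φ), Matrix.map_one φ (map_zero φ) (map_one φ), map_neg,
      Matrix.toLin'_one] at hs
    obtain ⟨e, he⟩ := hs
    have hn4 : n = 4 := by
      have h := e.finrank_eq
      rw [finrank_fin_fun, finrank_fin_fun] at h
      exact h.trans (by decide)
    refine hx hn4 ((Matrix.toLin' (R := F)).injective ?_)
    rw [map_neg, Matrix.toLin'_one]
    have := congrArg e.symm.conj he
    refine LinearMap.ext fun x => ?_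
    have := LinearMap.congr_fun this x
    simpa [LinearEquiv.conj_apply_apply] using this
  obtain h | h | h := oka_list hφ L hL hcoh (hφ.1 hd) (by omega) h4
  · exact good_of_comm (hsim.symm.comm h) (admissible_ps φ).1 (admissible_ps φ).2
  · exact good_of_simi ((hsim.trans (simi_perm φ h)).symm) ht3
  · exact good_of_simi ((hsim.trans (simi_perm φ h)).symm) ht4

/-- Every matrix of determinant one and size at least three over the field with three elements, apart from minus
the identity of size four, is good. -/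
theorem _root_.CfsgLib.OreOrth.good_of_three [Fintype F] (h3 : Fintype.card F = 3) {n : ℕ} (hn : 3 ≤ n)
    (A : Matrix (Fin n) (Fin n) F) (hdet : A.det = 1) (hx : n = 4 → A ≠ -1) : Good A := by
  haveI : Fact (Nat.Prime 3) := ⟨Nat.prime_three⟩
  obtain ⟨φ, hφ⟩ := exists_zmod_hom (F := F) 3 h3
  refine good_list (φ := φ) hφ hn A hdet hx ?_ ?_
  · refine good_of_involution (n := 3) _ _ _ (Matrix.ext fun i j => (transvection_three_eq.1 i j).trans Matrix.one_apply.symm)
      (Matrix.ext transvection_three_eq.2) ?_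
    have e : (!![(1 : Z), 1, 0; 0, 1, 0; 0, 0, 1]).map φ = !![(1:F),1,0;0,1,0;0,0,1] := by
      ext i j
      fin_cases i <;> fin_cases j <;> simp
    exact e ▸ good_transvection h3
  · refine good_of_involution (n := 4) _ _ _ (Matrix.ext fun i j => (transvection_four_eq.1 i j).trans Matrix.one_apply.symm)
      (Matrix.ext transvection_four_eq.2) ?_
    have e : (1 + Matrix.single 0 1 1 : Matrix (Fin 4) (Fin 4) Z).map φ = (1 + Matrix.single 0 1 1 : Matrix (Fin 4) (Fin 4) F) := by
      ext i j
      fin_cases i <;> fin_cases j <;> simp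
    exact e ▸ good_transvection_four h3

end CfsgLib.OreOrth.Three
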