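import Cfsg.Agent.Lib.OreOrth.GoodTwo
import Cfsg.Agent.Lib.OreOrth.GoodThree
import Cfsg.Agent.Lib.OreOrth.GoodFour
import Cfsg.Agent.Lib.OreOrth.GoodFive

/-!
Levi elements of determinant one are good over every finite field.
-/

set_option autoImplicit false

namespace CfsgLib.OreOrth

variable {F : Type*} [Field F]

/-- Every non-exceptional matrix of determinant one is good. -/
theorem good_all [Fintype F] {n : ℕ} (hn : 3 ≤ n) (h2 : 4 ≤ n ∨ Odd (Fintype.card F))
    (A : Matrix (Fin n) (Fin n) F) (hdet : A.det = 1)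
    (hA : 4 ≤ Fintype.card F → A = 1 ∨ ∀ c : F, A ≠ c • 1) (h3 : Fintype.card F = 3 → n = 4 → A ≠ -1) :
    Good A := by
  have h1 : 1 < Fintype.card F := Fintype.one_lt_card
  rcases Nat.lt_or_ge (Fintype.card F) 4 with h | h
  · by_cases hc : Fintype.card F = 2
    · refine good_of_two hc (h2.resolve_right ?_) A hdet
      rw [hc]
      decide
    · exact good_of_three (by omega) hn A hdet (h3 (by omega))
  · by_cases h5 : Fintype.card F ≠ 5 ∨ Odd n
    · exact good_of_four h hn h5 A hdet (hA h)
    · push Not at h5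
      have hev : Even n := Nat.not_odd_iff_even.1 h5.2
      exact good_of_five h5.1 (by rcases hev with ⟨k, rfl⟩; omega) hev A hdet (hA h)

end CfsgLib.OreOrth
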