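import Cfsg.Agent.Lib.OreOrth.Cert
import Cfsg.Agent.Lib.OreOrth.Two.Corner
import Cfsg.Agent.Lib.OreOrth.Two.Decomp

/-!
Over a field with two elements every invertible matrix of size at least four is good.
-/

set_option autoImplicit false
set_option linter.unusedSectionVars false
set_option maxRecDepth 100000

namespace CfsgLib.OreOrth.Two

open Polynomial Module Matrix

variable {F : Type*} [Field F] [Fintype F] [CharP F 2]

theorem size_perm {L L' : List (ℕ × ℕ)} (hp : L.Perm L') : size L = size L' := by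
  induction hp with
  | nil => rfl
  | cons x _ e => simp [size, e]
  | swap x y l => simp [size]; omega
  | trans _ _ e e' => exact e.trans e'

theorem polyOf_coeff : ∀ (bs : List Bool) (i : ℕ), (polyOf bs : F[X]).coeff i = bF (bs.getD i false) := by
  intro bs
  induction bs with
  | nil => intro i; simp [polyOf, bF]
  | cons b bs ih =>
    intro i
    cases i with
    | zero => simp [polyOf]
    | succ i => simp [polyOf, ih, coeff_C]

theorem polyOf_reverse {bs : List Bool} (hl : bs.getLast? = some true) :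
    (polyOf bs.reverse : F[X]) = (polyOf bs : F[X]).reverse := by
  ext i
  rw [coeff_reverse, polyOf_coeff, polyOf_coeff, (monic_polyOf bs hl).2]
  congr 1
  have hne : bs ≠ [] := by rintro rfl; simp at hl
  have hpos := List.length_pos_iff.2 hne
  rcases Nat.lt_or_ge i bs.length with h | h
  · rw [revAt_le (by omega), List.getD_eq_getElem?_getD, List.getD_eq_getElem?_getD, List.getElem?_reverse h]
  · rw [revAt_eq_self_of_lt (by omega), List.getD_eq_getElem?_getD, List.getD_eq_getElem?_getD,
      List.getElem?_eq_none (by simpa using h), List.getElem?_eq_none h]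

theorem polyOf_phiR : (polyOf phiR : F[X]) = (Phi : F[X]).reverse := by
  rw [show phiR = phiB.reverse by decide +kernel]
  exact polyOf_reverse (by decide +kernel)

theorem eval_polyOf : ∀ bs : List Bool, (polyOf bs : F[X]).eval 1 = bF (bs.foldr xor false) := by
  intro bs
  induction bs with
  | nil => simp [polyOf, bF]
  | cons b bs ih => simp [polyOf, ih, bF_xor]

theorem eval_phiB : (Phi : F[X]).eval 1 ≠ 0 := by
  rw [Phi, eval_polyOf, show phiB.foldr xor false = true by decide +kernel]
  simp [bF]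

/-- The list with the given numbers of the three small blocks. -/
def tl (a j c : ℕ) : List (ℕ × ℕ) :=
  List.replicate a (1, 1) ++ List.replicate j (2, 1) ++ List.replicate c (2, 3)

/-- The exceptional numbers. -/
def badT : List (ℕ × ℕ × ℕ) :=
  [(0, 0, 0), (1, 0, 0), (2, 0, 0), (0, 1, 0), (0, 0, 1), (1, 1, 0), (2, 1, 0), (3, 1, 0)]

/-- The numbers in the table. -/
def tabT : List (ℕ × ℕ × ℕ) := [(3, 0, 0), (1, 0, 1), (4, 0, 0), (2, 0, 1), (0, 0, 2), (0, 1, 1), (0, 2, 0), (5, 0, 0), (3, 0, 1), (1, 0, 2), (1, 1, 1), (1, 2, 0), (0, 0, 3), (4, 1, 0), (2, 1, 1), (0, 1, 2), (2, 2, 0), (0, 2, 1), (0, 3, 0), (5, 1, 0), (1, 3, 0), (6, 1, 0), (2, 3, 0)]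

theorem tabT_ok : (tabT.all fun t => inTab (tl t.1 t.2.1 t.2.2)) = true := by decide +kernel

theorem step_small : ∀ a, a < 10 → ∀ j, j < 5 → ∀ c, c < 5 → a + 2 * j + 2 * c ≤ 9 →
    (badT.contains (a, j, c) || tabT.contains (a, j, c) || tabT.any fun u => decide (u.1 ≤ a) &&
      decide (u.2.1 ≤ j) && decide (u.2.2 ≤ c) && !badT.contains (a - u.1, j - u.2.1, c - u.2.2)) = true := by
  decide +kernel

theorem badT_size : ∀ t ∈ badT, t.1 + 2 * t.2.1 + 2 * t.2.2 < 6 := by decide

theorem tabT_size : ∀ t ∈ tabT, 0 < t.1 + 2 * t.2.1 + 2 * t.2.2 := by decide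

theorem tl_add (a j c a' j' c' : ℕ) : (tl a j c ++ tl a' j' c').Perm (tl (a + a') (j + j') (c + c')) := by
  rw [List.perm_iff_count]
  intro x
  simp only [tl, List.count_append, List.count_replicate]
  split_ifs <;> omega

theorem comm_small (h2 : Fintype.card F = 2) : ∀ n a j c, a + 2 * j + 2 * c = n → (a, j, c) ∉ badT →
    Comm (Phi : F[X]) (Blk (tl a j c) : End F (Fin (size (tl a j c)) → F)) := by
  intro n
  induction n using Nat.strong_induction_on with
  | _ n ih =>
    intro a j c hn hb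
    by_cases ht : (a, j, c) ∈ tabT
    · exact comm_of_inTab h2 (List.all_eq_true.1 tabT_ok _ ht)
    obtain ⟨u, hu, h1, h2', h3, hr⟩ : ∃ u ∈ tabT, u.1 ≤ a ∧ u.2.1 ≤ j ∧ u.2.2 ≤ c ∧
        (a - u.1, j - u.2.1, c - u.2.2) ∉ badT := by
      rcases Nat.lt_or_ge n 10 with h | h
      · have h' := step_small a (by omega) j (by omega) c (by omega) (by omega)
        simp only [Bool.or_eq_true, List.contains_iff_mem, List.any_eq_true, Bool.and_eq_true, decide_eq_true_eq,
          Bool.not_eq_true', ← Bool.not_eq_true] at h'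
        obtain ⟨u, hu, ⟨⟨h1, h2'⟩, h3⟩, h4⟩ := (h'.resolve_left (by rintro (h | h); exacts [hb h, ht h]))
        exact ⟨u, hu, h1, h2', h3, h4⟩
      · have key : ∀ u ∈ tabT, u.1 + 2 * u.2.1 + 2 * u.2.2 ≤ 4 → u.1 ≤ a → u.2.1 ≤ j → u.2.2 ≤ c →
            (a - u.1, j - u.2.1, c - u.2.2) ∉ badT := fun u _ h4 h1 h2 h3 hm => by
          have := badT_size _ hm
          simp only at this
          omega
        rcases Nat.lt_or_ge a 3 with ha | ha
        · rcases Nat.lt_or_ge j 2 with hj | hj
          · exact ⟨(0, 0, 2), by decide, Nat.zero_le _, Nat.zero_le _, (by omega : 2 ≤ c),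
              key _ (by decide) (by decide) (Nat.zero_le _) (Nat.zero_le _) (by omega : 2 ≤ c)⟩
          · exact ⟨(0, 2, 0), by decide, Nat.zero_le _, hj, Nat.zero_le _,
              key _ (by decide) (by decide) (Nat.zero_le _) hj (Nat.zero_le _)⟩
        · exact ⟨(3, 0, 0), by decide, ha, Nat.zero_le _, Nat.zero_le _,
            key _ (by decide) (by decide) ha (Nat.zero_le _) (Nat.zero_le _)⟩
    have hpos := tabT_size u hu
    have hA : Comm (Phi : F[X]) (Blk (tl u.1 u.2.1 u.2.2) : End F (Fin (size (tl u.1 u.2.1 u.2.2)) → F)) :=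
      comm_of_inTab h2 (List.all_eq_true.1 tabT_ok _ hu)
    have hB := ih _ (by omega : (a - u.1) + 2 * (j - u.2.1) + 2 * (c - u.2.2) < n) _ _ _ rfl hr
    have hp := tl_add u.1 u.2.1 u.2.2 (a - u.1) (j - u.2.1) (c - u.2.2)
    rw [Nat.add_sub_cancel' h1, Nat.add_sub_cancel' h2', Nat.add_sub_cancel' h3] at hp
    exact (sim_perm hp.symm).comm (comm_append hA hB)

theorem tab_alone : ∀ k, k < 7 → ∀ g, g < 2 ^ k → 3 ≤ k → g % 2 = 1 → inTab [(k, g)] = true := by
  decide +kernel

theorem tab_one : ∀ k, k < 6 → ∀ g, g < 2 ^ k → 3 ≤ k → g % 2 = 1 → inTab [(k, g), (1, 1)] = true := by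
  decide +kernel

theorem tab_more : ∀ S ∈ [[(1, 1), (1, 1)], [(2, 1)], [(2, 3)], [(2, 1), (1, 1)], [(2, 1), (1, 1), (1, 1)]],
    ∀ k, k < 5 → ∀ g, g < 2 ^ k → 3 ≤ k → g % 2 = 1 → inTab ((k, g) :: S) = true := by decide +kernel

theorem corner_alone : ∀ g, g < 2 ^ 3 → g % 2 = 1 → inTabP [(3, g)] p3 = true := by decide +kernel

theorem corner_one : (∀ g, g < 2 ^ 3 → g % 2 = 1 → inTabP [(3, g), (1, 1)] p4 = true) ∧
    ∀ g, g < 2 ^ 4 → g % 2 = 1 → inTabP [(4, g), (1, 1)] p5 = true := by decide +kernel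

theorem corner_two : ∀ S ∈ [[(2, 1)], [(2, 3)]],
    (∀ g, g < 2 ^ 2 → g % 2 = 1 → inTabP ((2, g) :: S) p4 = true) ∧
    ∀ g, g < 2 ^ 3 → g % 2 = 1 → inTabP ((3, g) :: S) p5 = true := by decide +kernel

theorem corner_pair : ∀ g, g < 2 ^ 3 → g % 2 = 1 → inTabP [(3, g), (1, 1), (1, 1)] p5 = true := by decide +kernel

theorem tab_pair : ∀ g, g < 2 ^ 5 → g % 2 = 1 → inTab [(5, g), (1, 1), (1, 1)] = true := by decide +kernel

theorem corner_three : (∀ g, g < 2 ^ 2 → g % 2 = 1 → inTabP [(2, g), (2, 1), (1, 1)] p5 = true) ∧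
    ∀ g, g < 2 ^ 2 → g % 2 = 1 → inTabP [(2, g), (2, 1), (1, 1), (1, 1)] p6 = true := by decide +kernel

/-- The shapes of small rests. -/
def rests : List (List (ℕ × ℕ)) :=
  [[], [(1, 1)], [(1, 1), (1, 1)], [(2, 1)], [(2, 3)], [(2, 1), (1, 1)], [(2, 1), (1, 1), (1, 1)]]

theorem comm_with_rest (h2 : Fintype.card F = 2) {k g : ℕ} (hk : 3 ≤ k) (hg : g < 2 ^ k) (hodd : g % 2 = 1)
    {S : List (ℕ × ℕ)} (hS : S ∈ rests) :
    Comm (Phi : F[X]) (Blk ((k, g) :: S) : End F (Fin (size ((k, g) :: S)) → F)) := by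
  have hlow : ∀ d, 0 < d → g % 2 ^ d % 2 = 1 := fun d hd => by
    rw [Nat.mod_mod_of_dvd _ (dvd_pow_self 2 hd.ne')]; exact hodd
  have go : ∀ (d : ℕ) (P : List Bool), 0 < d → d < k → (cofac.any fun c => c.1 == P) = true →
      inTabP ((d, g % 2 ^ d) :: S) P = true → (∃ R, Adm (polyOf P : F[X]) (k - d) R) →
      Comm (Phi : F[X]) (Blk ((k, g) :: S) : End F (Fin (size ((k, g) :: S)) → F)) := by
    intro d P hd hdk hP hc hR
    obtain ⟨R, hR⟩ := hR
    have h := comm_corner (g := g) h2 hd (by omega : 0 < k - d) hodd S hP hc hR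
    rwa [Nat.add_sub_cancel' hdk.le] at h
  have l2 : g % 2 ^ 2 < 2 ^ 2 := Nat.mod_lt _ (by norm_num)
  have l3 : g % 2 ^ 3 < 2 ^ 3 := Nat.mod_lt _ (by norm_num)
  have l4 : g % 2 ^ 4 < 2 ^ 4 := Nat.mod_lt _ (by norm_num)
  have o2 := hlow 2 (by norm_num)
  have o3 := hlow 3 (by norm_num)
  have o4 := hlow 4 (by norm_num)
  simp only [rests, List.mem_cons, List.not_mem_nil, or_false] at hS
  rcases hS with rfl | rfl | hS
  · rcases Nat.lt_or_ge k 7 with h | h
    · exact comm_of_inTab h2 (tab_alone k h g hg hk hodd)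
    · exact go 3 p3 (by omega) (by omega) (by decide) (corner_alone _ l3 o3) (adm_three _ (by omega))
  · rcases Nat.lt_or_ge k 6 with h | h
    · exact comm_of_inTab h2 (tab_one k h g hg hk hodd)
    rcases Nat.eq_or_lt_of_le h with rfl | h'
    · exact go 3 p4 (by omega) (by omega) (by decide) (corner_one.1 _ l3 o3) adm_four
    · exact go 4 p5 (by omega) (by omega) (by decide) (corner_one.2 _ l4 o4) (adm_five _ (by omega))
  · rcases Nat.lt_or_ge k 5 with h | h
    · refine comm_of_inTab h2 (tab_more S ?_ k h g hg hk hodd)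
      simpa using hS
    rcases hS with hS | hS | hS | rfl | rfl
    · subst hS
      rcases Nat.eq_or_lt_of_le h with rfl | h'
      · exact comm_of_inTab h2 (tab_pair g hg hodd)
      · exact go 3 p5 (by omega) (by omega) (by decide) (corner_pair _ l3 o3) (adm_five _ (by omega))
    · obtain ⟨c2, c3⟩ := corner_two S (by simp [hS])
      rcases Nat.eq_or_lt_of_le h with rfl | h'
      · exact go 2 p4 (by omega) (by omega) (by decide) (c2 _ l2 o2) adm_four
      · exact go 3 p5 (by omega) (by omega) (by decide) (c3 _ l3 o3) (adm_five _ (by omega))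
    · obtain ⟨c2, c3⟩ := corner_two S (by simp [hS])
      rcases Nat.eq_or_lt_of_le h with rfl | h'
      · exact go 2 p4 (by omega) (by omega) (by decide) (c2 _ l2 o2) adm_four
      · exact go 3 p5 (by omega) (by omega) (by decide) (c3 _ l3 o3) (adm_five _ (by omega))
    · exact go 2 p5 (by omega) (by omega) (by decide) (corner_three.1 _ l2 o2) (adm_five _ (by omega))
    · exact go 2 p6 (by omega) (by omega) (by decide) (corner_three.2 _ l2 o2) (adm_six _ (by omega))

theorem comm_big (h2 : Fintype.card F = 2) : ∀ B : List (ℕ × ℕ), (∀ x ∈ B, 3 ≤ x.1 ∧ x.2 < 2 ^ x.1 ∧ x.2 % 2 = 1) →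
    B ≠ [] → Comm (Phi : F[X]) (Blk B : End F (Fin (size B) → F)) := by
  intro B
  induction B with
  | nil => intro _ h; exact absurd rfl h
  | cons x B ih =>
    intro hB _
    obtain ⟨h1, h3, h4⟩ := hB x (by simp)
    have hx : Comm (Phi : F[X]) (Blk [x] : End F (Fin (size [x]) → F)) :=
      comm_with_rest h2 (g := x.2) h1 h3 h4 (by simp [rests])
    rcases eq_or_ne B [] with rfl | hne
    · exact hx
    · exact comm_append hx (ih (fun y hy => hB y (by simp [hy])) hne)

theorem comm_list (h2 : Fintype.card F = 2) {L : List (ℕ × ℕ)} (hL : ∀ x ∈ L, Valid x) (hn : 3 ≤ size L) :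
    Comm (Phi : F[X]) (Blk L : End F (Fin (size L) → F)) ∨ L.Perm [(2, 1), (1, 1)] ∨
      L.Perm [(2, 1), (1, 1), (1, 1)] ∨ L.Perm [(2, 1), (1, 1), (1, 1), (1, 1)] := by
  set B := L.filter fun x => decide (3 ≤ x.1) with hB
  set S := L.filter fun x => !decide (3 ≤ x.1) with hSd
  have hperm : L.Perm (B ++ S) := (List.filter_append_perm _ L).symm
  set a := S.count (1, 1)
  set j := S.count (2, 1)
  set c := S.count (2, 3)
  have hS : S.Perm (tl a j c) := by
    rw [List.perm_iff_count]
    intro x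
    simp only [tl, List.count_append, List.count_replicate]
    by_cases hx : x ∈ S
    · obtain ⟨k, g⟩ := x
      obtain ⟨hxL, hk⟩ := List.mem_filter.1 hx
      obtain ⟨h1, h3, h4⟩ := hL _ hxL
      simp at hk h1 h3 h4
      interval_cases k
      · obtain rfl : g = 1 := by omega
        simp [a]
      · rcases (by omega : g = 1 ∨ g = 3) with rfl | rfl <;> simp [j, c]
    · rw [List.count_eq_zero_of_not_mem hx]
      simp only [beq_iff_eq]
      split_ifs with e1 e2 e3 e4 e5 e6 e7 <;> subst_vars <;> simp [a, j, c, List.count_eq_zero_of_not_mem hx] <;> simp at *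
  have hBv : ∀ x ∈ B, 3 ≤ x.1 ∧ x.2 < 2 ^ x.1 ∧ x.2 % 2 = 1 := fun x hx => by
    obtain ⟨hxL, hk⟩ := List.mem_filter.1 hx
    exact ⟨by simpa using hk, (hL x hxL).2⟩
  have hperm' : L.Perm (B ++ tl a j c) := hperm.trans (hS.append_left B)
  by_cases hbad : (a, j, c) ∈ badT
  swap
  · refine Or.inl ((sim_perm hperm').comm ?_)
    rcases eq_or_ne B [] with e | e
    · rw [e]; exact comm_small h2 _ a j c rfl hbad
    · exact comm_append (comm_big h2 B hBv e) (comm_small h2 _ a j c rfl hbad)
  rcases hBd : B with _ | ⟨x, B'⟩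
  · rw [hBd, List.nil_append] at hperm'
    have hn' : 3 ≤ size (tl a j c) := size_perm hperm' ▸ hn
    have key : ∀ t ∈ badT, 3 ≤ size (tl t.1 t.2.1 t.2.2) →
        (tl t.1 t.2.1 t.2.2).Perm [(2, 1), (1, 1)] ∨ (tl t.1 t.2.1 t.2.2).Perm [(2, 1), (1, 1), (1, 1)] ∨
          (tl t.1 t.2.1 t.2.2).Perm [(2, 1), (1, 1), (1, 1), (1, 1)] := by decide +kernel
    exact Or.inr ((key _ hbad hn').imp hperm'.trans (Or.imp hperm'.trans hperm'.trans))
  refine Or.inl ((sim_perm hperm').comm ?_)
  rw [hBd] at hBv ⊢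
  obtain ⟨hx1, hx2, hx3⟩ := hBv x (by simp)
  have withB : ∀ S0, Comm (Phi : F[X]) (Blk (x :: S0) : End F (Fin (size (x :: S0)) → F)) →
      Comm (Phi : F[X]) (Blk (x :: B' ++ S0) : End F (Fin (size (x :: B' ++ S0)) → F)) := by
    intro S0 h
    have hp : (x :: B' ++ S0).Perm ((x :: S0) ++ B') := by
      simp only [List.cons_append]
      exact (List.perm_append_comm).cons x
    refine (sim_perm hp).comm ?_
    rcases eq_or_ne B' [] with e | e
    · rw [e, List.append_nil]; exact h
    · exact comm_append h (comm_big h2 B' (fun y hy => hBv y (by simp [hy])) e)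
  have key : ∀ t ∈ badT, (∃ R ∈ rests, (tl t.1 t.2.1 t.2.2).Perm R) ∨ t = (3, 1, 0) := by decide +kernel
  rcases key _ hbad with ⟨R, hR, hp⟩ | e
  · exact (sim_perm (hp.append_left (x :: B'))).comm (withB R (comm_with_rest h2 (g := x.2) hx1 hx2 hx3 hR))
  · simp only [Prod.mk.injEq] at e
    obtain ⟨e1, e2, e3⟩ := e
    rw [e1, e2, e3]
    have hp : (x :: B' ++ tl 3 1 0).Perm ((x :: B' ++ [(2, 1)]) ++ tl 3 0 0) := by
      rw [List.append_assoc]
      exact (show (tl 3 1 0).Perm ([(2, 1)] ++ tl 3 0 0) by decide).append_left _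
    exact (sim_perm hp).comm (comm_append (withB _ (comm_with_rest h2 (g := x.2) hx1 hx2 hx3 (by simp [rests])))
      (comm_small h2 _ 3 0 0 rfl (by decide)))

/-- The upper index pairs, in the order used for alternating matrices. -/
def pairL : List (ℕ × ℕ) := [(0, 1), (0, 2), (1, 2), (0, 3), (1, 3), (2, 3), (0, 4), (1, 4), (2, 4), (3, 4)]

/-- The rows of the alternating matrix with the upper bits `c`. -/
def altRows (n c : ℕ) : List ℕ :=
  (List.range n).map fun i => (((List.range 10).filter fun t =>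
    c.testBit t && ((pairL.getD t (0, 0)).1 == i)).map fun t => 2 ^ (pairL.getD t (0, 0)).2).sum +
      (((List.range 10).filter fun t =>
    c.testBit t && ((pairL.getD t (0, 0)).2 == i)).map fun t => 2 ^ (pairL.getD t (0, 0)).1).sum

/-- The transpose. -/
def trRows (n : ℕ) (h : List ℕ) : List ℕ :=
  (List.range n).map fun i => (((List.range n).filter fun j => (h.getD j 0).testBit i).map fun j => 2 ^ j).sum

/-- Equality of the matrices of bit rows. -/
def eqB (n : ℕ) (A B : List ℕ) : Bool :=
  (List.range n).all fun i => (List.range n).all fun j => (A.getD i 0).testBit j == (B.getD i 0).testBit j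

theorem eqB_of_toMat {n : ℕ} {A B : List ℕ} (h : (toMat n A : Matrix (Fin n) (Fin n) F) = toMat n B) :
    eqB n A B = true := by
  refine List.all_eq_true.2 fun i hi => List.all_eq_true.2 fun j hj => ?_
  rw [List.mem_range] at hi hj
  have := congrFun (congrFun h ⟨i, hi⟩) ⟨j, hj⟩
  simp only [toMat, Matrix.of_apply] at this
  revert this
  cases (A.getD i 0).testBit j <;> cases (B.getD i 0).testBit j <;> simp [bF]

/-- The check that no alternating matrix is fixed. -/
def fpfB (n m : ℕ) (g g' : List ℕ) : Bool :=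
  (List.range (2 ^ m)).all fun x => !eqB n (mm n (mm n g (altRows n x)) g') (altRows n x) || x == 0

/-- The check for the codes of alternating matrices. -/
def altB (n m : ℕ) : Bool :=
  (List.range (2 ^ m)).all fun x => (List.range n).all fun i => (List.range n).all fun j =>
    ((altRows n x).getD i 0).testBit j ==
      ((List.range m).any fun t => x.testBit t && ((pairL.getD t (0, 0)) == (i, j) || (pairL.getD t (0, 0)) == (j, i)))

/-- The check that the second list codes the transpose of the first. -/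
def trB (n : ℕ) (g g' : List ℕ) : Bool :=
  (List.range n).all fun i => (List.range n).all fun j => (g'.getD i 0).testBit j == (g.getD j 0).testBit i

theorem alt_code (h2 : Fintype.card F = 2) {n m : ℕ} (h : altB n m = true)
    (hpair : ∀ i, i < n → ∀ j, j < n → i < j → ∃ t, t < m ∧ pairL.getD t (0, 0) = (i, j))
    (hpair' : ∀ t, t < m → (pairL.getD t (0, 0)).1 < (pairL.getD t (0, 0)).2 ∧ (pairL.getD t (0, 0)).2 < n)
    (X : Matrix (Fin n) (Fin n) F) (hd : ∀ i, X i i = 0) (hs : X.transpose = -X) :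
    ∃ x < 2 ^ m, toMat n (altRows n x) = X := by
  classical
  let e : Fin m → Bool := fun t =>
    decide (X ⟨(pairL.getD t (0, 0)).1, (hpair' t t.2).1.trans (hpair' t t.2).2⟩
      ⟨(pairL.getD t (0, 0)).2, (hpair' t t.2).2⟩ = 1)
  refine ⟨Nat.ofBits e, Nat.ofBits_lt_two_pow e, ?_⟩
  have h5' := List.all_eq_true.1 h (Nat.ofBits e) (List.mem_range.2 (Nat.ofBits_lt_two_pow e))
  have hsym : ∀ i j, X j i = X i j := fun i j => by
    have := congrFun (congrFun hs i) j
    rwa [Matrix.transpose_apply, Matrix.neg_apply, CharTwo.neg_eq] at this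
  ext i j
  have hij := List.all_eq_true.1 (List.all_eq_true.1 h5' i (List.mem_range.2 i.2)) j (List.mem_range.2 j.2)
  rw [beq_iff_eq] at hij
  rw [toMat, Matrix.of_apply, hij]
  rcases eq_zero_or_one h2 (X i j) with hx | hx
  · rw [hx, bF, if_neg]
    intro ht
    obtain ⟨t, ht, h⟩ := List.any_eq_true.1 ht
    rw [List.mem_range] at ht
    simp only [Bool.and_eq_true, Bool.or_eq_true, beq_iff_eq] at h
    obtain ⟨hb, hp | hp⟩ := h <;> rw [Nat.testBit_ofBits_lt e t ht] at hb <;>
      simp only [e, decide_eq_true_eq, hp] at hb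
    · exact one_ne_zero (hb.symm.trans hx)
    · exact one_ne_zero (hb.symm.trans ((hsym i j).trans hx))
  · rw [hx, bF, if_pos]
    rcases lt_trichotomy (i : ℕ) j with hl | hl | hl
    · obtain ⟨t, ht, hp⟩ := hpair i i.2 j j.2 hl
      refine List.any_eq_true.2 ⟨t, List.mem_range.2 ht, ?_⟩
      simp only [Bool.and_eq_true, Bool.or_eq_true, beq_iff_eq]
      refine ⟨?_, Or.inl hp⟩
      rw [Nat.testBit_ofBits_lt e t ht]
      simp only [e, decide_eq_true_eq]
      rw [List.getD_eq_getElem?_getD] at hp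
      convert hx <;> simp [Fin.ext_iff, hp]
    · exact absurd ((hd i).symm.trans ((congrArg (X i) (Fin.ext hl)).trans hx)) zero_ne_one
    · obtain ⟨t, ht, hp⟩ := hpair j j.2 i i.2 hl
      refine List.any_eq_true.2 ⟨t, List.mem_range.2 ht, ?_⟩
      simp only [Bool.and_eq_true, Bool.or_eq_true, beq_iff_eq]
      refine ⟨?_, Or.inr hp⟩
      rw [Nat.testBit_ofBits_lt e t ht]
      simp only [e, decide_eq_true_eq]
      rw [List.getD_eq_getElem?_getD] at hp
      convert (hsym i j).trans hx <;> simp [Fin.ext_iff, hp]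

/-- The check for a transvection. -/
def tvB (n m : ℕ) (L : List (ℕ × ℕ)) (b bi g gi g' : List ℕ) : Bool :=
  mm n b bi == mone n && mm n g gi == mone n && mm n (mm n (rows L) g) b == mm n b g && trB n g g' &&
    altB n m && fpfB n m g g' && fpfB n m g' g

theorem good_tv (h2 : Fintype.card F = 2) {L : List (ℕ × ℕ)} {n m : ℕ} {b bi g gi g' : List ℕ}
    (hc : tvB n m L b bi g gi g' = true)
    (hpair : ∀ i, i < n → ∀ j, j < n → i < j → ∃ t, t < m ∧ pairL.getD t (0, 0) = (i, j))
    (hpair' : ∀ t, t < m → (pairL.getD t (0, 0)).1 < (pairL.getD t (0, 0)).2 ∧ (pairL.getD t (0, 0)).2 < n) :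
    Good (toMat n (rows L) : Matrix (Fin n) (Fin n) F) := by
  simp only [tvB, Bool.and_eq_true, beq_iff_eq] at hc
  obtain ⟨⟨⟨⟨⟨⟨h1, h2'⟩, h3⟩, h4⟩, h5⟩, h6⟩, h7⟩ := hc
  have e1 : (toMat n b : Matrix (Fin n) (Fin n) F) * toMat n bi = 1 := by rw [← toMat_mm, h1, toMat_mone]
  have e2 : (toMat n g : Matrix (Fin n) (Fin n) F) * toMat n gi = 1 := by rw [← toMat_mm, h2', toMat_mone]
  have e3 : (toMat n (rows L) : Matrix (Fin n) (Fin n) F) * toMat n g * toMat n b = toMat n b * toMat n g := by
    rw [← toMat_mm, ← toMat_mm, h3, toMat_mm]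
  have htr : (toMat n g' : Matrix (Fin n) (Fin n) F) = (toMat n g).transpose := by
    ext i j
    have := List.all_eq_true.1 (List.all_eq_true.1 h4 i (List.mem_range.2 i.2)) j (List.mem_range.2 j.2)
    rw [beq_iff_eq] at this
    simp only [toMat, Matrix.transpose_apply, Matrix.of_apply, this]
  have fix : ∀ G G' : List ℕ, (toMat n G' : Matrix (Fin n) (Fin n) F) = (toMat n G).transpose →
      fpfB n m G G' = true → Fpf (toMat n G : Matrix (Fin n) (Fin n) F) := by
    intro G G' hG hf X hd hs hX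
    obtain ⟨x, hxm, rfl⟩ := alt_code h2 h5 hpair hpair' X hd hs
    rw [← hG, ← toMat_mm, ← toMat_mm] at hX
    have hx := List.all_eq_true.1 hf x (List.mem_range.2 hxm)
    rw [eqB_of_toMat hX] at hx
    simp at hx
    subst hx
    ext i j
    have hij := List.all_eq_true.1 (List.all_eq_true.1 (List.all_eq_true.1 h5 0 (List.mem_range.2 hxm)) i
      (List.mem_range.2 i.2)) j (List.mem_range.2 j.2)
    rw [beq_iff_eq] at hij
    rw [toMat, Matrix.of_apply, hij]
    simp [bF]
  refine ⟨⟨toMat n b, toMat n bi, e1, mul_eq_one_comm.1 e1⟩, ⟨toMat n g, toMat n gi, e2, mul_eq_one_comm.1 e2⟩,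
    ?_, isSquare_of_card_two h2 _, isSquare_of_card_two h2 _, fix g g' htr h6, ?_,
    fun h => absurd CharTwo.two_eq_zero h⟩
  · rw [Units.val_mul, Units.val_mul, Units.val_mul]
    show (toMat n (rows L) : Matrix (Fin n) (Fin n) F) = toMat n b * toMat n g * toMat n bi * toMat n gi
    rw [← e3, mul_assoc (_ * toMat n g) _ (toMat n bi), e1, mul_one, mul_assoc, e2, mul_one]
  · show Fpf (toMat n g : Matrix (Fin n) (Fin n) F).transpose
    rw [← htr]
    exact fix g' g (by rw [htr, Matrix.transpose_transpose]) h7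

/-- `Good` is invariant under similarity of endomorphisms. -/
theorem good_of_sim {n : ℕ} {A B : Matrix (Fin n) (Fin n) F} (hs : Sim (Matrix.toLin' A) (Matrix.toLin' B))
    (hB : Good B) : Good A := by
  obtain ⟨e, he⟩ := hs.spec
  let g : GL (Fin n) F :=
    ⟨LinearMap.toMatrix' e.symm.toLinearMap, LinearMap.toMatrix' e.toLinearMap,
      by rw [← LinearMap.toMatrix'_comp, show e.symm.toLinearMap ∘ₗ e.toLinearMap = LinearMap.id from
          LinearMap.ext fun x => e.symm_apply_apply x, LinearMap.toMatrix'_id],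
      by rw [← LinearMap.toMatrix'_comp, show e.toLinearMap ∘ₗ e.symm.toLinearMap = LinearMap.id from
          LinearMap.ext fun x => e.apply_symm_apply x, LinearMap.toMatrix'_id]⟩
  have h := hB.conj g
  have heq : (g : Matrix (Fin n) (Fin n) F) * B * ((g⁻¹ : GL (Fin n) F) : Matrix (Fin n) (Fin n) F) = A := by
    refine Matrix.toLin'.injective (LinearMap.ext fun x => ?_)
    show Matrix.toLin' (LinearMap.toMatrix' e.symm.toLinearMap * B * LinearMap.toMatrix' e.toLinearMap) x = _
    rw [Matrix.toLin'_mul, Matrix.toLin'_mul, Matrix.toLin'_toMatrix', Matrix.toLin'_toMatrix']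
    simp [← he]
  rwa [heq] at h

/-- Every invertible matrix of size at least four over a field with two elements is good. -/
theorem good_two_aux (h2 : Fintype.card F = 2) {n : ℕ} (hn : 4 ≤ n) (A : Matrix (Fin n) (Fin n) F)
    (hdet : A.det = 1) : Good A := by
  classical
  have hinj : Function.Injective (Matrix.toLin' A) := by
    rw [← LinearMap.ker_eq_bot, LinearMap.ker_eq_bot']
    intro x hx
    exact Matrix.eq_zero_of_mulVec_eq_zero (by rw [hdet]; exact one_ne_zero) hx
  obtain ⟨L, hL, hs, hsim⟩ := exists_list h2 n (Matrix.toLin' A) (Module.finrank_fin_fun F) hinj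
  rcases comm_list h2 hL (by omega) with hc | hp | hp | hp
  · refine good_of_comm (Φ := (Phi : F[X])) (hsim.comm hc) ?_ ?_
    · have hrev : (polyOf phiR : F[X]) = (Phi : F[X]).reverse := polyOf_phiR
      rw [← hrev]
      exact isCoprime_polyOf coprime_phiB
    · exact eval_phiB
  · exact absurd (size_perm hp) (by show ¬ size L = 3; omega)
  · have e : n = 4 := by rw [← hs, size_perm hp]; rfl
    subst e
    exact good_of_sim (hsim.trans (sim_perm hp))
      (good_tv h2 (L := [(2, 1), (1, 1), (1, 1)]) (m := 6) (b := [14, 13, 6, 1]) (bi := [8, 11, 15, 5])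
        (g := [7, 4, 14, 12]) (gi := [15, 12, 2, 10]) (g' := trRows 4 [7, 4, 14, 12]) (by decide +kernel)
        (by decide) (by decide))
  · have e : n = 5 := by rw [← hs, size_perm hp]; rfl
    subst e
    exact good_of_sim (hsim.trans (sim_perm hp))
      (good_tv h2 (L := [(2, 1), (1, 1), (1, 1), (1, 1)]) (m := 10) (b := [6, 22, 11, 31, 19])
        (bi := [29, 14, 15, 23, 3]) (g := [22, 18, 23, 12, 11]) (gi := [5, 30, 3, 11, 28])
        (g' := trRows 5 [22, 18, 23, 12, 11]) (by decide +kernel) (by decide) (by decide))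

/-- In dimension three every invertible matrix other than a transvection is good. -/
theorem good_two_three_aux (h2 : Fintype.card F = 2) (A : Matrix (Fin 3) (Fin 3) F) (hdet : A.det = 1)
    (hA : ∀ u v : Fin 3 → F, A = 1 + Matrix.vecMulVec u v → A = 1) : Good A := by
  classical
  have hinj : Function.Injective (Matrix.toLin' A) := by
    rw [← LinearMap.ker_eq_bot, LinearMap.ker_eq_bot']
    intro x hx
    exact Matrix.eq_zero_of_mulVec_eq_zero (by rw [hdet]; exact one_ne_zero) hx
  obtain ⟨L, hL, hs, hsim⟩ := exists_list h2 3 (Matrix.toLin' A) (Module.finrank_fin_fun F) hinj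
  rcases comm_list h2 hL (by omega) with hc | hp | hp | hp
  · refine good_of_comm (Φ := (Phi : F[X])) (hsim.comm hc) ?_ eval_phiB
    have hrev : (polyOf phiR : F[X]) = (Phi : F[X]).reverse := polyOf_phiR
    rw [← hrev]
    exact isCoprime_polyOf coprime_phiB
  · exfalso
    obtain ⟨e, he⟩ := ((hsim.trans (sim_perm hp)) :
      Sim (Matrix.toLin' A) (endOf 3 (rows [(2, 1), (1, 1)]))).spec
    let u : Fin 3 → F := ![1, 1, 0]
    have hr : rows [(2, 1), (1, 1)] = [2, 1, 4] := by decide
    have hB : ∀ y, (endOf 3 (rows [(2, 1), (1, 1)]) : End F (Fin 3 → F)) y = y + (u ⬝ᵥ y) • u := by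
      intro y
      show (toMat 3 (rows [(2, 1), (1, 1)]) : Matrix (Fin 3) (Fin 3) F) *ᵥ y = _
      rw [hr]
      have c2 := CharTwo.two_eq_zero (R := F)
      funext i
      fin_cases i <;>
        simp [toMat, bF, Matrix.mulVec, dotProduct, Fin.sum_univ_three, u, Nat.testBit, Nat.shiftRight_eq_div_pow] <;>
        first
          | ring1
          | linear_combination -(y 0) * c2
          | linear_combination -(y 1) * c2
          | linear_combination (y 0) * c2
          | linear_combination (y 1) * c2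
          | linear_combination (y 0 - y 1) * c2
          | linear_combination (y 1 - y 0) * c2
          | linear_combination -(y 0 + y 1) * c2
          | linear_combination (y 0 + y 1) * c2
    have hAe : A = 1 + Matrix.vecMulVec (e.symm u) (fun j => u ⬝ᵥ e (Pi.single j 1)) := by
      ext i j
      have h := congrArg e.symm ((he (Pi.single j 1)).trans (hB _))
      rw [LinearEquiv.symm_apply_apply, map_add, map_smul, LinearEquiv.symm_apply_apply] at h
      have h' := congrFun h i
      simp only [Matrix.toLin'_apply, Matrix.mulVec_single_one, Pi.add_apply, Pi.smul_apply, smul_eq_mul,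
        Matrix.col_apply] at h'
      rw [h', Matrix.add_apply, Matrix.vecMulVec_apply, Matrix.one_apply, Pi.single_apply]
      ring
    have h1 := hA _ _ hAe
    have h0 := he (e.symm ![1, 0, 0])
    rw [h1, Matrix.toLin'_one, LinearMap.id_apply, LinearEquiv.apply_symm_apply, hB] at h0
    have := congrFun h0 0
    simp [u, dotProduct, Fin.sum_univ_three] at this
  · exact absurd (size_perm hp) (by show ¬ size L = 4; omega)
  · exact absurd (size_perm hp) (by show ¬ size L = 5; omega)

end CfsgLib.OreOrth.Two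

namespace CfsgLib.OreOrth

/-- Over a field with two elements every invertible matrix of size at least four is good. -/
theorem good_of_two {F : Type*} [Field F] [Fintype F] (h2 : Fintype.card F = 2) {n : ℕ} (hn : 4 ≤ n)
    (A : Matrix (Fin n) (Fin n) F) (hdet : A.det = 1) : Good A :=
  haveI : Fact (Nat.Prime 2) := ⟨Nat.prime_two⟩
  haveI : CharP F 2 := charP_of_card_eq_prime (by rw [h2])
  Two.good_two_aux h2 hn A hdet

/-- Over a field with two elements every invertible matrix of size three other than a transvection is good. -/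
theorem good_of_two_three {F : Type*} [Field F] [Fintype F] (h2 : Fintype.card F = 2)
    (A : Matrix (Fin 3) (Fin 3) F) (hdet : A.det = 1)
    (hA : ∀ u v : Fin 3 → F, A = 1 + Matrix.vecMulVec u v → A = 1) : Good A :=
  haveI : Fact (Nat.Prime 2) := ⟨Nat.prime_two⟩
  haveI : CharP F 2 := charP_of_card_eq_prime (by rw [h2])
  Two.good_two_three_aux h2 A hdet hA

end CfsgLib.OreOrth
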