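import Mathlib

/-!
Matrix lemmas for the Siegel parabolic in odd dimension: radical parameters `(d, X)` with
`X + Xᵀ = -2 d dᵀ`, making a block invertible, and adjusting its determinant.
-/

set_option autoImplicit false
set_option linter.unusedSectionVars false

namespace CfsgLib.OreOrth.Odd

open Matrix

variable {F : Type*} [Field F] {ι : Type*} [Fintype ι] [DecidableEq ι]

/-- Parameters of an element of the Siegel radical. -/
def IsRad (d : ι → F) (X : Matrix ι ι F) : Prop :=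
  X + Xᵀ = (-2 : F) • vecMulVec d d

theorem IsRad.swap {d : ι → F} {X : Matrix ι ι F} (h : IsRad d X) : IsRad (-d) Xᵀ := by
  show Xᵀ + Xᵀᵀ = _
  rw [transpose_transpose, add_comm, h, neg_vecMulVec, vecMulVec_neg, neg_neg]

theorem IsRad.form {d : ι → F} {X : Matrix ι ι F} (h : IsRad d X) (a b : ι → F) :
    a ⬝ᵥ (X *ᵥ b) + b ⬝ᵥ (X *ᵥ a) = -2 * (d ⬝ᵥ a) * (d ⬝ᵥ b) := by
  have h1 : a ⬝ᵥ ((X + Xᵀ) *ᵥ b) = -2 * (d ⬝ᵥ a) * (d ⬝ᵥ b) := by
    rw [h, smul_mulVec, vecMulVec_mulVec, dotProduct_smul, op_smul_eq_smul, dotProduct_smul,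
      dotProduct_comm a d, smul_eq_mul, smul_eq_mul]
    ring
  rwa [add_mulVec, dotProduct_add, dotProduct_mulVec a Xᵀ b, vecMul_transpose,
    dotProduct_comm (X *ᵥ a) b] at h1

theorem IsRad.self (h2 : (2 : F) ≠ 0) {d : ι → F} {X : Matrix ι ι F} (h : IsRad d X) (a : ι → F) :
    a ⬝ᵥ (X *ᵥ a) = -((d ⬝ᵥ a) * (d ⬝ᵥ a)) := by
  apply mul_left_cancel₀ h2
  linear_combination h.form a a

/-- A pseudo inverse. -/
theorem exists_pseudo_inverse (C : Matrix ι ι F) : ∃ D : Matrix ι ι F, C * D * C = C := by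
  obtain ⟨r, hr⟩ := LinearMap.exists_rightInverse_of_surjective C.mulVecLin.rangeRestrict
    (LinearMap.range_eq_top.mpr (LinearMap.surjective_rangeRestrict _))
  obtain ⟨e, he⟩ := LinearMap.exists_extend r
  refine ⟨LinearMap.toMatrix' e, Matrix.ext_iff_mulVec.mpr fun x => ?_⟩
  rw [← mulVec_mulVec, ← mulVec_mulVec, LinearMap.toMatrix'_mulVec]
  have hmem : C *ᵥ x ∈ LinearMap.range C.mulVecLin := ⟨x, rfl⟩
  have h1 : e (C *ᵥ x) = r ⟨C *ᵥ x, hmem⟩ := LinearMap.congr_fun he ⟨C *ᵥ x, hmem⟩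
  rw [h1]
  exact congrArg Subtype.val (LinearMap.congr_fun hr ⟨C *ᵥ x, hmem⟩)

/-- A radical parameter non-degenerate on a given subspace. -/
theorem exists_rad_nondeg (Y : Submodule F (ι → F)) :
    ∃ (d : ι → F) (X : Matrix ι ι F), IsRad d X ∧
      ∀ y ∈ Y, (∀ z ∈ Y, z ⬝ᵥ (X *ᵥ y) = 0) → y = 0 := by
  classical
  set m := Module.finrank F Y
  let e := (Module.finBasis F Y).equivFun
  let E : (Fin m → F) →ₗ[F] (ι → F) := Y.subtype ∘ₗ (e.symm : (Fin m → F) →ₗ[F] Y)
  obtain ⟨P, hP⟩ := E.exists_leftInverse_of_injective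
    (LinearMap.ker_eq_bot.mpr (Y.subtype_injective.comp e.symm.injective))
  set P' := LinearMap.toMatrix' P
  let T : Matrix (Fin m) (Fin m) F :=
    Matrix.of fun i j => if i = j then -1 else if i < j then -2 else 0
  have hT : T + Tᵀ = (-2 : F) • vecMulVec (fun _ : Fin m => (1 : F)) (fun _ : Fin m => (1 : F)) := by
    ext i j
    simp only [Matrix.add_apply, transpose_apply, Matrix.smul_apply, vecMulVec_apply, T, Matrix.of_apply,
      smul_eq_mul, mul_one]
    rcases lt_trichotomy i j with h | h | h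
    · simp [h, h.ne, h.ne', h.asymm]
    · subst h; simp; ring
    · simp [h, h.ne, h.ne', h.asymm]
  have hTdet : T.det ≠ 0 := by
    rw [Matrix.det_of_isUpperTriangular (fun i j hij => by
      have hij' : j < i := hij
      simp [T, hij'.ne', hij'.asymm])]
    simp [T]
  refine ⟨P'ᵀ *ᵥ (fun _ : Fin m => (1 : F)), P'ᵀ * T * P', ?_, ?_⟩
  · show P'ᵀ * T * P' + (P'ᵀ * T * P')ᵀ = _
    rw [transpose_mul, transpose_mul, transpose_transpose, ← Matrix.mul_assoc, ← Matrix.add_mul,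
      ← Matrix.mul_add, hT, Matrix.mul_smul, Matrix.smul_mul, mul_vecMulVec, vecMulVec_mul,
      mulVec_transpose]
  · intro y hy h
    have key : ∀ w z : Fin m → F, E w ⬝ᵥ ((P'ᵀ * T * P') *ᵥ E z) = w ⬝ᵥ (T *ᵥ z) := by
      intro w z
      have hPE : ∀ u, P' *ᵥ E u = u := fun u => by
        rw [LinearMap.toMatrix'_mulVec]; exact LinearMap.congr_fun hP u
      rw [← mulVec_mulVec, ← mulVec_mulVec, hPE, dotProduct_mulVec, vecMul_transpose, hPE]
    obtain ⟨z, rfl⟩ : ∃ z, E z = y := ⟨e ⟨y, hy⟩, by simp [E]⟩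
    have hTz : T *ᵥ z = 0 := funext fun i => by
      have := h (E (Pi.single i 1)) (e.symm (Pi.single i 1)).2
      rw [key, single_one_dotProduct] at this
      exact this
    have : z = 0 := Matrix.eq_zero_of_mulVec_eq_zero hTdet hTz
    rw [this, map_zero]

/-- Making the Levi block invertible. -/
theorem exists_rad_invertible (h2 : (2 : F) ≠ 0) (a : ι → F) (A C : Matrix ι ι F)
    (hTS : Cᵀ * A + Aᵀ * C = (-2 : F) • vecMulVec a a)
    (hinj : ∀ v, a ⬝ᵥ v = 0 → A *ᵥ v = 0 → C *ᵥ v = 0 → v = 0) :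
    ∃ (d : ι → F) (X : Matrix ι ι F), IsRad d X ∧
      (A - (2 : F) • vecMulVec d a + X * C).det ≠ 0 := by
  obtain ⟨D, hD⟩ := exists_pseudo_inverse C
  obtain ⟨d₀, X₀, hX₀, hnd⟩ := exists_rad_nondeg (LinearMap.range C.mulVecLin)
  set β := a ᵥ* D with hβ
  set S := Dᵀ * Cᵀ * A * D with hS
  set d := d₀ - β with hd
  set X := X₀ - S + (2 : F) • vecMulVec d β with hX
  have hSS : S + Sᵀ = (-2 : F) • vecMulVec β β := by
    have : S + Sᵀ = Dᵀ * (Cᵀ * A + Aᵀ * C) * D := by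
      rw [hS]; simp only [transpose_mul, transpose_transpose, Matrix.mul_add, Matrix.add_mul, mul_assoc]
    rw [this, hTS, Matrix.mul_smul, Matrix.smul_mul, mul_vecMulVec, vecMulVec_mul, mulVec_transpose]
  refine ⟨d, X, ?_, ?_⟩
  · ext i j
    have h1 := congrFun (congrFun hX₀ i) j
    have h3 := congrFun (congrFun hSS i) j
    simp only [hX, hd, Matrix.add_apply, Matrix.sub_apply, transpose_apply, Matrix.smul_apply,
      vecMulVec_apply, smul_eq_mul, Pi.sub_apply] at h1 h3 ⊢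
    linear_combination h1 - h3
  · intro h0
    obtain ⟨v, hv0, hv⟩ := Matrix.exists_mulVec_eq_zero_iff.mpr h0
    apply hv0
    set y := C *ᵥ v with hy
    have hform : ∀ p q : ι → F, (C *ᵥ p) ⬝ᵥ (A *ᵥ q) + (A *ᵥ p) ⬝ᵥ (C *ᵥ q) =
        -2 * (a ⬝ᵥ p) * (a ⬝ᵥ q) := by
      intro p q
      have := congrArg (fun M => p ⬝ᵥ (M *ᵥ q)) hTS
      simp only [add_mulVec, ← mulVec_mulVec, dotProduct_add, dotProduct_mulVec _ Cᵀ,
        dotProduct_mulVec _ Aᵀ, vecMul_transpose, smul_mulVec, vecMulVec_mulVec, op_smul_eq_smul,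
        dotProduct_smul, smul_eq_mul] at this
      rw [this, dotProduct_comm p a]; ring
    -- the part in the kernel of `C`
    set n := v - D *ᵥ y with hn
    have hCn : C *ᵥ n = 0 := by
      rw [hn, mulVec_sub, hy, mulVec_mulVec, mulVec_mulVec, hD, sub_self]
    have han : a ⬝ᵥ n = 0 := by
      have := hform n n
      rw [hCn, zero_dotProduct, dotProduct_zero, add_zero] at this
      rcases mul_eq_zero.mp this.symm with h | h
      · exact (mul_eq_zero.mp h).resolve_left (neg_ne_zero.mpr h2)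
      · exact h
    have hβy : β ⬝ᵥ y = a ⬝ᵥ v := by
      rw [hβ, ← dotProduct_mulVec]
      rw [hn, dotProduct_sub, sub_eq_zero] at han
      exact han.symm
    have hkey : ∀ w, (C *ᵥ w) ⬝ᵥ (A *ᵥ v) = (C *ᵥ w) ⬝ᵥ (S *ᵥ y) := by
      intro w
      have h1 : (C *ᵥ w) ⬝ᵥ (A *ᵥ n) = 0 := by
        have := hform w n
        rw [hCn, dotProduct_zero, add_zero, han, mul_zero] at this
        exact this
      rw [hn, mulVec_sub, dotProduct_sub, sub_eq_zero] at h1
      rw [h1, hS]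
      simp only [← mulVec_mulVec]
      rw [dotProduct_mulVec _ Dᵀ, vecMul_transpose, dotProduct_mulVec _ Cᵀ, vecMul_transpose,
        show C *ᵥ (D *ᵥ (C *ᵥ w)) = C *ᵥ w by rw [mulVec_mulVec, mulVec_mulVec, hD]]
    have hMv : (A *ᵥ v - (2 : F) • ((a ⬝ᵥ v) • d) + X *ᵥ y) = 0 := by
      rw [add_mulVec, sub_mulVec, smul_mulVec, vecMulVec_mulVec, op_smul_eq_smul, ← mulVec_mulVec] at hv
      exact hv
    have hy0 : y = 0 := by
      refine hnd y ⟨v, rfl⟩ ?_
      rintro z ⟨w, rfl⟩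
      rw [Matrix.mulVecLin_apply]
      have := congrArg (fun u => (C *ᵥ w) ⬝ᵥ u) hMv
      simp only [hX, add_mulVec, sub_mulVec, smul_mulVec, vecMulVec_mulVec, op_smul_eq_smul,
        dotProduct_add, dotProduct_sub, dotProduct_smul, dotProduct_zero, hkey, hβy] at this
      linear_combination this
    have hav : a ⬝ᵥ v = 0 := by rw [← hβy, hy0, dotProduct_zero]
    refine hinj v hav ?_ hy0
    rw [hy0, hav, zero_smul, smul_zero, sub_zero, mulVec_zero, add_zero] at hMv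
    exact hMv

/-- A non-zero vector orthogonal to two given ones. -/
theorem exists_orth_two (h3 : 3 ≤ Fintype.card ι) (a b : ι → F) :
    ∃ z : ι → F, z ≠ 0 ∧ a ⬝ᵥ z = 0 ∧ b ⬝ᵥ z = 0 := by
  let f : (ι → F) →ₗ[F] (Fin 2 → F) := (Matrix.of ![a, b]).mulVecLin
  have : LinearMap.ker f ≠ ⊥ := LinearMap.ker_ne_bot_of_finrank_lt (by simp; omega)
  obtain ⟨z, hz, hz0⟩ := Submodule.exists_mem_ne_zero_of_ne_bot this
  have hz' : Matrix.of ![a, b] *ᵥ z = 0 := hz
  exact ⟨z, hz0, congrFun hz' 0, congrFun hz' 1⟩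

theorem det_one_add_two (d k v w : ι → F) :
    (1 + vecMulVec d v + vecMulVec k w).det =
      (1 + v ⬝ᵥ d) * (1 + w ⬝ᵥ k) - (v ⬝ᵥ k) * (w ⬝ᵥ d) := by
  let U : Matrix ι (Fin 2) F := Matrix.of fun i => ![d i, k i]
  let V : Matrix (Fin 2) ι F := Matrix.of ![v, w]
  have hUV : 1 + vecMulVec d v + vecMulVec k w = 1 + U * V := by
    ext i j
    simp [U, V, Matrix.mul_apply, Fin.sum_univ_two, vecMulVec_apply, add_assoc]
  rw [hUV, Matrix.det_one_add_mul_comm, Matrix.det_fin_two]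
  simp [U, V, Matrix.vecMul, dotProduct]

theorem det_two_eq_zero (h3 : 3 ≤ Fintype.card ι) (d k v w : ι → F) :
    (vecMulVec d v + vecMulVec k w).det = 0 := by
  obtain ⟨z, hz, hzd, hzk⟩ := exists_orth_two h3 d k
  refine Matrix.exists_vecMul_eq_zero_iff.mp ⟨z, hz, ?_⟩
  rw [vecMul_add, vecMul_vecMulVec, vecMul_vecMulVec, dotProduct_comm z d, dotProduct_comm z k, hzd, hzk,
    zero_smul, zero_smul, add_zero]


/-- Adjusting the determinant of the Levi block by a square. -/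
theorem exists_rad_det (h2 : (2 : F) ≠ 0) (h3 : 3 ≤ Fintype.card ι) {δ : ι → F} {Y : Matrix ι ι F}
    (hY : IsRad δ Y) (hne : δ ≠ 0 ∨ Y ≠ 0) {A : Matrix ι ι F} {s : F} (hs : s ≠ 0)
    (hA : A.det = s * s) :
    ∃ (d : ι → F) (X : Matrix ι ι F), IsRad d X ∧
      ((1 - (2 : F) • vecMulVec d δ + X * Y) * A).det = 1 ∧
      ∀ l : F, (1 - (2 : F) • vecMulVec d δ + X * Y) * A ≠ l • 1 := by
  have hA0 : A.det ≠ 0 := by rw [hA]; exact mul_ne_zero hs hs
  -- it suffices to find two candidates differing by a singular non-zero matrix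
  suffices ∃ (d₀ d₁ : ι → F) (X₀ X₁ : Matrix ι ι F), IsRad d₀ X₀ ∧ IsRad d₁ X₁ ∧
      (1 - (2 : F) • vecMulVec d₀ δ + X₀ * Y).det * (s * s) = 1 ∧
      (1 - (2 : F) • vecMulVec d₁ δ + X₁ * Y).det * (s * s) = 1 ∧
      ((1 - (2 : F) • vecMulVec d₁ δ + X₁ * Y) - (1 - (2 : F) • vecMulVec d₀ δ + X₀ * Y)).det = 0 ∧
      (1 - (2 : F) • vecMulVec d₁ δ + X₁ * Y) ≠ (1 - (2 : F) • vecMulVec d₀ δ + X₀ * Y) by
    obtain ⟨d₀, d₁, X₀, X₁, hr₀, hr₁, hd₀, hd₁, hE, hne'⟩ := this
    by_cases h : ∃ l : F, (1 - (2 : F) • vecMulVec d₀ δ + X₀ * Y) * A = l • 1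
    · obtain ⟨l, hl⟩ := h
      refine ⟨d₁, X₁, hr₁, by rw [det_mul, hA, hd₁], fun μ hμ => hne' ?_⟩
      set E := (1 - (2 : F) • vecMulVec d₁ δ + X₁ * Y) - (1 - (2 : F) • vecMulVec d₀ δ + X₀ * Y) with hEdef
      have hEA : E * A = (μ - l) • 1 := by rw [hEdef, Matrix.sub_mul, hl, hμ, sub_smul]
      have : μ - l = 0 := by
        have h0 := congrArg Matrix.det hEA
        rw [det_mul, hE, zero_mul, det_smul, det_one, mul_one] at h0
        exact eq_zero_of_pow_eq_zero h0.symm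
      rw [this, zero_smul] at hEA
      have hu : IsUnit A := (Matrix.isUnit_iff_isUnit_det A).mpr hA0.isUnit
      exact sub_eq_zero.mp (hu.mul_left_eq_zero.mp hEA)
    · push Not at h
      exact ⟨d₀, X₀, hr₀, by rw [det_mul, hA, hd₀], h⟩
  by_cases hδ : δ = 0
  · -- no vector part
    subst hδ
    have hY0 : Y ≠ 0 := hne.resolve_left (fun h => h rfl)
    obtain ⟨z, x, hzx⟩ : ∃ z x : ι → F, z ⬝ᵥ (Y *ᵥ x) = 1 := by
      obtain ⟨i, j, hij⟩ : ∃ i j, Y i j ≠ 0 := by
        by_contra! h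
        exact hY0 (Matrix.ext h)
      refine ⟨(Y i j)⁻¹ • Pi.single i 1, Pi.single j 1, ?_⟩
      rw [smul_dotProduct, single_one_dotProduct, mulVec_single_one, smul_eq_mul, col_apply,
        inv_mul_cancel₀ hij]
    have hxz : x ⬝ᵥ (Y *ᵥ z) = -1 := by
      have := hY.form z x
      rw [hzx, zero_dotProduct, zero_dotProduct, mul_zero] at this
      linear_combination this
    have hxx : x ⬝ᵥ (Y *ᵥ x) = 0 := by rw [hY.self h2, zero_dotProduct, mul_zero, neg_zero]
    have hzz : z ⬝ᵥ (Y *ᵥ z) = 0 := by rw [hY.self h2, zero_dotProduct, mul_zero, neg_zero]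
    set S := vecMulVec x z - vecMulVec z x with hS
    have hSY : ∀ t : F, 1 - (2 : F) • vecMulVec (0 : ι → F) (0 : ι → F) + (t • S) * Y =
        1 + vecMulVec x (t • (z ᵥ* Y)) + vecMulVec z ((-t) • (x ᵥ* Y)) := by
      intro t
      rw [vecMulVec_zero, smul_zero, sub_zero, hS, Matrix.smul_mul, Matrix.sub_mul, vecMulVec_mul,
        vecMulVec_mul, vecMulVec_smul, vecMulVec_smul, smul_sub, neg_smul]
      abel
    have hdet : ∀ t : F, (1 - (2 : F) • vecMulVec (0 : ι → F) (0 : ι → F) + (t • S) * Y).det =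
        (1 + t) * (1 + t) := by
      intro t
      rw [hSY, det_one_add_two]
      simp only [smul_dotProduct, ← dotProduct_mulVec, hzx, hxz, hxx, hzz, smul_eq_mul]
      ring
    have hrad : ∀ t : F, IsRad (0 : ι → F) (t • S) := by
      intro t
      show t • S + (t • S)ᵀ = _
      rw [transpose_smul, hS, transpose_sub, transpose_vecMulVec, transpose_vecMulVec, ← smul_add,
        vecMulVec_zero, smul_zero]
      simp
    refine ⟨0, 0, (s⁻¹ - 1) • S, (-s⁻¹ - 1) • S, hrad _, hrad _, ?_, ?_, ?_, ?_⟩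
    · rw [hdet]; field_simp; ring
    · rw [hdet]; field_simp; ring
    · have : (-s⁻¹ - 1) • S * Y - (s⁻¹ - 1) • S * Y =
          vecMulVec x ((-2 * s⁻¹) • (z ᵥ* Y)) + vecMulVec z ((2 * s⁻¹) • (x ᵥ* Y)) := by
        rw [← Matrix.sub_mul, ← sub_smul, hS, Matrix.smul_mul, Matrix.sub_mul, vecMulVec_mul,
          vecMulVec_mul, vecMulVec_smul, vecMulVec_smul]
        module
      rw [add_sub_add_left_eq_sub, this]
      exact det_two_eq_zero h3 _ _ _ _
    · intro h
      rw [add_left_cancel_iff, Matrix.smul_mul, Matrix.smul_mul, ← sub_eq_zero, ← sub_smul] at h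
      rcases smul_eq_zero.mp h with h | h
      · apply h2
        have : (2 : F) * s⁻¹ = 0 := by linear_combination -h
        exact (mul_eq_zero.mp this).resolve_right (inv_ne_zero hs)
      · have h' := congrArg (fun M => z ⬝ᵥ (Y *ᵥ (M *ᵥ x))) h
        simp only [hS, Matrix.sub_mul, vecMulVec_mul, sub_mulVec, vecMulVec_mulVec, op_smul_eq_smul,
          ← dotProduct_mulVec, hzx, hxx, one_smul, zero_smul, sub_zero, zero_mulVec, mulVec_zero,
          dotProduct_zero] at h'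
        exact one_ne_zero h'
  · -- vector part
    obtain ⟨c, hc0, hc⟩ : ∃ c : F, c ≠ 0 ∧ (1 - c) * s * ((1 - c) * s) = 1 := by
      by_cases h1 : s = 1
      · exact ⟨2, h2, by subst h1; ring⟩
      · refine ⟨1 - s⁻¹, fun h => h1 ?_, by field_simp; ring⟩
        exact inv_eq_one.mp (sub_eq_zero.mp h).symm
    obtain ⟨j, hj⟩ : ∃ j, δ j ≠ 0 := Function.ne_iff.mp hδ
    set d : ι → F := (c / δ j) • Pi.single j 1 with hd
    have hδd : δ ⬝ᵥ d = c := by
      rw [hd, dotProduct_smul, dotProduct_single, smul_eq_mul, mul_one, div_mul_cancel₀ _ hj]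
    obtain ⟨k, hk0, hδk, hdk'⟩ := exists_orth_two h3 δ (Y *ᵥ d)
    have hkd : k ⬝ᵥ (Y *ᵥ d) = 0 := by rw [dotProduct_comm]; exact hdk'
    have hdd : d ⬝ᵥ (Y *ᵥ d) = -(c * c) := by rw [hY.self h2, hδd]
    have hkk : k ⬝ᵥ (Y *ᵥ k) = 0 := by rw [hY.self h2, hδk, mul_zero, neg_zero]
    have hdk : d ⬝ᵥ (Y *ᵥ k) = 0 := by
      have := hY.form d k
      rw [hkd, hδk, mul_zero, add_zero] at this
      exact this
    set S := vecMulVec d k - vecMulVec k d with hS
    set X₀ := -vecMulVec d d with hX₀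
    have hM : ∀ r : F, 1 - (2 : F) • vecMulVec d δ + (X₀ + r • S) * Y =
        1 + vecMulVec d (-((2 : F) • δ + d ᵥ* Y) + r • (k ᵥ* Y)) + vecMulVec k ((-r) • (d ᵥ* Y)) := by
      intro r
      rw [hX₀, hS, Matrix.add_mul, Matrix.neg_mul, Matrix.smul_mul, Matrix.sub_mul, vecMulVec_mul,
        vecMulVec_mul, vecMulVec_mul, vecMulVec_add, vecMulVec_neg, vecMulVec_add, vecMulVec_smul,
        vecMulVec_smul, vecMulVec_smul]
      module
    have hdet : ∀ r : F, (1 - (2 : F) • vecMulVec d δ + (X₀ + r • S) * Y).det = (1 - c) * (1 - c) := by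
      intro r
      rw [hM, det_one_add_two]
      simp only [add_dotProduct, neg_dotProduct, smul_dotProduct, ← dotProduct_mulVec, hδd, hδk, hkd,
        hdd, hkk, hdk, smul_eq_mul]
      ring
    have hrad : ∀ r : F, IsRad d (X₀ + r • S) := by
      intro r
      show X₀ + r • S + (X₀ + r • S)ᵀ = _
      rw [hX₀, hS, transpose_add, transpose_smul, transpose_sub, transpose_neg, transpose_vecMulVec,
        transpose_vecMulVec, transpose_vecMulVec]
      module
    refine ⟨d, d, X₀ + (0 : F) • S, X₀ + (1 : F) • S, hrad _, hrad _, ?_, ?_, ?_, ?_⟩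
    · rw [hdet]; linear_combination hc
    · rw [hdet]; linear_combination hc
    · rw [zero_smul, add_zero, one_smul, add_sub_add_left_eq_sub, ← Matrix.sub_mul, add_sub_cancel_left, hS,
        Matrix.sub_mul, vecMulVec_mul, vecMulVec_mul, sub_eq_add_neg, ← vecMulVec_neg]
      exact det_two_eq_zero h3 _ _ _ _
    · intro h
      rw [add_left_cancel_iff, zero_smul, add_zero, one_smul, Matrix.add_mul, add_eq_left] at h
      have h' := congrArg (fun M => M *ᵥ d) h
      simp only [hS, Matrix.sub_mul, vecMulVec_mul, sub_mulVec, vecMulVec_mulVec, op_smul_eq_smul,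
        ← dotProduct_mulVec, hkd, hdd, zero_smul, zero_sub, zero_mulVec, neg_smul, neg_neg] at h'
      exact hk0 ((smul_eq_zero.mp h').resolve_left (mul_ne_zero hc0 hc0))

end CfsgLib.OreOrth.Odd
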