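import Cfsg.Agent.Lib.OreOrth.Abstract
import Cfsg.Agent.Lib.OreOrth.OddMat
import Cfsg.Agent.Lib.Parabolic.OrthSpinor
import Cfsg.Agent.Lib.ClassicalForms.Ortho.Standard
import Cfsg.Prelude.Def_Classical

/-!
The Siegel parabolic of the odd dimensional orthogonal group of `x₀² + ∑ xᵢ yᵢ`: radicals, Levi factor,
Gauss form, and the spinor character on the Levi factor.
-/

set_option autoImplicit false
set_option linter.unusedSectionVars false

namespace CfsgLib.OreOrth.Odd

open Matrix

variable {F : Type*} [Field F] {n : ℕ}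

/-- The index set. -/
abbrev Idx (n : ℕ) : Type := Unit ⊕ (Fin n ⊕ Fin n)

/-- The isometry group. -/
abbrev O (F : Type*) [Field F] (n : ℕ) : Subgroup (GL (Idx n) F) :=
  Cfsg.isometryGroup F (Cfsg.quadFormOdd n F)

def mk (a : F) (x y : Fin n → F) : Idx n → F := Sum.elim (fun _ => a) (Sum.elim x y)
def c0 (v : Idx n → F) : F := v (.inl ())
def vx (v : Idx n → F) : Fin n → F := fun i => v (.inr (.inl i))
def vy (v : Idx n → F) : Fin n → F := fun i => v (.inr (.inr i))
/-- The embedding of `W`. -/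
abbrev ix (x : Fin n → F) : Idx n → F := mk 0 x 0

@[simp] theorem c0_mk (a : F) (x y : Fin n → F) : c0 (mk a x y) = a := rfl
@[simp] theorem vx_mk (a : F) (x y : Fin n → F) : vx (mk a x y) = x := rfl
@[simp] theorem vy_mk (a : F) (x y : Fin n → F) : vy (mk a x y) = y := rfl
@[simp] theorem c0_add (v w : Idx n → F) : c0 (v + w) = c0 v + c0 w := rfl
@[simp] theorem vx_add (v w : Idx n → F) : vx (v + w) = vx v + vx w := rfl
@[simp] theorem vy_add (v w : Idx n → F) : vy (v + w) = vy v + vy w := rfl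
@[simp] theorem c0_sub (v w : Idx n → F) : c0 (v - w) = c0 v - c0 w := rfl
@[simp] theorem vx_sub (v w : Idx n → F) : vx (v - w) = vx v - vx w := rfl
@[simp] theorem vy_sub (v w : Idx n → F) : vy (v - w) = vy v - vy w := rfl
@[simp] theorem c0_smul (r : F) (v : Idx n → F) : c0 (r • v) = r * c0 v := rfl
@[simp] theorem vx_smul (r : F) (v : Idx n → F) : vx (r • v) = r • vx v := rfl
@[simp] theorem vy_smul (r : F) (v : Idx n → F) : vy (r • v) = r • vy v := rfl

theorem ext_parts {v w : Idx n → F} (h0 : c0 v = c0 w) (hx : vx v = vx w) (hy : vy v = vy w) :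
    v = w := by
  funext i
  rcases i with ⟨⟩ | i | i
  exacts [h0, congrFun hx i, congrFun hy i]

/-- The polar form. -/
def bf (v w : Idx n → F) : F := 2 * c0 v * c0 w + vx v ⬝ᵥ vy w + vx w ⬝ᵥ vy v

theorem quad_eq (v : Idx n → F) : Cfsg.quadFormOdd n F v = c0 v * c0 v + vx v ⬝ᵥ vy v := by
  rw [Cfsg.quadFormOdd, pow_two]; rfl

theorem quad_add (v w : Idx n → F) :
    Cfsg.quadFormOdd n F (v + w) = Cfsg.quadFormOdd n F v + Cfsg.quadFormOdd n F w + bf v w := by
  simp only [quad_eq, bf, c0_add, vx_add, vy_add, add_dotProduct, dotProduct_add]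
  ring

/-- The action on vectors. -/
def app (g : O F n) (v : Idx n → F) : Idx n → F :=
  ((g : GL (Idx n) F) : Matrix (Idx n) (Idx n) F) *ᵥ v

theorem app_mul (g h : O F n) (v : Idx n → F) : app (g * h) v = app g (app h v) := by
  simp [app, mulVec_mulVec]

@[simp] theorem app_one (v : Idx n → F) : app (1 : O F n) v = v := by simp [app]

theorem app_add (g : O F n) (v w : Idx n → F) : app g (v + w) = app g v + app g w := mulVec_add _ _ _

theorem app_smul (g : O F n) (r : F) (v : Idx n → F) : app g (r • v) = r • app g v := mulVec_smul _ _ _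

theorem app_inv_app (g : O F n) (v : Idx n → F) : app g⁻¹ (app g v) = v := by
  rw [← app_mul, inv_mul_cancel, app_one]

theorem app_app_inv (g : O F n) (v : Idx n → F) : app g (app g⁻¹ v) = v := by
  rw [← app_mul, mul_inv_cancel, app_one]

theorem quad_app (g : O F n) (v : Idx n → F) :
    Cfsg.quadFormOdd n F (app g v) = Cfsg.quadFormOdd n F v := g.2 v v

theorem bf_app (g : O F n) (v w : Idx n → F) : bf (app g v) (app g w) = bf v w := by
  have h := quad_app g (v + w)
  rw [app_add, quad_add, quad_add, quad_app, quad_app] at h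
  exact add_left_cancel h

theorem ext_app {g h : O F n} (H : ∀ v, app g v = app h v) : g = h :=
  Subtype.ext (Units.ext (Matrix.ext_iff_mulVec.mpr H))

/-- An isometry from a pair of linear maps. -/
def ofLin (f g : (Idx n → F) →ₗ[F] (Idx n → F)) (hfg : ∀ v, f (g v) = v) (hgf : ∀ v, g (f v) = v)
    (hQ : ∀ v, Cfsg.quadFormOdd n F (f v) = Cfsg.quadFormOdd n F v) : O F n :=
  ⟨⟨LinearMap.toMatrix' f, LinearMap.toMatrix' g,
      by rw [← LinearMap.toMatrix'_comp, show f ∘ₗ g = LinearMap.id from LinearMap.ext hfg,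
        LinearMap.toMatrix'_id],
      by rw [← LinearMap.toMatrix'_comp, show g ∘ₗ f = LinearMap.id from LinearMap.ext hgf,
        LinearMap.toMatrix'_id]⟩,
    fun u _ => by
      show Cfsg.quadFormOdd n F (LinearMap.toMatrix' f *ᵥ u) = _
      rw [LinearMap.toMatrix'_mulVec]; exact hQ u⟩

@[simp] theorem app_ofLin (f g : (Idx n → F) →ₗ[F] (Idx n → F)) (h₁ h₂ h₃) (v : Idx n → F) :
    app (ofLin f g h₁ h₂ h₃) v = f v := LinearMap.toMatrix'_mulVec f v

/-- The swap of `W` and `W'`. -/
def swapLin : (Idx n → F) →ₗ[F] (Idx n → F) where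
  toFun v := mk (c0 v) (vy v) (vx v)
  map_add' v w := ext_parts rfl rfl rfl
  map_smul' r v := ext_parts rfl rfl rfl

@[simp] theorem swapLin_apply (v : Idx n → F) : swapLin v = mk (c0 v) (vy v) (vx v) := rfl

def sig : O F n := ofLin swapLin swapLin (fun _ => ext_parts rfl rfl rfl) (fun _ => ext_parts rfl rfl rfl)
  (fun v => by simp [quad_eq, dotProduct_comm])

@[simp] theorem app_sig (v : Idx n → F) : app sig v = mk (c0 v) (vy v) (vx v) := app_ofLin _ _ _ _ _ v

theorem sig_mul_sig : (sig : O F n) * sig = 1 :=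
  ext_app fun v => by rw [app_mul, app_sig, app_sig, app_one]; exact ext_parts rfl rfl rfl

theorem sig_inv : (sig : O F n)⁻¹ = sig := inv_eq_of_mul_eq_one_right sig_mul_sig

/-- The reflection in the anisotropic basis vector. -/
def negLin : (Idx n → F) →ₗ[F] (Idx n → F) where
  toFun v := mk (-c0 v) (vx v) (vy v)
  map_add' v w := ext_parts (neg_add _ _) rfl rfl
  map_smul' r v := ext_parts (mul_neg r _).symm rfl rfl

def rho : O F n := ofLin negLin negLin (fun v => ext_parts (neg_neg _) rfl rfl)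
  (fun v => ext_parts (neg_neg _) rfl rfl)
  (fun v => by show Cfsg.quadFormOdd n F (mk (-c0 v) (vx v) (vy v)) = _; simp [quad_eq])

@[simp] theorem app_rho (v : Idx n → F) : app rho v = mk (-c0 v) (vx v) (vy v) := app_ofLin _ _ _ _ _ v

/-- The upper radical as linear maps. -/
def upLin (d : Fin n → F) (X : Matrix (Fin n) (Fin n) F) : (Idx n → F) →ₗ[F] (Idx n → F) where
  toFun v := mk (c0 v + d ⬝ᵥ vy v) (vx v - (2 * c0 v) • d + X *ᵥ vy v) (vy v)
  map_add' v w := ext_parts (by simp [dotProduct_add]; ring)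
    (by simp [mulVec_add, mul_add, add_smul]; abel) rfl
  map_smul' r v := ext_parts (by simp [mul_add])
    (by simp [smul_add, smul_sub, smul_smul, mul_left_comm, mulVec_smul]) rfl

@[simp] theorem upLin_apply (d : Fin n → F) (X : Matrix (Fin n) (Fin n) F) (v : Idx n → F) :
    upLin d X v = mk (c0 v + d ⬝ᵥ vy v) (vx v - (2 * c0 v) • d + X *ᵥ vy v) (vy v) := rfl

theorem up_cancel {d : Fin n → F} {X : Matrix (Fin n) (Fin n) F} (h : IsRad d X) (v : Idx n → F) :
    upLin (-d) Xᵀ (upLin d X v) = v := by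
  refine ext_parts (by simp) ?_ rfl
  have h' := congrArg (fun M => M *ᵥ vy v) h
  simp only [add_mulVec, smul_mulVec, vecMulVec_mulVec, op_smul_eq_smul] at h'
  simp only [upLin_apply, c0_mk, vx_mk, vy_mk]
  linear_combination (norm := module) h'

/-- An element of the upper radical. -/
def up (h2 : (2 : F) ≠ 0) (d : Fin n → F) (X : Matrix (Fin n) (Fin n) F) (h : IsRad d X) : O F n :=
  ofLin (upLin d X) (upLin (-d) Xᵀ)
    (fun v => by have := up_cancel h.swap v; rwa [neg_neg, transpose_transpose] at this)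
    (up_cancel h)
    (fun v => by
      simp only [upLin_apply, quad_eq, c0_mk, vx_mk, vy_mk, add_dotProduct, sub_dotProduct, smul_dotProduct,
        smul_eq_mul, dotProduct_comm (X *ᵥ vy v) (vy v), h.self h2]
      ring)

@[simp] theorem app_up (h2 : (2 : F) ≠ 0) (d : Fin n → F) (X : Matrix (Fin n) (Fin n) F) (h : IsRad d X)
    (v : Idx n → F) : app (up h2 d X h) v = upLin d X v := app_ofLin _ _ _ _ _ v

/-- The upper radical: the elements fixing `W` pointwise and acting trivially on `W⊥ / W`. -/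
def U (F : Type*) [Field F] (n : ℕ) : Subgroup (O F n) where
  carrier := {g | (∀ x, app g (ix x) = ix x) ∧ ∀ v, vy v = 0 → c0 (app g v) = c0 v}
  one_mem' := ⟨fun x => app_one _, fun v _ => by rw [app_one]⟩
  mul_mem' {g h} hg hh := by
    refine ⟨fun x => by rw [app_mul, hh.1, hg.1], fun v hv => ?_⟩
    have : vy (app h v) = vy v := by
      refine dotProduct_eq _ _ fun x => ?_
      have := bf_app h (ix x) v
      rw [hh.1] at this
      simpa [bf, dotProduct_comm] using this
    rw [app_mul, hg.2 _ (this.trans hv), hh.2 v hv]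
  inv_mem' {g} hg := by
    have hfix : ∀ x, app g⁻¹ (ix x) = ix x := fun x => by
      conv_lhs => rw [← hg.1 x]
      exact app_inv_app g _
    refine ⟨hfix, fun v hv => ?_⟩
    have : vy (app g⁻¹ v) = vy v := by
      refine dotProduct_eq _ _ fun x => ?_
      have := bf_app g⁻¹ (ix x) v
      rw [hfix] at this
      simpa [bf, dotProduct_comm] using this
    have h := hg.2 _ (this.trans hv)
    rw [app_app_inv] at h
    exact h.symm

theorem vy_of_fix {g : O F n} (hg : ∀ x, app g (ix x) = ix x) (v : Idx n → F) :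
    vy (app g v) = vy v := by
  refine dotProduct_eq _ _ fun x => ?_
  have := bf_app g (ix x) v
  rw [hg] at this
  simpa [bf, dotProduct_comm] using this

theorem up_mem (h2 : (2 : F) ≠ 0) (d : Fin n → F) (X : Matrix (Fin n) (Fin n) F) (h : IsRad d X) :
    up h2 d X h ∈ U F n :=
  ⟨fun x => by rw [app_up]; exact ext_parts (by simp) (by simp) rfl, fun v hv => by simp [hv]⟩

theorem exists_of_mem_U (h2 : (2 : F) ≠ 0) {g : O F n} (hg : g ∈ U F n) :
    ∃ d X, IsRad d X ∧ ∀ v, app g v = upLin d X v := by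
  let fy : (Fin n → F) →ₗ[F] (Idx n → F) :=
    { toFun := fun y => app g (mk 0 0 y)
      map_add' := fun y z => by rw [← app_add]; congr 1; exact ext_parts (by simp) (by simp) rfl
      map_smul' := fun r y => by
        rw [RingHom.id_apply, ← app_smul]; congr 1; exact ext_parts (by simp) (by simp) rfl }
  let d : Fin n → F := fun j => c0 (fy (Pi.single j 1))
  let X : Matrix (Fin n) (Fin n) F :=
    LinearMap.toMatrix' ((LinearMap.pi fun i => LinearMap.proj (.inr (.inl i))) ∘ₗ fy)
  have hX : ∀ y, vx (fy y) = X *ᵥ y := fun y => by rw [LinearMap.toMatrix'_mulVec]; rfl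
  have hd : ∀ y, c0 (fy y) = d ⬝ᵥ y := fun y => by
    conv_lhs => rw [pi_eq_sum_univ' y, map_sum]
    simp only [map_smul]
    simp [c0, d, dotProduct, Finset.sum_apply, mul_comm]
  have hy : ∀ y, vy (fy y) = y := fun y => (vy_of_fix hg.1 _).trans rfl
  have he0 : c0 (app g (mk 1 0 0)) = 1 := (hg.2 _ rfl).trans rfl
  have he : vy (app g (mk 1 0 0)) = 0 := (vy_of_fix hg.1 _).trans rfl
  have hec : vx (app g (mk 1 0 0)) = (-2 : F) • d := by
    refine dotProduct_eq _ _ fun y => ?_
    have := bf_app g (mk 1 0 0) (mk 0 0 y)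
    change bf _ (fy y) = _ at this
    simp only [bf, he0, he, hd, hy, c0_mk, vx_mk, vy_mk, dotProduct_zero, zero_dotProduct, mul_zero,
      add_zero, mul_one] at this
    rw [smul_dotProduct, smul_eq_mul]
    linear_combination this
  refine ⟨d, X, ?_, fun v => ?_⟩
  · have hform : ∀ y z : Fin n → F, y ⬝ᵥ (X *ᵥ z) + z ⬝ᵥ (X *ᵥ y) = -2 * (d ⬝ᵥ y) * (d ⬝ᵥ z) := by
      intro y z
      have := bf_app g (mk 0 0 y) (mk 0 0 z)
      change bf (fy y) (fy z) = _ at this
      simp only [bf, hd, hy, hX, c0_mk, vx_mk, vy_mk, zero_dotProduct, mul_zero, add_zero] at this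
      rw [dotProduct_comm y, dotProduct_comm z (X *ᵥ y)]
      linear_combination this
    ext i j
    have := hform (Pi.single i 1) (Pi.single j 1)
    simp only [single_one_dotProduct, mulVec_single_one, col_apply, dotProduct_single, mul_one] at this
    simp only [Matrix.add_apply, transpose_apply, Matrix.smul_apply, vecMulVec_apply, smul_eq_mul]
    linear_combination this
  · have hv : v = c0 v • mk 1 0 0 + ix (vx v) + mk 0 0 (vy v) :=
      ext_parts (by simp) (by simp) (by simp)
    conv_lhs => rw [hv, app_add, app_add, app_smul, hg.1]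
    change c0 v • app g (mk 1 0 0) + ix (vx v) + fy (vy v) = _
    refine ext_parts ?_ ?_ ?_
    · simp [he0, hd]
    · simp only [vx_add, vx_smul, hec, hX, upLin_apply, vx_mk]
      module
    · simp [he, hy]

/-- The lower radical. -/
def L (F : Type*) [Field F] (n : ℕ) : Subgroup (O F n) :=
  (U F n).map (MulAut.conj (sig : O F n)).toMonoidHom

theorem mem_L {g : O F n} : g ∈ L F n ↔ sig * g * sig ∈ U F n := by
  rw [L, Subgroup.mem_map]
  constructor
  · rintro ⟨u, hu, rfl⟩
    simpa [sig_inv, mul_assoc, sig_mul_sig, ← mul_assoc sig sig u] using hu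
  · intro h
    exact ⟨_, h, by simp [sig_inv, mul_assoc, sig_mul_sig, ← mul_assoc sig sig g]⟩

theorem vx_of_mem_L {g : O F n} (hg : g ∈ L F n) (v : Idx n → F) : vx (app g v) = vx v := by
  have h := vy_of_fix (mem_L.mp hg).1 (app sig v)
  rw [app_mul, app_mul, ← app_mul sig sig, sig_mul_sig, app_one, app_sig, app_sig, vy_mk, vy_mk] at h
  exact h

/-- The inverse transpose. -/
def star' (A : GL (Fin n) F) : GL (Fin n) F where
  val := ((A⁻¹ : GL (Fin n) F) : Matrix (Fin n) (Fin n) F)ᵀ
  inv := (A : Matrix (Fin n) (Fin n) F)ᵀ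
  val_inv := by rw [← transpose_mul, Units.mul_inv, transpose_one]
  inv_val := by rw [← transpose_mul, Units.inv_mul, transpose_one]

theorem coe_star' (A : GL (Fin n) F) :
    ((star' A : GL (Fin n) F) : Matrix (Fin n) (Fin n) F) = ((A⁻¹ : GL (Fin n) F) : Matrix _ _ F)ᵀ := rfl

theorem star'_star' (A : GL (Fin n) F) : star' (star' A) = A :=
  Units.ext (transpose_transpose _)

/-- The Levi factor as linear maps. -/
def leviLin (A : GL (Fin n) F) : (Idx n → F) →ₗ[F] (Idx n → F) where
  toFun v := mk (c0 v) ((A : Matrix (Fin n) (Fin n) F) *ᵥ vx v)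
    (((A⁻¹ : GL (Fin n) F) : Matrix (Fin n) (Fin n) F)ᵀ *ᵥ vy v)
  map_add' v w := ext_parts rfl (by simp [mulVec_add]) (by simp [mulVec_add])
  map_smul' r v := ext_parts rfl (by simp [mulVec_smul]) (by simp [mulVec_smul])

@[simp] theorem leviLin_apply (A : GL (Fin n) F) (v : Idx n → F) :
    leviLin A v = mk (c0 v) ((A : Matrix (Fin n) (Fin n) F) *ᵥ vx v)
      (((A⁻¹ : GL (Fin n) F) : Matrix (Fin n) (Fin n) F)ᵀ *ᵥ vy v) := rfl

theorem leviLin_mul (A B : GL (Fin n) F) (v : Idx n → F) :
    leviLin A (leviLin B v) = leviLin (A * B) v := by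
  refine ext_parts rfl ?_ ?_
  · simp [mulVec_mulVec]
  · simp [mulVec_mulVec, ← transpose_mul]

theorem leviLin_one (v : Idx n → F) : leviLin (1 : GL (Fin n) F) v = v :=
  ext_parts rfl (by simp) (by simp)

def leviO (A : GL (Fin n) F) : O F n :=
  ofLin (leviLin A) (leviLin A⁻¹) (fun v => by rw [leviLin_mul, mul_inv_cancel, leviLin_one])
    (fun v => by rw [leviLin_mul, inv_mul_cancel, leviLin_one])
    (fun v => by
      simp only [leviLin_apply, quad_eq, c0_mk, vx_mk, vy_mk]
      rw [dotProduct_mulVec, vecMul_transpose, mulVec_mulVec, ← Units.val_mul, inv_mul_cancel,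
        Units.val_one, one_mulVec])

/-- The Levi homomorphism. -/
def levi : GL (Fin n) F →* O F n :=
  MonoidHom.mk' leviO fun A B => ext_app fun v => by
    rw [app_mul]; simp only [leviO, app_ofLin]; exact (leviLin_mul A B v).symm

@[simp] theorem app_levi (A : GL (Fin n) F) (v : Idx n → F) : app (levi A) v = leviLin A v :=
  LinearMap.toMatrix'_mulVec _ _

theorem sig_levi_sig (A : GL (Fin n) F) : sig * levi A * sig = levi (star' A) :=
  ext_app fun v => by
    rw [app_mul, app_mul, app_sig, app_levi, app_sig, app_levi]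
    refine ext_parts rfl ?_ ?_
    · simp [coe_star']
    · simp only [leviLin_apply, vy_mk, vx_mk]
      rfl

theorem levi_conj_U (A : GL (Fin n) F) {u : O F n} (hu : u ∈ U F n) : levi A * u * (levi A)⁻¹ ∈ U F n := by
  rw [← map_inv]
  refine ⟨fun x => ?_, fun v hv => ?_⟩
  · rw [app_mul, app_mul, app_levi A⁻¹, show leviLin A⁻¹ (ix x) = ix (((A⁻¹ : GL (Fin n) F) :
      Matrix _ _ F) *ᵥ x) from ext_parts rfl rfl (by simp), hu.1, app_levi]
    exact ext_parts rfl (by simp [mulVec_mulVec]) (by simp)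
  · rw [app_mul, app_mul, app_levi A, leviLin_apply, c0_mk, hu.2 _ (by rw [app_levi, leviLin_apply, vy_mk, hv, mulVec_zero]), app_levi,
      leviLin_apply, c0_mk]

theorem levi_conj_L (A : GL (Fin n) F) {l : O F n} (hl : l ∈ L F n) : levi A * l * (levi A)⁻¹ ∈ L F n := by
  rw [mem_L]
  have := levi_conj_U (star' A) (mem_L.mp hl)
  rw [← sig_levi_sig] at this
  convert this using 1
  rw [_root_.mul_inv_rev, _root_.mul_inv_rev, sig_inv]
  simp [mul_assoc, sig_mul_sig, ← mul_assoc sig sig]

/-- A Levi element acting without fixed points on the upper radical. -/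
theorem free_U (h2 : (2 : F) ≠ 0) {H : GL (Fin n) F}
    (h1 : ∀ d : Fin n → F, (H : Matrix (Fin n) (Fin n) F) *ᵥ d = d → d = 0)
    (hF : ∀ X : Matrix (Fin n) (Fin n) F, (∀ i, X i i = 0) → Xᵀ = -X →
      (H : Matrix (Fin n) (Fin n) F) * X * (H : Matrix (Fin n) (Fin n) F)ᵀ = X → X = 0)
    {u : O F n} (hu : u ∈ U F n) (h : levi H * u * (levi H)⁻¹ = u) : u = 1 := by
  obtain ⟨d, X, hr, hv⟩ := exists_of_mem_U h2 hu
  have hcom : ∀ y : Fin n → F, leviLin H (upLin d X (mk 0 0 y)) = upLin d X (leviLin H (mk 0 0 y)) := by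
    intro y
    have := congrArg (fun g => app g (app (levi H) (mk 0 0 y))) h
    simp only [app_mul, app_inv_app] at this
    simpa only [hv, app_levi] using this
  have hd : d = 0 := by
    refine h1 d ?_
    have : ((H⁻¹ : GL (Fin n) F) : Matrix (Fin n) (Fin n) F) *ᵥ d = d := by
      refine dotProduct_eq _ _ fun y => ?_
      have := congrArg c0 (hcom y)
      simp only [leviLin_apply, upLin_apply, c0_mk, vy_mk, zero_add, dotProduct_mulVec,
        vecMul_transpose] at this
      exact this.symm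
    conv_lhs => rw [← this]
    rw [mulVec_mulVec, Units.mul_inv, one_mulVec]
  subst hd
  have hXs : Xᵀ = -X := by
    have h' : X + Xᵀ = _ := hr
    rw [vecMulVec_zero, smul_zero] at h'
    exact eq_neg_of_add_eq_zero_right h'
  have hX : X = 0 := by
    refine hF X (fun i => ?_) hXs ?_
    · have := congrFun (congrFun hXs i) i
      rw [transpose_apply, Matrix.neg_apply, eq_neg_iff_add_eq_zero, ← two_mul] at this
      exact (mul_eq_zero.mp this).resolve_left h2
    · have h' : (H : Matrix (Fin n) (Fin n) F) * X =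
          X * ((H⁻¹ : GL (Fin n) F) : Matrix (Fin n) (Fin n) F)ᵀ := by
        refine Matrix.ext_iff_mulVec.mpr fun y => ?_
        have := congrArg vx (hcom y)
        simpa [mulVec_mulVec] using this
      rw [h', mul_assoc, ← transpose_mul, Units.mul_inv, transpose_one, mul_one]
  subst hX
  refine ext_app fun v => ?_
  rw [hv, app_one]
  exact ext_parts (by simp) (by simp) rfl

/-- A Levi element acting without fixed points on the lower radical. -/
theorem free_L (h2 : (2 : F) ≠ 0) {H : GL (Fin n) F}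
    (h1 : ∀ d : Fin n → F, (H : Matrix (Fin n) (Fin n) F)ᵀ *ᵥ d = d → d = 0)
    (hF : ∀ X : Matrix (Fin n) (Fin n) F, (∀ i, X i i = 0) → Xᵀ = -X →
      (H : Matrix (Fin n) (Fin n) F)ᵀ * X * (H : Matrix (Fin n) (Fin n) F)ᵀᵀ = X → X = 0)
    {l : O F n} (hl : l ∈ L F n) (h : levi H * l * (levi H)⁻¹ = l) : l = 1 := by
  have key : sig * l * sig = 1 := by
    refine free_U h2 (H := star' H) ?_ ?_ (mem_L.mp hl) ?_
    · intro d hd
      refine h1 d ?_
      conv_lhs => rw [← hd]
      rw [mulVec_mulVec, coe_star', ← transpose_mul, Units.inv_mul, transpose_one, one_mulVec]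
    · intro X hd hs hX
      refine hF X hd hs ?_
      conv_lhs => rw [← hX, coe_star']
      simp only [← mul_assoc]
      rw [← transpose_mul, Units.inv_mul, transpose_one, one_mul, mul_assoc, ← transpose_mul,
        ← transpose_mul, Units.inv_mul, transpose_one, transpose_one, mul_one]
    · rw [← sig_levi_sig, _root_.mul_inv_rev, _root_.mul_inv_rev, sig_inv]
      conv_rhs => rw [← h]
      simp [mul_assoc, sig_mul_sig, ← mul_assoc sig sig]
  have := congrArg (fun g => sig * g * sig) key
  simpa [mul_assoc, sig_mul_sig, ← mul_assoc sig sig] using this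

/-- The `W`-block. -/
def blkA (g : O F n) : Matrix (Fin n) (Fin n) F :=
  Matrix.of fun i j => ((g : GL (Idx n) F) : Matrix (Idx n) (Idx n) F) (.inr (.inl i)) (.inr (.inl j))

/-- The `e₀`-row of the first block column. -/
def blkR (g : O F n) : Fin n → F :=
  fun j => ((g : GL (Idx n) F) : Matrix (Idx n) (Idx n) F) (.inl ()) (.inr (.inl j))

/-- The `W'`-block of the first block column. -/
def blkC (g : O F n) : Matrix (Fin n) (Fin n) F :=
  Matrix.of fun i j => ((g : GL (Idx n) F) : Matrix (Idx n) (Idx n) F) (.inr (.inr i)) (.inr (.inl j))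

theorem app_ix (g : O F n) (x : Fin n → F) :
    app g (ix x) = mk (blkR g ⬝ᵥ x) (blkA g *ᵥ x) (blkC g *ᵥ x) := by
  funext i
  rcases i with ⟨⟩ | i | i <;>
    simp [app, mk, ix, blkR, blkA, blkC, mulVec, dotProduct, Fintype.sum_sum_type]

theorem blkA_eq_of {g : O F n} {M : Matrix (Fin n) (Fin n) F}
    (h : ∀ x, vx (app g (ix x)) = M *ᵥ x) : blkA g = M :=
  Matrix.ext_iff_mulVec.mpr fun x => by rw [← h, app_ix, vx_mk]

theorem blkA_gauss {l u : O F n} (hl : l ∈ L F n) (hu : u ∈ U F n) (A : GL (Fin n) F) :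
    blkA (l * levi A * u) = A :=
  blkA_eq_of fun x => by rw [app_mul, app_mul, hu.1, vx_of_mem_L hl, app_levi]; rfl

/-- The determinant. -/
def detO : O F n →* Fˣ := Matrix.GeneralLinearGroup.det.comp (O F n).subtype

theorem detO_rho : (detO (rho : O F n) : Fˣ) = -1 := by
  refine Units.ext ?_
  show (LinearMap.toMatrix' negLin : Matrix (Idx n) (Idx n) F).det = ((-1 : Fˣ) : F)
  have : (LinearMap.toMatrix' negLin : Matrix (Idx n) (Idx n) F) =
      diagonal (Sum.elim (fun _ : Unit => (-1 : F)) fun _ : Fin n ⊕ Fin n => (1 : F)) := by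
    refine Matrix.ext_iff_mulVec.mpr fun v => ?_
    rw [LinearMap.toMatrix'_mulVec]
    funext i
    rw [mulVec_diagonal]
    rcases i with ⟨⟩ | i | i <;> simp [negLin, mk, c0, vx, vy]
  rw [this, det_diagonal, Fintype.prod_sum_type]
  simp

theorem detO_eq_one_of_mem {g : O F n} (hg : g ∈ commutator (O F n)) : detO g = 1 :=
  MonoidHom.mem_ker.mp (Abelianization.commutator_subset_ker detO hg)

/-- Gauss form of an element of the commutator subgroup with invertible `W`-block. -/
theorem exists_gauss (h2 : (2 : F) ≠ 0) (hU : U F n ≤ commutator (O F n))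
    (hdet : ∀ A : GL (Fin n) F, detO (levi A) = 1)
    {g : O F n} (hg : g ∈ commutator (O F n)) (hA : (blkA g).det ≠ 0) :
    ∃ l ∈ L F n, ∃ A : GL (Fin n) F, ∃ u ∈ U F n, g = l * levi A * u := by
  let A : GL (Fin n) F := Matrix.GeneralLinearGroup.mk'' (blkA g) hA.isUnit
  set Ai := ((A⁻¹ : GL (Fin n) F) : Matrix (Fin n) (Fin n) F) with hAi
  have hAA : blkA g * Ai = 1 := Units.mul_inv A
  have hAA' : Ai * blkA g = 1 := Units.inv_mul A
  have hTS : ∀ x y, 2 * (blkR g ⬝ᵥ x) * (blkR g ⬝ᵥ y) + (blkA g *ᵥ x) ⬝ᵥ (blkC g *ᵥ y) +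
      (blkA g *ᵥ y) ⬝ᵥ (blkC g *ᵥ x) = 0 := by
    intro x y
    have := bf_app g (ix x) (ix y)
    simpa [bf, app_ix] using this
  set δ := Aiᵀ *ᵥ blkR g with hδ
  set Y := blkC g * Ai with hY
  have hr : IsRad δ Y := by
    ext i j
    have := hTS (Ai *ᵥ Pi.single i 1) (Ai *ᵥ Pi.single j 1)
    rw [mulVec_mulVec, mulVec_mulVec, mulVec_mulVec, mulVec_mulVec, hAA, one_mulVec, one_mulVec,
      ← hY, dotProduct_mulVec (blkR g) Ai, dotProduct_mulVec (blkR g) Ai, ← mulVec_transpose, ← hδ] at this
    simp only [single_one_dotProduct, mulVec_single_one, col_apply, dotProduct_single, mul_one] at this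
    simp only [Matrix.add_apply, transpose_apply, Matrix.smul_apply, vecMulVec_apply, smul_eq_mul]
    linear_combination this
  let l : O F n := sig * up h2 δ Y hr * sig
  have hlL : l ∈ L F n := by
    rw [mem_L]
    have : sig * l * sig = up h2 δ Y hr := by simp [l, mul_assoc, sig_mul_sig, ← mul_assoc sig sig]
    rw [this]
    exact up_mem h2 δ Y hr
  have hlx : ∀ x, app l (ix x) = mk (δ ⬝ᵥ x) x (Y *ᵥ x) := fun x => by
    simp [l, app_mul]
  have hgx : ∀ x, app g (ix x) = app l (app (levi A) (ix x)) := by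
    intro x
    rw [app_levi, show leviLin A (ix x) = ix (blkA g *ᵥ x) from ext_parts rfl rfl (by simp), hlx, app_ix,
      hδ, hY, mulVec_mulVec, mul_assoc, hAA', mul_one, mulVec_transpose, dotProduct_mulVec _ (blkA g),
      vecMul_vecMul, hAA', vecMul_one]
  set u := (levi A)⁻¹ * l⁻¹ * g with hu
  have hfix : ∀ x, app u (ix x) = ix x := fun x => by
    rw [hu, app_mul, app_mul, hgx, app_inv_app, app_inv_app]
  refine ⟨l, hlL, A, u, ?_, by rw [hu]; group⟩
  -- the middle entry is one
  set t := c0 (app u (mk 1 0 0)) with ht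
  have hvy := vy_of_fix hfix
  have ht2 : t * t = 1 := by
    have := bf_app u (mk 1 0 0) (mk 1 0 0)
    simp only [bf, hvy, ← ht, c0_mk, vx_mk, vy_mk, dotProduct_zero, add_zero, mul_one] at this
    apply mul_left_cancel₀ h2
    linear_combination this
  have hc : ∀ v, vy v = 0 → c0 (app u v) = t * c0 v := by
    intro v hv
    have : v = c0 v • mk 1 0 0 + ix (vx v) := ext_parts (by simp) (by simp) (by simp [hv])
    conv_lhs => rw [this, app_add, app_smul, hfix]
    rw [c0_add, c0_smul, c0_mk, add_zero, ← ht, mul_comm]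
  rcases mul_self_eq_one_iff.mp ht2 with h | h
  · exact ⟨hfix, fun v hv => by rw [hc v hv, h, one_mul]⟩
  · exfalso
    have hmem : rho * u ∈ U F n := by
      refine ⟨fun x => ?_, fun v hv => ?_⟩
      · rw [app_mul, hfix, app_rho]; exact ext_parts (by simp) rfl rfl
      · rw [app_mul, app_rho, c0_mk, hc v hv, h]; ring
    have h1 := detO_eq_one_of_mem (hU hmem)
    have h3 : detO u = 1 := by
      have hl1 : detO l = 1 := by
        simp only [l, map_mul, detO_eq_one_of_mem (hU (up_mem h2 δ Y hr)), mul_one]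
        rw [← map_mul, sig_mul_sig, map_one]
      rw [hu, map_mul, map_mul, map_inv, map_inv, hdet, hl1, detO_eq_one_of_mem hg]
      simp
    rw [map_mul, detO_rho, h3, mul_one] at h1
    apply h2
    have := congrArg Units.val h1
    simp only [Units.val_neg, Units.val_one] at this
    linear_combination -this

/-- The isometry group for the form seen as a quadratic form. -/
noncomputable def toQ : O F n ≃* Cfsg.isometryGroup F (⇑(CfsgLib.ClassicalForms.qOdd n F)) :=
  MulEquiv.subgroupCongr (congrArg (Cfsg.isometryGroup F)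
    (funext fun v => (CfsgLib.ClassicalForms.qOdd_apply n v).symm))

theorem act_toQ (g : O F n) (v : Idx n → F) :
    CfsgLib.OrthGen.act (CfsgLib.ClassicalForms.qOdd n F) (toQ g) v = app g v := rfl

/-- The spinor character. -/
noncomputable def spin [Finite F] : O F n →* ℤˣ :=
  (CfsgLib.OrthGen.spinSign (CfsgLib.ClassicalForms.qOdd n F) (-1)).comp toQ.toMonoidHom

theorem spin_eq_one_of_mem [Finite F] {g : O F n} (hg : g ∈ commutator (O F n)) : spin g = 1 :=
  MonoidHom.mem_ker.mp (Abelianization.commutator_subset_ker spin hg)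

theorem spin_dOne [Finite F] (h2 : (2 : F) ≠ 0) (i : Fin n) (t : Fˣ) (ht : ¬ IsSquare (t : F)) :
    spin (levi (dOne i t)) = -1 := by
  classical
  set Q := CfsgLib.ClassicalForms.qOdd n F with hQdef
  let v : F → (Idx n → F) := fun s => mk 0 (Pi.single i 1) ((-s) • Pi.single i 1)
  have hQv : ∀ s, Q (v s) = -s := fun s => by
    rw [hQdef, CfsgLib.ClassicalForms.qOdd_apply, quad_eq]
    simp [v]
  have hpf : ∀ s w, CfsgLib.OrthGen.pf Q (v s) w = vy w i - s * vx w i := by
    intro s w
    show QuadraticMap.polar (⇑Q) (v s) w = _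
    rw [QuadraticMap.polar, hQdef, CfsgLib.ClassicalForms.qOdd_apply,
      CfsgLib.ClassicalForms.qOdd_apply, CfsgLib.ClassicalForms.qOdd_apply, quad_add]
    simp [bf, v]
    ring
  have h1 : Q (v 1) ≠ 0 := by rw [hQv]; simp
  have ht' : Q (v t) ≠ 0 := by rw [hQv]; simp
  have hprod : toQ (levi (dOne i t)) =
      CfsgLib.OrthGen.refl Q h1 * CfsgLib.OrthGen.refl Q ht' := by
    refine CfsgLib.OrthGen.ext_act fun w => ?_
    rw [CfsgLib.OrthGen.act_mul, CfsgLib.OrthGen.act_refl, CfsgLib.OrthGen.act_refl, act_toQ, app_levi,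
      hQv, hQv, hpf, hpf]
    have ht0 : (t : F) ≠ 0 := t.ne_zero
    refine ext_parts (by simp [v]) (funext fun j => ?_) (funext fun j => ?_)
    · by_cases hj : j = i
      · subst hj; simp [v, dOne, mulVec_diagonal]; field_simp; ring
      · simp [v, dOne, mulVec_diagonal, hj]
    · by_cases hj : j = i
      · subst hj; simp [v, dOne, mulVec_diagonal]; field_simp; ring
      · simp [v, dOne, mulVec_diagonal, hj]
  show CfsgLib.OrthGen.spinSign Q (-1) (toQ (levi (dOne i t))) = -1
  rw [hprod, map_mul, (CfsgLib.OrthGen.spinSign_refl h2 (neg_ne_zero.mpr one_ne_zero) h1).mpr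
    ⟨1, by rw [hQv]; simp⟩, (CfsgLib.OrthGen.spinSign_refl' h2 (neg_ne_zero.mpr one_ne_zero) ht').mpr ?_]
  · rfl
  · rw [hQv, neg_div_neg_eq, one_div]
    rintro ⟨r, hr⟩
    exact ht ⟨r⁻¹, by rw [← mul_inv, ← hr, inv_inv]⟩

theorem dOne_star' (i : Fin n) (t : Fˣ) : star' (dOne i t) = (dOne i t : GL (Fin n) F)⁻¹ := by
  refine Units.ext ?_
  show (diagonal _)ᵀ = diagonal _
  rw [diagonal_transpose]

end CfsgLib.OreOrth.Odd
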