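import Cfsg.Agent.Lib.OreOrth.Basic
import Cfsg.Agent.Lib.OreOrth.OddElem

/-!
Every element of `Ω(2n+1, q)` is a commutator, given good Levi elements.
-/

set_option autoImplicit false
set_option linter.unusedSectionVars false

namespace CfsgLib.OreOrth

open Matrix Odd

variable {F : Type*} [Field F] {n : ℕ}

namespace Odd

/-- Conjugating by an element of the upper radical changes the `W`-block linearly. -/
theorem blkA_conj (h2 : (2 : F) ≠ 0) {d : Fin n → F} {X : Matrix (Fin n) (Fin n) F} (hr : IsRad d X)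
    (g : O F n) (x : Fin n → F) :
    blkA (up h2 d X hr * g * (up h2 d X hr)⁻¹) *ᵥ x =
      vx (upLin d X (app g (ix x))) := by
  have h : ∀ z, vx (app (up h2 d X hr * g * (up h2 d X hr)⁻¹) (ix z)) =
      vx (upLin d X (app g (ix z))) := fun z => by
    rw [app_mul, app_mul, ((U F n).inv_mem (up_mem h2 d X hr)).1, app_up]
  rw [← h x, app_ix, vx_mk]

/-- Some conjugate has an invertible `W`-block. -/
theorem exists_conj_invertible (h2 : (2 : F) ≠ 0) (g : O F n) :
    ∃ p : O F n, (blkA (p * g * p⁻¹)).det ≠ 0 := by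
  have hTS : (blkC g)ᵀ * blkA g + (blkA g)ᵀ * blkC g = (-2 : F) • vecMulVec (blkR g) (blkR g) := by
    ext i j
    have := bf_app g (ix (Pi.single i 1)) (ix (Pi.single j 1))
    simp only [bf, app_ix, c0_mk, vx_mk, vy_mk, dotProduct_zero, mul_zero, add_zero,
      mulVec_single_one, dotProduct_single, mul_one] at this
    simp only [Matrix.add_apply, Matrix.mul_apply, transpose_apply, Matrix.smul_apply, vecMulVec_apply,
      smul_eq_mul]
    simp only [dotProduct, col_apply] at this
    rw [Finset.sum_congr rfl fun x _ => mul_comm (blkC g x i) (blkA g x j)]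
    linear_combination this
  have hinj : ∀ v, blkR g ⬝ᵥ v = 0 → blkA g *ᵥ v = 0 → blkC g *ᵥ v = 0 → v = 0 := by
    intro v h1 h3 h4
    have := app_inv_app g (ix v)
    rw [app_ix, h1, h3, h4, show mk (0 : F) (0 : Fin n → F) 0 = 0 from ext_parts rfl rfl rfl] at this
    have h0 : app g⁻¹ (0 : Idx n → F) = 0 := mulVec_zero _
    rw [h0] at this
    exact (congrArg vx this).symm
  obtain ⟨d, X, hr, hdet⟩ := exists_rad_invertible h2 (blkR g) (blkA g) (blkC g) hTS hinj
  refine ⟨up h2 d X hr, ?_⟩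
  convert hdet using 2
  refine Matrix.ext_iff_mulVec.mpr fun x => ?_
  rw [blkA_conj, app_ix]
  simp only [upLin_apply, vx_mk, vy_mk, c0_mk, add_mulVec, sub_mulVec, smul_mulVec, vecMulVec_mulVec,
    op_smul_eq_smul, smul_smul, mulVec_mulVec]

theorem scalar_one_or (A : Matrix (Fin n) (Fin n) F) :
    A = 1 ∨ (∀ c : F, A ≠ c • 1) ∨ ∃ c : F, c ≠ 1 ∧ A = c • 1 := by
  by_cases h : ∃ c : F, A = c • 1
  · obtain ⟨c, hc⟩ := h
    by_cases h1 : c = 1
    · exact Or.inl (by rw [hc, h1, one_smul])
    · exact Or.inr (Or.inr ⟨c, h1, hc⟩)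
  · push Not at h
    exact Or.inr (Or.inl h)

section Main

variable [Fintype F]

theorem two_ne_zero_of_odd (hodd : Odd (Fintype.card F)) : (2 : F) ≠ 0 := by
  refine Ring.two_ne_zero ?_
  intro hc
  have := (FiniteField.even_card_iff_char_two (F := F)).mp hc
  rw [Nat.odd_iff] at hodd
  omega

theorem isSquare_of_spin (h2 : (2 : F) ≠ 0) (hn : 3 ≤ n) (A : GL (Fin n) F)
    (hA : spin (levi A) = 1) : IsSquare (A : Matrix (Fin n) (Fin n) F).det := by
  by_contra hns
  let t : Fˣ := Units.mk0 (A : Matrix (Fin n) (Fin n) F).det (fun h => hns (h ▸ IsSquare.zero))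
  have := hom_eq_of_det (by simpa using hn) ((spin (F := F) (n := n)).comp levi) (A := A)
    (B := dOne ⟨0, by omega⟩ t) (by rw [det_dOne]; rfl)
  rw [MonoidHom.comp_apply, MonoidHom.comp_apply, hA, spin_dOne h2 ⟨0, by omega⟩ t hns] at this
  exact absurd this (by decide)

theorem levi_mem (hn : 3 ≤ n) {A : GL (Fin n) F} (hA : IsSquare (A : Matrix (Fin n) (Fin n) F).det) :
    levi A ∈ commutator (O F n) := by
  refine map_mem_commutator_of_isSquare (by simpa using hn) levi ⟨0, by omega⟩ (fun t => ⟨sig, ?_⟩) A hA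
  rw [sig_inv, sig_levi_sig, dOne_star', map_inv]

theorem detO_levi (hn : 3 ≤ n) (A : GL (Fin n) F) : detO (levi A) = 1 := by
  have h := hom_eq_of_det (by simpa using hn) ((detO (F := F) (n := n)).comp levi) (A := A)
    (B := dOne ⟨0, by omega⟩ (Matrix.GeneralLinearGroup.det A)) (by rw [det_dOne]; rfl)
  rw [MonoidHom.comp_apply, MonoidHom.comp_apply] at h
  rw [h]
  set B : GL (Fin n) F := dOne ⟨0, by omega⟩ (Matrix.GeneralLinearGroup.det A)
  refine Units.ext ?_
  show (LinearMap.toMatrix' (leviLin B) : Matrix (Idx n) (Idx n) F).det = 1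
  have : (LinearMap.toMatrix' (leviLin B) : Matrix (Idx n) (Idx n) F) =
      fromBlocks 1 0 0 (fromBlocks (B : Matrix (Fin n) (Fin n) F) 0 0
        ((B⁻¹ : GL (Fin n) F) : Matrix (Fin n) (Fin n) F)ᵀ) := by
    refine Matrix.ext_iff_mulVec.mpr fun v => ?_
    rw [LinearMap.toMatrix'_mulVec]
    funext i
    rcases i with ⟨⟩ | i | i <;>
      simp [leviLin, mk, c0, vx, vy, fromBlocks_mulVec, mulVec, dotProduct, Fintype.sum_sum_type]
  rw [this, det_fromBlocks_zero₁₂, det_one, one_mul, det_fromBlocks_zero₁₂, det_transpose, ← det_mul,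
    Units.mul_inv, det_one]

end Main

end Odd

/-- Every element of `Ω(2n+1, q)`, `q` odd, is a commutator, given good Levi elements. -/
theorem exists_comm_odd [Fintype F] (hodd : Odd (Fintype.card F)) (n : ℕ) (hn : 3 ≤ n)
    (hgood : ∀ A : Matrix (Fin n) (Fin n) F, A.det = 1 →
      (4 ≤ Fintype.card F → A = 1 ∨ ∀ c : F, A ≠ c • 1) → (Fintype.card F = 3 → n = 4 → A ≠ -1) → Good A) :
    ∀ g : Cfsg.Omega F (Cfsg.quadFormOdd n F), ∃ a b : Cfsg.Omega F (Cfsg.quadFormOdd n F),
      g = a * b * a⁻¹ * b⁻¹ := by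
  have h2 : (2 : F) ≠ 0 := two_ne_zero_of_odd hodd
  set N : Subgroup (O F n) := commutator (O F n) with hN
  -- an element without fixed points on both radicals
  obtain ⟨b₁, H, -, -, -, hH1, hH2, hH3⟩ := hgood 1 det_one (fun _ => Or.inl rfl) fun _ _ e => by
    have := congrFun (congrFun e ⟨0, by omega⟩) ⟨0, by omega⟩
    rw [Matrix.neg_apply, one_apply_eq] at this
    exact h2 (by linear_combination this)
  obtain ⟨hH3, hH4⟩ := hH3 h2
  have hUN : U F n ≤ N := le_commutator_of_free (k := levi H) (fun u hu => levi_conj_U H hu)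
    fun u hu h => free_U h2 hH3 hH1 hu h
  have hLN : L F n ≤ N := le_commutator_of_free (k := levi H) (fun u hu => levi_conj_L H hu)
    fun u hu h => free_L h2 hH4 hH2 hu h
  -- good Levi block
  have hgoodA : ∀ (A : GL (Fin n) F) (l u : O F n), l ∈ L F n → u ∈ U F n →
      (A : Matrix (Fin n) (Fin n) F).det = 1 →
      (4 ≤ Fintype.card F → (A : Matrix (Fin n) (Fin n) F) = 1 ∨
        ∀ c : F, (A : Matrix (Fin n) (Fin n) F) ≠ c • 1) →
      (Fintype.card F = 3 → n = 4 → (A : Matrix (Fin n) (Fin n) F) ≠ -1) →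
      IsCommIn N (l * levi A * u) := by
    intro A l u hl hu hdet hsc hex
    obtain ⟨b, h, hA, hb, hh, h1, h1', h3⟩ := hgood A hdet hsc hex
    obtain ⟨h3, h4⟩ := h3 h2
    rw [show A = b * h * b⁻¹ * h⁻¹ from Units.ext hA, map_mul, map_mul, map_mul, map_inv, map_inv]
    exact isCommIn_gauss N (M := (levi (F := F) (n := n)).range) hUN hLN
      (by rintro _ ⟨a, rfl⟩ x hx; exact levi_conj_U a hx)
      (by rintro _ ⟨a, rfl⟩ x hx; exact levi_conj_L a hx)
      ⟨b, rfl⟩ ⟨h, rfl⟩ (levi_mem hn hb) (levi_mem hn hh)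
      (fun x hx e => free_U h2 h3 h1 hx e) (fun x hx e => free_L h2 h4 h1' hx e) hl hu
  have hdet : ∀ A : GL (Fin n) F, detO (levi A) = 1 := detO_levi hn
  -- the Gauss form
  have hgauss : ∀ g ∈ N, (blkA g).det ≠ 0 → ∃ l ∈ L F n, ∃ A : GL (Fin n) F, ∃ u ∈ U F n,
      g = l * levi A * u ∧ IsSquare (A : Matrix (Fin n) (Fin n) F).det := by
    intro g hg hne
    obtain ⟨l, hl, A, u, hu, rfl⟩ := exists_gauss h2 hUN hdet hg hne
    refine ⟨l, hl, A, u, hu, rfl, isSquare_of_spin h2 hn A ?_⟩
    have := spin_eq_one_of_mem hg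
    rwa [map_mul, map_mul, spin_eq_one_of_mem (hLN hl), spin_eq_one_of_mem (hUN hu), one_mul, mul_one]
      at this
  have hA0 : ∀ A : GL (Fin n) F, (A : Matrix (Fin n) (Fin n) F).det ≠ 0 := fun A =>
    (Matrix.GeneralLinearGroup.det A).ne_zero
  -- with a non-trivial lower part the determinant can be adjusted
  have hlow : ∀ (A : GL (Fin n) F) (l u : O F n), l ∈ L F n → u ∈ U F n → l * levi A * u ∈ N →
      IsSquare (A : Matrix (Fin n) (Fin n) F).det → l ≠ 1 → IsCommIn N (l * levi A * u) := by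
    intro A l u hl hu hmem hsq hl1
    obtain ⟨δ, Y, hY, hlv⟩ := exists_of_mem_U h2 (mem_L.mp hl)
    have hne : δ ≠ 0 ∨ Y ≠ 0 := by
      by_contra h
      push Not at h
      obtain ⟨rfl, rfl⟩ := h
      apply hl1
      have h1 : sig * l * sig = 1 := ext_app fun v => by
        rw [hlv, app_one]; exact ext_parts (by simp) (by simp) rfl
      have := congrArg (fun g => sig * g * sig) h1
      simpa [mul_assoc, sig_mul_sig, ← mul_assoc sig sig] using this
    obtain ⟨s, hs⟩ := hsq
    have hs0 : s ≠ 0 := fun h => hA0 A (by rw [hs, h, mul_zero])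
    obtain ⟨d, X, hr, hd1, hns⟩ := exists_rad_det h2 (by simpa using hn) hY hne hs0 hs
    set g' := up h2 d X hr * (l * levi A * u) * (up h2 d X hr)⁻¹ with hg'
    have hlx : ∀ x, app l (ix x) = mk (δ ⬝ᵥ x) x (Y *ᵥ x) := by
      intro x
      have h1 : app l (ix x) = app sig (app (sig * l * sig) (app sig (ix x))) := by
        rw [← app_mul, ← app_mul]
        simp [mul_assoc, sig_mul_sig, ← mul_assoc sig sig]
      rw [h1, hlv, app_sig, app_sig]
      exact ext_parts (by simp) (by simp) (by simp)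
    have hblk : blkA g' = (1 - (2 : F) • vecMulVec d δ + X * Y) * (A : Matrix (Fin n) (Fin n) F) := by
      refine Matrix.ext_iff_mulVec.mpr fun x => ?_
      rw [hg', blkA_conj, app_mul, app_mul, hu.1, app_levi,
        show leviLin A (ix x) = ix ((A : Matrix (Fin n) (Fin n) F) *ᵥ x) from ext_parts rfl rfl (by simp),
        hlx]
      simp only [upLin_apply, vx_mk, vy_mk, c0_mk, ← mulVec_mulVec, add_mulVec, sub_mulVec, smul_mulVec,
        one_mulVec, vecMulVec_mulVec, op_smul_eq_smul, smul_smul]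
    have hmem' : g' ∈ N := Subgroup.Normal.conj_mem inferInstance _ hmem _
    obtain ⟨l', hl', A', u', hu', hg'', -⟩ := hgauss g' hmem' (by rw [hblk, hd1]; exact one_ne_zero)
    have hA' : (A' : Matrix (Fin n) (Fin n) F) =
        (1 - (2 : F) • vecMulVec d δ + X * Y) * (A : Matrix (Fin n) (Fin n) F) := by
      rw [← hblk, hg'', blkA_gauss hl' hu']
    refine IsCommIn.of_conj (up h2 d X hr) ?_
    rw [← hg', hg'']
    exact hgoodA A' l' u' hl' hu' (by rw [hA', hd1]) (fun _ => Or.inr (by rw [hA']; exact hns))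
      fun _ _ e => hns (-1) (by rw [← hA', e, neg_one_smul])
  -- all elements
  intro g
  refine IsCommIn.exists_subtype g ?_
  obtain ⟨p, hp⟩ := exists_conj_invertible h2 (g : O F n)
  refine IsCommIn.of_conj p ?_
  have hmem : p * (g : O F n) * p⁻¹ ∈ N := Subgroup.Normal.conj_mem inferInstance _ g.2 _
  obtain ⟨l, hl, A, u, hu, hg, hsq⟩ := hgauss _ hmem hp
  rw [hg] at hmem ⊢
  by_cases hok : (A : Matrix (Fin n) (Fin n) F).det = 1 ∧ (4 ≤ Fintype.card F →
      (A : Matrix (Fin n) (Fin n) F) = 1 ∨ ∀ c : F, (A : Matrix (Fin n) (Fin n) F) ≠ c • 1) ∧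
      (Fintype.card F = 3 → n = 4 → (A : Matrix (Fin n) (Fin n) F) ≠ -1)
  · exact hgoodA A l u hl hu hok.1 hok.2.1 hok.2.2
  have hA1 : A ≠ 1 := by
    rintro rfl
    refine hok ⟨by simp, fun _ => Or.inl Units.val_one, fun _ _ e => ?_⟩
    have := congrFun (congrFun e ⟨0, by omega⟩) ⟨0, by omega⟩
    rw [Units.val_one, Matrix.neg_apply, one_apply_eq] at this
    exact h2 (by linear_combination this)
  by_cases hl1 : l = 1
  swap
  · exact hlow A l u hl hu hmem hsq hl1
  subst hl1
  have hL1 : (1 : O F n) ∈ L F n := (L F n).one_mem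
  have hU1 : (1 : O F n) ∈ U F n := (U F n).one_mem
  have hsigU : ∀ {x : O F n}, x ∈ U F n → sig * x * sig ∈ L F n := fun {x} hx => by
    rw [mem_L]; simpa [mul_assoc, sig_mul_sig, ← mul_assoc sig sig] using hx
  have hsqs : IsSquare (star' A : Matrix (Fin n) (Fin n) F).det := by
    obtain ⟨s, hs⟩ := hsq
    refine ⟨s⁻¹, ?_⟩
    rw [coe_star', det_transpose, Matrix.coe_units_inv, Matrix.det_nonsing_inv, Ring.inverse_eq_inv', hs,
      _root_.mul_inv_rev]
  have hconj := Subgroup.Normal.conj_mem (inferInstance : N.Normal) _ hmem sig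
  by_cases hu1 : u = 1
  · -- a Levi element: move it off the Levi factor
    subst hu1
    rw [one_mul, mul_one] at hmem hconj ⊢
    obtain ⟨d, hd⟩ : ∃ d : Fin n → F,
        ((A⁻¹ : GL (Fin n) F) : Matrix (Fin n) (Fin n) F) *ᵥ d ≠ d := by
      by_contra! h
      refine hA1 (inv_eq_one.mp (Units.ext ?_))
      rw [Units.val_one]
      exact Matrix.ext_iff_mulVec.mpr fun d => by rw [h, one_mulVec]
    have hr : IsRad d (-vecMulVec d d) := by
      show -vecMulVec d d + (-vecMulVec d d)ᵀ = _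
      rw [transpose_neg, transpose_vecMulVec]
      module
    set p' := up h2 d _ hr
    have hpU : p' ∈ U F n := up_mem h2 _ _ hr
    -- move to the lower radical
    refine IsCommIn.of_conj sig ?_
    refine IsCommIn.of_conj (sig * p' * sig) ?_
    set q := sig * p' * sig with hq
    have hqL : q ∈ L F n := hsigU hpU
    have hm : sig * levi A * sig⁻¹ = levi (star' A) := by rw [sig_inv, sig_levi_sig]
    rw [hm] at hconj ⊢
    have e : q * levi (star' A) * q⁻¹ =
        (q * (levi (star' A) * q⁻¹ * (levi (star' A))⁻¹)) * levi (star' A) * 1 := by group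
    rw [e]
    refine hlow (star' A) _ 1 ((L F n).mul_mem hqL (levi_conj_L _ ((L F n).inv_mem hqL))) hU1
      (by rw [← e]; exact Subgroup.Normal.conj_mem inferInstance _ hconj _) hsqs fun h => hd ?_
    have hc : q * levi (star' A) = levi (star' A) * q := by
      calc q * levi (star' A) =
          q * (levi (star' A) * q⁻¹ * (levi (star' A))⁻¹) * (levi (star' A) * q) := by group
        _ = levi (star' A) * q := by rw [h, one_mul]
    have hc' : p' * levi A = levi A * p' := by
      have := congrArg (fun z => sig * z * sig) hc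
      rw [hq, ← sig_levi_sig] at this
      simpa [mul_assoc, sig_mul_sig, ← mul_assoc sig sig] using this
    refine dotProduct_eq _ _ fun y => ?_
    have := congrArg (fun z => c0 (app z (mk 0 0 y))) hc'
    simp only [app_mul, p', app_up, app_levi, upLin_apply, leviLin_apply, c0_mk, vy_mk, vx_mk, zero_add,
      dotProduct_mulVec, vecMul_transpose] at this
    exact this
  · refine IsCommIn.of_conj sig ?_
    have e : sig * (1 * levi A * u) * sig⁻¹ =
        (sig * (levi A * u * (levi A)⁻¹) * sig) * levi (star' A) * 1 := by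
      rw [← sig_levi_sig, sig_inv]
      simp [mul_assoc, sig_mul_sig, ← mul_assoc sig sig]
    rw [e]
    refine hlow (star' A) _ 1 (hsigU (levi_conj_U A hu)) hU1 (e ▸ hconj) hsqs fun h => hu1 ?_
    have h' := congrArg (fun z => sig * z * sig) h
    simp only [mul_assoc, sig_mul_sig, mul_one, ← mul_assoc sig sig, one_mul] at h'
    have := congrArg (fun z => (levi A)⁻¹ * z * levi A) h'
    simpa [mul_assoc] using this

end CfsgLib.OreOrth
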