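import Cfsg.Agent.Lib.OreOrth.PlusMinusOne

/-!
Every element of `Ω⁺(2n, q)` is a commutator, given good Levi elements: move the element into the big cell with
a prescribed Levi part.
-/

set_option autoImplicit false
set_option linter.unusedSectionVars false

namespace CfsgLib.OreOrth.Plus

open Matrix

variable {F : Type*} [Field F] {n : ℕ}

/-- A non-degenerate alternating matrix on a set of even size. -/
theorem exists_alt_support (s : Finset (Fin n)) (hs : Even s.card) :
    ∃ K : Matrix (Fin n) (Fin n) F, Alt K ∧ (∀ i j, j ∉ s → K i j = 0) ∧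
      ∀ w : Fin n → F, (∀ i, i ∉ s → w i = 0) → (∀ i ∈ s, (K *ᵥ w) i = 0) → w = 0 := by
  classical
  obtain ⟨k, hk⟩ := hs
  let e : ↥s ≃ Fin k ⊕ Fin k :=
    (Fintype.equivFinOfCardEq (by rw [Fintype.card_coe, hk])).trans finSumFinEquiv.symm
  set J : Matrix (Fin k ⊕ Fin k) (Fin k ⊕ Fin k) F := Matrix.J (Fin k) F with hJ
  refine ⟨Matrix.of fun i j => if hi : i ∈ s then if hj : j ∈ s then J (e ⟨i, hi⟩) (e ⟨j, hj⟩) else 0 else 0,
    alt_of_eq (fun i => ?_) ?_, fun i j hj => ?_, fun w hw hK => ?_⟩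
  · rw [of_apply]
    split_ifs with h
    · rcases e ⟨i, h⟩ with u | u <;> simp [hJ, Matrix.J]
    · rfl
  · ext i j
    simp only [transpose_apply, Matrix.neg_apply, of_apply]
    by_cases hi : i ∈ s <;> by_cases hj : j ∈ s <;> simp [hi, hj]
    rw [← transpose_apply J, hJ, J_transpose, Matrix.neg_apply]
  · rw [of_apply]
    split_ifs <;> rfl
  · set w' : Fin k ⊕ Fin k → F := fun x => w (e.symm x) with hw'
    have h0 : J *ᵥ w' = 0 := funext fun x => by
      have hx := hK _ (e.symm x).2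
      simp only [mulVec, dotProduct] at hx ⊢
      rw [← Finset.sum_subset (Finset.subset_univ s) fun j _ hj => by rw [hw j hj, mul_zero],
        ← Finset.sum_coe_sort] at hx
      rw [Pi.zero_apply, ← hx, ← e.sum_comp]
      refine Finset.sum_congr rfl fun j _ => ?_
      simp [hw', j.2]
    have h1 : w' = 0 := by
      have := congrArg (fun v => J *ᵥ v) h0
      simp only [mulVec_mulVec, mulVec_zero, hJ, J_squared, neg_mulVec, one_mulVec, neg_eq_zero] at this
      exact this
    funext i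
    by_cases hi : i ∈ s
    · simpa [hw'] using congrFun h1 (e ⟨i, hi⟩)
    · exact hw i hi

/-- A complement common to two maximal singular subspaces of the same family. -/
theorem exists_alt_det_ne_zero {P S : Matrix (Fin n) (Fin n) F}
    (halt : ∀ z, (P *ᵥ z) ⬝ᵥ (S *ᵥ z) = 0) (hfull : ∀ z, P *ᵥ z = 0 → S *ᵥ z = 0 → z = 0)
    (hev : Even S.rank) : ∃ X : Matrix (Fin n) (Fin n) F, Alt X ∧ (P + X * S).det ≠ 0 := by
  classical
  obtain ⟨L, L', d, hd⟩ := Matrix.Pivot.exists_list_transvec_mul_mul_list_transvec_eq_diagonal S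
  set U := (L.map TransvectionStruct.toMatrix).prod with hUdef
  set V := (L'.map TransvectionStruct.toMatrix).prod with hVdef
  have hU : IsUnit U.det := by rw [hUdef, TransvectionStruct.det_toMatrix_prod]; exact isUnit_one
  have hV : IsUnit V.det := by rw [hVdef, TransvectionStruct.det_toMatrix_prod]; exact isUnit_one
  set P₁ := (U⁻¹)ᵀ * P * V with hP₁
  have halt₁ : Alt (P₁ᵀ * Matrix.diagonal d) := fun z => by
    rw [← mulVec_mulVec, dotProduct_mulVec, ← mulVec_transpose, transpose_transpose, hP₁, ← hd,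
      ← mulVec_mulVec, ← mulVec_mulVec, ← mulVec_mulVec, ← mulVec_mulVec, mulVec_transpose,
      ← dotProduct_mulVec, mulVec_mulVec _ U⁻¹, Matrix.nonsing_inv_mul U hU, one_mulVec]
    exact halt _
  set s := Finset.univ.filter fun i => d i ≠ 0 with hs
  have hcard : Even s.card := by
    rw [← rank_mul_eq_right_of_isUnit_det U S hU, ← rank_mul_eq_left_of_isUnit_det V (U * S) hV, hd,
      Matrix.rank_diagonal, Fintype.card_subtype] at hev
    exact hev
  obtain ⟨K, hK, hKs, hKinj⟩ := exists_alt_support (F := F) s hcard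
  have hrel : ∀ i j, P₁ i j * d i + P₁ j i * d j = 0 := by
    intro i j
    have h := halt₁.swap i j
    simp only [mul_diagonal, transpose_apply] at h
    linear_combination h
  set X₁ : Matrix (Fin n) (Fin n) F := Matrix.of fun i j => if i ∈ s ∧ j ∈ s then K i j - P₁ i j / d j else 0 with hX₁
  have hdne : ∀ {i}, i ∈ s → d i ≠ 0 := fun {i} hi => (Finset.mem_filter.mp hi).2
  have hX₁alt : Alt X₁ := by
    refine alt_of_eq (fun i => ?_) ?_
    · simp only [hX₁, of_apply]
      split_ifs with h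
      · have hii := hrel i i
        have := halt₁.diag i
        simp only [mul_diagonal, transpose_apply] at this
        rw [hK.diag, (mul_eq_zero.mp this).resolve_right (hdne h.1)]
        simp
      · rfl
    · ext i j
      simp only [transpose_apply, Matrix.neg_apply, hX₁, of_apply]
      by_cases h : i ∈ s ∧ j ∈ s
      · rw [if_pos h, if_pos h.symm, hK.swap i j]
        have hi := hdne h.1
        have hj := hdne h.2
        field_simp
        linear_combination -hrel i j
      · rw [if_neg h, if_neg fun h' => h h'.symm, neg_zero]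
  refine ⟨Uᵀ * X₁ * Uᵀᵀ, hX₁alt.congr _, ?_⟩
  set M := P₁ + X₁ * Matrix.diagonal d with hM
  have hfac : (U⁻¹)ᵀ * (P + Uᵀ * X₁ * Uᵀᵀ * S) * V = M := by
    rw [transpose_transpose, Matrix.mul_add, Matrix.add_mul, hM, hP₁, ← hd,
      show (U⁻¹)ᵀ * (Uᵀ * X₁ * U * S) * V = ((U⁻¹)ᵀ * Uᵀ) * X₁ * (U * S * V) by
        simp only [Matrix.mul_assoc],
      ← transpose_mul, Matrix.mul_nonsing_inv U hU, transpose_one, Matrix.one_mul]
  intro hdet
  have hMdet : M.det = 0 := by rw [← hfac, det_mul, det_mul, hdet, mul_zero, zero_mul]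
  obtain ⟨z, hz0, hz⟩ := Matrix.exists_mulVec_eq_zero_iff.mpr hMdet
  apply hz0
  set w : Fin n → F := fun j => d j * z j with hw
  have hMz : ∀ i, (P₁ *ᵥ z) i + (X₁ *ᵥ w) i = 0 := fun i => by
    have := congrFun hz i
    rw [hM, add_mulVec, Pi.add_apply, ← mulVec_mulVec z X₁] at this
    rw [show w = Matrix.diagonal d *ᵥ z from funext fun j => (mulVec_diagonal d z j).symm]
    exact this
  have hw0 : w = 0 := by
    refine hKinj w (fun i hi => ?_) fun i hi => ?_
    · have : d i = 0 := by simpa [hs] using hi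
      simp [hw, this]
    · rw [← hMz i, mulVec, mulVec, mulVec, dotProduct, dotProduct, dotProduct, ← Finset.sum_add_distrib]
      refine Finset.sum_congr rfl fun j _ => ?_
      simp only [hX₁, hw, of_apply]
      by_cases hj : j ∈ s
      · have := hdne hj
        rw [if_pos ⟨hi, hj⟩]
        field_simp
        ring
      · have hdj : d j = 0 := by simpa [hs] using hj
        have hP0 : P₁ i j = 0 := by
          have h := hrel i j
          rw [hdj, mul_zero, add_zero] at h
          exact (mul_eq_zero.mp h).resolve_right (hdne hi)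
        simp [hdj, hP0]
  have hS : Matrix.diagonal d *ᵥ z = 0 := by
    funext j
    rw [mulVec_diagonal]
    exact congrFun hw0 j
  have hP : P₁ *ᵥ z = 0 := funext fun i => by simpa [hw0] using hMz i
  have hUU : Uᵀ * (U⁻¹)ᵀ = 1 := by rw [← transpose_mul, Matrix.nonsing_inv_mul U hU, transpose_one]
  have h1 : P *ᵥ (V *ᵥ z) = 0 := by
    have := congrArg (fun v => Uᵀ *ᵥ v) hP
    simpa [hP₁, mulVec_mulVec, ← Matrix.mul_assoc, hUU] using this
  have h2 : S *ᵥ (V *ᵥ z) = 0 := by
    have := congrArg (fun v => U⁻¹ *ᵥ v) hS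
    rw [← hd] at this
    simpa [mulVec_mulVec, ← Matrix.mul_assoc, Matrix.nonsing_inv_mul U hU] using this
  have := congrArg (fun v => V⁻¹ *ᵥ v) (hfull _ h1 h2)
  simpa [mulVec_mulVec, Matrix.nonsing_inv_mul V hV] using this

/-- Conjugate into the big cell. -/
theorem exists_bigCell [Fintype F] (hn : 3 ≤ n) {g : Grp n F} (hg : g ∈ commutator (Grp n F)) :
    ∃ (k : Grp n F) (A : GL (Fin n) F) (X Y : Matrix (Fin n) (Fin n) F) (hX : Alt X) (hY : Alt Y),
      k * g * k⁻¹ = lo hY * lev A * up hX := by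
  obtain ⟨P, R, S, T, hm⟩ : ∃ P R S T, mat g = fromBlocks P R S T :=
    ⟨_, _, _, _, (fromBlocks_toBlocks (mat g)).symm⟩
  have hfull : ∀ z, P *ᵥ z = 0 → S *ᵥ z = 0 → z = 0 := by
    intro z hP hS
    have h1 : mat g *ᵥ Sum.elim z 0 = 0 := by
      rw [hm, fromBlocks_mulVec]
      simp [hP, hS, Sum.elim_comp_inl]
    have h2 : Sum.elim z (0 : Fin n → F) = 0 := by
      have := congrArg (fun v => mat g⁻¹ *ᵥ v) h1
      simpa [mulVec_mulVec, ← mat_mul, mat_one] using this
    funext i
    exact congrFun h2 (Sum.inl i)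
  obtain ⟨Z, hZ, hdet⟩ := exists_alt_det_ne_zero (fun z => alt_col hm z) hfull (even_rank_of_mem hn hm hg)
  have hm' : mat (up hZ * g * (up hZ)⁻¹) =
      fromBlocks (P + Z * S) ((P + Z * S) * -Z + (R + Z * T)) S (S * -Z + T) := by
    rw [mat_mul, mat_mul, up_inv, mat_up, mat_up, hm, fromBlocks_multiply, fromBlocks_multiply]
    simp
  obtain ⟨X, Y, hX, hY, he⟩ := exists_gauss hm' (Matrix.GeneralLinearGroup.mkOfDetNeZero _ hdet) rfl
  exact ⟨up hZ, _, X, Y, hX, hY, he⟩

theorem isSquare_of_mem [Fintype F] {H : GL (Fin n) F}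
    (hH : CfsgLib.OreOrth.Fpf (H : Matrix (Fin n) (Fin n) F))
    (hH' : CfsgLib.OreOrth.Fpf (H : Matrix (Fin n) (Fin n) F)ᵀ) (A : GL (Fin n) F)
    {X Y : Matrix (Fin n) (Fin n) F} (hX : Alt X) (hY : Alt Y)
    (h : lo hY * lev A * up hX ∈ commutator (Grp n F)) : IsSquare (A : Matrix (Fin n) (Fin n) F).det := by
  refine isSquare_det_of_lev_mem A ?_
  have := mul_mem (mul_mem (inv_mem (lo_mem H hH' hY)) h) (inv_mem (up_mem H hH hX))
  rwa [show (lo hY)⁻¹ * (lo hY * lev A * up hX) * (up hX)⁻¹ = lev A by group] at this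

/-- `u ∧ v`. -/
def wedge (u v : Fin n → F) : Matrix (Fin n) (Fin n) F := vecMulVec u v - vecMulVec v u

theorem alt_wedge (u v : Fin n → F) : Alt (wedge u v) := fun w => by
  rw [wedge, sub_mulVec, dotProduct_sub, vecMulVec_mulVec, vecMulVec_mulVec]
  simp only [op_smul_eq_smul, dotProduct_smul, smul_eq_mul]
  rw [dotProduct_comm w u, dotProduct_comm v w]
  ring

theorem det_one_add_wedge_mul (u v : Fin n → F) {Y : Matrix (Fin n) (Fin n) F} (hY : Alt Y) :
    (1 + wedge u v * Y).det = (1 - u ⬝ᵥ (Y *ᵥ v)) ^ 2 := by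
  let A : Matrix (Fin n) (Fin 2) F := Matrix.of fun i j => if j = 0 then u i else v i
  let B : Matrix (Fin 2) (Fin n) F := Matrix.of fun j i => if j = 0 then (v ᵥ* Y) i else -(u ᵥ* Y) i
  have hAB : wedge u v * Y = A * B := by
    rw [wedge, Matrix.sub_mul, vecMulVec_mul, vecMulVec_mul]
    ext i j
    simp [A, B, Matrix.mul_apply, Fin.sum_univ_two, vecMulVec_apply, sub_eq_add_neg]
  have hvu : v ⬝ᵥ (Y *ᵥ u) = -(u ⬝ᵥ (Y *ᵥ v)) := by
    have := hY (u + v)
    simp [add_dotProduct, mulVec_add, dotProduct_add, hY u, hY v] at this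
    linear_combination this
  have e00 : (B * A) 0 0 = v ⬝ᵥ (Y *ᵥ u) := by
    rw [dotProduct_mulVec]; simp [A, B, Matrix.mul_apply, dotProduct]
  have e01 : (B * A) 0 1 = v ⬝ᵥ (Y *ᵥ v) := by
    rw [dotProduct_mulVec]; simp [A, B, Matrix.mul_apply, dotProduct]
  have e10 : (B * A) 1 0 = -(u ⬝ᵥ (Y *ᵥ u)) := by
    rw [dotProduct_mulVec]; simp [A, B, Matrix.mul_apply, dotProduct, Finset.sum_neg_distrib]
  have e11 : (B * A) 1 1 = -(u ⬝ᵥ (Y *ᵥ v)) := by
    rw [dotProduct_mulVec]; simp [A, B, Matrix.mul_apply, dotProduct, Finset.sum_neg_distrib]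
  rw [hAB, det_one_add_mul_comm, det_fin_two]
  simp only [Matrix.add_apply, one_apply_eq, e00, e01, e10, e11, hY u, hY v, hvu,
    one_apply_ne (by decide : (0 : Fin 2) ≠ 1), one_apply_ne (by decide : (1 : Fin 2) ≠ 0)]
  ring

/-- Move the Levi part to determinant one and non-scalar. -/
theorem exists_adjust (hn : 4 ≤ n) {Y : Matrix (Fin n) (Fin n) F} (hY : Alt Y) (hY0 : Y ≠ 0) (A : GL (Fin n) F)
    (hA : IsSquare (A : Matrix (Fin n) (Fin n) F).det) :
    ∃ Z : Matrix (Fin n) (Fin n) F, Alt Z ∧ ((1 + Z * Y) * (A : Matrix (Fin n) (Fin n) F)).det = 1 ∧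
      ∀ c : F, (1 + Z * Y) * (A : Matrix (Fin n) (Fin n) F) ≠ c • 1 := by
  classical
  obtain ⟨t, ht⟩ := hA
  have hAd : (A : Matrix (Fin n) (Fin n) F).det ≠ 0 := ((Matrix.isUnit_iff_isUnit_det _).mp A.isUnit).ne_zero
  have ht0 : t ≠ 0 := by rintro rfl; exact hAd (by simpa using ht)
  obtain ⟨a, b, hab⟩ : ∃ a b, Y a b ≠ 0 := by
    by_contra! h
    exact hY0 (Matrix.ext h)
  have hne : a ≠ b := fun h => hab (by rw [h]; exact hY.diag b)
  obtain ⟨k, hka, hkb⟩ : ∃ k : Fin n, k ≠ a ∧ k ≠ b := by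
    obtain ⟨k, hk⟩ := (Finset.univ \ {a, b} : Finset (Fin n)).eq_empty_or_nonempty.resolve_left (fun h => by
      have := Finset.card_sdiff_add_card_inter (Finset.univ : Finset (Fin n)) {a, b}
      rw [h, Finset.univ_inter, Finset.card_pair hne, Finset.card_empty, Finset.card_univ, Fintype.card_fin] at this
      omega)
    simp at hk
    exact ⟨k, hk.1, hk.2⟩
  obtain ⟨m, hma, hmb, hmk⟩ : ∃ m : Fin n, m ≠ a ∧ m ≠ b ∧ m ≠ k := by
    obtain ⟨m, hm⟩ := (Finset.univ \ {a, b, k} : Finset (Fin n)).eq_empty_or_nonempty.resolve_left (fun h => by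
      have := Finset.card_sdiff_add_card_inter (Finset.univ : Finset (Fin n)) {a, b, k}
      have h3 : ({a, b, k} : Finset (Fin n)).card ≤ 3 := Finset.card_le_three
      rw [h, Finset.univ_inter, Finset.card_empty, Finset.card_univ, Fintype.card_fin] at this
      omega)
    simp at hm
    exact ⟨m, hm.1, hm.2.1, hm.2.2⟩
  set y := Y a b with hy
  set c := (1 - t⁻¹) / y with hc
  set u : Fin n → F := Pi.single a 1 with hu
  set v : Fin n → F := Pi.single b c with hv
  set w : Fin n → F := Pi.single k 1 + Pi.single b (-(Y a k / y)) with hw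
  have huv : u ⬝ᵥ (Y *ᵥ v) = 1 - t⁻¹ := by
    simp [hu, hv, mulVec_single, hc, ← hy]
    field_simp
  have huw : u ⬝ᵥ (Y *ᵥ w) = 0 := by
    simp [hu, hw, mulVec_add, mulVec_single, ← hy]
    field_simp
    ring
  have hdet : ∀ v', u ⬝ᵥ (Y *ᵥ v') = 1 - t⁻¹ →
      ((1 + wedge u v' * Y) * (A : Matrix (Fin n) (Fin n) F)).det = 1 := by
    intro v' h
    rw [det_mul, det_one_add_wedge_mul u v' hY, h, ht]
    field_simp
    ring
  by_cases h1 : ∀ c' : F, (1 + wedge u v * Y) * (A : Matrix (Fin n) (Fin n) F) ≠ c' • 1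
  · exact ⟨_, alt_wedge u v, hdet v huv, h1⟩
  push Not at h1
  obtain ⟨c₁, hc₁⟩ := h1
  refine ⟨_, alt_wedge u (v + w), hdet _ (by rw [mulVec_add, dotProduct_add, huv, huw, add_zero]), fun c₂ hc₂ => ?_⟩
  have hD : wedge u w * Y * (A : Matrix (Fin n) (Fin n) F) = (c₂ - c₁) • 1 := by
    have hlin : wedge u (v + w) = wedge u v + wedge u w := by
      simp [wedge, vecMulVec_add, add_vecMulVec]; abel
    rw [sub_smul, ← hc₂, ← hc₁, hlin]
    simp only [Matrix.add_mul]
    abel
  have hrow : (wedge u w * Y * (A : Matrix (Fin n) (Fin n) F)) m m = 0 := by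
    rw [Matrix.mul_assoc, Matrix.mul_apply]
    refine Finset.sum_eq_zero fun j _ => ?_
    simp [wedge, vecMulVec_apply, hu, hw, hma, hmb, hmk]
  have hc0 : c₂ - c₁ = 0 := by
    have := hrow
    rw [hD] at this
    simpa using this
  rw [hc0, zero_smul] at hD
  have h0 : wedge u w * Y = 0 := by
    have := congrArg (fun M => M * ((A⁻¹ : GL (Fin n) F) : Matrix (Fin n) (Fin n) F)) hD
    simpa [Matrix.mul_assoc] using this
  have := congrFun (congrFun h0 k) b
  rw [wedge, Matrix.sub_mul, vecMulVec_mul, vecMulVec_mul] at this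
  simp [vecMulVec_apply, hu, hw, hka, hkb, hne, ← hy] at this
  exact hab this

/-- `A` with `A X Aᵀ = X` for all alternating `X` is `1` or `-1`. -/
theorem eq_one_or_of_fix (hn : 3 ≤ n) (A : GL (Fin n) F)
    (h : ∀ X, Alt X → (A : Matrix (Fin n) (Fin n) F) * X * (A : Matrix (Fin n) (Fin n) F)ᵀ = X) :
    A = 1 ∨ A = -1 := by
  classical
  set M : Matrix (Fin n) (Fin n) F := (A : Matrix (Fin n) (Fin n) F)
  have hmin : ∀ p q i j, M p i * M q j - M p j * M q i =
      wedge (Pi.single i 1) (Pi.single j 1) p q := by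
    intro p q i j
    have := congrFun (congrFun (h _ (alt_wedge (Pi.single i 1) (Pi.single j 1))) p) q
    rw [← this, wedge, Matrix.mul_sub, Matrix.sub_mul, mul_vecMulVec, mul_vecMulVec, vecMulVec_mul,
      vecMulVec_mul, vecMul_transpose, vecMul_transpose]
    simp [vecMulVec_apply, mulVec_single]
  have hother : ∀ i p : Fin n, ∃ j, j ≠ i ∧ j ≠ p := by
    intro i p
    by_contra hcon
    push Not at hcon
    have h3 : (Finset.univ : Finset (Fin n)) ⊆ {i, p} := fun j _ => by
      rw [Finset.mem_insert, Finset.mem_singleton]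
      exact or_iff_not_imp_left.mpr (hcon j)
    have := (Finset.card_le_card h3).trans Finset.card_le_two
    simp at this
    omega
  have hoff : ∀ p i, p ≠ i → M p i = 0 := by
    intro p i hpi
    obtain ⟨j, hji, hjp⟩ := hother i p
    have e1 := hmin i j i j
    have e2 := hmin p i i j
    have e3 := hmin p j i j
    simp [wedge, vecMulVec_apply, hpi, hji, hji.symm, hjp, hjp.symm] at e1 e2 e3
    linear_combination (-M p i) * e1 + M i i * e3 - M j i * e2
  have hdiag : ∀ i j, i ≠ j → M i i * M j j = 1 := by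
    intro i j hij
    have e1 := hmin i j i j
    simpa [wedge, vecMulVec_apply, hij, hij.symm, hoff i j hij, hoff j i hij.symm] using e1
  let i₀ : Fin n := ⟨0, by omega⟩
  set a := M i₀ i₀
  have hall : ∀ i, M i i = a := by
    intro i
    rcases eq_or_ne i i₀ with rfl | hi
    · rfl
    obtain ⟨j, hj1, hj2⟩ := hother i i₀
    have h1 := hdiag i j hj1.symm
    have h2 := hdiag i₀ j hj2.symm
    exact mul_right_cancel₀ (right_ne_zero_of_mul_eq_one h1) (h1.trans h2.symm)
  obtain ⟨j, hj, -⟩ := hother i₀ i₀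
  have ha : a * a = 1 := by
    have h1 := hdiag i₀ j hj.symm
    rwa [hall j] at h1
  have hMd : M = Matrix.diagonal fun _ => a := by
    ext p q
    rcases eq_or_ne p q with rfl | hpq
    · rw [diagonal_apply_eq, hall]
    · rw [diagonal_apply_ne _ hpq, hoff p q hpq]
  rcases mul_self_eq_one_iff.mp ha with h1 | h1
  · exact Or.inl (Units.ext (by show M = _; rw [hMd, h1]; simp))
  · refine Or.inr (Units.ext ?_)
    show M = _
    rw [hMd, h1, Units.val_neg, Units.val_one, ← diagonal_one, diagonal_neg]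

/-- Every element of `Ω⁺(2n,F)` is a commutator. -/
theorem isComm_of_mem [Fintype F] (hn : 4 ≤ n)
    (hgood : ∀ A : Matrix (Fin n) (Fin n) F, A.det = 1 →
      (4 ≤ Fintype.card F → A = 1 ∨ ∀ c : F, A ≠ c • 1) →
      (Fintype.card F = 3 → n = 4 → A ≠ -1) → CfsgLib.OreOrth.Good A)
    {g : Grp n F} (hg : g ∈ commutator (Grp n F)) : IsComm g := by
  classical
  obtain ⟨-, H, -, -, -, hf, hf', -⟩ := hgood 1 det_one (fun _ => Or.inl rfl) fun h3 _ h1 => by
    have h0 : (1 : F) = -1 := by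
      have := congrFun (congrFun h1 ⟨0, by omega⟩) ⟨0, by omega⟩
      simpa using this
    have h20 : (2 : F) = 0 := by linear_combination h0
    have h30 : ((Fintype.card F : ℕ) : F) = 0 := FiniteField.cast_card_eq_zero F
    rw [h3] at h30
    exact one_ne_zero (α := F) (by push_cast at h30; linear_combination h30 - h20)
  obtain ⟨k, A, X, Y, hX, hY, he⟩ := exists_bigCell (by omega) hg
  refine isComm_of_conj k ?_
  rw [he]
  have hmem : lo hY * lev A * up hX ∈ commutator (Grp n F) := he ▸ conj_mem hg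
  clear he hg
  -- the case of a non-trivial lower radical part
  have low : ∀ (A : GL (Fin n) F) (X Y : Matrix (Fin n) (Fin n) F) (hX : Alt X) (hY : Alt Y), Y ≠ 0 →
      lo hY * lev A * up hX ∈ commutator (Grp n F) → IsComm (lo hY * lev A * up hX) := by
    intro A X Y hX hY hY0 hmem
    obtain ⟨Z, hZ, hdet, hns⟩ := exists_adjust hn hY hY0 A (isSquare_of_mem hf hf' A hX hY hmem)
    obtain ⟨R, T, hm⟩ : ∃ R T, mat (up hZ * (lo hY * lev A * up hX) * (up hZ)⁻¹) =
        fromBlocks ((1 + Z * Y) * (A : Matrix (Fin n) (Fin n) F)) R (Y * (A : Matrix (Fin n) (Fin n) F)) T := by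
      simp only [mat_mul, up_inv, mat_up, mat_lo, mat_lev, fromBlocks_multiply, Matrix.one_mul,
        Matrix.mul_one, Matrix.mul_zero, Matrix.zero_mul, add_zero, zero_add, Matrix.add_mul, Matrix.mul_assoc]
      exact ⟨_, _, rfl⟩
    let A' : GL (Fin n) F := Matrix.GeneralLinearGroup.mkOfDetNeZero ((1 + Z * Y) * (A : Matrix (Fin n) (Fin n) F))
      (by rw [hdet]; exact one_ne_zero)
    obtain ⟨X', Y', hX', hY', he⟩ := exists_gauss hm A' rfl
    refine isComm_of_conj (up hZ) ?_
    rw [he]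
    exact isComm_of_good (by omega) A' (hgood _ hdet (fun _ => Or.inr hns) fun _ _ h => hns (-1) (by
      rw [neg_smul, one_smul]; exact h)) hX' hY'
  by_cases hY0 : Y = 0
  swap
  · exact low A X Y hX hY hY0 hmem
  have hlo : lo hY = 1 := mat_injective (by rw [mat_lo, hY0, mat_one, fromBlocks_one])
  rw [hlo, one_mul] at hmem ⊢
  -- the case of a non-trivial upper radical part
  have upp : ∀ (A : GL (Fin n) F) (X : Matrix (Fin n) (Fin n) F) (hX : Alt X), X ≠ 0 →
      lev A * up hX ∈ commutator (Grp n F) → IsComm (lev A * up hX) := by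
    intro A X hX hX0 hmem
    set W : Grp n F := sw Finset.univ
    set M : Matrix (Fin n) (Fin n) F := (A : Matrix (Fin n) (Fin n) F)
    set M' : Matrix (Fin n) (Fin n) F := ((A⁻¹ : GL (Fin n) F) : Matrix (Fin n) (Fin n) F)
    have hW : mat W = fromBlocks 0 1 1 0 := by
      show mat (sw Finset.univ) = _
      rw [mat_sw]
      simp [ind, Matrix.diagonal_one]
    have hm : mat (W * (lev A * up hX) * W⁻¹) = fromBlocks M'ᵀ 0 (M * X) M := by
      rw [sw_inv, mat_mul, mat_mul, mat_mul, hW, mat_lev, mat_up, fromBlocks_multiply, fromBlocks_multiply,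
        fromBlocks_multiply]
      simp [M, M']
    let A' : GL (Fin n) F := Matrix.GeneralLinearGroup.mkOfDetNeZero M'ᵀ (by
      rw [det_transpose]; exact ((Matrix.isUnit_iff_isUnit_det _).mp A⁻¹.isUnit).ne_zero)
    obtain ⟨X', Y', hX', hY', he⟩ := exists_gauss hm A' rfl
    refine isComm_of_conj W ?_
    rw [he]
    refine low A' X' Y' hX' hY' (fun h0 => hX0 ?_) (he ▸ conj_mem hmem)
    have hS : M * X = Y' * M'ᵀ := by
      have := congrArg mat he
      rw [hm, mat_mul, mat_mul, mat_lo, mat_lev, mat_up, fromBlocks_multiply, fromBlocks_multiply] at this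
      have := congrArg Matrix.toBlocks₂₁ this
      simpa [A'] using this
    have := congrArg (fun Z => M' * Z) hS
    simpa [h0, M, M', ← Matrix.mul_assoc] using this
  by_cases hX0 : X = 0
  swap
  · exact upp A X hX hX0 hmem
  have hup : up hX = 1 := mat_injective (by rw [mat_up, hX0, mat_one, fromBlocks_one])
  rw [hup, mul_one] at hmem ⊢
  by_cases hfix : ∀ Z, Alt Z →
      (A : Matrix (Fin n) (Fin n) F) * Z * (A : Matrix (Fin n) (Fin n) F)ᵀ = Z
  · rcases eq_one_or_of_fix (by omega) A hfix with rfl | rfl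
    · exact ⟨1, one_mem _, 1, one_mem _, by rw [map_one]; group⟩
    · by_cases h2 : (2 : F) = 0
      · have : (-1 : GL (Fin n) F) = 1 := Units.ext (by
          rw [Units.val_neg, Units.val_one]
          ext i j
          have : (-1 : F) = 1 := by linear_combination -h2
          by_cases hij : i = j <;> simp [hij, this, one_apply])
        rw [this, map_one]
        exact ⟨1, one_mem _, 1, one_mem _, by group⟩
      · exact isComm_neg_one (by omega) h2 hmem
  push Not at hfix
  obtain ⟨Z₀, hZ₀, hne⟩ := hfix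
  -- conjugate to create an upper part
  set M : Matrix (Fin n) (Fin n) F := (A : Matrix (Fin n) (Fin n) F)
  set Z := M * Z₀ * Mᵀ with hZdef
  have hZ : Alt Z := hZ₀.congr M
  refine isComm_of_conj (up hZ) ?_
  have he : up hZ * lev A * (up hZ)⁻¹ = lev A * up (hZ₀.add hZ.neg) := by
    rw [← up_mul hZ₀ hZ.neg, ← up_inv hZ, show up hZ = lev A * up hZ₀ * (lev A)⁻¹ from (lev_conj_up A hZ₀).symm]
    group
  rw [he]
  refine upp A _ _ (fun h0 => hne ?_) (he ▸ conj_mem hmem)
  exact (sub_eq_zero.mp (by rw [sub_eq_add_neg]; exact h0)).symm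

/-- Every element of `Ω⁺(2n,F)` is a commutator in it, given good Levi elements. -/
theorem exists_comm_plus [Fintype F] (n : ℕ) (hn : 4 ≤ n)
    (hgood : ∀ A : Matrix (Fin n) (Fin n) F, A.det = 1 →
      (4 ≤ Fintype.card F → A = 1 ∨ ∀ c : F, A ≠ c • 1) →
      (Fintype.card F = 3 → n = 4 → A ≠ -1) → CfsgLib.OreOrth.Good A)
    (g : Cfsg.Omega F (Cfsg.quadFormPlus n F)) :
    ∃ a b : Cfsg.Omega F (Cfsg.quadFormPlus n F), g = a * b * a⁻¹ * b⁻¹ := by
  obtain ⟨a, ha, b, hb, h⟩ := isComm_of_mem hn hgood g.2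
  exact ⟨⟨a, ha⟩, ⟨b, hb⟩, Subtype.ext h⟩

end CfsgLib.OreOrth.Plus
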