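import Mathlib
import Cfsg.Prelude.Def_Classical
import Cfsg.Agent.Lib.OreOrth.Basic
import Cfsg.Agent.Lib.ClassicalLinear.Generation

/-!
Hyperbolic orthogonal groups in coordinates: Siegel radicals, Levi elements, coordinate swaps, and the
Gauss-form commutator argument.
-/

set_option autoImplicit false
set_option linter.unusedSectionVars false
set_option linter.style.haveILetI false

namespace CfsgLib.OreOrth.Plus

open Matrix

variable {F : Type*} [Field F] {n : ℕ}

/-- The isometry group of the hyperbolic form. -/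
abbrev Grp (n : ℕ) (F : Type*) [Field F] := Cfsg.isometryGroup F (Cfsg.quadFormPlus n F)

/-- The matrix of an isometry. -/
abbrev mat (g : Grp n F) : Matrix (Fin n ⊕ Fin n) (Fin n ⊕ Fin n) F :=
  ((g : GL (Fin n ⊕ Fin n) F) : Matrix (Fin n ⊕ Fin n) (Fin n ⊕ Fin n) F)

theorem mat_mul (g h : Grp n F) : mat (g * h) = mat g * mat h := rfl

theorem mat_one : mat (1 : Grp n F) = 1 := rfl

theorem mat_injective {g h : Grp n F} (e : mat g = mat h) : g = h := Subtype.ext (Units.ext e)

theorem form_elim (a b : Fin n → F) : Cfsg.quadFormPlus n F (Sum.elim a b) = a ⬝ᵥ b := rfl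

theorem form_eq (v : Fin n ⊕ Fin n → F) :
    Cfsg.quadFormPlus n F v = (v ∘ Sum.inl) ⬝ᵥ (v ∘ Sum.inr) := rfl

theorem form_mat (g : Grp n F) (v : Fin n ⊕ Fin n → F) :
    Cfsg.quadFormPlus n F (mat g *ᵥ v) = Cfsg.quadFormPlus n F v := g.2 v v

/-- An isometry from a matrix with inverse. -/
def mk (M N : Matrix (Fin n ⊕ Fin n) (Fin n ⊕ Fin n) F) (h₁ : M * N = 1) (h₂ : N * M = 1)
    (hQ : ∀ x, Cfsg.quadFormPlus n F (M *ᵥ x) = Cfsg.quadFormPlus n F x) : Grp n F :=
  ⟨⟨M, N, h₁, h₂⟩, fun u _ => hQ u⟩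

/-! ### Alternating matrices -/

/-- `X` is alternating. -/
def Alt (X : Matrix (Fin n) (Fin n) F) : Prop := ∀ v, v ⬝ᵥ (X *ᵥ v) = 0

theorem alt_of_eq {X : Matrix (Fin n) (Fin n) F} (hd : ∀ i, X i i = 0) (hs : Xᵀ = -X) : Alt X := by
  intro v
  simp only [dotProduct, mulVec, Finset.mul_sum]
  rw [← Finset.sum_product']
  apply Finset.sum_involution (fun p _ => (p.2, p.1))
  · intro p _
    have h := congrFun (congrFun hs p.1) p.2
    simp only [transpose_apply, Matrix.neg_apply] at h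
    rw [h]; ring
  · intro p _ hne e
    apply hne
    have : p.1 = p.2 := (congrArg Prod.fst e).symm
    rw [this, hd, zero_mul, mul_zero]
  · intro p _
    exact Finset.mem_univ _
  · intro p _
    rfl

theorem Alt.diag {X : Matrix (Fin n) (Fin n) F} (h : Alt X) (i : Fin n) : X i i = 0 := by
  simpa using h (Pi.single i 1)

theorem Alt.swap {X : Matrix (Fin n) (Fin n) F} (h : Alt X) (i j : Fin n) : X j i = -X i j := by
  have := h (Pi.single i 1 + Pi.single j 1)
  simp [add_dotProduct, mulVec_add, dotProduct_add, h.diag] at this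
  linear_combination this

theorem Alt.transpose {X : Matrix (Fin n) (Fin n) F} (h : Alt X) : Xᵀ = -X := by
  ext i j
  simp [h.swap i j]

theorem Alt.sub {X Y : Matrix (Fin n) (Fin n) F} (h : Alt X) (h' : Alt Y) : Alt (X - Y) := fun v => by
  rw [sub_mulVec, dotProduct_sub, h v, h' v, sub_zero]

theorem Alt.add {X Y : Matrix (Fin n) (Fin n) F} (h : Alt X) (h' : Alt Y) : Alt (X + Y) := fun v => by
  rw [add_mulVec, dotProduct_add, h v, h' v, add_zero]

theorem Alt.neg {X : Matrix (Fin n) (Fin n) F} (h : Alt X) : Alt (-X) := fun v => by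
  rw [neg_mulVec, dotProduct_neg, h v, neg_zero]

theorem Alt.zero : Alt (0 : Matrix (Fin n) (Fin n) F) := fun v => by simp

theorem Alt.congr {X : Matrix (Fin n) (Fin n) F} (h : Alt X) (P : Matrix (Fin n) (Fin n) F) :
    Alt (P * X * Pᵀ) := fun v => by
  rw [← mulVec_mulVec, ← mulVec_mulVec, dotProduct_mulVec, ← mulVec_transpose]
  exact h _

/-! ### Generators -/

/-- Upper Siegel radical. -/
def up {X : Matrix (Fin n) (Fin n) F} (hX : Alt X) : Grp n F :=
  mk (fromBlocks 1 X 0 1) (fromBlocks 1 (-X) 0 1) (by simp [fromBlocks_multiply, fromBlocks_one])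
    (by simp [fromBlocks_multiply, fromBlocks_one]) fun x => by
      rw [fromBlocks_mulVec, form_elim, form_eq]
      simp [add_dotProduct, dotProduct_comm (X *ᵥ _), hX _]

/-- Lower Siegel radical. -/
def lo {Y : Matrix (Fin n) (Fin n) F} (hY : Alt Y) : Grp n F :=
  mk (fromBlocks 1 0 Y 1) (fromBlocks 1 0 (-Y) 1) (by simp [fromBlocks_multiply, fromBlocks_one])
    (by simp [fromBlocks_multiply, fromBlocks_one]) fun x => by
      rw [fromBlocks_mulVec, form_elim, form_eq]
      simp [dotProduct_add, hY _]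

theorem mat_up {X : Matrix (Fin n) (Fin n) F} (hX : Alt X) : mat (up hX) = fromBlocks 1 X 0 1 := rfl

theorem mat_lo {Y : Matrix (Fin n) (Fin n) F} (hY : Alt Y) : mat (lo hY) = fromBlocks 1 0 Y 1 := rfl

/-- Levi subgroup. -/
def lev : GL (Fin n) F →* Grp n F where
  toFun A := mk (fromBlocks (A : Matrix (Fin n) (Fin n) F) 0 0 ((A⁻¹ : GL (Fin n) F) : Matrix (Fin n) (Fin n) F)ᵀ)
    (fromBlocks ((A⁻¹ : GL (Fin n) F) : Matrix (Fin n) (Fin n) F) 0 0 (A : Matrix (Fin n) (Fin n) F)ᵀ)
    (by simp [fromBlocks_multiply, fromBlocks_one, ← transpose_mul])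
    (by simp [fromBlocks_multiply, fromBlocks_one, ← transpose_mul]) fun x => by
      rw [fromBlocks_mulVec, form_elim, form_eq]
      simp only [zero_mulVec, add_zero, zero_add]
      rw [mulVec_transpose, dotProduct_comm, ← dotProduct_mulVec, mulVec_mulVec, Units.inv_mul,
        one_mulVec, dotProduct_comm]
  map_one' := mat_injective (by simp [mat, mk, fromBlocks_one])
  map_mul' A B := mat_injective (by
    simp [mat, mk, fromBlocks_multiply, ← transpose_mul])

theorem mat_lev (A : GL (Fin n) F) : mat (lev A) =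
    fromBlocks (A : Matrix (Fin n) (Fin n) F) 0 0 ((A⁻¹ : GL (Fin n) F) : Matrix (Fin n) (Fin n) F)ᵀ := rfl

theorem up_mul {X X' : Matrix (Fin n) (Fin n) F} (h : Alt X) (h' : Alt X') :
    up h * up h' = up (h.add h') :=
  mat_injective (by simp [mat_mul, mat_up, fromBlocks_multiply, add_comm])

theorem lo_mul {X X' : Matrix (Fin n) (Fin n) F} (h : Alt X) (h' : Alt X') :
    lo h * lo h' = lo (h.add h') :=
  mat_injective (by simp [mat_mul, mat_lo, fromBlocks_multiply, add_comm])

theorem up_inv {X : Matrix (Fin n) (Fin n) F} (h : Alt X) : (up h)⁻¹ = up h.neg := mat_injective rfl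

theorem lo_inv {X : Matrix (Fin n) (Fin n) F} (h : Alt X) : (lo h)⁻¹ = lo h.neg := mat_injective rfl

theorem lev_conj_up (A : GL (Fin n) F) {X : Matrix (Fin n) (Fin n) F} (h : Alt X) :
    lev A * up h * (lev A)⁻¹ = up (h.congr (A : Matrix (Fin n) (Fin n) F)) := by
  rw [← map_inv]
  exact mat_injective (by
    rw [mat_mul, mat_mul, mat_up, mat_up, mat_lev, mat_lev]
    simp [fromBlocks_multiply, ← transpose_mul])

theorem lev_conj_lo (A : GL (Fin n) F) {Y : Matrix (Fin n) (Fin n) F} (h : Alt Y) :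
    lev A * lo h * (lev A)⁻¹ = lo (h.congr ((A⁻¹ : GL (Fin n) F) : Matrix (Fin n) (Fin n) F)ᵀ) := by
  rw [← map_inv]
  exact mat_injective (by
    rw [mat_mul, mat_mul, mat_lo, mat_lo, mat_lev, mat_lev]
    simp [fromBlocks_multiply, ← transpose_mul])

theorem up_congr {X X' : Matrix (Fin n) (Fin n) F} (h : Alt X) (h' : Alt X') (e : X = X') :
    up h = up h' := by subst e; rfl

theorem lo_congr {X X' : Matrix (Fin n) (Fin n) F} (h : Alt X) (h' : Alt X') (e : X = X') :
    lo h = lo h' := by subst e; rfl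

/-! ### Blocks -/

theorem alt_col {P R S T : Matrix (Fin n) (Fin n) F} {g : Grp n F} (hg : mat g = fromBlocks P R S T)
    (z : Fin n → F) : (P *ᵥ z) ⬝ᵥ (S *ᵥ z) = 0 := by
  have h := form_mat g (Sum.elim z 0)
  rw [hg, fromBlocks_mulVec, form_elim, form_elim] at h
  simpa using h

/-- Gauss form of an isometry with invertible corner. -/
theorem exists_gauss {P R S T : Matrix (Fin n) (Fin n) F} {g : Grp n F} (hg : mat g = fromBlocks P R S T)
    (A : GL (Fin n) F) (hA : (A : Matrix (Fin n) (Fin n) F) = P) :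
    ∃ (X Y : Matrix (Fin n) (Fin n) F) (hX : Alt X) (hY : Alt Y), g = lo hY * lev A * up hX := by
  set P' : Matrix (Fin n) (Fin n) F := ((A⁻¹ : GL (Fin n) F) : Matrix (Fin n) (Fin n) F) with hP'
  have h1 : P * P' = 1 := by rw [← hA, hP', Units.mul_inv]
  have h2 : P' * P = 1 := by rw [← hA, hP', Units.inv_mul]
  have hY : Alt (S * P') := fun v => by
    have := alt_col hg (P' *ᵥ v)
    rw [mulVec_mulVec, mulVec_mulVec, h1, one_mulVec] at this
    exact this
  set k : Grp n F := (lev A)⁻¹ * (lo hY)⁻¹ * g with hk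
  have hm : mat k = fromBlocks 1 (P' * R) 0 (Pᵀ * (-(S * P') * R + T)) := by
    rw [hk, ← map_inv, lo_inv]
    rw [mat_mul, mat_mul, mat_lev, mat_lo, inv_inv, hg, ← hP', hA]
    simp [fromBlocks_multiply, Matrix.mul_assoc, h2, Matrix.mul_add]
  set X := P' * R
  set T' := Pᵀ * (-(S * P') * R + T)
  have hq : ∀ x y : Fin n → F, (x + X *ᵥ y) ⬝ᵥ (T' *ᵥ y) = x ⬝ᵥ y := by
    intro x y
    have h := form_mat k (Sum.elim x y)
    rw [hm, fromBlocks_mulVec, form_elim, form_elim] at h
    simpa using h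
  have hT : ∀ y, T' *ᵥ y = y := by
    intro y
    funext i
    have h0 := hq 0 y
    have h1 := hq (Pi.single i 1) y
    rw [zero_add, zero_dotProduct] at h0
    rw [add_dotProduct, h0, add_zero, single_dotProduct, single_dotProduct, one_mul, one_mul] at h1
    exact h1
  have hX : Alt X := fun v => by
    have := hq 0 v
    rwa [hT, zero_add, zero_dotProduct, dotProduct_comm] at this
  refine ⟨X, S * P', hX, hY, ?_⟩
  have : k = up hX := mat_injective (by
    rw [hm, mat_up]
    congr 1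
    exact Matrix.ext_of_mulVec_single fun i => by rw [hT, one_mulVec])
  rw [← this, hk]
  group

/-! ### Coordinate swaps -/

/-- The indicator diagonal of a set of planes. -/
def ind (F : Type*) [Field F] (s : Finset (Fin n)) : Matrix (Fin n) (Fin n) F :=
  Matrix.diagonal fun i => if i ∈ s then 1 else 0

/-- Exchange `x_i` and `y_i` for `i ∈ s`. -/
def sw (s : Finset (Fin n)) : Grp n F :=
  mk (fromBlocks (1 - ind F s) (ind F s) (ind F s) (1 - ind F s))
    (fromBlocks (1 - ind F s) (ind F s) (ind F s) (1 - ind F s))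
    (by
      rw [fromBlocks_multiply, ind, ← diagonal_one, diagonal_sub, ← fromBlocks_one, ← diagonal_one]
      simp only [diagonal_mul_diagonal, diagonal_add]
      congr 1 <;> first
        | (rw [← diagonal_zero]; congr 1; funext i; split_ifs <;> ring)
        | (congr 1; funext i; split_ifs <;> ring))
    (by
      rw [fromBlocks_multiply, ind, ← diagonal_one, diagonal_sub, ← fromBlocks_one, ← diagonal_one]
      simp only [diagonal_mul_diagonal, diagonal_add]
      congr 1 <;> first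
        | (rw [← diagonal_zero]; congr 1; funext i; split_ifs <;> ring)
        | (congr 1; funext i; split_ifs <;> ring))
    fun x => by
      rw [fromBlocks_mulVec, form_elim, form_eq, ind, ← diagonal_one, diagonal_sub]
      refine Finset.sum_congr rfl fun i _ => ?_
      simp only [Pi.add_apply, mulVec_diagonal, Function.comp_apply]
      split_ifs <;> ring

theorem mat_sw (s : Finset (Fin n)) :
    mat (sw s : Grp n F) = fromBlocks (1 - ind F s) (ind F s) (ind F s) (1 - ind F s) := rfl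

/-- The diagonal Levi element. -/
def dg (d : Fin n → Fˣ) : GL (Fin n) F where
  val := Matrix.diagonal fun i => (d i : F)
  inv := Matrix.diagonal fun i => ((d i)⁻¹ : Fˣ)
  val_inv := by simp [diagonal_mul_diagonal]
  inv_val := by simp [diagonal_mul_diagonal]

theorem dg_mul (d e : Fin n → Fˣ) : dg d * dg e = dg (d * e) := Units.ext (by simp [dg])

theorem det_dg (d : Fin n → Fˣ) : ((dg d : GL (Fin n) F) : Matrix (Fin n) (Fin n) F).det = ∏ i, (d i : F) :=
  Matrix.det_diagonal

/-- Invert the entries in `s`. -/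
def twist (s : Finset (Fin n)) (d : Fin n → Fˣ) : Fin n → Fˣ := fun i => if i ∈ s then (d i)⁻¹ else d i

theorem mat_lev_dg (d : Fin n → Fˣ) : mat (lev (dg d) : Grp n F) =
    fromBlocks (Matrix.diagonal fun i => (d i : F)) 0 0 (Matrix.diagonal fun i => (((d i)⁻¹ : Fˣ) : F)) := by
  show fromBlocks (Matrix.diagonal fun i => (d i : F)) 0 0 (Matrix.diagonal fun i => (((d i)⁻¹ : Fˣ) : F))ᵀ = _
  rw [diagonal_transpose]

theorem dg_sw (s : Finset (Fin n)) (d : Fin n → Fˣ) :
    lev (dg d) * sw s = sw s * lev (dg (twist s d)) := mat_injective (by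
  rw [mat_mul, mat_mul, mat_sw, mat_lev_dg, mat_lev_dg, fromBlocks_multiply, fromBlocks_multiply, ind,
    ← diagonal_one, diagonal_sub]
  simp only [diagonal_mul_diagonal, Matrix.mul_zero, Matrix.zero_mul, add_zero, zero_add]
  congr 1 <;> (congr 1; funext i; simp only [twist]; split_ifs <;> simp))

theorem sw_mul_sw (s t : Finset (Fin n)) : (sw s * sw t : Grp n F) = sw (symmDiff s t) := mat_injective (by
  rw [mat_mul, mat_sw, mat_sw, mat_sw, fromBlocks_multiply, ind, ind, ind, ← diagonal_one, diagonal_sub,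
    diagonal_sub, diagonal_sub]
  simp only [diagonal_mul_diagonal, diagonal_add]
  congr 1 <;> (congr 1; funext i; by_cases h1 : i ∈ s <;> by_cases h2 : i ∈ t <;>
    simp [Finset.mem_symmDiff, h1, h2]))

theorem sw_inv (s : Finset (Fin n)) : (sw s : Grp n F)⁻¹ = sw s := mat_injective rfl

theorem sw_lev_comm (s : Finset (Fin n)) (R : GL (Fin n) F)
    (h1 : (R : Matrix (Fin n) (Fin n) F) * ind F s = ind F s)
    (h2 : ind F s * (R : Matrix (Fin n) (Fin n) F) = ind F s) :
    sw s * lev R = lev R * (sw s : Grp n F) := mat_injective (by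
  have hi : (ind F s)ᵀ = ind F s := diagonal_transpose _
  set R' : Matrix (Fin n) (Fin n) F := ((R⁻¹ : GL (Fin n) F) : Matrix (Fin n) (Fin n) F)
  have h3 : R' * ind F s = ind F s := by
    conv_lhs => rw [← h1, ← Matrix.mul_assoc]
    rw [show R' * (R : Matrix (Fin n) (Fin n) F) = 1 from R.inv_mul, Matrix.one_mul]
  have h4 : ind F s * R' = ind F s := by
    conv_lhs => rw [← h2, Matrix.mul_assoc]
    rw [show (R : Matrix (Fin n) (Fin n) F) * R' = 1 from R.mul_inv, Matrix.mul_one]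
  have h5 : R'ᵀ * ind F s = ind F s := by rw [← hi, ← transpose_mul, h4]
  have h6 : ind F s * R'ᵀ = ind F s := by rw [← hi, ← transpose_mul, h3]
  rw [mat_mul, mat_mul, mat_sw, mat_lev, fromBlocks_multiply, fromBlocks_multiply]
  simp only [Matrix.sub_mul, Matrix.mul_sub, Matrix.one_mul, Matrix.mul_one, Matrix.mul_zero,
    Matrix.zero_mul, sub_zero, add_zero, zero_add, R'] at *
  rw [h1, h2, h5, h6])

/-! ### Membership in the commutator subgroup -/

theorem conj_mem {g k : Grp n F} (h : k ∈ commutator (Grp n F)) : g * k * g⁻¹ ∈ commutator (Grp n F) :=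
  Subgroup.Normal.conj_mem inferInstance k h g

theorem comm_mem (a b : Grp n F) : a * b * a⁻¹ * b⁻¹ ∈ commutator (Grp n F) :=
  Subgroup.commutator_mem_commutator (Subgroup.mem_top a) (Subgroup.mem_top b)

theorem lev_mem (hn : 3 ≤ n) (A : GL (Fin n) F)
    (hA : IsSquare (A : Matrix (Fin n) (Fin n) F).det) : lev A ∈ commutator (Grp n F) := by
  obtain ⟨t, ht⟩ := hA
  have hd0 : (A : Matrix (Fin n) (Fin n) F).det ≠ 0 :=
    ((Matrix.isUnit_iff_isUnit_det _).mp A.isUnit).ne_zero
  have ht0 : t ≠ 0 := by rintro rfl; exact hd0 (by simpa using ht)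
  let i₀ : Fin n := ⟨0, by omega⟩
  set d : Fin n → Fˣ := Function.update 1 i₀ (Units.mk0 t ht0) with hd
  have hdd : dg d * dg d * ((dg d * dg d)⁻¹ * A) = A := mul_inv_cancel_left _ _
  rw [← hdd, map_mul]
  refine mul_mem ?_ ?_
  · have key : lev (dg d) * sw ({i₀} : Finset (Fin n)) * (lev (dg d))⁻¹ * (sw ({i₀} : Finset (Fin n)))⁻¹ =
        lev (dg d * dg d) := by
      have hinv : (lev (dg d) : Grp n F)⁻¹ = lev (dg d⁻¹) := by
        rw [← map_inv]; exact congrArg lev (Units.ext rfl)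
      have htw : twist ({i₀} : Finset (Fin n)) d⁻¹ = d := by
        funext j
        rcases eq_or_ne j i₀ with rfl | hj
        · simp [twist]
        · simp [twist, hj, hd]
      rw [sw_inv, hinv, mul_assoc, mul_assoc, dg_sw, htw, ← mul_assoc (sw _), sw_mul_sw, symmDiff_self,
        map_mul]
      rw [show (sw (⊥ : Finset (Fin n)) : Grp n F) = 1 from mat_injective (by
        simp [mat_sw, ind, mat_one, fromBlocks_one]), one_mul]
    rw [← key]
    exact comm_mem _ _
  · have hker : (dg d * dg d)⁻¹ * A ∈ (Matrix.GeneralLinearGroup.det : GL (Fin n) F →* Fˣ).ker := by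
      rw [MonoidHom.mem_ker, map_mul, map_inv, inv_mul_eq_one]
      refine Units.ext ?_
      show (((dg d * dg d : GL (Fin n) F)) : Matrix (Fin n) (Fin n) F).det = _
      rw [dg_mul, det_dg]
      show _ = (A : Matrix (Fin n) (Fin n) F).det
      rw [ht, ← Finset.mul_prod_erase _ _ (Finset.mem_univ i₀), Finset.prod_eq_one fun j hj => by
        simp [hd, Finset.ne_of_mem_erase hj], mul_one]
      simp [hd]
    rw [← CfsgLib.ClassicalLinear.commutator_gl_eq_ker_det (by simp; omega)] at hker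
    have h := Subgroup.mem_map_of_mem (lev : GL (Fin n) F →* Grp n F) hker
    rw [commutator_def, Subgroup.map_commutator] at h
    exact Subgroup.commutator_mono le_top le_top h

/-- A commutator of two elements of the commutator subgroup. -/
def IsComm (g : Grp n F) : Prop :=
  ∃ a ∈ commutator (Grp n F), ∃ b ∈ commutator (Grp n F), g = a * b * a⁻¹ * b⁻¹

theorem IsComm.conj {g : Grp n F} (h : IsComm g) (k : Grp n F) : IsComm (k * g * k⁻¹) := by
  obtain ⟨a, ha, b, hb, rfl⟩ := h
  exact ⟨k * a * k⁻¹, conj_mem ha, k * b * k⁻¹, conj_mem hb, by group⟩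

theorem isComm_of_conj {g : Grp n F} (k : Grp n F) (h : IsComm (k * g * k⁻¹)) : IsComm g := by
  have := h.conj k⁻¹
  rwa [show k⁻¹ * (k * g * k⁻¹) * (k⁻¹)⁻¹ = g by group] at this

theorem exists_up_eq [Finite F] (H : GL (Fin n) F) (hH : CfsgLib.OreOrth.Fpf (H : Matrix (Fin n) (Fin n) F))
    {Z : Matrix (Fin n) (Fin n) F} (hZ : Alt Z) :
    ∃ (X : Matrix (Fin n) (Fin n) F) (hX : Alt X),
      up hZ = up hX * lev H * (up hX)⁻¹ * (lev H)⁻¹ := by
  classical
  set M : Matrix (Fin n) (Fin n) F := (H : Matrix (Fin n) (Fin n) F)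
  let f : {X : Matrix (Fin n) (Fin n) F // Alt X} → {X : Matrix (Fin n) (Fin n) F // Alt X} :=
    fun X => ⟨X.1 - M * X.1 * Mᵀ, X.2.sub (X.2.congr M)⟩
  have hf : Function.Injective f := by
    intro X X' e
    have e' : X.1 - M * X.1 * Mᵀ = X'.1 - M * X'.1 * Mᵀ := congrArg Subtype.val e
    have hD := X.2.sub X'.2
    refine Subtype.ext (sub_eq_zero.mp (hH _ hD.diag hD.transpose ?_))
    rw [Matrix.mul_sub, Matrix.sub_mul]
    linear_combination (norm := abel) -e'
  obtain ⟨⟨X, hX⟩, e⟩ := (Finite.injective_iff_surjective.mp hf) ⟨Z, hZ⟩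
  refine ⟨X, hX, ?_⟩
  rw [show up hX * lev H * (up hX)⁻¹ * (lev H)⁻¹ = up hX * (lev H * (up hX)⁻¹ * (lev H)⁻¹) by group,
    up_inv, lev_conj_up, up_mul]
  refine up_congr _ _ ?_
  have e' : X - M * X * Mᵀ = Z := congrArg Subtype.val e
  rw [← e']
  simp [M, sub_eq_add_neg]

theorem exists_lo_eq [Finite F] (H : GL (Fin n) F)
    (hH : CfsgLib.OreOrth.Fpf (H : Matrix (Fin n) (Fin n) F)ᵀ)
    {Z : Matrix (Fin n) (Fin n) F} (hZ : Alt Z) :
    ∃ (X : Matrix (Fin n) (Fin n) F) (hX : Alt X),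
      lo hZ = lev H * lo hX * (lev H)⁻¹ * (lo hX)⁻¹ := by
  classical
  set M : Matrix (Fin n) (Fin n) F := (H : Matrix (Fin n) (Fin n) F)
  set M' : Matrix (Fin n) (Fin n) F := ((H⁻¹ : GL (Fin n) F) : Matrix (Fin n) (Fin n) F)
  let f : {X : Matrix (Fin n) (Fin n) F // Alt X} → {X : Matrix (Fin n) (Fin n) F // Alt X} :=
    fun X => ⟨M'ᵀ * X.1 * M'ᵀᵀ - X.1, (X.2.congr _).sub X.2⟩
  have hMM : M' * M = 1 := H.inv_mul
  have hf : Function.Injective f := by
    intro X X' e
    have e' : M'ᵀ * X.1 * M'ᵀᵀ - X.1 = M'ᵀ * X'.1 * M'ᵀᵀ - X'.1 := congrArg Subtype.val e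
    set D := X.1 - X'.1 with hDdef
    have hD : Alt D := X.2.sub X'.2
    have h1 : M'ᵀ * D * M' = D := by
      rw [transpose_transpose] at e'
      rw [hDdef, Matrix.mul_sub, Matrix.sub_mul]
      linear_combination (norm := abel) e'
    refine Subtype.ext (sub_eq_zero.mp (hH _ hD.diag hD.transpose ?_))
    rw [transpose_transpose]
    calc Mᵀ * D * M = Mᵀ * (M'ᵀ * D * M') * M := by rw [h1]
      _ = (M' * M)ᵀ * D * (M' * M) := by rw [transpose_mul]; simp only [Matrix.mul_assoc]
      _ = D := by rw [hMM]; simp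
  obtain ⟨⟨X, hX⟩, e⟩ := (Finite.injective_iff_surjective.mp hf) ⟨Z, hZ⟩
  refine ⟨X, hX, ?_⟩
  rw [lev_conj_lo, lo_inv, lo_mul]
  refine lo_congr _ _ ?_
  have e' : M'ᵀ * X * M'ᵀᵀ - X = Z := congrArg Subtype.val e
  rw [← e', sub_eq_add_neg]

theorem up_mem [Finite F] (H : GL (Fin n) F) (hH : CfsgLib.OreOrth.Fpf (H : Matrix (Fin n) (Fin n) F))
    {Z : Matrix (Fin n) (Fin n) F} (hZ : Alt Z) : up hZ ∈ commutator (Grp n F) := by
  obtain ⟨X, hX, e⟩ := exists_up_eq H hH hZ
  rw [e]; exact comm_mem _ _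

theorem lo_mem [Finite F] (H : GL (Fin n) F) (hH : CfsgLib.OreOrth.Fpf (H : Matrix (Fin n) (Fin n) F)ᵀ)
    {Z : Matrix (Fin n) (Fin n) F} (hZ : Alt Z) : lo hZ ∈ commutator (Grp n F) := by
  obtain ⟨X, hX, e⟩ := exists_lo_eq H hH hZ
  rw [e]; exact comm_mem _ _

/-- The Gauss form argument. -/
theorem isComm_of_good [Finite F] (hn : 3 ≤ n) (A : GL (Fin n) F)
    (hA : CfsgLib.OreOrth.Good (A : Matrix (Fin n) (Fin n) F)) {X Y : Matrix (Fin n) (Fin n) F}
    (hX : Alt X) (hY : Alt Y) : IsComm (lo hY * lev A * up hX) := by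
  obtain ⟨b, h, hAbh, hb, hh, hf1, hf2, -⟩ := hA
  obtain rfl : A = b * h * b⁻¹ * h⁻¹ := Units.ext hAbh
  set A := b * h * b⁻¹ * h⁻¹ with hAdef
  refine isComm_of_conj (up hX) ?_
  rw [show up hX * (lo hY * lev A * up hX) * (up hX)⁻¹ = up hX * lev A * ((lev A)⁻¹ * lo hY * lev A) by
    group]
  have hY' := hY.congr (A : Matrix (Fin n) (Fin n) F)ᵀ
  have e1 : (lev A)⁻¹ * lo hY * lev A = lo hY' := by
    have := lev_conj_lo A⁻¹ hY
    rw [map_inv, inv_inv] at this
    rw [this]
  rw [e1]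
  have hfH : CfsgLib.OreOrth.Fpf ((b * h * b⁻¹ : GL (Fin n) F) : Matrix (Fin n) (Fin n) F) := by
    intro Z hd hs hZ
    set B : Matrix (Fin n) (Fin n) F := (b : Matrix (Fin n) (Fin n) F)
    set B' : Matrix (Fin n) (Fin n) F := ((b⁻¹ : GL (Fin n) F) : Matrix (Fin n) (Fin n) F)
    have hBB : B * B' = 1 := b.mul_inv
    have hBB' : B' * B = 1 := b.inv_mul
    set W := B' * Z * B'ᵀ with hWdef
    have hW : Alt W := (alt_of_eq hd hs).congr B'
    have hZW : Z = B * W * Bᵀ := by
      calc Z = (B * B') * Z * (B * B')ᵀ := by rw [hBB]; simp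
        _ = B * W * Bᵀ := by rw [hWdef, transpose_mul]; simp only [Matrix.mul_assoc]
    have hfix : (h : Matrix (Fin n) (Fin n) F) * W * (h : Matrix (Fin n) (Fin n) F)ᵀ = W := by
      set H : Matrix (Fin n) (Fin n) F := (h : Matrix (Fin n) (Fin n) F)
      rw [Units.val_mul, Units.val_mul] at hZ
      calc H * W * Hᵀ = (B' * B) * (H * W * Hᵀ) * (B' * B)ᵀ := by rw [hBB']; simp
        _ = B' * (B * H * B' * Z * (B * H * B')ᵀ) * B'ᵀ := by
            rw [hWdef]; simp only [transpose_mul, Matrix.mul_assoc]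
        _ = W := by rw [hZ]
    rw [hZW, hf1 W hW.diag hW.transpose hfix, Matrix.mul_zero, Matrix.zero_mul]
  obtain ⟨X₁, hX₁, eU⟩ := exists_up_eq _ hfH hX
  obtain ⟨Y₁, hY₁, eL⟩ := exists_lo_eq _ hf2 hY'
  refine isComm_of_conj (lo hY₁)⁻¹ ⟨(lo hY₁)⁻¹ * up hX₁ * lev b, ?_, lev h, lev_mem hn h hh, ?_⟩
  · exact mul_mem (mul_mem (inv_mem (lo_mem h hf2 hY₁)) (up_mem h hf1 hX₁)) (lev_mem hn b hb)
  · rw [eU, eL, hAdef]
    simp only [map_mul, map_inv]
    group

end CfsgLib.OreOrth.Plus
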