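import Cfsg.Agent.Lib.OreOrth.PlusNec

/-!
The central involution of `Ω⁺` is a commutator: quaternion pairs in the Levi subgroup, and three special planes
in odd degree.
-/

set_option autoImplicit false
set_option linter.unusedSectionVars false

namespace CfsgLib.OreOrth.Plus

open Matrix

variable {F : Type*} [Field F] {n : ℕ}

theorem exists_sq_add_sq [Fintype F] (h2 : (2 : F) ≠ 0) : ∃ a b : F, a * a + b * b = -1 := by
  have hodd : Fintype.card F % 2 = 1 :=
    FiniteField.odd_card_of_char_ne_two fun h => h2 (by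
      have := ringChar.Nat.cast_ringChar (R := F)
      rw [h] at this
      exact_mod_cast this)
  obtain ⟨a, b, hab⟩ := FiniteField.exists_root_sum_quadratic (f := Polynomial.X ^ 2)
    (g := Polynomial.X ^ 2 - Polynomial.C (-1 : F)) (Polynomial.degree_X_pow 2)
    (Polynomial.degree_X_pow_sub_C (by decide) _) hodd
  refine ⟨a, b, ?_⟩
  simp only [Polynomial.eval_pow, Polynomial.eval_X, Polynomial.eval_sub, Polynomial.eval_C] at hab
  linear_combination hab

/-- A `2 × 2` matrix with two-sided inverse, as a unit. -/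
theorem quaternion_pair (a b : F) (hab : a * a + b * b = -1) :
    ∃ P Q : GL (Fin 2) F, (P * Q * P⁻¹ * Q⁻¹ : GL (Fin 2) F) = -1 ∧
      (P : Matrix (Fin 2) (Fin 2) F).det = 1 ∧ (Q : Matrix (Fin 2) (Fin 2) F).det = 1 := by
  let P : GL (Fin 2) F :=
    ⟨!![a, b; b, -a], !![-a, -b; -b, a],
      by ext i j; fin_cases i <;> fin_cases j <;> simp [Matrix.mul_apply, Fin.sum_univ_two] <;>
        first | ring1 | linear_combination hab | linear_combination -hab,
      by ext i j; fin_cases i <;> fin_cases j <;> simp [Matrix.mul_apply, Fin.sum_univ_two] <;>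
        first | ring1 | linear_combination hab | linear_combination -hab⟩
  let Q : GL (Fin 2) F :=
    ⟨!![0, 1; -1, 0], !![0, -1; 1, 0],
      by ext i j; fin_cases i <;> fin_cases j <;> simp [Matrix.mul_apply, Fin.sum_univ_two],
      by ext i j; fin_cases i <;> fin_cases j <;> simp [Matrix.mul_apply, Fin.sum_univ_two]⟩
  have hPQ : P * Q = -(Q * P) := Units.ext (by
    ext i j
    fin_cases i <;> fin_cases j <;> simp [P, Q, Matrix.mul_apply, Fin.sum_univ_two])
  refine ⟨P, Q, ?_, ?_, ?_⟩
  · rw [hPQ, neg_mul, neg_mul, mul_assoc Q, mul_inv_cancel, mul_one, mul_inv_cancel]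
  · show (!![a, b; b, -a]).det = 1
    rw [det_fin_two_of]
    linear_combination -hab
  · show (!![(0 : F), 1; -1, 0]).det = 1
    rw [det_fin_two_of]
    ring

/-- `k` diagonal copies of a `2 × 2` matrix. -/
def copies (k : ℕ) : Matrix (Fin 2) (Fin 2) F →* Matrix (Fin 2 × Fin k) (Fin 2 × Fin k) F where
  toFun A := blockDiagonal fun _ => A
  map_one' := blockDiagonal_one
  map_mul' A B := blockDiagonal_mul (fun _ => A) fun _ => B

/-- Complete by the identity. -/
def complete {ι κ : Type*} [Fintype ι] [DecidableEq ι] [Fintype κ] [DecidableEq κ] (e : ι ⊕ κ ≃ Fin n) :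
    Matrix ι ι F →* Matrix (Fin n) (Fin n) F where
  toFun A := Matrix.reindex e e (fromBlocks A 0 0 1)
  map_one' := by simp [fromBlocks_one]
  map_mul' A B := by
    simp only [reindex_apply, submatrix_mul_equiv, fromBlocks_multiply]
    simp

/-- Fixing the planes in `s`. -/
def Fixes (R : GL (Fin n) F) (T : Finset (Fin n)) : Prop :=
  ∀ i j, i ∈ T ∨ j ∈ T → (R : Matrix (Fin n) (Fin n) F) i j = if i = j then 1 else 0

theorem Fixes.commute_sw {R : GL (Fin n) F} {T : Finset (Fin n)} (h : Fixes R T) {s : Finset (Fin n)}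
    (hs : s ⊆ T) : Commute (sw s : Grp n F) (lev R) := by
  refine sw_lev_comm s R ?_ ?_
  · ext i j
    rw [ind, mul_diagonal, diagonal_apply]
    by_cases hj : j ∈ s
    · rw [if_pos hj, mul_one, h _ _ (Or.inr (hs hj))]
      by_cases hij : i = j <;> simp [hij, hj]
    · rw [if_neg hj, mul_zero]
      by_cases hij : i = j <;> simp [hij, hj]
  · ext i j
    rw [ind, diagonal_mul, diagonal_apply]
    by_cases hi : i ∈ s
    · rw [if_pos hi, one_mul, h _ _ (Or.inl (hs hi))]
    · rw [if_neg hi, zero_mul]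
      simp

theorem Fixes.commute_dg {R : GL (Fin n) F} {T : Finset (Fin n)} (h : Fixes R T) {d : Fin n → Fˣ}
    (hd : ∀ i, i ∉ T → d i = 1) : Commute (lev (dg d)) (lev R : Grp n F) := by
  show lev (dg d) * lev R = lev R * lev (dg d)
  rw [← map_mul, ← map_mul]
  refine congrArg lev (Units.ext ?_)
  ext i j
  rw [Units.val_mul, Units.val_mul]
  show ((Matrix.diagonal fun i => (d i : F)) * (R : Matrix (Fin n) (Fin n) F)) i j =
    ((R : Matrix (Fin n) (Fin n) F) * Matrix.diagonal fun i => (d i : F)) i j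
  rw [diagonal_mul, mul_diagonal]
  by_cases hij : i ∈ T ∨ j ∈ T
  · rw [h i j hij]
    split_ifs with e
    · rw [e]; ring
    · simp
  · push Not at hij
    rw [hd i hij.1, hd j hij.2]
    simp

/-- Two swapped planes give an element of the commutator subgroup. -/
theorem sw_pair_mem {p q : Fin n} (hpq : p ≠ q) : (sw {p, q} : Grp n F) ∈ commutator (Grp n F) := by
  classical
  set σ := Equiv.swap p q
  set M : Matrix (Fin n) (Fin n) F := (1 : Matrix (Fin n) (Fin n) F).submatrix σ id with hM
  have hσ : ∀ x, σ (σ x) = x := fun x => Equiv.swap_apply_self p q x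
  have hMT : Mᵀ = M := by
    ext i j
    simp only [hM, transpose_apply, submatrix_apply, id, one_apply]
    exact if_congr ⟨fun h => by rw [← h, hσ], fun h => by rw [← h, hσ]⟩ rfl rfl
  have hMM : M * M = 1 := by
    ext i j
    simp only [hM, mul_apply, submatrix_apply, id, one_apply, ite_mul, one_mul, zero_mul,
      Finset.sum_ite_eq, Finset.mem_univ, if_true]
    rw [hσ]
  let R : GL (Fin n) F := ⟨M, M, hMM, hMM⟩
  have hind : M * ind F {p} * M = ind F {q} := by
    ext i j
    rw [ind, mul_apply]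
    simp only [mul_diagonal, hM, submatrix_apply, id, one_apply, ind, diagonal_apply, Finset.mem_singleton,
      ite_mul, one_mul, zero_mul, Finset.sum_ite_eq, Finset.mem_univ, if_true, hσ]
    have hiff : σ i = p ↔ i = q := ⟨fun h => by rw [← hσ i, h]; exact Equiv.swap_apply_left p q,
      fun h => by rw [h]; exact Equiv.swap_apply_right p q⟩
    by_cases hq : i = q
    · subst hq
      simp [σ, Equiv.swap_apply_right]
    · simp [hiff, hq]
  have key : lev R * sw {p} * (lev R)⁻¹ = (sw {q} : Grp n F) := by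
    rw [← map_inv]
    refine mat_injective ?_
    rw [mat_mul, mat_mul, mat_sw, mat_sw, mat_lev, mat_lev, inv_inv]
    show fromBlocks M 0 0 Mᵀ * _ * fromBlocks M 0 0 Mᵀ = _
    rw [hMT, fromBlocks_multiply, fromBlocks_multiply]
    simp [Matrix.mul_sub, Matrix.sub_mul, hMM, hind]
  have hpair : (sw {p, q} : Grp n F) = sw {p} * sw {q} := by
    rw [sw_mul_sw]
    congr 1
    ext x
    simp only [Finset.mem_insert, Finset.mem_singleton, Finset.mem_symmDiff]
    constructor
    · rintro (rfl | rfl)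
      · exact Or.inl ⟨rfl, hpq⟩
      · exact Or.inr ⟨rfl, hpq.symm⟩
    · rintro (⟨h, -⟩ | ⟨h, -⟩)
      · exact Or.inl h
      · exact Or.inr h
  rw [hpair, ← key]
  have h := comm_mem (sw {p} : Grp n F) (lev R)
  rw [sw_inv, mul_assoc (sw {p} * lev R)] at h
  have e : (sw {p} : Grp n F) * (lev R * sw {p} * (lev R)⁻¹) = sw {p} * lev R * (sw {p} * (lev R)⁻¹) := by
    group
  rw [e]
  exact h

/-- The commutator of two products with commuting factors. -/
theorem comm_mul {G : Type*} [Group G] {a b r s : G} (h1 : Commute r b) (h2 : Commute s a)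
    (h3 : Commute (r * s * r⁻¹ * s⁻¹) (b * a)) :
    (a * r) * (b * s) * (a * r)⁻¹ * (b * s)⁻¹ = (a * b * a⁻¹ * b⁻¹) * (r * s * r⁻¹ * s⁻¹) := by
  have e1 : (a * r) * (b * s) = a * b * (r * s) := by
    rw [mul_assoc a r, ← mul_assoc r, h1.eq]; group
  have e2 : (b * s) * (a * r) = b * a * (s * r) := by
    rw [mul_assoc b s, ← mul_assoc s, h2.eq]; group
  have e3 : (a * r) * (b * s) = (a * b * a⁻¹ * b⁻¹) * (r * s * r⁻¹ * s⁻¹) * ((b * s) * (a * r)) := by
    rw [e2, e1, mul_assoc (a * b * a⁻¹ * b⁻¹), ← mul_assoc (r * s * r⁻¹ * s⁻¹), h3.eq]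
    group
  calc (a * r) * (b * s) * (a * r)⁻¹ * (b * s)⁻¹ = (a * r) * (b * s) * ((b * s) * (a * r))⁻¹ := by group
    _ = _ := by rw [e3, mul_inv_cancel_right]

/-- A sign change on three planes, and the identity elsewhere. -/
theorem exists_three (hn : 3 ≤ n) (p₀ p₁ p₂ : Fin n) (h01 : p₀ ≠ p₁) (h02 : p₀ ≠ p₂) (h12 : p₁ ≠ p₂)
    (i : Fˣ) (hi : i * i = -1) :
    ∃ a b : Grp n F, a ∈ commutator (Grp n F) ∧ b ∈ commutator (Grp n F) ∧
      a * b * a⁻¹ * b⁻¹ = lev (dg fun j => if j ∈ ({p₀, p₁, p₂} : Finset (Fin n)) then -1 else 1) ∧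
      ∀ R : GL (Fin n) F, Fixes R {p₀, p₁, p₂} → Commute a (lev R) ∧ Commute b (lev R) := by
  classical
  set T : Finset (Fin n) := {p₀, p₁, p₂} with hT
  have hi' : i⁻¹ = -i := inv_eq_of_mul_eq_one_right (by rw [mul_neg, hi, neg_neg])
  set x : Fin n → Fˣ := fun j => if j = p₁ then i else if j = p₂ then -i else 1 with hx
  set y : Fin n → Fˣ := fun j => if j = p₀ then i else if j = p₁ then -1 else if j = p₂ then i else 1 with hy
  have hsq : ∀ d : Fin n → Fˣ, (∀ j, j ∉ T → d j = 1) → (d p₀ : F) * d p₁ * d p₂ = 1 →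
      IsSquare ((dg d : GL (Fin n) F) : Matrix (Fin n) (Fin n) F).det := by
    intro d hd h
    refine ⟨1, ?_⟩
    rw [det_dg, mul_one, ← Finset.prod_subset (Finset.subset_univ T) fun j _ hj => by rw [hd j hj]; rfl]
    rw [hT, Finset.prod_insert (by simp [h01, h02]), Finset.prod_insert (by simp [h12]), Finset.prod_singleton,
      ← mul_assoc]
    exact h
  have hxT : ∀ j, j ∉ T → x j = 1 := fun j hj => by simp [hT] at hj; simp [hx, hj]
  have hyT : ∀ j, j ∉ T → y j = 1 := fun j hj => by simp [hT] at hj; simp [hy, hj]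
  have hiF : (i : F) * i = -1 := by rw [← Units.val_mul, hi]; simp
  refine ⟨sw {p₀, p₂} * lev (dg x), sw {p₀, p₁} * lev (dg y), ?_, ?_, ?_, ?_⟩
  · refine mul_mem (sw_pair_mem h02) (lev_mem hn _ (hsq x hxT ?_))
    simp [hx, h01, h02, h12.symm, hiF]
  · refine mul_mem (sw_pair_mem h01) (lev_mem hn _ (hsq y hyT ?_))
    simp [hy, h01.symm, h02.symm, h12.symm, hiF]
  · have hprod : ∀ (s t : Finset (Fin n)) (u v : Fin n → Fˣ), (sw s * lev (dg u)) * (sw t * lev (dg v)) =
        (sw (symmDiff s t) * lev (dg (twist t u * v)) : Grp n F) := by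
      intro s t u v
      rw [mul_assoc, ← mul_assoc (lev (dg u)), dg_sw, mul_assoc, ← map_mul, dg_mul, ← mul_assoc, sw_mul_sw]
    set ε : Fin n → Fˣ := fun j => if j ∈ T then -1 else 1 with hε
    have hcomm : (sw {p₀, p₂} * lev (dg x)) * (sw {p₀, p₁} * lev (dg y)) =
        lev (dg ε) * ((sw {p₀, p₁} * lev (dg y)) * (sw {p₀, p₂} * lev (dg x)) : Grp n F) := by
      rw [hprod, hprod, symmDiff_comm, ← mul_assoc, dg_sw, mul_assoc, ← map_mul, dg_mul]
      congr 3
      funext j
      by_cases h0 : j = p₀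
      · subst h0
        simp [twist, hx, hy, hε, hT, h01, h02, hi']
      by_cases h1 : j = p₁
      · subst h1
        simp [twist, hx, hy, hε, hT, h01.symm, h12, hi']
      by_cases h2 : j = p₂
      · subst h2
        simp [twist, hx, hy, hε, hT, h02.symm, h12.symm, hi', hi]
      · simp [twist, hx, hy, hε, hT, h0, h1, h2]
    rw [show ∀ u v : Grp n F, u * v * u⁻¹ * v⁻¹ = (u * v) * (v * u)⁻¹ from fun u v => by group, hcomm,
      mul_inv_cancel_right]
  · intro R hR
    exact ⟨(hR.commute_sw (by simp [hT, Finset.insert_subset_iff])).mul_left (hR.commute_dg hxT),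
      (hR.commute_sw (by simp [hT, Finset.insert_subset_iff])).mul_left (hR.commute_dg hyT)⟩

/-- The central involution is a commutator. -/
theorem isComm_neg_one [Fintype F] (hn : 3 ≤ n) (h2 : (2 : F) ≠ 0)
    (h : lev (-1 : GL (Fin n) F) ∈ commutator (Grp n F)) : IsComm (lev (-1 : GL (Fin n) F) : Grp n F) := by
  classical
  obtain ⟨a, b, hab⟩ := exists_sq_add_sq h2
  obtain ⟨P, Q, hPQ, hP, hQ⟩ := quaternion_pair a b hab
  -- the pairs
  have quat : ∀ {κ : Type} [Fintype κ] [DecidableEq κ] (k : ℕ) (e : (Fin 2 × Fin k) ⊕ κ ≃ Fin n),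
      ∃ R S : GL (Fin n) F, IsSquare (R : Matrix (Fin n) (Fin n) F).det ∧
        IsSquare (S : Matrix (Fin n) (Fin n) F).det ∧
        (R * S * R⁻¹ * S⁻¹ : GL (Fin n) F) = dg (fun j => if (e.symm j).isLeft then -1 else 1) ∧
        ∀ T : Finset (Fin n), (∀ j ∈ T, (e.symm j).isLeft = false) → Fixes R T ∧ Fixes S T := by
    intro κ _ _ k e
    let Φ : Matrix (Fin 2) (Fin 2) F →* Matrix (Fin n) (Fin n) F := (complete e).comp (copies k)
    refine ⟨Units.map Φ P, Units.map Φ Q, ⟨1, ?_⟩, ⟨1, ?_⟩, ?_, ?_⟩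
    · show (Matrix.reindex e e (fromBlocks (blockDiagonal fun _ => (P : Matrix (Fin 2) (Fin 2) F)) 0 0 1)).det = _
      rw [det_reindex_self, det_fromBlocks_zero₂₁, det_one, det_blockDiagonal]
      simp [hP]
    · show (Matrix.reindex e e (fromBlocks (blockDiagonal fun _ => (Q : Matrix (Fin 2) (Fin 2) F)) 0 0 1)).det = _
      rw [det_reindex_self, det_fromBlocks_zero₂₁, det_one, det_blockDiagonal]
      simp [hQ]
    · rw [← map_inv, ← map_inv, ← map_mul, ← map_mul, ← map_mul, hPQ]
      refine Units.ext ?_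
      show Matrix.reindex e e (fromBlocks (blockDiagonal fun _ => ((-1 : GL (Fin 2) F) : Matrix (Fin 2) (Fin 2) F))
        0 0 1) = Matrix.diagonal _
      rw [show (blockDiagonal fun _ : Fin k => ((-1 : GL (Fin 2) F) : Matrix (Fin 2) (Fin 2) F)) =
        Matrix.diagonal fun _ => (-1 : F) from by
          rw [Units.val_neg, Units.val_one, ← Matrix.diagonal_one, diagonal_neg, blockDiagonal_diagonal],
        ← Matrix.diagonal_one, fromBlocks_diagonal, reindex_apply, submatrix_diagonal_equiv]
      congr 1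
      funext j
      rcases hj : e.symm j with u | u <;> simp [hj]
    · intro T hT
      constructor <;>
      · intro i j hij
        show Matrix.reindex e e (fromBlocks (blockDiagonal fun _ => _) 0 0 1) i j = _
        rw [reindex_apply, submatrix_apply]
        rcases hi : e.symm i with u | u <;> rcases hj : e.symm j with v | v
        · exfalso
          rcases hij with h | h
          · simpa [hi] using hT i h
          · simpa [hj] using hT j h
        · rw [fromBlocks_apply₁₂, Matrix.zero_apply, if_neg]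
          rintro rfl; simp [hi] at hj
        · rw [fromBlocks_apply₂₁, Matrix.zero_apply, if_neg]
          rintro rfl; simp [hi] at hj
        · rw [fromBlocks_apply₂₂, one_apply]
          exact if_congr ⟨fun h => e.symm.injective (by rw [hi, hj, h]),
            fun h => by subst h; simpa [hi] using hj⟩ rfl rfl
  rcases Nat.even_or_odd n with ⟨k, hk⟩ | ⟨k, hk⟩
  · let e : (Fin 2 × Fin k) ⊕ Fin 0 ≃ Fin n :=
      (Equiv.sumEmpty _ _).trans (finProdFinEquiv.trans (finCongr (by omega)))
    obtain ⟨R, S, hR, hS, hRS, -⟩ := quat k e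
    refine ⟨lev R, lev_mem hn R hR, lev S, lev_mem hn S hS, ?_⟩
    rw [← map_inv, ← map_inv, ← map_mul, ← map_mul, ← map_mul, hRS]
    refine congrArg lev (Units.ext ?_)
    rw [Units.val_neg, Units.val_one, ← Matrix.diagonal_one, diagonal_neg]
    show Matrix.diagonal (fun _ => (-1 : F)) = Matrix.diagonal _
    congr 1
  · have hsq := isSquare_det_of_lev_mem _ h
    rw [Units.val_neg, Units.val_one, det_neg, det_one, mul_one, Fintype.card_fin, hk, pow_succ, pow_mul,
      neg_one_sq, one_pow, one_mul] at hsq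
    obtain ⟨i₀, hi₀⟩ := hsq
    have hi0 : i₀ ≠ 0 := by rintro rfl; simp at hi₀
    obtain ⟨m, rfl⟩ : ∃ m, k = m + 1 := ⟨k - 1, by omega⟩
    let e : (Fin 2 × Fin m) ⊕ Fin 3 ≃ Fin n :=
      (Equiv.sumCongr finProdFinEquiv (Equiv.refl _)).trans (finSumFinEquiv.trans (finCongr (by omega)))
    obtain ⟨R, S, hR, hS, hRS, hfix⟩ := quat m e
    set p : Fin 3 → Fin n := fun x => e (Sum.inr x) with hp
    have hpne : ∀ {x y : Fin 3}, x ≠ y → p x ≠ p y := fun hxy h => hxy (Sum.inr_injective (e.injective h))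
    obtain ⟨A, B, hA, hB, hAB, hcomm⟩ := exists_three hn (p 0) (p 1) (p 2) (hpne (by decide)) (hpne (by decide))
      (hpne (by decide)) (Units.mk0 i₀ hi0) (Units.ext (by simp [← hi₀]))
    obtain ⟨hfR, hfS⟩ := hfix {p 0, p 1, p 2} (by
      intro j hj
      simp only [Finset.mem_insert, Finset.mem_singleton] at hj
      rcases hj with rfl | rfl | rfl <;> simp [hp])
    refine ⟨A * lev R, mul_mem hA (lev_mem hn R hR), B * lev S, mul_mem hB (lev_mem hn S hS), ?_⟩
    rw [comm_mul (hcomm R hfR).2.symm (hcomm S hfS).1.symm, hAB, ← map_inv, ← map_inv, ← map_mul, ← map_mul,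
      ← map_mul, ← map_mul, hRS, dg_mul]
    · refine congrArg lev (Units.ext ?_)
      rw [Units.val_neg, Units.val_one, ← Matrix.diagonal_one, diagonal_neg]
      show Matrix.diagonal (fun _ => (-1 : F)) = Matrix.diagonal _
      congr 1
      funext j
      rcases hj : e.symm j with u | u
      · have hne : ∀ x, j ≠ p x := fun x hx => by rw [hx, hp] at hj; simp at hj
        simp [hj, hne]
      · have hju : j = p u := by rw [hp]; simp [← hj]
        subst hju
        fin_cases u <;> simp [hp]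
    · have h1 : Commute (lev R) (B * A) := ((hcomm R hfR).2.symm).mul_right (hcomm R hfR).1.symm
      have h2 : Commute (lev S) (B * A) := ((hcomm S hfS).2.symm).mul_right (hcomm S hfS).1.symm
      exact ((h1.mul_left h2).mul_left h1.inv_left).mul_left h2.inv_left

end CfsgLib.OreOrth.Plus
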