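import Cfsg.Agent.Lib.OreOrth.PlusBasic
import Cfsg.Agent.Lib.Classes.HyperLevi

/-!
Necessary conditions for membership in `Ω⁺`: spinor norm of the Levi factor and the family of the standard
maximal singular subspace.
-/

set_option autoImplicit false
set_option linter.unusedSectionVars false

namespace CfsgLib.OreOrth.Plus

open Matrix

variable {F : Type*} [Field F] {n : ℕ}

/-- Passage to the bundled hyperbolic form. -/
noncomputable def toHyp : Grp n F →* Cfsg.isometryGroup F (⇑(CfsgLib.Classes.hypQ F n)) where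
  toFun g := ⟨g.1, by rw [CfsgLib.Classes.coe_hypQ]; exact g.2⟩
  map_one' := rfl
  map_mul' _ _ := rfl

theorem toHyp_lev (A : GL (Fin n) F) : toHyp (lev A) = CfsgLib.Classes.levi F n A :=
  Subtype.ext (Units.ext rfl)

theorem act_toHyp (g : Grp n F) (v : Fin n ⊕ Fin n → F) :
    CfsgLib.OrthGen.act (CfsgLib.Classes.hypQ F n) (toHyp g) v = mat g *ᵥ v := rfl

/-- The determinant of a Levi element in `Ω` is a square. -/
theorem isSquare_det_of_lev_mem [Fintype F] (A : GL (Fin n) F) (h : lev A ∈ commutator (Grp n F)) :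
    IsSquare (A : Matrix (Fin n) (Fin n) F).det := by
  classical
  by_cases h2 : (2 : F) = 0
  · exact FiniteField.isSquare_of_char_two ((CharP.ringChar_of_prime_eq_zero Nat.prime_two (by exact_mod_cast h2))) _
  have h1 := (Abelianization.commutator_subset_ker
    ((CfsgLib.OrthGen.spinSign (CfsgLib.Classes.hypQ F n) 1).comp toHyp)) h
  rw [MonoidHom.mem_ker, MonoidHom.comp_apply, toHyp_lev, CfsgLib.Classes.spinSign_levi h2] at h1
  by_contra hsq
  rw [if_neg hsq] at h1
  exact absurd h1 (by decide)

/-- An element of `Ω⁺` moves the standard maximal singular subspace within its family. -/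
theorem even_rank_of_mem [Fintype F] (hn : 3 ≤ n) {P R S T : Matrix (Fin n) (Fin n) F} {g : Grp n F}
    (hg : mat g = fromBlocks P R S T) (h : g ∈ commutator (Grp n F)) : Even S.rank := by
  classical
  have hnd := CfsgLib.Classes.hypQ_nondegenerate F n
  have hgen := CfsgLib.Classes.hypQ_gen F n (Or.inr (by omega))
  have h1 := (Abelianization.commutator_subset_ker
    ((CfsgLib.Forms.dicksonHom hnd hgen).comp toHyp)) h
  rw [MonoidHom.mem_ker, MonoidHom.comp_apply] at h1
  have hev := (CfsgLib.Classes.even_sub_finrank_iff hnd hgen CfsgLib.Classes.isMaxSingular_hypU (toHyp g)).mpr h1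
  set U := CfsgLib.Classes.hypU F n
  let Φ : (Fin n → F) →ₗ[F] (Fin n ⊕ Fin n → F) :=
    { toFun := fun z => mat g *ᵥ Sum.elim z 0
      map_add' := fun a b => by
        rw [← mulVec_add]; congr 1; funext k; cases k <;> simp
      map_smul' := fun c a => by
        rw [RingHom.id_apply, ← mulVec_smul]; congr 1; funext k; cases k <;> simp }
  have hΦ : ∀ z, Φ z = Sum.elim (P *ᵥ z) (S *ᵥ z) := fun z => by
    show mat g *ᵥ Sum.elim z 0 = _
    rw [hg, fromBlocks_mulVec]
    simp
  have hinj : Function.Injective Φ := fun a b e => by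
    have := congrArg (fun w => mat g⁻¹ *ᵥ w) e
    simp only [Φ, LinearMap.coe_mk, AddHom.coe_mk, mulVec_mulVec, ← mat_mul, inv_mul_cancel, mat_one,
      one_mulVec] at this
    funext i
    exact congrFun this (Sum.inl i)
  have hmap : U ⊓ CfsgLib.Classes.mapSub (toHyp g) U = (LinearMap.ker S.mulVecLin).map Φ := by
    ext v
    constructor
    · rintro ⟨hv, u, hu, rfl⟩
      have he : u = Sum.elim (u ∘ Sum.inl) 0 := funext fun k => by
        cases k with
        | inl i => rfl
        | inr i => exact CfsgLib.Classes.mem_hypU.mp hu i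
      have hv' : Φ (u ∘ Sum.inl) ∈ U := by
        show mat g *ᵥ _ ∈ U
        rw [← he]; exact hv
      rw [hΦ] at hv'
      refine ⟨u ∘ Sum.inl, ?_, ?_⟩
      · exact LinearMap.mem_ker.mpr (funext fun i => CfsgLib.Classes.mem_hypU.mp hv' i)
      · show mat g *ᵥ _ = _
        rw [← he]; rfl
    · rintro ⟨z, hz, rfl⟩
      refine ⟨?_, Sum.elim z 0, CfsgLib.Classes.mem_hypU.mpr fun i => rfl, rfl⟩
      rw [hΦ]
      exact CfsgLib.Classes.mem_hypU.mpr fun i => congrFun (LinearMap.mem_ker.mp hz) i
  rw [hmap, CfsgLib.Classes.finrank_hypU,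
    ← (Submodule.equivMapOfInjective Φ hinj (LinearMap.ker S.mulVecLin)).finrank_eq] at hev
  have := LinearMap.finrank_range_add_finrank_ker S.mulVecLin
  rw [Module.finrank_pi, Fintype.card_fin] at this
  rw [Matrix.rank]
  convert hev using 1
  omega

end CfsgLib.OreOrth.Plus
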