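import Cfsg.Agent.Lib.OreOrth.Cert

/-!
Admissible polynomials for good Levi elements, given by coefficient lists.
-/

set_option autoImplicit false

namespace CfsgLib.OreOrth

open Polynomial

variable {R : Type*} [CommRing R]

theorem polyL_replicate_zero (k : ℕ) : polyL (List.replicate k (0 : R)) = 0 := by
  induction k with
  | zero => rfl
  | succ k ih => rw [List.replicate_succ, polyL, ih, mul_zero, map_zero, add_zero]

/-- A Bézout identity on coefficient lists. -/
theorem isCoprime_of_bezout (f g u v : List R) (k : ℕ)
    (h : addL (mulL u f) (mulL v g) = 1 :: List.replicate k 0) : IsCoprime (polyL f) (polyL g) := by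
  refine ⟨polyL u, polyL v, ?_⟩
  rw [← polyL_mulL, ← polyL_mulL, ← polyL_addL, h, polyL, polyL_replicate_zero, mul_zero, add_zero, map_one]

theorem polyL_append_singleton : ∀ (l : List R) (a : R), polyL (l ++ [a]) = polyL l + C a * X ^ l.length
  | [], a => by simp [polyL]
  | b :: l, a => by
    rw [List.cons_append, polyL, polyL, polyL_append_singleton l a, List.length_cons, pow_succ']
    ring

theorem natDegree_polyL_le : ∀ l : List R, (polyL l).natDegree ≤ l.length - 1
  | [] => by simp [polyL]
  | a :: l => by
    rw [polyL, natDegree_C_add, List.length_cons, Nat.add_sub_cancel]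
    rcases eq_or_ne (polyL l) 0 with h | h
    · simp [h]
    · refine natDegree_mul_le.trans ?_
      have h1 := natDegree_polyL_le l
      have h2 := natDegree_X_le (R := R)
      rcases l with _ | ⟨b, l⟩
      · exact absurd rfl h
      · simp only [List.length_cons] at h1 ⊢
        omega

theorem coeff_polyL : ∀ (l : List R) (i : ℕ), (polyL l).coeff i = (l[i]?).getD 0
  | [], i => by simp [polyL]
  | a :: l, 0 => by simp [polyL]
  | a :: l, i + 1 => by simp [polyL, coeff_polyL l i]

/-- Reversing a coefficient list with non-zero last entry reverses the polynomial. -/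
theorem reverse_polyL (l : List R) (a : R) (ha : a ≠ 0) :
    (polyL (l ++ [a])).reverse = polyL (l ++ [a]).reverse := by
  have hd : (polyL (l ++ [a])).natDegree = l.length := by
    refine le_antisymm ((natDegree_polyL_le _).trans (by simp)) (le_natDegree_of_ne_zero ?_)
    rw [coeff_polyL]
    simpa using ha
  ext i
  rw [Polynomial.reverse, coeff_reflect, hd, coeff_polyL, coeff_polyL]
  rcases le_or_gt i l.length with hi | hi
  · rw [revAt_le hi, List.getElem?_reverse (by simp; omega)]
    simp
  · rw [revAt_eq_self_of_lt hi, List.getElem?_eq_none (by simp; omega), List.getElem?_eq_none (by simp; omega)]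

theorem eval_one_polyL : ∀ l : List R, (polyL l).eval 1 = l.sum
  | [] => by simp [polyL]
  | a :: l => by simp [polyL, eval_one_polyL l]

variable {F : Type*} [Field F] {p : ℕ}

/-- Admissibility of a tabled polynomial over every field of the characteristic. -/
theorem admissible_of_bezout [Fact p.Prime] (φ : ZMod p →+* F) (l : List (ZMod p)) (a : ZMod p)
    (u v : List (ZMod p)) (k : ℕ) (ha : a ≠ 0)
    (hb : addL (mulL u (l ++ [a])) (mulL v (l ++ [a]).reverse) = 1 :: List.replicate k 0)
    (h1 : (l ++ [a]).sum ≠ 0) :
    IsCoprime ((polyL (l ++ [a])).map φ) ((polyL (l ++ [a])).map φ).reverse ∧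
      ((polyL (l ++ [a])).map φ).eval 1 ≠ 0 := by
  constructor
  · have hr : ((polyL (l ++ [a])).map φ).reverse = (polyL (l ++ [a]).reverse).map φ := by
      rw [← reverse_polyL l a ha, Polynomial.reverse, Polynomial.reverse,
        natDegree_map_eq_of_injective φ.injective, reflect_map]
    rw [hr]
    exact (isCoprime_of_bezout _ _ u v k hb).map (Polynomial.mapRingHom φ)
  · rw [← map_one φ, eval_map_apply, eval_one_polyL]
    exact fun e => h1 (φ.injective (e.trans (map_zero φ).symm))

end CfsgLib.OreOrth
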