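import Cfsg.Agent.Lib.OreOrth.Companion

/-!
A cyclic block splits, as upper unipotent times block diagonal times lower unipotent, into a small corner
determined by its low coefficients and a cyclic block with an arbitrary polynomial.
-/

set_option autoImplicit false
set_option linter.unusedSectionVars false

namespace CfsgLib.OreOrth

open Polynomial Module

variable {F : Type*} [Field F]

/-- `T` is similar to an upper unipotent times the block diagonal of `A` and `B` times a lower unipotent. -/
def HasUDL {V V₁ V₂ : Type*} [AddCommGroup V] [Module F V] [AddCommGroup V₁] [Module F V₁] [AddCommGroup V₂]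
    [Module F V₂] (T : End F V) (A : End F V₁) (B : End F V₂) : Prop :=
  ∃ (e : V ≃ₗ[F] V₁ × V₂) (X : V₂ →ₗ[F] V₁) (Y : V₁ →ₗ[F] V₂), e.conj T = udl X Y A B

variable {V W V₁ V₂ W₁ W₂ : Type*} [AddCommGroup V] [Module F V] [AddCommGroup W] [Module F W]
  [AddCommGroup V₁] [Module F V₁] [AddCommGroup V₂] [Module F V₂] [AddCommGroup W₁] [Module F W₁]
  [AddCommGroup W₂] [Module F W₂]

/-- Direct sum of two decompositions. -/
theorem HasUDL.prodMap {T : End F V} {A : End F V₁} {B : End F V₂} {T' : End F W} {A' : End F W₁} {B' : End F W₂}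
    (h : HasUDL T A B) (h' : HasUDL T' A' B') :
    HasUDL (T.prodMap T') (A.prodMap A') (B.prodMap B') := by
  obtain ⟨e, X, Y, he⟩ := h
  obtain ⟨e', X', Y', he'⟩ := h'
  refine ⟨(e.prodCongr e').trans (LinearEquiv.prodProdProdComm F V₁ V₂ W₁ W₂), X.prodMap X', Y.prodMap Y', ?_⟩
  apply LinearMap.ext
  rintro ⟨⟨a, a'⟩, b, b'⟩
  have h1 := LinearMap.congr_fun he (a, b)
  have h2 := LinearMap.congr_fun he' (a', b')
  simp only [LinearEquiv.conj_apply_apply, udl_apply] at h1 h2 ⊢
  simp [h1, h2]

/-- An endomorphism placed in the second component. -/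
theorem hasUDL_right (T : End F V) (A : End F V₁) [Subsingleton V₁] : HasUDL T A T := by
  refine ⟨{ toFun := fun v => (0, v), invFun := fun p => p.2, map_add' := fun a b => by simp,
            map_smul' := fun c a => by simp, left_inv := fun v => rfl,
            right_inv := fun p => Prod.ext (Subsingleton.elim _ _) rfl }, 0, 0, ?_⟩
  apply LinearMap.ext
  rintro ⟨a, b⟩
  exact Prod.ext (Subsingleton.elim _ _) (by simp [LinearEquiv.conj_apply_apply, udl_apply])

/-- An endomorphism placed in the first component. -/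
theorem hasUDL_left (T : End F V) (B : End F V₂) [Subsingleton V₂] : HasUDL T T B := by
  refine ⟨{ toFun := fun v => (v, 0), invFun := fun p => p.1, map_add' := fun a b => by simp,
            map_smul' := fun c a => by simp, left_inv := fun v => rfl,
            right_inv := fun p => Prod.ext rfl (Subsingleton.elim _ _) }, 0, 0, ?_⟩
  apply LinearMap.ext
  rintro ⟨a, b⟩
  exact Prod.ext (by simp [LinearEquiv.conj_apply_apply, udl_apply]) (Subsingleton.elim _ _)

/-- A decomposition with coprime commutator blocks gives a commutator. -/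
theorem HasUDL.comm [FiniteDimensional F V₁] [FiniteDimensional F V₂] {T : End F V} {A : End F V₁}
    {B : End F V₂} (h : HasUDL T A B) {P Q : F[X]} (hPQ : IsCoprime P Q) (hA : Comm P A) (hB : Comm Q B) :
    Comm (P * Q) T := by
  obtain ⟨e, X, Y, he⟩ := h
  exact (comm_conj_iff e).1 (he ▸ Comm.udl hPQ hA hB X Y)

theorem comp_apply {d : ℕ} (c : Fin d → F) (hd : 0 < d) (x : Fin d → F) (i : Fin d) :
    comp c x i = (if h : 0 < (i : ℕ) then x ⟨(i : ℕ) - 1, by omega⟩ else 0) -
      c i * x ⟨d - 1, by omega⟩ := by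
  simp only [comp, Matrix.toLin'_apply, Matrix.mulVec, dotProduct, Matrix.of_apply]
  rw [← Finset.add_sum_erase _ _ (Finset.mem_univ (⟨d - 1, by omega⟩ : Fin d)),
    if_neg (by simp; omega)]
  by_cases h : 0 < (i : ℕ)
  · rw [dif_pos h, Finset.sum_eq_single (⟨(i : ℕ) - 1, by omega⟩ : Fin d)]
    · rw [if_pos (by simp; omega), if_pos (by simp; omega), one_mul]; ring
    · intro j hj hne
      simp only [Finset.mem_erase, Finset.mem_univ, and_true, ne_eq, Fin.ext_iff] at hj
      rw [if_pos (by omega), if_neg (fun e => hne (Fin.ext (by simp; omega))), zero_mul]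
    · intro hn
      simp [Fin.ext_iff] at hn
      omega
  · rw [dif_neg h, Finset.sum_eq_zero, add_zero, zero_sub, neg_mul]
    intro j hj
    simp only [Finset.mem_erase, Finset.mem_univ, and_true, ne_eq, Fin.ext_iff] at hj
    rw [if_pos (by omega), if_neg (by omega), zero_mul]

theorem comp_injective {d : ℕ} (c : Fin d → F) (hd : 0 < d) (h0 : c ⟨0, hd⟩ ≠ 0) :
    Function.Injective (comp c) := by
  rw [← LinearMap.ker_eq_bot, LinearMap.ker_eq_bot']
  intro x hx
  have hl : x ⟨d - 1, by omega⟩ = 0 := by
    have h := congrFun hx ⟨0, hd⟩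
    rw [comp_apply c hd] at h
    simpa [h0] using h
  funext i
  by_cases hi : (i : ℕ) + 1 < d
  · have h := congrFun hx ⟨(i : ℕ) + 1, hi⟩
    rw [comp_apply c hd, hl, mul_zero, sub_zero, dif_pos (by simp)] at h
    exact h
  · rw [show i = ⟨d - 1, by omega⟩ from Fin.ext (by simp; omega)]
    exact hl

/-- The cyclic block of `X ^ (d + m) + ∑ g i X ^ i` splits into the block of any `X ^ m + ∑ r i X ^ i` and the
corner with coefficients `g i / r 0`. -/
theorem hasUDL_comp {d m : ℕ} (hd : 0 < d) (hm : 0 < m) (g : Fin (d + m) → F)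
    (hg : g ⟨0, by omega⟩ ≠ 0) (r : Fin m → F) (hr : r ⟨0, hm⟩ ≠ 0) :
    HasUDL (comp g) (comp r) (comp fun i : Fin d => g (Fin.castAdd m i) / r ⟨0, hm⟩) := by
  set r₀ := r ⟨0, hm⟩
  set p : Fin d → F := fun i => g (Fin.castAdd m i) / r₀ with hp
  set z : Fin (d + m) := ⟨d - 1, by omega⟩
  let w : Fin m → F := fun l => (if h : (l : ℕ) + 1 < m then r ⟨(l : ℕ) + 1, h⟩ else 1) / r₀
  let e : (Fin (d + m) → F) ≃ₗ[F] (Fin m → F) × (Fin d → F) :=
    { toFun := fun f => (fun l => f (Fin.natAdd d l) - f z * w l, fun i => f (Fin.castAdd m i))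
      map_add' := fun a b => Prod.ext (funext fun l => by simp; ring) (funext fun i => by simp)
      map_smul' := fun c a => Prod.ext (funext fun l => by simp; ring) (funext fun i => by simp)
      invFun := fun q => Fin.append q.2 (fun l => q.1 l + q.2 ⟨d - 1, by omega⟩ * w l)
      left_inv := fun f => by
        funext i
        induction i using Fin.addCases with
        | left i => simp
        | right i => simp [z]
      right_inv := fun q => by
        have hz : z = Fin.castAdd m ⟨d - 1, by omega⟩ := Fin.ext rfl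
        refine Prod.ext (funext fun l => ?_) (funext fun i => by simp)
        show Fin.append q.2 _ (Fin.natAdd d l) - Fin.append q.2 _ z * w l = q.1 l
        rw [hz, Fin.append_left, Fin.append_right]
        exact add_sub_cancel_right _ _ }
  have hs : ∀ q : (Fin m → F) × (Fin d → F),
      e.symm q = Fin.append q.2 (fun l => q.1 l + q.2 ⟨d - 1, by omega⟩ * w l) := fun q => rfl
  let dl : Fin d → F := Pi.single ⟨d - 1, by omega⟩ 1
  let Y : (Fin m → F) →ₗ[F] (Fin d → F) :=
    LinearMap.smulRight (r₀ • LinearMap.proj (⟨m - 1, by omega⟩ : Fin m)) dl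
  let P := LinearEquiv.ofInjectiveEndo (comp p) (comp_injective p hd (div_ne_zero hg hr))
  let Z : (Fin d → F) →ₗ[F] (Fin m → F) :=
    LinearMap.fst F _ _ ∘ₗ e.conj (comp g) ∘ₗ LinearMap.inr F _ _
  refine ⟨e, Z ∘ₗ P.symm.toLinearMap, Y, ?_⟩
  have hk : 0 < d + m := by omega
  have hlast : (⟨d + m - 1, by omega⟩ : Fin (d + m)) = Fin.natAdd d ⟨m - 1, by omega⟩ :=
    Fin.ext (by simp; omega)
  have hwl : w ⟨m - 1, by omega⟩ = 1 / r₀ := by
    simp only [w]
    rw [dif_neg (by omega)]
  -- the part with no last coordinate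
  have key1 : ∀ y : Fin m → F, e.conj (comp g) (y, -Y y) = (comp r y, 0) := by
    intro y
    rw [LinearEquiv.conj_apply_apply]
    set f := e.symm (y, -Y y) with hf
    have hz : f z = -(r₀ * y ⟨m - 1, by omega⟩) := by
      rw [show z = Fin.castAdd m ⟨d - 1, by omega⟩ from Fin.ext rfl, hf]
      rw [hs, Fin.append_left]
      simp [Y, dl]
    have hfr : ∀ l : Fin m, f (Fin.natAdd d l) = y l + f z * w l := by
      intro l
      rw [hz, hf]
      rw [hs]
      simp [Y, dl]
    have hfl : ∀ i : Fin d, (i : ℕ) + 1 < d → f (Fin.castAdd m i) = 0 := by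
      intro i hi
      rw [hf]
      rw [hs]
      simp [Y, dl, Fin.ext_iff, show (i : ℕ) ≠ d - 1 by omega]
    have htop : f ⟨d + m - 1, by omega⟩ = 0 := by
      rw [hlast, hfr, hz, hwl]
      field_simp
      ring
    have hT : ∀ i, comp g f i = if h : 0 < (i : ℕ) then f ⟨(i : ℕ) - 1, by omega⟩ else 0 := fun i => by
      rw [comp_apply g hk, htop, mul_zero, sub_zero]
    refine Prod.ext (funext fun l => ?_) (funext fun i => ?_)
    · show comp g f (Fin.natAdd d l) - comp g f z * w l = _
      have hTz : comp g f z = 0 := by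
        rw [hT]
        split_ifs with h
        · have h' : 0 < d - 1 := h
          exact hfl ⟨d - 1 - 1, by omega⟩ (show d - 1 - 1 + 1 < d by omega)
        · rfl
      rw [hTz, zero_mul, sub_zero, hT, dif_pos (show 0 < ((Fin.natAdd d l : Fin (d + m)) : ℕ) by simp; omega)]
      show _ = comp r y l
      rw [comp_apply r hm]
      by_cases hl : 0 < (l : ℕ)
      · rw [dif_pos hl, show (⟨((Fin.natAdd d l : Fin (d + m)) : ℕ) - 1, by omega⟩ : Fin (d + m)) =
            Fin.natAdd d ⟨(l : ℕ) - 1, by omega⟩ from Fin.ext (by simp; omega), hfr, hz]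
        simp only [w]
        rw [dif_pos (show (l : ℕ) - 1 + 1 < m by omega)]
        simp only [show (l : ℕ) - 1 + 1 = l by omega, Fin.eta]
        field_simp
        ring
      · rw [dif_neg hl, show (⟨((Fin.natAdd d l : Fin (d + m)) : ℕ) - 1, by omega⟩ : Fin (d + m)) = z
            from Fin.ext (by simp [z]; omega), hz, show l = ⟨0, hm⟩ from Fin.ext (by simp; omega)]
        ring
    · show comp g f (Fin.castAdd m i) = 0
      rw [hT]
      split_ifs with h
      · exact hfl ⟨(i : ℕ) - 1, by omega⟩ (by simp at h ⊢; omega)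
      · rfl
  -- the corner
  have key2 : ∀ x : Fin d → F, (e.conj (comp g) (0, x)).2 = comp p x := by
    intro x
    rw [LinearEquiv.conj_apply_apply]
    set f := e.symm ((0 : Fin m → F), x) with hf
    have hfl : ∀ i : Fin d, f (Fin.castAdd m i) = x i := fun i => by
      rw [hf]
      rw [hs]
      simp
    have htop : f ⟨d + m - 1, by omega⟩ = x ⟨d - 1, by omega⟩ / r₀ := by
      rw [hlast, hf]
      rw [hs, Fin.append_right, hwl]
      simp [div_eq_mul_inv]
    funext i
    show comp g f (Fin.castAdd m i) = _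
    rw [comp_apply g hk, comp_apply p hd, htop]
    congr 1
    · by_cases h : 0 < (i : ℕ)
      · rw [dif_pos (by simpa using h), dif_pos h]
        exact hfl ⟨(i : ℕ) - 1, by omega⟩
      · rw [dif_neg (by simpa using h), dif_neg h]
    · simp only [hp]
      ring
  apply LinearMap.ext
  rintro ⟨y, x⟩
  rw [udl_apply, show (y, x) = (y, -Y y) + (0, Y y + x) from Prod.ext (by simp) (by simp), map_add, key1]
  have hP : P.symm (comp p (Y y + x)) = Y y + x := P.symm_apply_apply (Y y + x)
  refine Prod.ext ?_ ?_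
  · show comp r y + Z (Y y + x) = comp r y + Z (P.symm (comp p (Y y + x)))
    rw [hP]
  · show (0 : Fin d → F) + (e.conj (comp g) (0, Y y + x)).2 = comp p (Y y + x)
    rw [zero_add, key2]

end CfsgLib.OreOrth
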