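import Cfsg.Agent.Lib.OreOrth.Split

/-!
For every companion endomorphism `C` with square determinant some cyclic endomorphism is a commutator with second
entry `C`: take `U = 1 + D` with `D` the formal derivative, so that `U * C - C * U = 1` off the last coordinate.
-/

set_option autoImplicit false
set_option linter.unusedSectionVars false

namespace CfsgLib.OreOrth

open Polynomial Module

variable {F : Type*} [Field F]

theorem comp_single_pow {d : ℕ} (c : Fin d → F) (hd : 0 < d) (j : ℕ) (hj : j < d) :
    (comp c ^ j) (Pi.single ⟨0, hd⟩ 1) = Pi.single ⟨j, hj⟩ 1 := by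
  induction j with
  | zero => rfl
  | succ j ih =>
    rw [pow_succ', Module.End.mul_apply, ih (by omega), comp_single c ⟨j, by omega⟩ hj]

/-- A companion endomorphism is killed by its polynomial. -/
theorem aeval_comp_cpoly_self {d : ℕ} (c : Fin d → F) : aeval (comp c) (cpoly c) = 0 := by
  rcases Nat.eq_zero_or_pos d with rfl | hd
  · exact LinearMap.ext fun x => Subsingleton.elim _ _
  apply LinearMap.pi_ext'
  intro j
  apply LinearMap.ext_ring
  simp only [LinearMap.comp_apply, LinearMap.single_apply, LinearMap.zero_apply]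
  rw [← comp_single_pow c hd j j.isLt, ← Module.End.mul_apply,
    show aeval (comp c) (cpoly c) * comp c ^ (j : ℕ) = comp c ^ (j : ℕ) * aeval (comp c) (cpoly c) from
      (Commute.pow_left (Algebra.commute_of_mem_adjoin_singleton_of_commute
        (aeval_mem_adjoin_singleton F (comp c)) (Commute.refl _)) _).eq.symm, Module.End.mul_apply]
  suffices h : aeval (comp c) (cpoly c) (Pi.single ⟨0, hd⟩ 1) = 0 by rw [h, map_zero]
  have h1 : (comp c ^ d) (Pi.single ⟨0, hd⟩ 1) = -c := by
    have e : comp c ^ d = comp c ^ ((d - 1) + 1) := by congr 1; omega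
    rw [e, pow_succ', Module.End.mul_apply, comp_single_pow c hd (d - 1) (by omega)]
    exact comp_single_last c ⟨d - 1, by omega⟩ (by simp; omega)
  rw [cpoly, map_add, map_pow, aeval_X, map_sum, LinearMap.add_apply, LinearMap.sum_apply, h1]
  simp only [map_mul, aeval_C, map_pow, aeval_X, Module.End.mul_apply, Module.algebraMap_end_apply]
  rw [neg_add_eq_zero]
  funext i
  simp [comp_single_pow c hd _ (Fin.isLt _), Pi.single_apply]

/-- The determinant of a companion endomorphism. -/
theorem det_comp {d : ℕ} (c : Fin d → F) (hd : 0 < d) : LinearMap.det (comp c) = (-1) ^ d * c ⟨0, hd⟩ := by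
  obtain ⟨k, rfl⟩ : ∃ k, d = k + 1 := ⟨d - 1, by omega⟩
  rw [comp, LinearMap.det_toLin', Matrix.det_succ_row_zero, Finset.sum_eq_single (Fin.last k)]
  · rw [show Matrix.submatrix _ Fin.succ (Fin.last k).succAbove = (1 : Matrix (Fin k) (Fin k) F) from ?_,
      Matrix.det_one]
    · simp [pow_succ]
    ext i j
    simp [Matrix.one_apply, Fin.ext_iff]
  · intro j _ hj
    have h : (j : ℕ) + 1 < k + 1 := by
      have := Fin.val_lt_last hj
      omega
    simp [show (j : ℕ) < k by omega]
  · intro h
    exact absurd (Finset.mem_univ _) h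

variable {V : Type*} [AddCommGroup V] [Module F V] [FiniteDimensional F V]

/-- An endomorphism with an observing functional is cyclic. -/
theorem exists_conj_comp {m : ℕ} (hV : finrank F V = m) (T : End F V) (l : V →ₗ[F] F)
    (hobs : ∀ x, (∀ k : ℕ, l ((T ^ k) x) = 0) → x = 0) :
    ∃ (r : Fin m → F) (e : V ≃ₗ[F] (Fin m → F)), e.conj T = comp r := by
  let Φ : V →ₗ[F] (Fin m → F) := LinearMap.pi fun k => l ∘ₗ (T ^ (k : ℕ))
  have hinj : Function.Injective Φ := by
    rw [← LinearMap.ker_eq_bot, LinearMap.ker_eq_bot']
    intro x hx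
    apply hobs
    intro k
    have hmon := T.charpoly_monic
    have hdeg : T.charpoly.natDegree = m := by rw [LinearMap.charpoly_natDegree, hV]
    rw [← aeval_X_pow (R := F) T (n := k),
      ← aeval_modByMonic_eq_self_of_root T.aeval_self_charpoly, aeval_eq_sum_range]
    simp only [LinearMap.sum_apply, LinearMap.smul_apply, map_sum, map_smul]
    apply Finset.sum_eq_zero
    intro i hi
    by_cases him : i < m
    · have h := congrFun hx ⟨i, him⟩
      simp only [Φ, LinearMap.pi_apply, LinearMap.comp_apply, Pi.zero_apply] at h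
      rw [h, smul_zero]
    · rw [coeff_eq_zero_of_degree_lt, zero_smul]
      refine (degree_modByMonic_lt _ hmon).trans_le ?_
      rw [degree_eq_natDegree hmon.ne_zero, hdeg]
      exact_mod_cast (Nat.le_of_not_lt him)
  have hfr : finrank F V = finrank F (Fin m → F) := by rw [hV, finrank_fin_fun]
  let E := LinearMap.linearEquivOfInjective Φ hinj hfr
  rcases Nat.eq_zero_or_pos m with rfl | hm
  · exact ⟨0, E, LinearMap.ext fun x => Subsingleton.elim _ _⟩
  let v : V := E.symm (Pi.single ⟨m - 1, by omega⟩ 1)
  have hv : ∀ i : ℕ, ∀ hi : i < m, l ((T ^ i) v) = if i = m - 1 then 1 else 0 := by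
    intro i hi
    have h : Φ v = Pi.single ⟨m - 1, by omega⟩ 1 := E.apply_symm_apply _
    have h' := congrFun h ⟨i, hi⟩
    simpa [Φ, Pi.single_apply, Fin.ext_iff] using h'
  have hind : LinearIndependent F fun k : Fin m => (T ^ (k : ℕ)) v := by
    rw [Fintype.linearIndependent_iff]
    intro g hg
    suffices ∀ n, ∀ k : Fin m, m - n ≤ (k : ℕ) → g k = 0 from fun k => this m k (by omega)
    intro n
    induction n with
    | zero => intro k hk; omega
    | succ n ih =>
      intro k hk
      by_cases hkn : m - n ≤ (k : ℕ)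
      · exact ih k hkn
      have h := congrArg (fun x => l ((T ^ (m - 1 - (k : ℕ))) x)) hg
      simp only [map_sum, map_smul, map_zero, ← Module.End.mul_apply, ← pow_add] at h
      rw [Finset.sum_eq_single k] at h
      · rw [hv _ (by omega), if_pos (by omega)] at h
        simpa using h
      · intro j _ hjk
        rcases lt_or_gt_of_ne (fun e => hjk (Fin.ext e) : (j : ℕ) ≠ (k : ℕ)) with hlt | hgt
        · rw [hv _ (by omega), if_neg (by omega), smul_zero]
        · rw [ih j (by omega), zero_smul]
      · intro hne
        exact absurd (Finset.mem_univ _) hne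
  have : Nonempty (Fin m) := ⟨⟨0, hm⟩⟩
  let b := basisOfLinearIndependentOfCardEqFinrank hind (by rw [Fintype.card_fin, hV])
  have hb : ∀ j : Fin m, b j = (T ^ (j : ℕ)) v := fun j => by simp [b]
  refine ⟨fun i => -(b.repr ((T ^ m) v) i), b.equivFun, conj_eq_comp b T _ ?_ ?_⟩
  · intro j hj
    rw [hb, hb, ← Module.End.mul_apply, ← pow_succ']
  · intro j hj
    rw [hb, ← Module.End.mul_apply, ← pow_succ', hj]
    simp only [neg_smul, Finset.sum_neg_distrib, neg_neg]
    exact (b.sum_repr _).symm

/-- `1 + D` with `D` the formal derivative. -/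
def derU (m : ℕ) : End F (Fin m → F) :=
  Matrix.toLin' (Matrix.of fun i j : Fin m =>
    if j = i then 1 else if (j : ℕ) = (i : ℕ) + 1 then ((j : ℕ) : F) else 0)

theorem derU_apply {m : ℕ} (x : Fin m → F) (i : Fin m) :
    derU m x i = x i + if h : (i : ℕ) + 1 < m then (((i : ℕ) + 1 : ℕ) : F) * x ⟨(i : ℕ) + 1, h⟩ else 0 := by
  simp only [derU, Matrix.toLin'_apply, Matrix.mulVec, dotProduct, Matrix.of_apply]
  rw [← Finset.add_sum_erase _ _ (Finset.mem_univ i), if_pos rfl, one_mul]
  congr 1
  split_ifs with h
  · rw [Finset.sum_eq_single (⟨(i : ℕ) + 1, h⟩ : Fin m)]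
    · rw [if_neg (by simp [Fin.ext_iff]), if_pos (by simp)]
    · intro j hj hne
      simp only [Finset.mem_erase, Finset.mem_univ, and_true] at hj
      rw [if_neg hj, if_neg (fun e => hne (Fin.ext e)), zero_mul]
    · intro hn
      simp [Fin.ext_iff] at hn
  · apply Finset.sum_eq_zero
    intro j hj
    simp only [Finset.mem_erase, Finset.mem_univ, and_true] at hj
    rw [if_neg hj, if_neg (by omega), zero_mul]

theorem det_derU (m : ℕ) : LinearMap.det (derU m : End F (Fin m → F)) = 1 := by
  rw [derU, LinearMap.det_toLin', Matrix.det_of_isUpperTriangular]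
  · simp
  · intro i j hij
    have : (j : ℕ) < (i : ℕ) := hij
    simp only [Matrix.of_apply]
    rw [if_neg (fun e => by subst e; omega), if_neg (by omega)]

/-- For every companion endomorphism with square determinant some cyclic endomorphism is a commutator with second
entry it. -/
theorem exists_comp_comm {m : ℕ} (hm : 0 < m) (p : Fin m → F) (hp : p ⟨0, hm⟩ ≠ 0)
    (hsq : IsSquare (LinearMap.det (comp p))) :
    ∃ r : Fin m → F, r ⟨0, hm⟩ = (-1) ^ m ∧ Comm (cpoly p) (comp r) := by
  have hCu : IsUnit (comp p) := by
    rw [LinearMap.isUnit_iff_isUnit_det, det_comp p hm, isUnit_iff_ne_zero]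
    exact mul_ne_zero (pow_ne_zero _ (neg_ne_zero.2 one_ne_zero)) hp
  have hUu : IsUnit (derU m : End F (Fin m → F)) := by
    rw [LinearMap.isUnit_iff_isUnit_det, det_derU]
    exact isUnit_one
  set U := hUu.unit with hU
  set C := hCu.unit with hC
  have hUv : (U : End F (Fin m → F)) = derU m := rfl
  have hCv : (C : End F (Fin m → F)) = comp p := rfl
  set T : (End F (Fin m → F))ˣ := U * C * U⁻¹ * C⁻¹
  let l : (Fin m → F) →ₗ[F] F := LinearMap.proj ⟨0, hm⟩ ∘ₗ (↑U⁻¹ : End F (Fin m → F))
  have hobs : ∀ x, (∀ k : ℕ, l (((T : End F (Fin m → F)) ^ k) x) = 0) → x = 0 := by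
    let K : Submodule F (Fin m → F) :=
      ⨅ k : ℕ, LinearMap.ker (l ∘ₗ (T : End F (Fin m → F)) ^ k)
    have hK : ∀ x, x ∈ K ↔ ∀ k : ℕ, l (((T : End F (Fin m → F)) ^ k) x) = 0 := fun x => by
      simp [K, Submodule.mem_iInf]
    have hinv : ∀ x ∈ K, (T : End F (Fin m → F)) x ∈ K := fun x hx => (hK _).2 fun k => by
      rw [← Module.End.mul_apply, ← pow_succ]
      exact (hK x).1 hx (k + 1)
    have hsur : ∀ x ∈ K, (↑T⁻¹ : End F (Fin m → F)) x ∈ K := by
      intro x hx
      let f : K →ₗ[F] K := (T : End F (Fin m → F)).restrict hinv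
      have hf : Function.Surjective f := by
        rw [← LinearMap.injective_iff_surjective]
        intro a b hab
        apply Subtype.ext
        have h := congrArg (fun y : K => (↑T⁻¹ : End F (Fin m → F)) (y : Fin m → F)) hab
        simpa [f] using h
      obtain ⟨z, hz⟩ := hf ⟨x, hx⟩
      have hz' : (T : End F (Fin m → F)) (z : Fin m → F) = x := congrArg Subtype.val hz
      rw [← hz', inv_apply_unit]
      exact z.2
    suffices ∀ n, ∀ x ∈ K, (∀ i : Fin m, n ≤ (i : ℕ) → x i = 0) → x = 0 from
      fun x hx => this m x ((hK x).2 hx) (fun i hi => absurd i.isLt (by omega))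
    intro n
    induction n with
    | zero => exact fun x _ hx => funext fun i => hx i (Nat.zero_le _)
    | succ n ih =>
      intro x hx hsupp
      set v := (↑U⁻¹ : End F (Fin m → F)) x with hv
      have hxv : derU m v = x := by rw [← hUv, hv, unit_apply_inv]
      have hv0 : v ⟨0, hm⟩ = 0 := by simpa [l, hv] using (hK x).1 hx 0
      have hvs : ∀ j, ∀ i : Fin m, n + 1 ≤ (i : ℕ) → m ≤ (i : ℕ) + j → v i = 0 := by
        intro j
        induction j with
        | zero => intro i _ h; omega
        | succ j ihj =>
          intro i hi h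
          have e := congrFun hxv i
          rw [derU_apply, hsupp i hi] at e
          split_ifs at e with hlt
          · rw [ihj ⟨(i : ℕ) + 1, hlt⟩ (by simp; omega) (by simp; omega), mul_zero, add_zero] at e
            exact e
          · simpa using e
      let w : Fin m → F := fun i => if h : (i : ℕ) + 1 < m then v ⟨(i : ℕ) + 1, h⟩ else 0
      have hwl : w ⟨m - 1, by omega⟩ = 0 := by
        simp only [w]
        rw [dif_neg (by omega)]
      have hCw : comp p w = v := by
        funext i
        rw [comp_apply p hm, hwl, mul_zero, sub_zero]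
        split_ifs with h
        · simp only [w]
          rw [dif_pos (by omega)]
          exact congrArg v (Fin.ext (by simp; omega))
        · rw [← hv0]
          exact congrArg v (Fin.ext (by simp; omega))
      have hcomm : comp p (derU m w) = x - w := by
        funext i
        rw [← hxv, ← hCw, Pi.sub_apply, comp_apply p hm, derU_apply _ i]
        have hl : derU m w ⟨m - 1, by omega⟩ = 0 := by
          rw [derU_apply, hwl, dif_neg (by simp; omega), add_zero]
        rw [hl, mul_zero, sub_zero, hCw]
        by_cases h0 : 0 < (i : ℕ)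
        · rw [dif_pos h0, derU_apply]
          have e1 : w ⟨(i : ℕ) - 1, by omega⟩ = v i := by
            simp only [w]
            rw [dif_pos (by omega)]
            exact congrArg v (Fin.ext (by simp; omega))
          rw [e1, dif_pos (by simp; omega),
            show (⟨(i : ℕ) - 1 + 1, by omega⟩ : Fin m) = i from Fin.ext (by simp; omega)]
          simp only [show (i : ℕ) - 1 + 1 = i by omega]
          by_cases h1 : (i : ℕ) + 1 < m
          · rw [dif_pos h1]
            simp only [w, dif_pos h1]
            push_cast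
            ring
          · rw [dif_neg h1]
            simp only [w, dif_neg h1]
            ring
        · have hi : i = ⟨0, hm⟩ := Fin.ext (by simp; omega)
          subst hi
          rw [dif_neg h0, hv0]
          by_cases h1 : 0 + 1 < m
          · rw [dif_pos h1]
            simp [w, h1]
          · rw [dif_neg h1]
            simp [w, h1]
      have hA : (↑T⁻¹ : End F (Fin m → F)) x = x - w := by
        have e : (↑T⁻¹ : End F (Fin m → F)) = ↑C * ↑U * ↑C⁻¹ * ↑U⁻¹ := by
          rw [show T⁻¹ = C * U * C⁻¹ * U⁻¹ by simp [T, mul_assoc]]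
          rfl
        rw [e]
        simp only [Module.End.mul_apply]
        rw [← hv, ← hCw, ← hCv, inv_apply_unit, hCv, hUv, hcomm]
      have hwK : w ∈ K := by
        have h := K.sub_mem hx (hsur x hx)
        rwa [hA, sub_sub_cancel] at h
      have hw : w = 0 := ih w hwK fun i hi => by
        simp only [w]
        split_ifs with h
        · exact hvs m _ (by simp; omega) (Nat.le_add_left _ _)
        · rfl
      rw [← hxv, ← hCw, hw, map_zero, map_zero]
  obtain ⟨r, e, he⟩ := exists_conj_comp (finrank_fin_fun F) (T : End F (Fin m → F)) l hobs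
  refine ⟨r, ?_, ?_⟩
  · have h := det_comp r hm
    rw [← he, LinearEquiv.conj_apply, LinearMap.comp_assoc, LinearMap.det_conj] at h
    have hT : LinearMap.det (T : End F (Fin m → F)) = 1 := by
      show LinearMap.det ((U * C * U⁻¹ * C⁻¹ : (End F (Fin m → F))ˣ) : End F (Fin m → F)) = 1
      have hh : ∀ a : (End F (Fin m → F))ˣ, LinearMap.det (a : End F (Fin m → F)) *
          LinearMap.det ((a⁻¹ : (End F (Fin m → F))ˣ) : End F (Fin m → F)) = 1 := fun a => by
        rw [← map_mul, Units.mul_inv, map_one]
      simp only [Units.val_mul, map_mul]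
      rw [mul_assoc, mul_assoc, ← mul_assoc (LinearMap.det (C : End F (Fin m → F))),
        mul_comm (LinearMap.det (C : End F (Fin m → F))), mul_assoc, hh, mul_one, hh]
    rw [hT] at h
    calc r ⟨0, hm⟩ = (-1) ^ m * ((-1) ^ m * r ⟨0, hm⟩) := by
          rw [← mul_assoc, ← mul_pow]; simp
      _ = (-1) ^ m := by rw [← h, mul_one]
  · rw [← he, comm_conj_iff]
    exact ⟨U, C, rfl, by rw [hUv, det_derU]; exact IsSquare.one, by rw [hCv]; exact hsq, 1,
      by rw [pow_one, hCv]; exact aeval_comp_cpoly_self p⟩

end CfsgLib.OreOrth
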